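import Cfsg.Agent.H19.Cm0

/-! The setup for the 3-local characterization of `A₈`: `p0`. -/

set_option autoImplicit false
set_option synthInstance.maxSize 4000
set_option maxRecDepth 100000

namespace Cfsg.Agent.H02.CmP
open Subgroup H19.Cm

variable {G : Type*} [Group G] [Finite G]

theorem d1 : ∀ x : L, (∃ i j : Fin 3, x * Z' * x⁻¹ = Z ^ i.val * Z' ^ j.val) ↔ x * Z' * x⁻¹ = Z' ∨ x * Z' * x⁻¹ = Z'⁻¹ := by
  decide +kernel

theorem d2 : ∀ x : L, x * Z * x⁻¹ = Z ∨ x * Z * x⁻¹ = Z⁻¹ := by decide +kernel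

theorem d3 : (Finset.univ.filter fun x : L => x * Z' * x⁻¹ = Z' ∨ x * Z' * x⁻¹ = Z'⁻¹).card = 36 := by decide +kernel

theorem d4 : ∀ i j : Fin 3, ∀ x : L, x = Z ^ i.val * Z' ^ j.val → (U * x * U⁻¹ = x ∨ U * x * U⁻¹ = x⁻¹) → x ≠ 1 →
    x = Z ∨ x = Z⁻¹ ∨ x = Z' ∨ x = Z'⁻¹ := by
  rintro i j _ rfl
  revert i j
  decide +kernel

theorem d5 : ∀ x : L, x * Z * x⁻¹ = Z⁻¹ → x * Z' * x⁻¹ = Z' → x * x = 1 → ∃ k : Fin 3, x * Z ^ (2 * k.val) = U' ∧
    (Z' ^ k.val)⁻¹ * U * Z' ^ k.val = U * Z' ^ (2 * k.val) ∧ Z' ^ k.val * U' * (Z' ^ k.val)⁻¹ = U' ∧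
    (Z' ^ k.val)⁻¹ * Z * Z' ^ k.val = Z ∧ Z' ^ k.val * Z' * (Z' ^ k.val)⁻¹ = Z' := by decide +kernel

theorem d6 : U * Z * U⁻¹ = Z ∧ U * Z'⁻¹ * U⁻¹ = Z' ∧ U' * Z⁻¹ * U'⁻¹ = Z ∧ U' * Z' * U'⁻¹ = Z' ∧ U * Z' * U⁻¹ = Z'⁻¹ ∧ U * U = 1 ∧
    Z ≠ 1 ∧ Z' ≠ Z ∧ Z' ≠ Z⁻¹ ∧ I = U * U' ∧ I = U' * U ∧ A * Z = Z * A ∧ ¬ (A * Z' * A⁻¹ = Z' ∨ A * Z' * A⁻¹ = Z'⁻¹) ∧
    ∀ i j : Fin 3, (Z ^ i.val * Z' ^ j.val) ^ 3 = 1 := by decide +kernel

theorem d7 : ∀ x : L, x ^ 3 = 1 → x ≠ 1 → (U * x * U⁻¹ = x ∨ U * x * U⁻¹ = x⁻¹) → (A * x * A⁻¹ = x ∨ A * x * A⁻¹ = x⁻¹) →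
    (A' * x * A'⁻¹ = x ∨ A' * x * A'⁻¹ = x⁻¹) → x = Z ∨ x = Z⁻¹ := by decide +kernel

theorem d8 : ∀ x : L, x ^ 3 = 1 → x = 1 ∨ x = Z ∨ x = Z⁻¹ ∨ ∃ c : L, c * Z' * c⁻¹ = x ∨ c * (Z * Z') * c⁻¹ = x := by decide +kernel

omit [Finite G] in
theorem three {t g : G} (h3 : t ^ 3 = 1) (h1 : t ≠ 1) (hg : g ∈ normalizer (zpowers t : Set G)) : g * t * g⁻¹ = t ∨ g * t * g⁻¹ = t⁻¹ := by
  obtain ⟨k, hk⟩ := mem_zpowers_iff.1 ((mem_normalizer_iff.1 hg t).1 (mem_zpowers t))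
  have e : t ^ (3 : ℤ) = 1 := by exact_mod_cast h3
  have hk : t ^ (k % 3) = g * t * g⁻¹ := by
    rw [← hk]
    conv_rhs => rw [← Int.emod_add_mul_ediv k 3, zpow_add, zpow_mul, e, one_zpow, mul_one]
  rcases (by omega : k % 3 = 0 ∨ k % 3 = 1 ∨ k % 3 = 2) with r | r | r <;> rw [r] at hk
  · exact absurd (conj_eq_one_iff.1 (hk.symm.trans (zpow_zero t))) h1
  · exact .inl (hk.symm.trans (zpow_one t))
  · refine .inr (hk.symm.trans (eq_inv_of_mul_eq_one_left ?_))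
    rw [← e, show (3 : ℤ) = 2 + 1 from rfl, zpow_add_one]

theorem nrm {t g : G} (h : g * t * g⁻¹ = t ∨ g * t * g⁻¹ = t⁻¹) : g ∈ normalizer (zpowers t : Set G) :=
  mem_normalizer_fintype (by
    rintro _ ⟨i, rfl⟩
    rw [← conj_zpow]
    exact zpow_mem (h.elim (fun e => e.symm ▸ mem_zpowers t) fun e => e.symm ▸ inv_mem (mem_zpowers t)) i)

omit [Finite G] in
theorem memD {f : L →* G} {g : G} (h : g ∈ D f) : ∃ i j : Fin 3, g = f (Z ^ i.val * Z' ^ j.val) := by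
  obtain ⟨i, j, rfl⟩ := mem_D.1 h
  exact ⟨⟨i % 3, Nat.mod_lt _ (by decide)⟩, ⟨j % 3, Nat.mod_lt _ (by decide)⟩, by
    rw [← pow_eq_pow_mod i zz.2.1, ← pow_eq_pow_mod j zz.2.2]⟩

theorem nD {f : L →* G} {g : G} (h1 : g * f Z * g⁻¹ ∈ D f) (h2 : g * f Z' * g⁻¹ ∈ D f) : g ∈ normalizer (D f : Set G) :=
  mem_normalizer_fintype fun _ hx => (closure_le ((D f).comap (MulAut.conj g).toMonoidHom)).2 (by
    rintro _ (rfl | rfl)
    exacts [h1, h2]) hx

theorem key {f : L →* G} (inj : Function.Injective f) (hN : ∀ g, g ∈ normalizer (zpowers (f Z) : Set G) ↔ ∃ x, f x = g)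
    (hc : Nat.card (normalizer (D f : Set G)) = 72) : ∃ s ∈ normalizer (D f : Set G), s * s = 1 ∧ s * f Z * s = f Z' ∧ s * f U * s = f U' ∧
      (∀ g ∈ normalizer (D f : Set G), (∃ x, f x = g) ∨ ∃ x, f x = g * s) ∧ f A ∉ normalizer (D f : Set G) := by
  obtain ⟨u1, u2, u3, u4, u5, u6, z1, z2, z3, -, -, -, a2, p3⟩ := d6
  have mZ : f Z ∈ D f := subset_closure (by simp)
  have mZ' : f Z' ∈ D f := subset_closure (by simp)
  have cj : ∀ x y : L, f x * f y * (f x)⁻¹ = f (x * y * x⁻¹) := fun x y => by rw [map_mul, map_mul, map_inv]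
  have k : ∀ x, f x ∈ normalizer (D f : Set G) ↔ x * Z' * x⁻¹ = Z' ∨ x * Z' * x⁻¹ = Z'⁻¹ := fun x => by
    refine ⟨fun h => (d1 x).1 ?_, fun h => nD ?_ ?_⟩
    · obtain ⟨i, j, e⟩ := memD ((mem_normalizer_iff.1 h _).1 mZ')
      exact ⟨i, j, inj ((cj _ _).symm.trans e)⟩
    · rw [cj]
      rcases d2 x with e | e <;> rw [e]
      exacts [mZ, map_inv f Z ▸ inv_mem mZ]
    · rw [cj]
      rcases h with e | e <;> rw [e]
      exacts [mZ', map_inv f Z' ▸ inv_mem mZ']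
  set N := normalizer (D f : Set G)
  have c36 : Nat.card (f.range.subgroupOf N) = 36 := by
    rw [← inf_subgroupOf_right, Nat.card_congr (subgroupOfEquivOfLe inf_le_right).toEquiv, ← map_comap_eq,
      card_map_of_injective inj, ← d3, ← Nat.subtype_card _ fun x => ?_]
    rw [Finset.mem_filter, and_iff_right (Finset.mem_univ x)]
    exact (k x).symm
  have i2 : (f.range.subgroupOf N).index = 2 := by
    have := (f.range.subgroupOf N).card_mul_index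
    rw [c36, hc] at this
    omega
  have nn := normal_of_index_eq_two i2
  have uN := (k U).2 (.inr u5)
  have uN' := (k U').2 (.inl u4)
  have f3 : f Z ^ 3 = 1 := by rw [← map_pow, zz.2.1, map_one]
  have f1 : f Z ≠ 1 := fun e => z1 (inj (e.trans (map_one f).symm))
  have sw : ∀ g ∈ N, (¬ ∃ x, f x = g) → g * f Z * g⁻¹ = f Z' ∨ g * f Z * g⁻¹ = (f Z')⁻¹ := fun g hg h => by
    obtain ⟨i, j, e⟩ := memD ((mem_normalizer_iff.1 hg _).1 mZ)
    have t := three f3 f1 ((hN _).2 (nn.conj_mem ⟨_, uN⟩ ⟨U, rfl⟩ ⟨g, hg⟩⁻¹))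
    have t : f U * (g * f Z * g⁻¹) * (f U)⁻¹ = g * f Z * g⁻¹ ∨ f U * (g * f Z * g⁻¹) * (f U)⁻¹ = (g * f Z * g⁻¹)⁻¹ := by
      refine t.imp (fun t => ?_) fun t => ?_
      · conv_rhs => rw [← t]
        simp [mul_assoc]
      · conv_rhs => rw [conj_inv, ← t]
        simp [mul_assoc]
    rw [e, cj, ← map_inv] at t
    rcases d4 i j _ rfl (t.imp (fun t => inj t) fun t => inj t) (fun t => f1 (conj_eq_one_iff.1 (by rw [e, t, map_one]))) with
      t | t | t | t <;> rw [t] at e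
    · exact absurd ((hN g).1 (nrm (.inl e))) h
    · exact absurd ((hN g).1 (nrm (.inr (e.trans (map_inv f Z))))) h
    · exact .inl e
    · exact .inr (e.trans (map_inv f Z'))
  obtain ⟨g, hg, e1, e2⟩ : ∃ g ∈ N, g * f Z * g⁻¹ = f Z' ∧ g * f Z' * g⁻¹ = f Z := by
    obtain ⟨g, hg, e1, h⟩ : ∃ g ∈ N, g * f Z * g⁻¹ = f Z' ∧ ¬ ∃ x, f x = g := by
      obtain ⟨g, h⟩ : ∃ g : N, g ∉ f.range.subgroupOf N := by
        by_contra! h
        rw [(eq_top_iff' _).2 h, index_top] at i2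
        omega
      rcases sw g g.2 h with e | e
      · exact ⟨g, g.2, e, h⟩
      · refine ⟨f U * g, mul_mem uN g.2, ?_, fun ⟨x, hx⟩ => h ⟨U⁻¹ * x, by rw [map_mul, hx, map_inv, inv_mul_cancel_left]; rfl⟩⟩
        rw [← u2, ← cj, map_inv, ← e]; group
    rcases sw g⁻¹ (inv_mem hg) fun ⟨x, hx⟩ => h ⟨x⁻¹, by rw [map_inv, hx, inv_inv]⟩ with e | e
    · exact ⟨g, hg, e1, by rw [← e]; group⟩
    · refine ⟨f U' * g, mul_mem uN' hg, ?_, ?_⟩
      · rw [← u4, ← cj, ← e1]; group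
      · rw [← u3, ← cj, map_inv, ← inv_inv (f Z'), ← e]; group
  have g6 : g ^ 3 * g ^ 3 = 1 := by
    have c1 : g * g * f Z * (g * g)⁻¹ = f Z := by
      conv_rhs => rw [← e2, ← e1]
      group
    have c2 : g * g * f Z' * (g * g)⁻¹ = f Z' := by
      conv_rhs => rw [← e1, ← e2]
      group
    obtain ⟨x, hx⟩ := (hN _).1 (nrm (.inl c1))
    rw [← hx, cj] at c1 c2
    obtain ⟨i, j, rfl⟩ := czz x (mul_inv_eq_iff_eq_mul.1 (inj c1)) (mul_inv_eq_iff_eq_mul.1 (inj c2))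
    rw [← map_one f, ← p3 i j, map_pow, hx]; simp only [pow_succ, pow_zero, one_mul, mul_assoc]
  have s1 : g ^ 3 * f Z * (g ^ 3)⁻¹ = f Z' := by
    conv_rhs => rw [← e1, ← e2, ← e1]
    simp only [pow_succ, pow_zero, one_mul, mul_assoc, mul_inv_rev]
  have sN := pow_mem hg 3
  generalize g ^ 3 = s at g6 s1 sN
  have si : s⁻¹ = s := inv_eq_of_mul_eq_one_right g6
  have s2 : s * f Z' * s⁻¹ = f Z := by rw [← s1, si, ← mul_assoc, ← mul_assoc, g6, one_mul, mul_assoc, g6, mul_one]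
  obtain ⟨x, hx⟩ : ∃ x, f x = s * f U * s⁻¹ := nn.conj_mem ⟨_, uN⟩ ⟨U, rfl⟩ ⟨s, sN⟩
  obtain ⟨m, b1, b2, b3, b4, b5⟩ := d5 x (inj (by
      rw [← cj, hx, map_inv, ← s2]
      conv_rhs => rw [conj_inv, ← map_inv, ← u5, ← cj]
      group))
    (inj (by
      rw [← cj, hx, ← s1]
      conv_rhs => rw [← u1, ← cj]
      group)) (inj (by rw [map_mul, hx, conj_mul, ← map_mul, u6, map_one, mul_one, mul_inv_cancel]))
  have cN : f (Z' ^ m.val) ∈ N := le_normalizer (map_pow f Z' m ▸ pow_mem mZ' _)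
  have tN := mul_mem (mul_mem cN sN) (inv_mem cN)
  have tz : f (Z' ^ m.val) * s * (f (Z' ^ m.val))⁻¹ * f Z * (f (Z' ^ m.val) * s * (f (Z' ^ m.val))⁻¹) = f Z' := by
    conv_rhs => rw [← b5, ← cj, ← s1, ← b4, map_mul, map_mul, map_inv, si]
    group
  have t2 : f (Z' ^ m.val) * s * (f (Z' ^ m.val))⁻¹ * (f (Z' ^ m.val) * s * (f (Z' ^ m.val))⁻¹) = 1 := by
    rw [conj_mul, g6, mul_one, mul_inv_cancel]
  refine ⟨_, tN, t2, tz, ?_, fun h hh => or_iff_not_imp_left.2 fun n => ?_, fun h => a2 ((k A).1 h)⟩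
  · have := congrArg f b2
    rw [map_mul, map_mul, map_inv, map_mul] at this
    calc _ = f (Z' ^ m.val) * (s * ((f (Z' ^ m.val))⁻¹ * f U * f (Z' ^ m.val)) * s⁻¹) * (f (Z' ^ m.val))⁻¹ := by rw [si]; group
      _ = f (Z' ^ m.val) * (s * f U * s⁻¹ * (s * f Z' * s⁻¹) ^ (2 * m.val)) * (f (Z' ^ m.val))⁻¹ := by
        rw [this, conj_pow, conj_mul, map_pow f Z' (2 * m.val)]
      _ = _ := by rw [← hx, s2, ← map_pow, ← map_mul f x, b1, cj, b3]
  · refine (mul_mem_iff_of_index_two i2 (a := ⟨h, hh⟩) (b := ⟨_, tN⟩)).2 (iff_of_false n fun t => ?_)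
    have := three (g := f (Z' ^ m.val) * s * (f (Z' ^ m.val))⁻¹) f3 f1 ((hN _).2 t)
    rw [inv_eq_of_mul_eq_one_right t2, tz, ← map_inv] at this
    exact this.elim (fun e => z2 (inj e)) fun e => z3 (inj e)

theorem p0 (P : Sylow 3 G) (D : Subgroup G) (hDP : D = P) (y z : G) (hgen : closure {y, z} = D) (hcomm : IsMulCommutative D)
    (hcard : Nat.card D = 9) (hexp : ∀ a ∈ D, a ^ 3 = 1)
    (eN : normalizer (D : Set G) ⧸ D.subgroupOf (normalizer (D : Set G)) ≃* DihedralGroup 4)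
    (hyn : (D.subgroupOf (centralizer ({y} : Set G))).Normal) (eL : normalizer (zpowers z : Set G) ≃* L) :
    ∃ (f : L →* G) (s : G), Hy f s := by
  have my : y ∈ D := hgen ▸ subset_closure (by simp)
  have mz : z ∈ D := hgen ▸ subset_closure (by simp)
  have cm : ∀ a ∈ D, ∀ b ∈ D, a * b = b * a := fun a ha b hb => congrArg Subtype.val (hcomm.is_comm.comm ⟨a, ha⟩ ⟨b, hb⟩)
  have nc : ∀ t, t ^ 3 = 1 → ¬ D ≤ zpowers t := fun t ht h => by
    have := card_le_of_le h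
    rw [hcard, Nat.card_zpowers] at this
    have := Nat.le_of_dvd (by decide) (orderOf_dvd_of_pow_eq_one ht)
    omega
  have z1 : z ≠ 1 := fun e => nc y (hexp y my) (hgen ▸ (closure_le _).2 (by
    rintro _ (rfl | rfl)
    exacts [mem_zpowers _, e ▸ one_mem _]))
  have yz : y ∉ zpowers z := fun e => nc z (hexp z mz) (hgen ▸ (closure_le _).2 (by
    rintro _ (rfl | rfl)
    exacts [e, mem_zpowers _]))
  let f0 : L →* G := (Subgroup.subtype _).comp eL.symm.toMonoidHom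
  have i0 : Function.Injective f0 := Subtype.val_injective.comp eL.symm.injective
  have r0 : ∀ g, g ∈ normalizer (zpowers z : Set G) ↔ ∃ x, f0 x = g := fun g =>
    ⟨fun h => ⟨eL ⟨g, h⟩, congrArg Subtype.val (eL.symm_apply_apply _)⟩, fun ⟨x, e⟩ => e ▸ (eL.symm x).2⟩
  obtain ⟨x, hx⟩ := (r0 z).1 (le_normalizer (mem_zpowers z))
  obtain ⟨w, hw⟩ := (r0 y).1 (nrm (.inl (by rw [cm y my z mz, mul_inv_cancel_right])))
  have q : ∀ c : L, c * x * c⁻¹ = x ∨ c * x * c⁻¹ = x⁻¹ := fun c =>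
    (three (hexp z mz) z1 ((r0 _).2 ⟨c, rfl⟩)).imp (fun e => i0 (by rw [map_mul, map_mul, map_inv, hx, e]))
      fun e => i0 (by rw [map_mul, map_mul, map_inv, map_inv, hx, e])
  have xz : f0 Z = z ∨ f0 Z = z⁻¹ := (d7 x (i0 (by rw [map_pow, hx, hexp z mz, map_one])) (fun e => z1 (by rw [← hx, e, map_one]))
    (q _) (q _) (q _)).imp (fun e => by rw [← hx, e]) fun e => by rw [← hx, e, map_inv, inv_inv]
  have m0 : f0 Z ∈ zpowers z := xz.elim (fun e => e.symm ▸ mem_zpowers z) fun e => e.symm ▸ inv_mem (mem_zpowers z)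
  obtain ⟨c, hc⟩ : ∃ c : L, c * Z' * c⁻¹ = w ∨ c * (Z * Z') * c⁻¹ = w := by
    rcases d8 w (i0 (by rw [map_pow, hw, hexp y my, map_one])) with rfl | rfl | rfl | h
    · exact absurd (hw ▸ (map_one f0).symm ▸ one_mem _) yz
    · exact absurd (hw ▸ m0) yz
    · exact absurd (hw ▸ (map_inv f0 Z).symm ▸ inv_mem m0) yz
    · exact h
  let f : L →* G := f0.comp (MulAut.conj c).toMonoidHom
  have hy : f Z' = y ∨ f (Z * Z') = y := hc.imp (fun e => (congrArg f0 e).trans hw) fun e => (congrArg f0 e).trans hw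
  have zz : zpowers (f Z) = zpowers z := by
    rcases d2 c with e | e <;> rcases xz with e' | e'
    · rw [show f Z = z from (congrArg f0 e).trans e']
    · rw [show f Z = z⁻¹ from (congrArg f0 e).trans e', zpowers_inv]
    · rw [show f Z = z⁻¹ from (congrArg f0 e).trans (by rw [map_inv, e']), zpowers_inv]
    · rw [show f Z = z from (congrArg f0 e).trans (by rw [map_inv, e', inv_inv])]
  have inj : Function.Injective f := i0.comp (MulAut.conj c).injective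
  have hN : ∀ g, g ∈ normalizer (zpowers (f Z) : Set G) ↔ ∃ x, f x = g := fun g => by
    rw [zz, r0]
    exact ⟨fun ⟨x, e⟩ => ⟨(MulAut.conj c).symm x, (congrArg f0 ((MulAut.conj c).apply_symm_apply x)).trans e⟩, fun ⟨x, e⟩ => ⟨_, e⟩⟩
  have mZ : f Z ∈ H19.Cm.D f := subset_closure (by simp)
  have mZ' : f Z' ∈ H19.Cm.D f := subset_closure (by simp)
  have fz : f Z ∈ D := zpowers_le.2 mz (zz ▸ mem_zpowers _)
  have eD : H19.Cm.D f = D := by
    refine le_antisymm ((closure_le _).2 ?_) (hgen ▸ (closure_le _).2 ?_)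
    · rintro _ (rfl | rfl)
      · exact fz
      · exact hy.elim (fun e => e ▸ my) fun e => (mul_mem_cancel_left fz).1 (map_mul f Z Z' ▸ e ▸ my)
    · rintro _ (rfl | rfl)
      · exact hy.elim (fun e => e ▸ mZ') fun e => e ▸ map_mul f Z Z' ▸ mul_mem mZ mZ'
      · exact zpowers_le.2 mZ (zz ▸ mem_zpowers _)
  have cy : centralizer {y} ≤ normalizer (H19.Cm.D f : Set G) := eD ▸
    (normal_subgroupOf_iff_le_normalizer fun a ha => mem_centralizer_singleton_iff.2 (cm a ha y my)).1 hyn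
  obtain ⟨s, sN, s2, sz, su, hD, nA⟩ := key inj hN (by
    have := card_eq_card_quotient_mul_card_subgroup (D.subgroupOf (normalizer (D : Set G)))
    rw [Nat.card_congr eN.toEquiv, DihedralGroup.nat_card, Nat.card_congr (subgroupOfEquivOfLe le_normalizer).toEquiv, hcard] at this
    rw [eD, this])
  obtain ⟨-, -, -, -, -, -, -, -, -, i1, i2, a1, -⟩ := d6
  have su' : s * f U' * s = f U := by rw [← su, ← mul_assoc, ← mul_assoc, s2, one_mul, mul_assoc, s2, mul_one]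
  refine ⟨f, s, inj, hN, s2, sz, ?_, su, ⟨P, (eD.trans hDP).symm⟩, eD ▸ hcard, hD, fun g hg => cy ?_⟩
  · calc s * f I = s * f U * s * (s * f U' * s) * s := by
          rw [i1, map_mul]; simp only [mul_assoc, s2, mul_one]; rw [← mul_assoc s s, s2, one_mul]
      _ = _ := by rw [su, su', i2, map_mul]
  · rcases hy with e | e
    · refine absurd ((mul_mem_cancel_left sN).1 ((mul_mem_cancel_right sN).1 (cy (mem_centralizer_singleton_iff.2 ?_)))) nA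
      have t : ∀ a b : G, s * a * s * (s * b * s) = s * (a * b) * s := fun a b => by
        simp only [mul_assoc]; rw [← mul_assoc s s, s2, one_mul]
      rw [← e, ← sz, t, t, ← map_mul, a1, map_mul]
    · exact mem_centralizer_singleton_iff.2 (e ▸ hg)

end Cfsg.Agent.H02.CmP
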