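import Cfsg.Agent.H19.Dm0
import Cfsg.Agent.H02.CmP

/-! The setup for the 3-local characterization of `S₈`: `p0`. -/

set_option autoImplicit false
set_option synthInstance.maxSize 4000
set_option maxRecDepth 100000

namespace Cfsg.Agent.H02.DmP
open Subgroup H19.Dm
open Cfsg.Agent.H02.CmP (three nrm)

variable {G : Type*} [Group G] [Finite G]

theorem d1 : ∀ x : P35, (∃ i j : Fin 3, x * z' * x⁻¹ = z ^ i.val * z' ^ j.val) → x * z' * x⁻¹ = z' ∨ x * z' * x⁻¹ = z'⁻¹ := by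
  decide +kernel

theorem d2 : ∀ x : P35, x * z * x⁻¹ = z ∨ x * z * x⁻¹ = z⁻¹ := by decide +kernel

theorem d3 : (Finset.univ.filter fun x : P35 => x * z' * x⁻¹ = z' ∨ x * z' * x⁻¹ = z'⁻¹).card = 72 := by decide +kernel

theorem d4 : ∀ i j : Fin 3, ∀ x : P35, x = z ^ i.val * z' ^ j.val → (u * x * u⁻¹ = x ∨ u * x * u⁻¹ = x⁻¹) → x ≠ 1 →
    x = z ∨ x = z⁻¹ ∨ x = z' ∨ x = z'⁻¹ := by
  rintro i j _ rfl
  revert i j
  decide +kernel

theorem d5 : ∀ x : P35, x * z * x⁻¹ = z⁻¹ → x * z' * x⁻¹ = z' → x * x = 1 → ∃ k : Fin 3,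
    z' ^ k.val * (x * z ^ (2 * k.val)) * (z' ^ k.val)⁻¹ = w * t ∨ z' ^ k.val * (x * z ^ (2 * k.val)) * (z' ^ k.val)⁻¹ = w := by
  decide +kernel

theorem d5' : ∀ k : Fin 3, (z' ^ k.val)⁻¹ * u * z' ^ k.val = u * z' ^ (2 * k.val) ∧ (z' ^ k.val)⁻¹ * z * z' ^ k.val = z ∧
    z' ^ k.val * z' * (z' ^ k.val)⁻¹ = z' ∧ (z' ^ k.val)⁻¹ * t * z' ^ k.val = t ∧ z' ^ k.val * t * (z' ^ k.val)⁻¹ = t := by decide +kernel

theorem d6 : u * z * u⁻¹ = z ∧ u * z'⁻¹ * u⁻¹ = z' ∧ w * z⁻¹ * w⁻¹ = z ∧ w * z' * w⁻¹ = z' ∧ u * z' * u⁻¹ = z'⁻¹ ∧ u * u = 1 ∧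
    z ≠ 1 ∧ z' ≠ z ∧ z' ≠ z⁻¹ ∧ v * z = z * v ∧ ¬ (v * z' * v⁻¹ = z' ∨ v * z' * v⁻¹ = z'⁻¹) ∧ z ^ 3 = 1 ∧ z' * z = z * z' ∧
    t * z * t⁻¹ = z ∧ t * z' * t⁻¹ = z' ∧ t * t = 1 ∧ t ≠ 1 ∧ ∀ i j : Fin 3, (z ^ i.val * z' ^ j.val) ^ 3 = 1 := by decide +kernel

theorem d7 : ∀ x : P35, x ^ 3 = 1 → x ≠ 1 → (u * x * u⁻¹ = x ∨ u * x * u⁻¹ = x⁻¹) → (v * x * v⁻¹ = x ∨ v * x * v⁻¹ = x⁻¹) →
    x = z ∨ x = z⁻¹ := by decide +kernel

theorem d8 : ∀ x : P35, x ^ 3 = 1 → x = 1 ∨ x = z ∨ x = z⁻¹ ∨ ∃ c : P35, c * z' * c⁻¹ = x ∨ c * (z * z') * c⁻¹ = x := by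
  decide +kernel

theorem d9 : ∀ x : P35, x * z * x⁻¹ = z → x * z' * x⁻¹ = z' → x * x = 1 → x ≠ 1 → x = t := by decide +kernel

/-- the Sylow 3-subgroup of the model -/
def D0 : Subgroup P35 where
  carrier := {x | ∃ i j : Fin 3, x = z ^ i.val * z' ^ j.val}
  one_mem' := ⟨0, 0, by simp⟩
  mul_mem' := by
    rintro _ _ ⟨i, j, rfl⟩ ⟨k, l, rfl⟩
    exact (by decide +kernel : ∀ i j k l : Fin 3, ∃ m n : Fin 3, z ^ i.val * z' ^ j.val * (z ^ k.val * z' ^ l.val) = z ^ m.val * z' ^ n.val) i j k l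
  inv_mem' := by
    rintro _ ⟨i, j, rfl⟩
    exact (by decide +kernel : ∀ i j : Fin 3, ∃ m n : Fin 3, (z ^ i.val * z' ^ j.val)⁻¹ = z ^ m.val * z' ^ n.val) i j

omit [Finite G] in
theorem memD {f : P35 →* G} {g : G} (h : g ∈ D f) : ∃ i j : Fin 3, g = f (z ^ i.val * z' ^ j.val) := by
  obtain ⟨_, ⟨i, j, rfl⟩, rfl⟩ : g ∈ D0.map f := (closure_le _).2 (by
    rintro _ (rfl | rfl)
    exacts [⟨_, ⟨1, 0, by simp⟩, rfl⟩, ⟨_, ⟨0, 1, by simp⟩, rfl⟩]) h
  exact ⟨i, j, rfl⟩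

theorem nD {f : P35 →* G} {g : G} (h1 : g * f z * g⁻¹ ∈ D f) (h2 : g * f z' * g⁻¹ ∈ D f) : g ∈ normalizer (D f : Set G) :=
  mem_normalizer_fintype fun _ hx => (closure_le ((D f).comap (MulAut.conj g).toMonoidHom)).2 (by
    rintro _ (rfl | rfl)
    exacts [h1, h2]) hx

theorem key {f : P35 →* G} (inj : Function.Injective f) (hN : ∀ g, g ∈ normalizer (zpowers (f z) : Set G) ↔ ∃ x, f x = g)
    (hc : Nat.card (normalizer (D f : Set G)) = 144) {y : G} (hy : f z' = y ∨ f (z * z') = y)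
    (cy : ∀ g, g * y = y * g → g ∈ normalizer (D f : Set G) ∧ g ^ 2 ∈ D f) : f (z * z') = y ∧
      ∃ s, s * s = 1 ∧ s * f z * s = f z' ∧ s * f t = f t * s ∧ (CA f s ∨ CB f s) ∧
      ∀ g ∈ normalizer (D f : Set G), (∃ x, f x = g) ∨ ∃ x, f x = g * s := by
  obtain ⟨u1, u2, u3, u4, u5, u6, z1, z2, z3, a1, a2, z33, zc, t1, t2', tt, tn, p3⟩ := d6
  have mZ : f z ∈ D f := subset_closure (by simp)
  have mZ' : f z' ∈ D f := subset_closure (by simp)
  have cj : ∀ x y : P35, f x * f y * (f x)⁻¹ = f (x * y * x⁻¹) := fun x y => by rw [map_mul, map_mul, map_inv]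
  have k : ∀ x, f x ∈ normalizer (D f : Set G) ↔ x * z' * x⁻¹ = z' ∨ x * z' * x⁻¹ = z'⁻¹ := fun x => by
    refine ⟨fun h => d1 x ?_, fun h => nD ?_ ?_⟩
    · obtain ⟨i, j, e⟩ := memD ((mem_normalizer_iff.1 h _).1 mZ')
      exact ⟨i, j, inj ((cj _ _).symm.trans e)⟩
    · rw [cj]
      rcases d2 x with e | e <;> rw [e]
      exacts [mZ, map_inv f z ▸ inv_mem mZ]
    · rw [cj]
      rcases h with e | e <;> rw [e]
      exacts [mZ', map_inv f z' ▸ inv_mem mZ']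
  set N := normalizer (D f : Set G)
  have c36 : Nat.card (f.range.subgroupOf N) = 72 := by
    rw [← inf_subgroupOf_right, Nat.card_congr (subgroupOfEquivOfLe inf_le_right).toEquiv, ← map_comap_eq,
      card_map_of_injective inj, ← d3, ← Nat.subtype_card _ fun x => ?_]
    rw [Finset.mem_filter, and_iff_right (Finset.mem_univ x)]
    exact (k x).symm
  have i2 : (f.range.subgroupOf N).index = 2 := by
    have := (f.range.subgroupOf N).card_mul_index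
    rw [c36, hc] at this
    omega
  have nn := normal_of_index_eq_two i2
  have uN := (k u).2 (.inr u5)
  have uN' := (k w).2 (.inl u4)
  have f3 : f z ^ 3 = 1 := by rw [← map_pow, z33, map_one]
  have f1 : f z ≠ 1 := fun e => z1 (inj (e.trans (map_one f).symm))
  have sw : ∀ g ∈ N, (¬ ∃ x, f x = g) → g * f z * g⁻¹ = f z' ∨ g * f z * g⁻¹ = (f z')⁻¹ := fun g hg h => by
    obtain ⟨i, j, e⟩ := memD ((mem_normalizer_iff.1 hg _).1 mZ)
    have t := three f3 f1 ((hN _).2 (nn.conj_mem ⟨_, uN⟩ ⟨u, rfl⟩ ⟨g, hg⟩⁻¹))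
    have t : f u * (g * f z * g⁻¹) * (f u)⁻¹ = g * f z * g⁻¹ ∨ f u * (g * f z * g⁻¹) * (f u)⁻¹ = (g * f z * g⁻¹)⁻¹ := by
      refine t.imp (fun t => ?_) fun t => ?_
      · conv_rhs => rw [← t]
        simp [mul_assoc]
      · conv_rhs => rw [conj_inv, ← t]
        simp [mul_assoc]
    rw [e, cj, ← map_inv] at t
    rcases d4 i j _ rfl (t.imp (fun t => inj t) fun t => inj t) (fun t => f1 (conj_eq_one_iff.1 (by rw [e, t, map_one]))) with
      t | t | t | t <;> rw [t] at e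
    · exact absurd ((hN g).1 (nrm (.inl e))) h
    · exact absurd ((hN g).1 (nrm (.inr (e.trans (map_inv f z))))) h
    · exact .inl e
    · exact .inr (e.trans (map_inv f z'))
  obtain ⟨g, hg, e1, e2⟩ : ∃ g ∈ N, g * f z * g⁻¹ = f z' ∧ g * f z' * g⁻¹ = f z := by
    obtain ⟨g, hg, e1, h⟩ : ∃ g ∈ N, g * f z * g⁻¹ = f z' ∧ ¬ ∃ x, f x = g := by
      obtain ⟨g, h⟩ : ∃ g : N, g ∉ f.range.subgroupOf N := by
        by_contra! h
        rw [(eq_top_iff' _).2 h, index_top] at i2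
        omega
      rcases sw g g.2 h with e | e
      · exact ⟨g, g.2, e, h⟩
      · refine ⟨f u * g, mul_mem uN g.2, ?_, fun ⟨x, hx⟩ => h ⟨u⁻¹ * x, by rw [map_mul, hx, map_inv, inv_mul_cancel_left]; rfl⟩⟩
        rw [← u2, ← cj, map_inv, ← e]; group
    rcases sw g⁻¹ (inv_mem hg) fun ⟨x, hx⟩ => h ⟨x⁻¹, by rw [map_inv, hx, inv_inv]⟩ with e | e
    · exact ⟨g, hg, e1, by rw [← e]; group⟩
    · refine ⟨f w * g, mul_mem uN' hg, ?_, ?_⟩
      · rw [← u4, ← cj, ← e1]; group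
      · rw [← u3, ← cj, map_inv, ← inv_inv (f z'), ← e]; group
  have ey : f (z * z') = y := hy.resolve_left fun e => a2 ((k v).1 ((mul_mem_cancel_left hg).1 ((mul_mem_cancel_right (inv_mem hg)).1
    (cy _ (by rw [← e, ← e1, conj_mul, conj_mul, ← map_mul, a1, map_mul])).1)))
  refine ⟨ey, ?_⟩
  have g6 : g ^ 3 * g ^ 3 = 1 := by
    obtain ⟨i, j, e⟩ := memD (cy g (by rw [← mul_inv_eq_iff_eq_mul, ← ey, map_mul, ← conj_mul, e1, e2, ← map_mul, zc, map_mul])).2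
    rw [← map_one f, ← p3 i j, map_pow, ← e]; simp only [pow_succ, pow_zero, one_mul, mul_assoc]
  have s1 : g ^ 3 * f z * (g ^ 3)⁻¹ = f z' := by
    conv_rhs => rw [← e1, ← e2, ← e1]
    simp only [pow_succ, pow_zero, one_mul, mul_assoc, mul_inv_rev]
  have sN := pow_mem hg 3
  generalize g ^ 3 = s at g6 s1 sN
  have si : s⁻¹ = s := inv_eq_of_mul_eq_one_right g6
  have s2 : s * f z' * s⁻¹ = f z := by rw [← s1, si, ← mul_assoc, ← mul_assoc, g6, one_mul, mul_assoc, g6, mul_one]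
  have st : s * f t * s⁻¹ = f t := by
    obtain ⟨x, hx⟩ : ∃ x, f x = s * f t * s⁻¹ := nn.conj_mem ⟨_, (k t).2 (.inl t2')⟩ ⟨t, rfl⟩ ⟨s, sN⟩
    rw [← hx, d9 x (inj (by
      rw [← cj, hx, ← s2]
      conv_rhs => rw [← t2', ← cj]
      group)) (inj (by
      rw [← cj, hx, ← s1]
      conv_rhs => rw [← t1, ← cj]
      group)) (inj (by rw [map_mul, hx, conj_mul, ← map_mul, tt, map_one, mul_one, mul_inv_cancel]))
      fun e => tn (inj (by rw [map_one, ← conj_eq_one_iff (a := s), ← hx, e, map_one]))]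
  obtain ⟨x, hx⟩ : ∃ x, f x = s * f u * s⁻¹ := nn.conj_mem ⟨_, uN⟩ ⟨u, rfl⟩ ⟨s, sN⟩
  obtain ⟨m, b1⟩ := d5 x (inj (by
      rw [← cj, hx, map_inv, ← s2]
      conv_rhs => rw [conj_inv, ← map_inv, ← u5, ← cj]
      group))
    (inj (by
      rw [← cj, hx, ← s1]
      conv_rhs => rw [← u1, ← cj]
      group)) (inj (by rw [map_mul, hx, conj_mul, ← map_mul, u6, map_one, mul_one, mul_inv_cancel]))
  obtain ⟨b2, b4, b5, b6, b7⟩ := d5' m
  have cN : f (z' ^ m.val) ∈ N := le_normalizer (map_pow f z' m ▸ pow_mem mZ' _)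
  have tN := mul_mem (mul_mem cN sN) (inv_mem cN)
  have tz : f (z' ^ m.val) * s * (f (z' ^ m.val))⁻¹ * f z * (f (z' ^ m.val) * s * (f (z' ^ m.val))⁻¹) = f z' := by
    conv_rhs => rw [← b5, ← cj, ← s1, ← b4, map_mul, map_mul, map_inv, si]
    group
  have t2 : f (z' ^ m.val) * s * (f (z' ^ m.val))⁻¹ * (f (z' ^ m.val) * s * (f (z' ^ m.val))⁻¹) = 1 := by
    rw [conj_mul, g6, mul_one, mul_inv_cancel]
  have su : f (z' ^ m.val) * s * (f (z' ^ m.val))⁻¹ * f u * (f (z' ^ m.val) * s * (f (z' ^ m.val))⁻¹) =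
      f (z' ^ m.val * (x * z ^ (2 * m.val)) * (z' ^ m.val)⁻¹) := by
    have := congrArg f b2
    rw [map_mul, map_mul, map_inv, map_mul] at this
    calc _ = f (z' ^ m.val) * (s * ((f (z' ^ m.val))⁻¹ * f u * f (z' ^ m.val)) * s⁻¹) * (f (z' ^ m.val))⁻¹ := by rw [si]; group
      _ = f (z' ^ m.val) * (s * f u * s⁻¹ * (s * f z' * s⁻¹) ^ (2 * m.val)) * (f (z' ^ m.val))⁻¹ := by
        rw [this, conj_pow, conj_mul, map_pow f z' (2 * m.val)]
      _ = _ := by rw [← hx, s2, ← map_pow, ← map_mul f x, cj]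
  refine ⟨_, t2, tz, ?_, b1.imp (fun e => su.trans (congrArg f e)) fun e => su.trans (congrArg f e),
    fun h hh => or_iff_not_imp_left.2 fun n => ?_⟩
  · rw [← mul_inv_eq_iff_eq_mul]
    conv_rhs => rw [← b7, ← cj, ← st, ← b6, map_mul, map_mul, map_inv]
    group
  · refine (mul_mem_iff_of_index_two i2 (a := ⟨h, hh⟩) (b := ⟨_, tN⟩)).2 (iff_of_false n fun t => ?_)
    have := three (g := f (z' ^ m.val) * s * (f (z' ^ m.val))⁻¹) f3 f1 ((hN _).2 t)
    rw [inv_eq_of_mul_eq_one_right t2, tz, ← map_inv] at this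
    exact this.elim (fun e => z2 (inj e)) fun e => z3 (inj e)

theorem p0 (P : Sylow 3 G) (D : Subgroup G) (hDP : D = P) (y x0 : G) (hgen : closure {y, x0} = D) (hcomm : IsMulCommutative D)
    (hcard : Nat.card D = 9) (hexp : ∀ a ∈ D, a ^ 3 = 1)
    (eN : normalizer (D : Set G) ⧸ D.subgroupOf (normalizer (D : Set G)) ≃* DihedralGroup 4 × Multiplicative (ZMod 2))
    [((centralizer (D : Set G)).subgroupOf (normalizer (D : Set G))).Normal]
    (eNC : normalizer (D : Set G) ⧸ (centralizer (D : Set G)).subgroupOf (normalizer (D : Set G)) ≃* DihedralGroup 4)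
    (hyn : (D.subgroupOf (centralizer ({y} : Set G))).Normal) (hysq : ∀ g ∈ centralizer ({y} : Set G), g ^ 2 ∈ D)
    (eL : normalizer (zpowers x0 : Set G) ≃* Equiv.Perm (Fin 3) × Equiv.Perm (Fin 5)) :
    ∃ (F : P35 →* G) (s : G), Hy F s ∧ (CA F s ∨ CB F s) := by
  have my : y ∈ D := hgen ▸ subset_closure (by simp)
  have mz : x0 ∈ D := hgen ▸ subset_closure (by simp)
  have cm : ∀ a ∈ D, ∀ b ∈ D, a * b = b * a := fun a ha b hb => congrArg Subtype.val (hcomm.is_comm.comm ⟨a, ha⟩ ⟨b, hb⟩)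
  have nc : ∀ t, t ^ 3 = 1 → ¬ D ≤ zpowers t := fun t ht h => by
    have := card_le_of_le h
    rw [hcard, Nat.card_zpowers] at this
    have := Nat.le_of_dvd (by decide) (orderOf_dvd_of_pow_eq_one ht)
    omega
  have z1 : x0 ≠ 1 := fun e => nc y (hexp y my) (hgen ▸ (closure_le _).2 (by
    rintro _ (rfl | rfl)
    exacts [mem_zpowers _, e ▸ one_mem _]))
  have yz : y ∉ zpowers x0 := fun e => nc x0 (hexp x0 mz) (hgen ▸ (closure_le _).2 (by
    rintro _ (rfl | rfl)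
    exacts [e, mem_zpowers _]))
  let f0 : P35 →* G := (Subgroup.subtype _).comp eL.symm.toMonoidHom
  have i0 : Function.Injective f0 := Subtype.val_injective.comp eL.symm.injective
  have r0 : ∀ g, g ∈ normalizer (zpowers x0 : Set G) ↔ ∃ x, f0 x = g := fun g =>
    ⟨fun h => ⟨eL ⟨g, h⟩, congrArg Subtype.val (eL.symm_apply_apply _)⟩, fun ⟨x, e⟩ => e ▸ (eL.symm x).2⟩
  obtain ⟨x, hx⟩ := (r0 x0).1 (le_normalizer (mem_zpowers x0))
  obtain ⟨r, hw⟩ := (r0 y).1 (nrm (.inl (by rw [cm y my x0 mz, mul_inv_cancel_right])))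
  have q : ∀ c : P35, c * x * c⁻¹ = x ∨ c * x * c⁻¹ = x⁻¹ := fun c =>
    (three (hexp x0 mz) z1 ((r0 _).2 ⟨c, rfl⟩)).imp (fun e => i0 (by rw [map_mul, map_mul, map_inv, hx, e]))
      fun e => i0 (by rw [map_mul, map_mul, map_inv, map_inv, hx, e])
  have xz : f0 z = x0 ∨ f0 z = x0⁻¹ := (d7 x (i0 (by rw [map_pow, hx, hexp x0 mz, map_one])) (fun e => z1 (by rw [← hx, e, map_one]))
    (q _) (q _)).imp (fun e => by rw [← hx, e]) fun e => by rw [← hx, e, map_inv, inv_inv]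
  have m0 : f0 z ∈ zpowers x0 := xz.elim (fun e => e.symm ▸ mem_zpowers x0) fun e => e.symm ▸ inv_mem (mem_zpowers x0)
  obtain ⟨c, hc⟩ : ∃ c : P35, c * z' * c⁻¹ = r ∨ c * (z * z') * c⁻¹ = r := by
    rcases d8 r (i0 (by rw [map_pow, hw, hexp y my, map_one])) with rfl | rfl | rfl | h
    · exact absurd (hw ▸ (map_one f0).symm ▸ one_mem _) yz
    · exact absurd (hw ▸ m0) yz
    · exact absurd (hw ▸ (map_inv f0 z).symm ▸ inv_mem m0) yz
    · exact h
  let f : P35 →* G := f0.comp (MulAut.conj c).toMonoidHom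
  have hy : f z' = y ∨ f (z * z') = y := hc.imp (fun e => (congrArg f0 e).trans hw) fun e => (congrArg f0 e).trans hw
  have zz : zpowers (f z) = zpowers x0 := by
    rcases d2 c with e | e <;> rcases xz with e' | e'
    · rw [show f z = x0 from (congrArg f0 e).trans e']
    · rw [show f z = x0⁻¹ from (congrArg f0 e).trans e', zpowers_inv]
    · rw [show f z = x0⁻¹ from (congrArg f0 e).trans (by rw [map_inv, e']), zpowers_inv]
    · rw [show f z = x0 from (congrArg f0 e).trans (by rw [map_inv, e', inv_inv])]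
  have inj : Function.Injective f := i0.comp (MulAut.conj c).injective
  have hN : ∀ g, g ∈ normalizer (zpowers (f z) : Set G) ↔ ∃ x, f x = g := fun g => by
    rw [zz, r0]
    exact ⟨fun ⟨x, e⟩ => ⟨(MulAut.conj c).symm x, (congrArg f0 ((MulAut.conj c).apply_symm_apply x)).trans e⟩, fun ⟨x, e⟩ => ⟨_, e⟩⟩
  have mZ : f z ∈ H19.Dm.D f := subset_closure (by simp)
  have mZ' : f z' ∈ H19.Dm.D f := subset_closure (by simp)
  have fz : f z ∈ D := zpowers_le.2 mz (zz ▸ mem_zpowers _)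
  have eD : H19.Dm.D f = D := by
    refine le_antisymm ((closure_le _).2 ?_) (hgen ▸ (closure_le _).2 ?_)
    · rintro _ (rfl | rfl)
      · exact fz
      · exact hy.elim (fun e => e ▸ my) fun e => (mul_mem_cancel_left fz).1 (map_mul f z z' ▸ e ▸ my)
    · rintro _ (rfl | rfl)
      · exact hy.elim (fun e => e ▸ mZ') fun e => e ▸ map_mul f z z' ▸ mul_mem mZ mZ'
      · exact zpowers_le.2 mZ (zz ▸ mem_zpowers _)
  have cy : centralizer {y} ≤ normalizer (H19.Dm.D f : Set G) := eD ▸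
    (normal_subgroupOf_iff_le_normalizer fun a ha => mem_centralizer_singleton_iff.2 (cm a ha y my)).1 hyn
  obtain ⟨ey, s, s2, sz, st, su, hD⟩ := key inj hN (by
    have := card_eq_card_quotient_mul_card_subgroup (D.subgroupOf (normalizer (D : Set G)))
    rw [Nat.card_congr eN.toEquiv, Nat.card_prod, DihedralGroup.nat_card, Nat.card_congr (subgroupOfEquivOfLe le_normalizer).toEquiv,
      hcard, Nat.card_eq_fintype_card (α := Multiplicative (ZMod 2)), Fintype.card_multiplicative, ZMod.card] at this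
    rw [eD, this]) hy fun g hg => ⟨cy (mem_centralizer_singleton_iff.2 hg), eD ▸ hysq g (mem_centralizer_singleton_iff.2 hg)⟩
  refine ⟨f, s, ⟨inj, hN, s2, sz, st, ⟨P, (eD.trans hDP).symm⟩, eD ▸ hcard, hD,
    fun g hg => cy (mem_centralizer_singleton_iff.2 (ey ▸ hg)), ?_⟩, su⟩
  rw [eD]
  exact ⟨eNC.toMonoidHom.comp (QuotientGroup.mk' _), eNC.surjective.comp (QuotientGroup.mk'_surjective _), fun g =>
    (map_eq_one_iff _ eNC.injective).trans (QuotientGroup.eq_one_iff g)⟩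

end Cfsg.Agent.H02.DmP
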