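import Mathlib
import Cfsg.Agent.H02.FPF

/-! A Frobenius-type group `EH` of operators: over a field with enough roots of unity, `1 - ε_E`
is a sum of orthogonal idempotents permuted regularly by `H`. -/

namespace H02.FM
open Subgroup Finset
open scoped commutatorElement

attribute [local instance 10000] Fintype.ofFinite

theorem reps {H T M : Type*} [Group H] [Finite H] [Finite T] [MulAction H T] [AddCommMonoid M]
    (Y : T → Prop) [DecidablePred Y] (hY : ∀ (h : H) y, Y y → Y (h • y))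
    (fr : ∀ (h : H) y, Y y → h • y = y → h = 1) :
    ∃ X : Finset T, (∀ x ∈ X, Y x) ∧ (∀ x ∈ X, ∀ y ∈ X, ∀ h : H, h • x = y → h = 1) ∧
      ∀ f : T → M, ∑ h : H, ∑ x ∈ X, f (h • x) = ∑ y with Y y, f y := by
  classical
  let r : T → T := fun y => (Quotient.mk (MulAction.orbitRel H T) y).out
  have r1 : ∀ y, ∃ h : H, h • r y = y := fun y =>
    (MulAction.orbitRel H T).symm (Quotient.mk_out (s := MulAction.orbitRel H T) y)
  have r2 : ∀ (h : H) y, r (h • y) = r y := fun h y =>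
    congrArg Quotient.out (Quotient.sound (s := MulAction.orbitRel H T) ⟨h, rfl⟩)
  have k : ∀ x ∈ univ.filter (fun y => Y y ∧ r y = y), ∀ y ∈ univ.filter (fun y => Y y ∧ r y = y),
      ∀ h : H, h • x = y → h = 1 ∧ x = y := fun x hx y hy h e => by
    simp only [mem_filter, mem_univ, true_and] at hx hy
    have : x = y := by rw [← hx.2, ← hy.2, ← e, r2]
    exact ⟨fr h x hx.1 (e.trans this.symm), this⟩
  refine ⟨univ.filter fun y => Y y ∧ r y = y, fun x hx => (mem_filter.1 hx).2.1,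
    fun x hx y hy h e => (k x hx y hy h e).1, fun f => ?_⟩
  rw [← sum_product']
  refine sum_bij (fun p _ => p.1 • p.2) (fun p hp => ?_) (fun p hp q hq e => ?_) (fun y hy => ?_)
    fun _ _ => rfl
  · simpa using hY _ _ (mem_filter.1 (mem_product.1 hp).2).2.1
  · have := k _ (mem_product.1 hp).2 _ (mem_product.1 hq).2 (q.1⁻¹ * p.1) (by simp [mul_smul, e])
    exact Prod.ext (inv_mul_eq_one.1 this.1).symm this.2
  · obtain ⟨h, e⟩ := r1 y
    refine ⟨(h, r y), ?_, e⟩
    have := hY h⁻¹ y (mem_filter.1 hy).2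
    rw [← e, inv_smul_smul] at this
    simp only [mem_product, mem_univ, mem_filter, true_and]
    exact ⟨this, by nth_rw 2 [← e]; rw [r2]⟩

variable {K B A : Type*} [Field K] [Ring B] [Algebra K B] [Group A] [Finite A] (σ : A →* B)

/-- The idempotent of a linear character. -/
noncomputable def ee {E : Subgroup A} (χ : E →* Kˣ) : B :=
  (Nat.card E : K)⁻¹ • ∑ x : E, ((χ x⁻¹ : Kˣ) : K) • σ x

variable {E : Subgroup A}

theorem mul_ee (χ : E →* Kˣ) (y : E) : σ y * ee σ χ = (χ y : K) • ee σ χ := by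
  simp only [ee, mul_smul_comm, mul_sum, smul_comm (χ y : K), smul_sum (r := (χ y : K)), ← map_mul]
  congr 1
  exact Fintype.sum_equiv (Equiv.mulLeft y) _ _ fun x => by simp [smul_smul]

theorem ee_mul (χ : E →* Kˣ) (y : E) : ee σ χ * σ y = (χ y : K) • ee σ χ := by
  simp only [ee, smul_mul_assoc, sum_mul, smul_comm (χ y : K), smul_sum (r := (χ y : K)), ← map_mul]
  congr 1
  exact Fintype.sum_equiv (Equiv.mulRight y) _ _ fun x => by simp [smul_smul, mul_comm]

theorem ee_orth {χ ψ : E →* Kˣ} (h : χ ≠ ψ) : ee σ χ * ee σ ψ = 0 := by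
  obtain ⟨y, hy⟩ := DFunLike.ne_iff.1 h
  have := mul_assoc (ee σ χ) (σ y) (ee σ ψ)
  rw [ee_mul, mul_ee, smul_mul_assoc, mul_smul_comm, ← sub_eq_zero, ← sub_smul] at this
  exact (smul_eq_zero.1 this).resolve_left (sub_ne_zero.2 fun e => hy (Units.ext e))

theorem eps_mul {D : Subgroup A} (hD : (Nat.card D : K) ≠ 0) {b : B} (h : ∀ x ∈ D, σ x * b = b) :
    ee σ (1 : D →* Kˣ) * b = b := by
  simp [ee, sum_mul, fun x : D => h x x.2, ← Nat.cast_smul_eq_nsmul K, smul_smul,
    ← Nat.card_eq_fintype_card, hD]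

theorem mul_eps {D : Subgroup A} (hD : (Nat.card D : K) ≠ 0) {b : B} (h : ∀ x ∈ D, b * σ x = b) :
    b * ee σ (1 : D →* Kˣ) = b := by
  simp [ee, mul_sum, fun x : D => h x x.2, ← Nat.cast_smul_eq_nsmul K, smul_smul,
    ← Nat.card_eq_fintype_card, hD]

/-- The conjugation action on linear characters of a normal subgroup. -/
abbrev act (K : Type*) [Field K] (E : Subgroup A) [E.Normal] : MulAction A (E →* Kˣ) where
  smul a χ := χ.comp (MulAut.conjNormal a⁻¹).toMonoidHom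
  one_smul χ := by ext; change ((χ (MulAut.conjNormal 1⁻¹ _) : Kˣ) : K) = _; simp
  mul_smul a b χ := by
    ext; change ((χ (MulAut.conjNormal _ _) : Kˣ) : K) = χ (MulAut.conjNormal _ (MulAut.conjNormal _ _))
    simp

theorem conj_ee [E.Normal] (χ : E →* Kˣ) (a : A) :
    σ a * ee σ χ = ee σ (χ.comp (MulAut.conjNormal a⁻¹).toMonoidHom) * σ a := by
  simp only [ee, mul_smul_comm, mul_sum, smul_mul_assoc, sum_mul, ← map_mul]
  congr 1
  exact Fintype.sum_equiv (MulAut.conjNormal a).toEquiv _ _ fun x => by simp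

theorem sum_ee [E.Normal] [Finite (E →* Kˣ)] [HasEnoughRootsOfUnity K (Nat.card E)] (hE : (Nat.card E : K) ≠ 0) :
    ∑ χ : E →* Kˣ, ee σ χ = ee σ (1 : (⁅E, E⁆ : Subgroup A) →* Kˣ) := by
  classical
  haveI : NeZero (Nat.card E) := ⟨Nat.card_pos.ne'⟩
  haveI := HasEnoughRootsOfUnity.of_dvd K ((Group.exponent_dvd_nat_card (G := Abelianization E)).trans
    (card_quotient_dvd_card (commutator E)))
  have le : ⁅E, E⁆ ≤ E := commutator_le_left _ _
  have mc : ∀ x : E, x ∈ commutator E ↔ x.1 ∈ ⁅E, E⁆ := fun x => by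
    rw [← map_subtype_commutator]; exact (mem_map_iff_mem E.subtype_injective).symm
  have c1 : Nat.card (E →* Kˣ) * Nat.card (⁅E, E⁆ : Subgroup A) = Nat.card E := by
    rw [Nat.card_congr Abelianization.lift, CommGroup.card_monoidHom_of_hasEnoughRootsOfUnity,
      ← map_subtype_commutator, Subgroup.card_subtype]
    exact (commutator E).index_mul_card
  have s : ∀ x : E, ∑ χ : E →* Kˣ, ((χ x⁻¹ : Kˣ) : K) =
      if x.1 ∈ ⁅E, E⁆ then (Nat.card (E →* Kˣ) : K) else 0 := fun x => by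
    split_ifs with h
    · have : ∀ χ : E →* Kˣ, χ x⁻¹ = 1 := fun χ =>
        Abelianization.commutator_subset_ker χ (inv_mem ((mc x).2 h))
      simp only [this]; simp
    · obtain ⟨φ, hφ⟩ := CommGroup.exists_apply_ne_one_of_hasEnoughRootsOfUnity (Abelianization E) K
        (a := Abelianization.of x⁻¹) fun e => h ((mc x).1 (by
          simpa using (QuotientGroup.eq_one_iff x⁻¹).1 e))
      have := Fintype.sum_equiv (Equiv.mulLeft (φ.comp Abelianization.of))
        (fun χ => ((φ (Abelianization.of x⁻¹) : Kˣ) : K) * χ x⁻¹) (fun χ => ((χ x⁻¹ : Kˣ) : K))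
        fun χ => by simp
      rw [← mul_sum, ← sub_eq_zero, ← sub_one_mul] at this
      exact (mul_eq_zero.1 this).resolve_left (sub_ne_zero.2 fun e => hφ (Units.ext e))
  rw [← c1, Nat.cast_mul] at hE
  simp only [ee, ← smul_sum]
  rw [sum_comm]
  simp only [← sum_smul, s, ite_smul, zero_smul, ← sum_filter, ← smul_sum, smul_smul]
  congr 1
  · rw [← c1, Nat.cast_mul, mul_inv, mul_right_comm, inv_mul_cancel₀ (left_ne_zero_of_mul hE), one_mul]
  · refine (sum_bij (fun x _ => inclusion le x) (by simp) (by simp) (fun y hy => ?_) (by simp)).symm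
    exact ⟨⟨y, (mem_filter.1 hy).2⟩, by simp, rfl⟩

theorem exists_idem (H : Subgroup A) (n : ℕ) : ∀ (E : Subgroup A) [E.Normal], Nat.card E = n →
    Group.IsSolvable E → HasEnoughRootsOfUnity K (Nat.card E) → (Nat.card E : K) ≠ 0 →
    (∀ h ∈ H, h ≠ 1 → E ⊓ centralizer {h} = ⊥) →
    ∃ π : B, ∑ h : H, σ h * π * σ h⁻¹ = 1 - ee σ (1 : E →* Kˣ) ∧ π * ee σ (1 : E →* Kˣ) = 0 ∧
      ee σ (1 : E →* Kˣ) * π = 0 ∧ ∀ h ∈ H, h ≠ 1 → π * σ h * π = 0 := by
  induction n using Nat.strong_induction_on with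
  | _ n ih =>
  intro E _ hn hs hr hE fp
  classical
  rcases eq_or_ne E ⊥ with rfl | h0
  · exact ⟨0, by simp [ee, show ((default : (⊥ : Subgroup A)) : A) = 1 from mem_bot.1 (Subtype.prop _)], by simp⟩
  haveI : NeZero (Nat.card E) := ⟨Nat.card_pos.ne'⟩
  have lt : ⁅E, E⁆ < E := by
    haveI := (nontrivial_iff_ne_bot E).2 h0
    have := (map_lt_map_iff_of_injective E.subtype_injective).2 (Group.IsSolvable.commutator_lt_top_of_nontrivial E)
    rwa [map_subtype_commutator, ← MonoidHom.range_eq_map, range_subtype] at this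
  have dv := card_dvd_of_le lt.le
  have hD : (Nat.card (⁅E, E⁆ : Subgroup A) : K) ≠ 0 := fun e => hE (by
    obtain ⟨c, hc⟩ := dv; rw [hc, Nat.cast_mul, e, zero_mul])
  obtain ⟨π, p1, p2, p3, p4⟩ := ih _ (hn ▸ card_lt_of_lt lt) ⁅E, E⁆ rfl
    (solvable_of_solvable_injective (inclusion_injective lt.le)) (.of_dvd K dv) hD
    fun h a b => le_bot_iff.1 (fp h a b ▸ inf_le_inf_right _ lt.le)
  haveI := HasEnoughRootsOfUnity.of_dvd K ((Group.exponent_dvd_nat_card (G := Abelianization E)).trans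
    (card_quotient_dvd_card (commutator E)))
  haveI : Finite (E →* Kˣ) := Finite.of_equiv _ Abelianization.lift.symm
  letI := act K E
  have sm : ∀ (a : A) (χ : E →* Kˣ), σ a * ee σ χ = ee σ (a • χ) * σ a := fun a χ => conj_ee σ χ a
  have o1 : ∀ a : A, a • (1 : E →* Kˣ) = 1 := fun _ => rfl
  obtain ⟨X, x1, x2, x3⟩ := reps (H := H) (T := E →* Kˣ) (M := B) (· ≠ 1)
    (fun h y hy e => hy (by rw [← inv_smul_smul h y, e]; rfl)) fun h χ hχ e => by
      by_contra h1
      refine hχ (MonoidHom.ext fun x => ?_)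
      obtain ⟨y, hy, e'⟩ := fpf_exists_conj_eq' (K := E) (a := h) (by rw [normalizer_eq_top]; trivial)
        (fp h h.2 fun q => h1 (Subtype.ext q)) x.2
      have : x = MulAut.conjNormal (h : A)⁻¹ ⟨y, hy⟩ * ⟨y, hy⟩⁻¹ := Subtype.ext (by
        simp only [Subgroup.coe_mul, Subgroup.coe_inv, MulAut.conjNormal_apply, inv_inv]
        rw [mul_assoc, mul_assoc, ← mul_assoc y, e', inv_mul_cancel_left])
      rw [this, map_mul χ, map_inv χ]; exact mul_inv_eq_one.2 (DFunLike.congr_fun e ⟨y, hy⟩)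
  set ε := ee σ (1 : (⁅E, E⁆ : Subgroup A) →* Kˣ)
  have tr : ∀ χ : E →* Kˣ, ∀ x, ∀ hx : x ∈ ⁅E, E⁆, χ ⟨x, lt.le hx⟩ = 1 := fun χ x hx =>
    Abelianization.commutator_subset_ker χ (by
      have := hx; rw [← map_subtype_commutator] at this; obtain ⟨y, hy, rfl⟩ := this; exact hy)
  have e1 : ∀ χ : E →* Kˣ, ε * ee σ χ = ee σ χ := fun χ => eps_mul σ hD fun x hx => by
    simpa [tr χ x hx] using mul_ee σ χ ⟨x, lt.le hx⟩
  have e2 : ∀ χ : E →* Kˣ, ee σ χ * ε = ee σ χ := fun χ => mul_eps σ hD fun x hx => by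
    simpa [tr χ x hx] using ee_mul σ χ ⟨x, lt.le hx⟩
  have q1 : ∀ χ : E →* Kˣ, π * ee σ χ = 0 := fun χ => by rw [← e1, ← mul_assoc, p2, zero_mul]
  have q2 : ∀ χ : E →* Kˣ, ee σ χ * π = 0 := fun χ => by rw [← e2, mul_assoc, p3, mul_zero]
  refine ⟨π + ∑ χ ∈ X, ee σ χ, ?_, ?_, ?_, fun h a b => ?_⟩
  · simp only [mul_add, add_mul, sum_add_distrib, p1]
    simp only [mul_sum, sum_mul, sm, mul_assoc, ← map_mul]
    simp only [Subgroup.coe_inv, mul_inv_cancel, map_one, mul_one]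
    rw [show ∑ h : H, ∑ χ ∈ X, ee σ ((h : A) • χ) = _ from x3 (ee σ), filter_ne',
      sum_erase_eq_sub (mem_univ _), sum_ee σ hE]
    abel
  · rw [add_mul, q1, sum_mul, zero_add]; exact sum_eq_zero fun χ h => ee_orth σ (x1 χ h)
  · rw [mul_add, q2, mul_sum, zero_add]; exact sum_eq_zero fun χ h => ee_orth σ (x1 χ h).symm
  · have r1 : ∀ χ : E →* Kˣ, ee σ χ * σ h * π = 0 := fun χ => by
      rw [← smul_inv_smul h χ, ← sm, mul_assoc, q2, mul_zero]
    simp only [add_mul, mul_add, p4 h a b, sum_mul, mul_sum, r1, mul_assoc _ (σ h) (ee σ _), sm,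
      ← mul_assoc, q1, zero_mul, sum_const_zero, zero_add]
    refine sum_eq_zero fun χ hχ => sum_eq_zero fun ψ hψ => ?_
    rw [ee_orth σ (ψ := h • χ) fun e => b (congrArg Subtype.val (x2 χ hχ ψ hψ ⟨h, a⟩ e.symm)), zero_mul]

end H02.FM
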