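import Mathlib
import Cfsg.Agent.BG.Api4
import Cfsg.Agent.H02.Frobenius
import Cfsg.Agent.H02.FM1

/-! A module for a Frobenius group `FH` without nonzero `F`-fixed vectors is free over `H`. -/

namespace H02.FM
open Module Function
open scoped TensorProduct

attribute [local instance 10000] Fintype.ofFinite

universe u
section
variable {k R P : Type*} {V : Type u} [Field k] [Ring R] [Algebra k R]
  [AddCommGroup P] [Module R P] [Module k P] [IsScalarTower k R P] [FiniteDimensional k P]
  [AddCommGroup V] [Module R V] [Module k V] [IsScalarTower k R V] [FiniteDimensional k V]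

theorem fin_hom : FiniteDimensional k (P →ₗ[R] V) :=
  .of_injective (LinearMap.restrictScalarsₗ k R P V k) (LinearMap.restrictScalars_injective k)

theorem surj_ss [IsSemisimpleModule R V]
    (h : ∀ S : Submodule R V, finrank k (V →ₗ[R] S) ≤ finrank k (P →ₗ[R] S)) :
    ∃ g : P →ₗ[R] V, Surjective g := by
  haveI : IsNoetherian R V := isNoetherian_of_tower k inferInstance
  obtain ⟨_, ⟨g, rfl⟩, hm⟩ := exists_maximal_of_wellFoundedGT
    (fun I : Submodule R V => ∃ g : P →ₗ[R] V, LinearMap.range g = I) ⟨_, 0, rfl⟩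
  refine ⟨g, LinearMap.range_eq_top.1 (by_contra fun hg => ?_)⟩
  obtain ⟨C, hC⟩ := exists_isCompl (LinearMap.range g)
  obtain ⟨S, hS, hSC⟩ := (eq_bot_or_exists_atom_le C).resolve_left fun e =>
    hg (by simpa [e] using hC.sup_eq_top)
  have dj : Disjoint (LinearMap.range g) S := hC.disjoint.mono_right hSC
  obtain ⟨D, hD, hDS⟩ := dj.exists_isCompl
  haveI : FiniteDimensional k S := .of_injective (S.subtype.restrictScalars k) S.subtype_injective
  haveI := fin_hom (k := k) (R := R) (P := V) (V := S)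
  haveI := fin_hom (k := k) (R := R) (P := P) (V := S)
  let T : (V →ₗ[R] S) →ₗ[k] (P →ₗ[R] S) :=
    { toFun := fun φ => φ ∘ₗ g, map_add' := fun _ _ => rfl, map_smul' := fun _ _ => rfl }
  have : ¬ Surjective T := fun hs => by
    have := (LinearMap.injective_iff_surjective_of_finrank_eq_finrank (le_antisymm (h S)
      (LinearMap.finrank_le_finrank_of_surjective hs))).2 hs
    have e : S.projectionOnto D hDS.symm = 0 := this (a₂ := 0) (by
      ext x; simpa [T] using hD ⟨x, rfl⟩)
    refine hS.1 (eq_bot_iff.2 fun x hx => ?_)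
    have := LinearMap.congr_fun e (⟨x, hx⟩ : S)
    rw [Submodule.projectionOnto_apply_left] at this
    exact congrArg Subtype.val this
  obtain ⟨ψ, hψ⟩ := not_forall.1 this
  have : ¬ LinearMap.ker g ≤ LinearMap.ker ψ := fun hk => by
    obtain ⟨φ, e⟩ := IsSemisimpleModule.extension_property _ (LinearMap.range g).subtype_injective
      ((LinearMap.ker g).liftQ ψ hk ∘ₗ g.quotKerEquivRange.symm.toLinearMap)
    refine hψ ⟨φ, LinearMap.ext fun x => ?_⟩
    refine (LinearMap.congr_fun e ⟨g x, x, rfl⟩).trans ?_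
    exact congrArg ((LinearMap.ker g).liftQ ψ hk) (g.quotKerEquivRange_symm_apply_image x _)
  obtain ⟨x, hx, hx'⟩ := SetLike.not_le_iff_exists.1 this
  have s1 : S ≤ LinearMap.range (g + S.subtype ∘ₗ ψ) := by
    have := (hS.le_iff_eq (b := S ⊓ LinearMap.range (g + S.subtype ∘ₗ ψ)) fun e => hx' (by
      have : (ψ x).1 ∈ S ⊓ LinearMap.range (g + S.subtype ∘ₗ ψ) :=
        ⟨(ψ x).2, x, by simp [LinearMap.mem_ker.1 hx]⟩
      rw [e] at this
      exact Subtype.ext this)).1 inf_le_left
    exact this.ge.trans inf_le_right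
  have s2 : LinearMap.range g ≤ LinearMap.range (g + S.subtype ∘ₗ ψ) := by
    rintro _ ⟨y, rfl⟩
    simpa using sub_mem (LinearMap.mem_range_self (g + S.subtype ∘ₗ ψ) y) (s1 (ψ y).2)
  exact hS.1 (dj.eq_bot_of_ge (s1.trans (hm ⟨_, rfl⟩ s2)))

theorem surj_proj [Module.Projective R P]
    (h : ∀ (S : Type u) [AddCommGroup S] [Module R S] [Module k S] [IsScalarTower k R S]
      [FiniteDimensional k S], finrank k (V →ₗ[R] S) ≤ finrank k (P →ₗ[R] S)) :
    ∃ g : P →ₗ[R] V, Surjective g := by
  haveI : IsNoetherian R V := isNoetherian_of_tower k inferInstance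
  haveI : IsArtinian R V := isArtinian_of_tower k inferInstance
  let J := Module.jacobson R V
  haveI : IsSemisimpleModule R (V ⧸ J) :=
    (IsArtinian.isSemisimpleModule_iff_jacobson R _).2 (Module.jacobson_quotient_jacobson R V)
  haveI : FiniteDimensional k (V ⧸ J) := .of_surjective (J.mkQ.restrictScalars k) J.mkQ_surjective
  obtain ⟨g, hg⟩ := surj_ss (k := k) (R := R) (P := P) (V := V ⧸ J) fun S => by
    haveI : FiniteDimensional k S := .of_injective (S.subtype.restrictScalars k) S.subtype_injective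
    haveI := fin_hom (k := k) (R := R) (P := V) (V := S)
    refine le_trans (LinearMap.finrank_le_finrank_of_injective (f :=
      { toFun := fun φ => φ ∘ₗ J.mkQ, map_add' := fun _ _ => rfl, map_smul' := fun _ _ => rfl })
      fun a b e => Submodule.linearMap_qext _ e) (h S)
  obtain ⟨f, e⟩ := Module.projective_lifting_property J.mkQ g J.mkQ_surjective
  refine ⟨f, LinearMap.range_eq_top.1 ((eq_top_or_exists_le_coatom _).resolve_right ?_)⟩
  rintro ⟨U, hU, hf⟩
  refine hU.1 (eq_top_iff.2 fun x _ => ?_)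
  obtain ⟨y, hy⟩ := hg (J.mkQ x)
  rw [← e] at hy
  have : f y - x ∈ U := sInf_le (s := {m : Submodule R V | IsCoatom m}) hU ((Submodule.Quotient.eq J).1 hy)
  simpa using sub_mem (hf ⟨y, rfl⟩) this
end

theorem fr_le {k X U S : Type*} [Field k] [AddCommGroup X] [Module k X] [AddCommGroup U] [Module k U]
    [AddCommGroup S] [Module k S] [FiniteDimensional k U] [FiniteDimensional k S]
    (f : X →ₗ[k] U →ₗ[k] S) (h : Injective f) : finrank k X ≤ finrank k U * finrank k S :=
  (LinearMap.finrank_le_finrank_of_injective h).trans_eq (finrank_linearMap k k U S)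

theorem free_of_idem {k K H : Type*} {V : Type u} [Field k] [Field K] [Algebra k K] [FiniteDimensional k K]
    [AddCommGroup V] [Module k V] [FiniteDimensional k V] [Group H] [Finite H] [DecidableEq H]
    (ρ : Representation k H V) (π : Module.End K (K ⊗[k] V))
    (h1 : ∑ h : H, (ρ h).baseChange K * π * (ρ h⁻¹).baseChange K = 1)
    (h2 : ∀ h, h ≠ 1 → π * (ρ h).baseChange K * π = 0) :
    ∃ W : Submodule k V, DirectSum.IsInternal fun h : H => W.map (ρ h) := by
  have dec : ∀ w, ∑ h : H, (ρ h).baseChange K (π ((ρ h⁻¹).baseChange K w)) = w := fun w => by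
    simpa using LinearMap.congr_fun h1 w
  have ort : ∀ (g : H) (u : H → K ⊗[k] V),
      π ((ρ g⁻¹).baseChange K (∑ h, (ρ h).baseChange K (π (u h)))) = π (π (u g)) := fun g u => by
    have : ∀ a b w, (ρ a).baseChange K ((ρ b).baseChange K w) = (ρ (a * b)).baseChange K w := fun a b w => by
      rw [map_mul, LinearMap.baseChange_mul]; rfl
    simp only [map_sum, this]
    rw [Finset.sum_eq_single g (fun h _ e => by
      exact LinearMap.congr_fun (h2 _ fun q => e (inv_mul_eq_one.1 q).symm) (u h)) (by simp)]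
    simp
  have idem : ∀ w, π (π w) = π w := fun w => by
    have := ort 1 fun h => (ρ h⁻¹).baseChange K w
    rw [dec] at this
    simpa using this.symm
  set n := finrank K (LinearMap.range π)
  haveI : Free K (LinearMap.range π) := Free.of_divisionRing K (LinearMap.range π)
  haveI : Free k (LinearMap.range π) := Free.of_divisionRing k (LinearMap.range π)
  haveI : Module.Finite k (LinearMap.range π) := Module.Finite.trans K (LinearMap.range π)
  have hn : Nat.card H * n = finrank k V := by
    let Φ : K ⊗[k] V →ₗ[K] H → LinearMap.range π :=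
      LinearMap.pi fun h => π.rangeRestrict ∘ₗ (ρ h⁻¹).baseChange K
    have := (LinearEquiv.ofBijective Φ ⟨(injective_iff_map_eq_zero _).2 fun w e => ?_, fun u => ?_⟩).finrank_eq
    · rw [finrank_pi_fintype] at this; simpa [eq_comm] using this
    · rw [← dec w]
      exact Finset.sum_eq_zero fun h _ => by
        rw [show π _ = 0 from congrArg Subtype.val (congrFun e h), map_zero]
    · choose v hv using fun h => (u h).2
      exact ⟨∑ h, (ρ h).baseChange K (π (v h)), funext fun g => Subtype.ext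
        ((ort g v).trans ((idem _).trans (hv g)))⟩
  obtain ⟨g, hg⟩ := surj_proj (k := k) (R := MonoidAlgebra k H) (P := Fin n → MonoidAlgebra k H)
    (V := ρ.asModule) fun S _ _ _ _ _ => by
      haveI := fin_hom (k := k) (R := MonoidAlgebra k H) (P := ρ.asModule) (V := S)
      let r : (ρ.asModule →ₗ[MonoidAlgebra k H] S) →ₗ[k] (V →ₗ[k] S) :=
        LinearMap.lcomp k S ρ.asModuleEquiv.symm.toLinearMap ∘ₗ LinearMap.restrictScalarsₗ k _ _ S k
      let Θ : (K →ₗ[k] ρ.asModule →ₗ[MonoidAlgebra k H] S) →ₗ[k] K ⊗[k] V →ₗ[k] S :=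
        (TensorProduct.lift.equiv (RingHom.id k) K V S).toLinearMap ∘ₗ LinearMap.compRight k r
      have eq : ∀ f (h : H) w, Θ f ((ρ h).baseChange K w) = MonoidAlgebra.of k H h • Θ f w := fun f h w => by
        induction w with
        | zero => simp
        | tmul c v =>
          change f c (ρ.asModuleEquiv.symm (ρ h v)) = _ • f c (ρ.asModuleEquiv.symm v)
          rw [Representation.asModuleEquiv_symm_map_rho, map_smul]
        | add a b ha hb => simp only [map_add, ha, hb, smul_add]
      have := fr_le (U := LinearMap.range π) (LinearMap.lcomp k S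
        ((LinearMap.range π).subtype.restrictScalars k) ∘ₗ Θ) ((injective_iff_map_eq_zero _).2 fun f e => by
          ext c v
          have : Θ f (c ⊗ₜ ρ.asModuleEquiv v) = 0 := by
            rw [← dec (c ⊗ₜ _), map_sum]
            exact Finset.sum_eq_zero fun h _ => by
              rw [eq, show Θ f (π _) = 0 from LinearMap.congr_fun e ⟨_, _, rfl⟩, smul_zero]
          simpa [Θ, r] using this)
      rw [finrank_linearMap k k K, ← finrank_mul_finrank k K (LinearMap.range π), mul_assoc] at this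
      rw [(LinearEquiv.piRing _ S (Fin n) k).finrank_eq]
      simpa [finrank_pi_fintype] using Nat.le_of_mul_le_mul_left this finrank_pos
  let g' := ρ.asModuleEquiv.toLinearMap ∘ₗ g.restrictScalars k
  have gs : Surjective g' := ρ.asModuleEquiv.surjective.comp hg
  let b := Pi.basis fun _ : Fin n => MonoidAlgebra.basis H k
  have gi : Injective g' := (LinearMap.injective_iff_surjective_of_finrank_eq_finrank (by
    rw [finrank_eq_card_basis b, ← hn, ← Nat.card_eq_fintype_card, Nat.card_sigma]; simp [mul_comm])).2 gs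
  let c := b.map (LinearEquiv.ofBijective g' ⟨gi, gs⟩)
  have hc : ∀ i h, ρ h (c ⟨i, 1⟩) = c ⟨i, h⟩ := fun i h => by
    have : b ⟨i, h⟩ = MonoidAlgebra.of k H h • b ⟨i, 1⟩ := by
      simp [b, ← Pi.single_smul']
    change ρ h (g' (b ⟨i, 1⟩)) = g' (b ⟨i, h⟩)
    simp [g', this]; rfl
  have e : ∀ h, (Submodule.span k (c '' {p | p.2 = 1})).map (ρ h) = .span k (c '' {p | p.2 = h}) := fun h => by
    rw [Submodule.map_span, Set.image_image]
    congr 1; ext
    exact ⟨by rintro ⟨⟨i, _⟩, rfl, rfl⟩; exact ⟨⟨i, h⟩, rfl, (hc i h).symm⟩,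
      by rintro ⟨⟨i, _⟩, rfl, rfl⟩; exact ⟨⟨i, 1⟩, rfl, hc i _⟩⟩
  refine ⟨.span k (c '' {p | p.2 = 1}), (DirectSum.isInternal_submodule_iff_iSupIndep_and_iSup_eq_top _).2
    ⟨fun h => ?_, ?_⟩⟩
  · simp only [e]
    refine (c.linearIndependent.disjoint_span_image (t := {p | p.2 ≠ h})
      (Set.disjoint_left.2 fun _ a b => b a)).mono_right (iSup₂_le fun j hj => ?_)
    exact Submodule.span_mono (Set.image_mono fun p (q : p.2 = j) => by simpa [q] using hj)
  · rw [eq_top_iff, ← c.span_eq, Submodule.span_le]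
    rintro _ ⟨p, rfl⟩
    exact Submodule.mem_iSup_of_mem p.2 ((e _).ge (Submodule.subset_span ⟨p, rfl, rfl⟩))

open Cfsg BG Subgroup in
theorem exists_core {k V A : Type*} [Field k] [AddCommGroup V] [Module k V] [Group A] [Finite A]
    (ρ : Representation k A V) (F : Subgroup A) [F.Normal] (hnil : Group.IsNilpotent F)
    (hCF : ∀ v : V, (∀ f ∈ F, ρ f v = v) → v = 0) :
    ∃ E ≤ F, E.Normal ∧ (Nat.card E : k) ≠ 0 ∧ ∀ v : V, (∀ f ∈ E, ρ f v = v) → v = 0 := by
  obtain ⟨p, _⟩ := CharP.exists k
  rcases CharP.char_is_prime_or_zero k p with hp | rfl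
  swap
  · haveI := CharP.charP_to_charZero k
    exact ⟨F, le_rfl, inferInstance, Nat.cast_ne_zero.2 Nat.card_pos.ne', hCF⟩
  haveI := Fact.mk hp
  refine ⟨piCoreOf {p}ᶜ F, pcore_le _ _, normalizer_eq_top_iff.1 (eq_top_iff.2 (norm_pcore _ (by
    rw [normalizer_eq_top]))), fun e => pcore_not_dvd hp F ((CharP.cast_eq_zero_iff k p _).1 e),
    fun v hv => by_contra fun h0 => ?_⟩
  obtain ⟨X, h1, ⟨h2, w, w0, h3⟩, hm⟩ := exists_maximal_ge_of_wellFoundedGT
    (fun X : Subgroup A => X ≤ F ∧ ∃ w ≠ 0, ∀ f ∈ X, ρ f w = w) _ ⟨pcore_le {p}ᶜ F, v, h0, hv⟩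
  have lt : X < F := lt_of_le_of_ne h2 fun e => w0 (hCF w (e ▸ h3))
  obtain ⟨y, ⟨yF, yN⟩, yX⟩ := SetLike.exists_of_lt (nil_lt_norm hnil lt)
  obtain ⟨j, hj⟩ : ∃ j, y ^ p ^ j ∈ X := by
    refine ⟨(orderOf y).factorization p, h1 (zpowers_le.1 (nil_le_pcore hnil ((isPi_compl hp).2 ?_)
      (zpowers_le.2 (pow_mem yF _))))⟩
    rw [Nat.card_zpowers, orderOf_pow_of_dvd (pow_ne_zero _ hp.ne_zero) (Nat.ordProj_dvd _ _)]
    exact Nat.not_dvd_ordCompl hp (orderOf_pos y).ne'
  have fx : ∀ i : ℕ, ∀ f ∈ X, ρ f (((ρ y - 1) ^ i) w) = ((ρ y - 1) ^ i) w := fun i => by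
    induction i with
    | zero => simpa using h3
    | succ i ih =>
      intro f hf
      have := ih _ (conj_mem_of_norm' yN hf)
      rw [pow_succ', Module.End.mul_apply, LinearMap.sub_apply, map_sub, Module.End.one_apply, ih f hf]
      congr 1
      nth_rw 2 [← this]
      simp only [← Module.End.mul_apply (ρ _) (ρ _), ← map_mul, ← mul_assoc, mul_inv_cancel, one_mul]
  have z : ((ρ y - 1) ^ p ^ j) w = 0 := by
    haveI : Nontrivial V := ⟨_, _, w0⟩
    haveI : CharP (V →ₗ[k] V) p := charP_of_injective_algebraMap (algebraMap k (Module.End k V)).injective p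
    rw [sub_pow_char_pow_of_commute _ _ (Commute.one_right _), ← map_pow, one_pow,
      LinearMap.sub_apply, h3 _ hj]; simp
  classical
  have ex : ∃ i : ℕ, ((ρ y - 1) ^ i) w = 0 := ⟨_, z⟩
  obtain ⟨i, hi⟩ := Nat.exists_eq_succ_of_ne_zero (n := Nat.find ex) fun e => w0 (by
    simpa [e] using Nat.find_spec ex)
  have a := Nat.find_spec ex
  rw [hi, pow_succ', Module.End.mul_apply, LinearMap.sub_apply, sub_eq_zero] at a
  have n0 := Nat.find_min ex (m := i) (by omega)
  have fi := fx i
  generalize ((ρ y - 1) ^ i) w = u at a n0 fi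
  let T : Subgroup A :=
    { carrier := {f | ρ f u = u}
      one_mem' := by simp
      mul_mem' := fun {a b} (ha : ρ a u = u) (hb : ρ b u = u) => by simp [ha, hb]
      inv_mem' := fun {a} (ha : ρ a u = u) => by
        change ρ _ _ = _; nth_rw 1 [← ha]; simp }
  exact yX (hm (y := X ⊔ zpowers y) ⟨sup_le h2 (zpowers_le.2 yF), u, n0,
    (sup_le fi (zpowers_le.2 a) : _ ≤ T)⟩ le_sup_left (mem_sup_right (mem_zpowers y)))

theorem main {k V A : Type*} [Field k] [AddCommGroup V] [Module k V] [FiniteDimensional k V] [Group A]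
    [Finite A] [DecidableEq A] (ρ : Representation k A V) (F H : Subgroup A) [F.Normal]
    (hH : Cfsg.IsFrobeniusComplement H) (hker : Cfsg.frobeniusKernel H = (F : Set A))
    (hnil : Group.IsNilpotent F) (hCF : ∀ v : V, (∀ f ∈ F, ρ f v = v) → v = 0) :
    ∃ W : Submodule k V, DirectSum.IsInternal (fun h : H => W.map (ρ (h : A))) := by
  obtain ⟨E, h1, _, h2, h3⟩ := exists_core ρ F hnil hCF
  haveI : NeZero (Nat.card E : k) := ⟨h2⟩
  haveI : NeZero (Nat.card E) := ⟨Nat.card_pos.ne'⟩
  let K := CyclotomicField (Nat.card E) k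
  haveI : FiniteDimensional k K := IsCyclotomicExtension.finiteDimensional {Nat.card E} k K
  let σ : A →* Module.End K (K ⊗[k] V) := (Module.End.baseChangeHom k K V).toMonoidHom.comp ρ
  obtain ⟨π, p1, -, -, p4⟩ := exists_idem (K := K) (B := Module.End K (K ⊗[k] V)) σ H _ E rfl
    (solvable_of_solvable_injective (Subgroup.inclusion_injective h1))
    ⟨IsCyclotomicExtension.exists_isPrimitiveRoot k K (S := {Nat.card E}) rfl Nat.card_pos.ne', inferInstance⟩
    (by rw [← map_natCast (algebraMap k K)]; exact (map_ne_zero _).2 h2) fun h a b =>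
      le_bot_iff.1 (IsFrob.fpf_of_coe_eq hH hker.symm a b ▸ inf_le_inf_right _ h1)
  have : ∑ x : E, ρ x = 0 := LinearMap.ext fun v => h3 _ fun f hf => by
    simp only [LinearMap.sum_apply, map_sum, ← Module.End.mul_apply, ← map_mul]
    exact Fintype.sum_equiv (Equiv.mulLeft ⟨f, hf⟩) _ _ fun x => rfl
  have e : ee (B := Module.End K (K ⊗[k] V)) σ (1 : E →* Kˣ) = 0 := by
    have := congrArg (Module.End.baseChangeHom k K V) this
    rw [map_sum, map_zero] at this
    simp only [ee, MonoidHom.one_apply, Units.val_one, one_smul]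
    exact smul_eq_zero_of_right _ this
  rw [e] at p1
  exact free_of_idem (ρ.comp H.subtype) π (p1.trans (LinearMap.ext fun _ => sub_zero _)) fun h q => p4 h h.2 fun r => q (Subtype.ext r)

end H02.FM
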