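import Mathlib
import Cfsg.Agent.BG.Api4
import Cfsg.Agent.S0228
import Cfsg.Agent.H03.Frobenius
import Cfsg.Agent.H04.BG5
import Cfsg.Agent.H08.Dih
import Cfsg.Agent.L.Small

/-!
# Groups with restricted `p`-by-cyclic subgroups
-/

set_option linter.unusedSectionVars false
set_option linter.unusedVariables false
set_option linter.style.haveILetI false

namespace H02.HE

open Cfsg BG MulAction Subgroup
open scoped commutatorElement Pointwise IsMulCommutative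

local notation "#" => Nat.card

universe u

variable {G : Type u} [Group G] [Finite G] {p : ℕ} [hp : Fact p.Prime] {A B H : Subgroup G} {x y : G}

def PC (p : ℕ) (H : Type u) [Group H] : Prop :=
  (∀ S : Sylow p H, (S : Subgroup H).Normal) ∧ ∀ (S : Sylow p H) [(S : Subgroup H).Normal], IsCyclic (H ⧸ (S : Subgroup H))

theorem pc_top [A.Normal] (hA : IsPGroup p A) (h : A ⊔ zpowers x = ⊤) : PC p G := by
  have k (S : Sylow p G) (g : G) : ∃ i : ℤ, (x ^ i)⁻¹ * g ∈ A ∧ A ≤ S := by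
    obtain ⟨_, ⟨i, rfl⟩, a, ha, rfl⟩ := mem_sup_of_normal_right.1 ((sup_comm A _ ▸ h).ge (mem_top g))
    exact ⟨i, by simpa using ha, hA.le_sylow_of_normal S⟩
  refine ⟨fun S => ⟨fun n hn g => ?_⟩, fun S _ => ⟨x, fun g => ?_⟩⟩
  · obtain ⟨i, a, h1⟩ := k S n
    obtain ⟨j, b, -⟩ := k S g
    have : (g : G ⧸ A) * n * (g : G ⧸ A)⁻¹ = n := by
      rw [← QuotientGroup.eq.2 a, ← QuotientGroup.eq.2 b, QuotientGroup.mk_zpow, QuotientGroup.mk_zpow, zpow_mul_comm,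
        mul_inv_cancel_right]
    exact (mul_mem_cancel_left (inv_mem hn)).1 (h1 (QuotientGroup.eq.1 this.symm))
  · obtain ⟨g, rfl⟩ := QuotientGroup.mk_surjective g
    obtain ⟨i, a, h1⟩ := k S g
    exact ⟨i, QuotientGroup.eq.2 (h1 a)⟩

theorem pc_of (hA : IsPGroup p A) (hx : x ∈ N_(A)) : PC p ↥(A ⊔ zpowers x) := by
  haveI := (normal_subgroupOf_iff_le_normalizer (le_sup_left : A ≤ A ⊔ zpowers x)).2 (sup_le (le_norm _) (zpowers_le.2 hx))
  refine pc_top (A := A.subgroupOf _) (x := ⟨x, mem_sup_right (mem_zpowers x)⟩) (hA.comap_of_injective _ (subtype_injective _)) ?_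
  refine map_injective (subtype_injective _) ?_
  rw [Subgroup.map_sup, map_subgroupOf_eq_of_le le_sup_left, MonoidHom.map_zpowers, ← MonoidHom.range_eq_map, range_subtype]; rfl

theorem PC.exists (h : PC p H) : ∃ (A : Subgroup G) (y : G), IsPGroup p A ∧ y ∈ N_(A) ∧ ¬ p ∣ orderOf y ∧ H = A ⊔ zpowers y := by
  obtain ⟨S⟩ : Nonempty (Sylow p H) := inferInstance
  haveI := h.1 S
  obtain ⟨x, hx⟩ := (h.2 S).1
  obtain ⟨x, rfl⟩ := QuotientGroup.mk_surjective x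
  have h1 : piPart {p} x ∈ S.1 := zpowers_le.1 (IsSylowIn.le_of_norm_pg' (isSylowIn_top hp.out S) hp.out
    ((isPi_singleton hp.out).1 (isPiElt_iff.1 (isPiElt_piPart _ x))) le_top le_normalizer_of_normal)
  have h2 : S.1 ⊔ zpowers (piPart {p}ᶜ x) = ⊤ := eq_top_iff.2 fun g _ => by
    obtain ⟨i, hi⟩ := hx g
    have := zpow_mem (mul_mem (mem_sup_left h1) (mem_sup_right (mem_zpowers (piPart {p}ᶜ x)))) i
    rw [piPart_mul_compl] at this
    exact (mul_mem_cancel_left (inv_mem this)).1 (mem_sup_left (QuotientGroup.eq.1 hi))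
  refine ⟨S.1.map H.subtype, (piPart {p}ᶜ x : H), S.2.map _, le_normalizer_map _ ⟨_, le_normalizer_of_normal (mem_top _), rfl⟩, ?_, ?_⟩
  · rw [orderOf_coe, ← BG.card_zpowers]
    exact (isPi_compl hp.out).1 (isPiElt_iff.1 (isPiElt_piPart _ x))
  · refine H.range_subtype.symm.trans ?_
    rw [MonoidHom.range_eq_map, ← h2, Subgroup.map_sup, MonoidHom.map_zpowers]; rfl

theorem cyc_of_cent (hA : IsPGroup p A) (hc : IsCyclic A) (hy : ¬ p ∣ orderOf y) (h : y ∈ C_(A)) : IsCyclic ↥(A ⊔ zpowers y) :=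
  have k := pg_coprime hp.out hA (B := zpowers y) (by rwa [BG.card_zpowers])
  Dprod.cyclic ⟨rfl, zpowers_le.2 h, BG.inf_eq_bot_of_coprime k⟩ hc (cyclic_zpowers y) k

theorem cent_of_cyc (h : IsCyclic ↥(A ⊔ zpowers x)) : x ∈ C_(A) :=
  le_cent_of_abelian (abelian_of_cyclic h) le_sup_right le_sup_left (mem_zpowers x)

theorem wlog_le (P : Sylow p G) (Φ : Subgroup G → Prop) (hΦ : ∀ g H, Φ (cj g H) → Φ H)
    (h : ∀ (A : Subgroup G) (y : G), A ≤ P → y ∈ N_(A) → ¬ p ∣ orderOf y → Φ (A ⊔ zpowers y)) (hH : PC p H) : Φ H := by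
  obtain ⟨A, y, h1, h2, h3, rfl⟩ := hH.exists
  obtain ⟨g, -, hg⟩ := sylow_Jsub hp.out (isSylowIn_top hp.out P) h1 le_top
  refine hΦ g _ ?_
  rw [cj_sup, cj_zpowers]
  exact h _ _ hg (cj_norm g A ▸ conj_mem_cj g h2) (by rwa [BG.orderOf_conj])

theorem inv_of_sq (h : ∀ x ∈ N_(A), x ∉ C_(A) → x * x = 1) (hx : x ∈ N_(A)) (hx' : x ∉ C_(A)) (hy : y ∈ C_(A)) :
    x * y * x⁻¹ = y⁻¹ := by
  have := h _ (mul_mem hx (cent_le_norm _ hy)) fun k => hx' ((mul_mem_cancel_right hy).1 k)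
  rw [inv_eq_of_mul_eq_one_right (h x hx hx'), eq_inv_iff_mul_eq_one, mul_assoc, this]

theorem sq_of_dih (p2 : p ≠ 2) (hA : IsPGroup p A) {n : ℕ} (e : ↥(A ⊔ zpowers x) ≃* DihedralGroup n) (h : x ∉ C_(A)) :
    x * x = 1 := by
  have hx : x ∈ A ⊔ zpowers x := mem_sup_right (mem_zpowers x)
  rcases hh : e ⟨x, hx⟩ with i | i
  · refine absurd (fun a ha => ?_) h
    have ha' : a ∈ A ⊔ zpowers x := mem_sup_left ha
    rcases hk : e ⟨a, ha'⟩ with j | j
    · exact congrArg Subtype.val (e.injective (by rw [map_mul, map_mul, hh, hk]; simp [add_comm]) :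
        (⟨a, ha'⟩ * ⟨x, hx⟩ : ↥(A ⊔ zpowers x)) = ⟨x, hx⟩ * ⟨a, ha'⟩)
    · refine absurd (Dvd.dvd.trans ?_ (BG.orderOf_dvd_card ha)) (pg_not_dvd Nat.prime_two hp.out hA p2.symm)
      rw [← DihedralGroup.orderOf_sr j, ← hk, MulEquiv.orderOf_eq, orderOf_mk]
  · exact congrArg Subtype.val (e.injective (by rw [map_mul, hh]; simp) : (⟨x, hx⟩ * ⟨x, hx⟩ : ↥(A ⊔ zpowers x)) = 1)

theorem s4082 (p2 : p ≠ 2) (P : Sylow p G) :
    (∀ H : Subgroup G, PC p H → IsCyclic H ∨ ∃ n : ℕ, Nonempty (H ≃* DihedralGroup (p ^ n))) ↔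
    IsCyclic P ∧ (N_(P.1) = C_(P.1) ∨ (C_(P.1)).relIndex N_(P.1) = 2 ∧ ∀ Q : Subgroup G, Q ≤ P → # Q = p →
      IsMulCommutative C_(Q) ∧ ∀ x ∈ N_(Q), x ∉ C_(Q) → orderOf x = 2 ∧ ∀ c ∈ C_(Q), x * c * x⁻¹ = c⁻¹) := by
  refine ⟨fun h => ?_, fun ⟨hc, h⟩ H => wlog_le P (fun H => IsCyclic H ∨ ∃ n : ℕ, Nonempty (H ≃* DihedralGroup (p ^ n)))
    (fun g H => Or.imp (fun _ => (cjEquiv g H).isCyclic.2 ‹_›) fun ⟨n, ⟨e⟩⟩ => ⟨n, ⟨(cjEquiv g H).trans e⟩⟩) fun A y h1 h2 h3 => ?_⟩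
  · have k {A : Subgroup G} (hA : IsPGroup p A) : ∀ x ∈ N_(A), x ∉ C_(A) → x * x = 1 := fun x h1 h2 =>
      ((h _ (pc_of hA h1)).resolve_left fun k => h2 (cent_of_cyc k)).elim fun n ⟨e⟩ => sq_of_dih p2 hA e h2
    have hc : IsCyclic P := by
      have := h _ (pc_of P.2 (one_mem _))
      rw [zpowers_one_eq_bot, sup_bot_eq] at this
      refine this.resolve_right fun ⟨n, ⟨e⟩⟩ => pg_not_dvd Nat.prime_two hp.out P.2 p2.symm ?_
      rw [Nat.card_congr e.toEquiv, DihedralGroup.nat_card]; exact dvd_mul_right _ _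
    have ab := BG.abelian_iff.1 (abelian_of_cyclic hc)
    refine ⟨hc, or_iff_not_imp_left.2 fun e => ?_⟩
    obtain ⟨x, h1, h2⟩ := SetLike.not_le_iff_exists.1 fun k => e (le_antisymm k (cent_le_norm _))
    refine ⟨relIndex_eq_two_iff.2 ⟨x, h1, fun b hb => ?_⟩, fun Q q1 q2 => ⟨?_, fun y y1 y2 =>
      ⟨orderOf_eq_prime ((sq y).trans (k (pg_of_card_eq q2) y y1 y2)) (by rintro rfl; exact y2 (one_mem _)),
        fun c => inv_of_sq (k (pg_of_card_eq q2)) y1 y2⟩⟩⟩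
    · by_cases b1 : b ∈ C_(P.1)
      · exact .inr ⟨b1, fun k => h2 ((mul_mem_cancel_left b1).1 k)⟩
      refine .inl ⟨fun a ha => (mul_inv_eq_iff_eq_mul.1 ?_).symm, b1⟩
      rw [mul_inv_rev, ← mul_assoc, mul_assoc b, mul_assoc b, inv_of_sq (k P.2) h1 h2 (ab ha),
        inv_of_sq (k P.2) hb b1 (inv_mem (ab ha)), inv_inv]
    obtain ⟨z, z1, z2⟩ := exists_orderOf_eq_prime hp.out q2.symm.dvd
    have h3 : x ∉ C_(Q) := fun c => p2 ((Nat.prime_dvd_prime_iff_eq hp.out Nat.prime_two).1 (z2 ▸ orderOf_dvd_of_pow_eq_one (by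
      have := inv_of_sq (k P.2) h1 h2 (ab (q1 z1))
      rwa [← c z z1, mul_inv_cancel_right, eq_inv_iff_mul_eq_one, ← sq] at this)))
    have h4 := fun c => inv_of_sq (y := c) (k (pg_of_card_eq q2)) (norm_le_norm_of_cyclic hc q1 h1) h3
    refine BG.abelian_iff.2 fun a ha b hb => inv_injective ?_
    rw [← h4 _ (mul_mem hb ha), mul_inv_rev, ← h4 _ hb, ← h4 _ ha, conj_mul]
  have hA := pg_le P.2 h1
  have cA := cyclic_of_le hc h1
  refine (em (y ∈ C_(A))).imp (cyc_of_cent hA cA h3) fun k => ?_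
  rcases h with h | ⟨-, h⟩
  · exact absurd (H03.centralizes_of_hasNPC_normalizer hA (H03.HasNPC.subgroup (H03.hasNPC_of_normalizer_le_centralizer P h.le) _) h2
      ((Nat.Prime.coprime_iff_not_dvd hp.out).2 h3).symm) k
  obtain ⟨Q, q1, q2⟩ := exists_card_eq_prime hp.out (pg_dvd hp.out hA (by rintro rfl; simp at k))
  obtain ⟨ab, h⟩ := h Q (q1.trans h1) q2
  have a1 : A ≤ C_(Q) := le_cent_of_abelian (abelian_of_cyclic cA) le_rfl q1
  obtain ⟨y1, y2⟩ := h y (norm_le_norm_of_cyclic cA q1 h2) fun c => k (le_cent_of_abelian ab le_rfl a1 c)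
  obtain ⟨n, hn⟩ := pg_card hp.out hA
  obtain ⟨a, rfl⟩ := cyclic_iff.1 cA
  refine ⟨n, ?_⟩
  rw [zpowers_eq_closure, zpowers_eq_closure, ← Subgroup.closure_union, Set.singleton_union]
  exact H08.nonempty_closure_equiv_dihedral (pow_ne_zero _ hp.out.ne_zero) ((BG.card_zpowers a).symm.trans hn)
    (H08.mul_self_of_orderOf y1) (y2 a (a1 (mem_zpowers a))) fun e => k (BG.abelian_iff.1 (abelian_of_cyclic cA) e)

theorem modEq (hA : IsPGroup p A) (hn : A ≤ N_(B)) : # B ≡ # ↥(B ⊓ C_(A)) [MOD p] := by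
  have h1 := (hA.of_equiv (subgroupOfEquivOfLe hn).symm).card_modEq_card_fixedPoints B
  rwa [show fixedPoints (A.subgroupOf N_(B)) B = ((C_(A)).subgroupOf B : Set B) from Set.ext fun d =>
    ⟨fun h a ha => mul_inv_eq_iff_eq_mul.1 (congrArg Subtype.val (h ⟨⟨a, hn ha⟩, ha⟩)),
      fun h a => Subtype.ext (mul_inv_eq_iff_eq_mul.2 (h _ a.2))⟩, SetLike.coe_sort_coe, ← inf_subgroupOf_left,
    Nat.card_congr (subgroupOfEquivOfLe inf_le_left).toEquiv] at h1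

theorem a4_of (hA : # A = 4) (hc : C_(A) = A) (hy : y ∈ N_(A)) (ho : ¬ 2 ∣ orderOf y) (h1 : y ≠ 1) :
    Nonempty (↥(A ⊔ zpowers y) ≃* alternatingGroup (Fin 4)) := by
  haveI : Fact (Nat.Prime 3) := ⟨Nat.prime_three⟩
  have pA : IsPGroup 2 A := pg_of_card (n := 2) hA
  have cop := pg_coprime Nat.prime_two pA (B := zpowers y) (by rwa [BG.card_zpowers])
  have k : ∀ z ∈ zpowers y, z ∈ C_(A) → z = 1 := fun z a b =>
    mem_bot.1 (BG.inf_eq_bot_of_coprime cop ▸ mem_inf.2 ⟨hc ▸ b, a⟩)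
  have h2 : y ^ 24 = 1 := k _ (pow_mem (mem_zpowers y) _) fun a ha => by
    have := pow_card_eq_one' (x := MulAction.toPermHom N_(A) A ⟨y, hy⟩)
    rw [Nat.card_perm, hA, ← map_pow] at this
    exact (mul_inv_eq_iff_eq_mul.1 (congrArg Subtype.val (DFunLike.congr_fun this ⟨a, ha⟩))).symm
  have h3 : orderOf y = 3 := by
    have d := orderOf_dvd_of_pow_eq_one h2
    have := Nat.le_of_dvd (by norm_num) d
    have : orderOf y ≠ 1 := by simpa
    interval_cases orderOf y <;> omega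
  have hn := zpowers_le.2 hy
  refine Agent.S0228.result (by rw [card_sup_of_disj hn (BG.inf_eq_bot_of_coprime cop), hA, BG.card_zpowers, h3]) fun z z1 z2 => ?_
  have z3 : z.1 ∈ C_(A ⊔ zpowers y) := fun g hg => congrArg Subtype.val (mem_center_iff.1 z2 ⟨g, hg⟩)
  have z4 : zpowers z.1 ≤ A ⊓ C_(zpowers y) :=
    zpowers_le.2 ⟨hc.le (cent_anti le_sup_left z3), cent_anti le_sup_right z3⟩
  have c1 := BG.card_dvd z4
  have c2 := modEq (pg_of_card_eq ((BG.card_zpowers y).trans h3)) hn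
  have c3 := card_le (inf_le_left : A ⊓ C_(zpowers y) ≤ A)
  rw [BG.card_zpowers, orderOf_coe, z1] at c1
  rw [hA, Nat.ModEq] at c2
  exact h1 (k y (mem_zpowers y) (zpowers_le.1 (cent_symm (inf_eq_left.1 (eq_of_le_of_card_ge inf_le_left (by omega))))))

theorem s4083 (P : Sylow 2 G) :
    (∀ H : Subgroup G, PC 2 H → IsCyclic H ∨ (∃ n : ℕ, Nonempty (H ≃* DihedralGroup (2 ^ n))) ∨
      Nonempty (H ≃* alternatingGroup (Fin 4))) ↔
    IsCyclic P ∨ (∃ n : ℕ, 1 ≤ n ∧ Nonempty (P.1 ≃* DihedralGroup (2 ^ n))) ∧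
      ∀ K : Subgroup G, K ≤ P → # K = 4 → (∀ k ∈ K, k ^ 2 = 1) → C_(K) = K := by
  refine ⟨fun h => or_iff_not_imp_left.2 fun hc => ⟨?_, fun K k1 k2 k3 => ?_⟩, fun h H => wlog_le P
    (fun H => IsCyclic H ∨ (∃ n : ℕ, Nonempty (H ≃* DihedralGroup (2 ^ n))) ∨ Nonempty (H ≃* alternatingGroup (Fin 4)))
    (fun g H => Or.imp (fun _ => (cjEquiv g H).isCyclic.2 ‹_›) (Or.imp (fun ⟨n, ⟨e⟩⟩ => ⟨n, ⟨(cjEquiv g H).trans e⟩⟩)
      fun ⟨e⟩ => ⟨(cjEquiv g H).trans e⟩)) fun A y h1 h2 h3 => ?_⟩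
  · have := h _ (pc_of P.2 (one_mem _))
    rw [zpowers_one_eq_bot, sup_bot_eq] at this
    rcases this.resolve_left hc with ⟨n, ⟨e⟩⟩ | ⟨⟨e⟩⟩
    · refine ⟨n, Nat.one_le_iff_ne_zero.2 ?_, ⟨e⟩⟩
      rintro rfl
      exact hc (cyclic_of_prime (by rw [Nat.card_congr e.toEquiv, DihedralGroup.nat_card]; exact Nat.prime_two))
    · refine absurd ?_ (pg_not_dvd Nat.prime_three Nat.prime_two P.2 (by norm_num))
      rw [Nat.card_congr e.toEquiv, nat_card_alternatingGroup]; simp [Nat.factorial]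
  · have ab : K ≤ C_(K) := fun a ha b hb => by
      have := k3 _ (mul_mem hb ha)
      rw [sq, ← eq_inv_iff_mul_eq_one, mul_inv_rev, inv_eq_of_mul_eq_one_right ((sq a).symm.trans (k3 a ha)),
        inv_eq_of_mul_eq_one_right ((sq b).symm.trans (k3 b hb))] at this
      exact this
    refine le_antisymm (fun c hc => ?_) ab
    have ab2 := abelian_sup (BG.abelian_iff.2 ab) (abelian_of_cyclic (cyclic_zpowers c)) (cent_symm (zpowers_le.2 hc))
    rcases h _ (pc_of (pg_le P.2 k1) (cent_le_norm _ hc)) with e | ⟨n, ⟨e⟩⟩ | ⟨⟨e⟩⟩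
    · obtain ⟨a, rfl⟩ := cyclic_iff.1 (cyclic_of_le e le_sup_left)
      have := orderOf_dvd_of_pow_eq_one (k3 a (mem_zpowers a))
      rw [← BG.card_zpowers, k2] at this; omega
    · have := congrArg e (mul_comm' (e.symm (.r 1)) (e.symm (.sr 0)))
      simp only [map_mul, MulEquiv.apply_symm_apply, DihedralGroup.r_mul_sr, DihedralGroup.sr_mul_r, DihedralGroup.sr.injEq] at this
      have h2 := Nat.le_of_dvd two_pos ((ZMod.natCast_eq_zero_iff 2 (2 ^ n)).1 (by push_cast; linear_combination -this))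
      refine (eq_of_le_of_card_ge (le_sup_left : K ≤ K ⊔ zpowers c) ?_).ge (mem_sup_right (mem_zpowers c))
      rw [Nat.card_congr e.toEquiv, DihedralGroup.nat_card]; omega
    · obtain ⟨a, b, k⟩ : ∃ a b : alternatingGroup (Fin 4), a * b ≠ b * a := by decide
      exact absurd (by simpa using congrArg e (mul_comm' (e.symm a) (e.symm b))) k
  have hA := pg_le P.2 h1
  have cop := pg_coprime Nat.prime_two hA (B := zpowers y) (by rwa [BG.card_zpowers])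
  have cy {R : Subgroup G} (a : IsCyclic R) (b : R ≤ A) (c : y ∈ N_(R)) : y ∈ C_(R) :=
    zpowers_le.1 (H04.le_centralizer_of_isCyclic_of_coprime a (pg_le hA b) (zpowers_le.2 c)
      (by rw [BG.card_zpowers]; exact ((Nat.Prime.coprime_iff_not_dvd Nat.prime_two).2 h3).symm))
  refine (em (IsCyclic A)).imp (fun k => cyc_of_cent hA k h3 (cy k le_rfl h2)) fun k => ?_
  obtain ⟨⟨n, hn, ⟨e⟩⟩, h⟩ := h.resolve_left fun c => k (cyclic_of_le c h1)
  obtain ⟨σ, τ, t, m, -, d⟩ := H08.exists_dih P.2 (Nat.le_self_pow (by omega) 2) e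
  obtain ⟨s, s1, s2⟩ := SetLike.not_le_iff_exists.1 fun c : A ≤ zpowers σ => k (cyclic_of_le (cyclic_zpowers σ) c)
  have cR := cyclic_of_le (cyclic_zpowers σ) (inf_le_right : A ⊓ zpowers σ ≤ _)
  have i2 : (zpowers σ).relIndex A = 2 := relIndex_eq_two_iff.2 ⟨s, s1, fun b hb => (em (b ∈ zpowers σ)).elim
    (fun c => .inr ⟨c, fun e => s2 ((mul_mem_cancel_left c).1 e)⟩) fun c => .inl ⟨d.mul_mem_of_not (h1 hb) c (h1 s1) s2, c⟩⟩
  have cA := card_inf_mul_relIndex (zpowers σ) A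
  rw [i2, inf_comm] at cA
  obtain ⟨j, hj⟩ := pg_card Nat.prime_two (pg_le hA (inf_le_left : A ⊓ zpowers σ ≤ _))
  have j0 : j ≠ 0 := by rintro rfl; exact k (cyclic_of_prime (by rw [← cA, hj]; exact Nat.prime_two))
  obtain ⟨u, ⟨u1, u2⟩, u3⟩ := exists_orderOf_eq_prime Nat.prime_two (hj ▸ dvd_pow_self 2 j0)
  obtain rfl := (d.eq_t u2 (H08.mul_self_of_orderOf u3)).resolve_left (H08.ne_one_of_orderOf u3)
  have kl := d.isKleinFour (h1 s1) s2
  have kA : Subgroup.closure {u, s} ≤ A := (closure_le _).2 (Set.insert_subset u1 (Set.singleton_subset_iff.2 s1))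
  have hK := h _ (kA.trans h1) kl.card_four fun k hk => (sq k).trans ((H08.isKleinFour_iff.1 kl).2 k hk)
  by_cases y1 : y = 1
  · rw [y1, zpowers_one_eq_bot, sup_bot_eq]
    haveI : IsCyclic ((zpowers σ).subgroupOf A) := by
      rw [← inf_subgroupOf_left]; exact (subgroupOfEquivOfLe inf_le_left).isCyclic.2 cR
    obtain ⟨f⟩ := L.iso_dihedral ((zpowers σ).subgroupOf A) i2 fun g hg => Subtype.ext (d.sq_not (h1 g.2) hg)
    rw [← inf_subgroupOf_left, Nat.card_congr (subgroupOfEquivOfLe inf_le_left).toEquiv, hj] at f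
    exact .inl ⟨j, ⟨f⟩⟩
  by_cases j1 : j = 1
  · obtain rfl := eq_of_le_of_card_ge kA (by rw [kl.card_four, ← cA, hj, j1]; rfl)
    exact .inr (a4_of kl.card_four hK h2 h3 y1)
  refine absurd (mem_bot.1 (BG.inf_eq_bot_of_coprime cop ▸ mem_inf.2 ⟨kA (hK ▸ cent_anti kA ?_), mem_zpowers y⟩)) y1
  obtain ⟨ρ, hρ⟩ := cyclic_iff.1 cR
  have yR : y ∈ N_(A ⊓ zpowers σ) := by
    have a := conj_mem_of_norm h2 (hρ.le (mem_zpowers ρ)).1
    refine mem_norm_of_cj_le ?_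
    rw [← hρ, cj_zpowers, zpowers_le, hρ]
    refine ⟨a, by_contra fun c => ?_⟩
    have := d.ord_not (h1 a) c
    rw [BG.orderOf_conj, ← BG.card_zpowers, hρ, hj] at this
    exact j1 (Nat.pow_right_injective le_rfl this)
  refine zpowers_le.1 (coprime_cent_of_comm (zpowers_le.2 h2) cop.symm (.inr (pg_sol Nat.prime_two hA))
    (le_trans (commutator_le.2 fun a ha b hb => ?_) (cent_symm (zpowers_le.2 (cy cR inf_le_left yR)))))
  have b1 := conj_mem_of_norm (zpowers_le.2 h2 hb) (inv_mem ha)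
  rw [commutatorElement_def, mul_assoc, mul_assoc, ← mul_assoc b]
  by_cases c : a ∈ zpowers σ
  · exact mul_mem ⟨ha, c⟩ (conj_mem_of_norm (zpowers_le.2 yR hb) (inv_mem ⟨ha, c⟩))
  refine ⟨mul_mem ha b1, d.mul_mem_of_not (h1 ha) c (h1 b1) fun e => c ?_⟩
  have := conj_mem_of_norm (inv_mem (zpowers_le.2 yR hb)) (mem_inf.2 ⟨b1, e⟩)
  simpa [mul_assoc] using this.2

end H02.HE
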