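import Mathlib
import Cfsg.Agent.BG.Api4
import Cfsg.Agent.BG.Quo2
import Cfsg.Agent.H02.Frobenius
import Cfsg.Agent.H03.Frobenius
import Cfsg.Agent.H08.BaerSuzuki
import Cfsg.Agent.H27.ClassSize
import Cfsg.Agent.S0205

/-!
# Normal subgroups whose non-central elements have maximal centralizers
-/

set_option linter.unusedSectionVars false
set_option linter.unusedVariables false
set_option linter.style.haveILetI false

namespace H02.MC

open Cfsg BG Subgroup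
open scoped commutatorElement Pointwise IsMulCommutative

local notation "#" => Nat.card

universe u

variable {G : Type u} [Group G] [Finite G] {N P A L : Subgroup G} {w x y : G} {p : ℕ}

theorem nil_of (hp : p.Prime) (h : ∀ w ∈ A, ¬ p ∣ orderOf w → w ∈ C_(A)) : Group.IsNilpotent A := by
  have k {q : ℕ} (hq : q.Prime) (e : q ≠ p) {Q : Subgroup G} (hQ : IsSylowIn q Q A) : Q ≤ C_(A) := fun w hw =>
    h w (hQ.le hw) fun d => pg_not_dvd hp hq (hQ.pg hq) e.symm (d.trans (BG.orderOf_dvd_card hw))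
  refine nil_of_sylow_normal fun q hq _ => (sylow_exists hq A).imp fun Q hQ => ⟨hQ, ?_⟩
  by_cases e : q = p
  · refine le_of_sylows fun r hr _ => ?_
    by_cases f : r = q
    · exact ⟨Q, f ▸ hQ, le_norm _⟩
    · exact (sylow_exists hr A).imp fun R hR => ⟨hR, le_norm_of_cent ((k hr (e ▸ f) hR).trans (cent_anti hQ.le))⟩
  · exact le_norm_of_cent (cent_symm (k hq e hQ))

theorem idx_dvd [P.Normal] (h : P ⊔ A = ⊤) : A.index ∣ # P := by
  rw [← relIndex_top_right, ← h, relIndex_sup' le_normalizer_of_normal]; exact BG.relIndex_dvd_card _ _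

def MX (N : Subgroup G) : Prop := ∀ x ∈ N, x ∉ C_(N) → IsCoatom C_[x]

namespace MX
variable [N.Normal] (h : MX N)
include h

theorem sup (hx : x ∈ N) (x1 : x ∉ C_(N)) (k : ¬ A ≤ C_[x]) : A ⊔ C_[x] = ⊤ := (h x hx x1).2 _ (right_lt_sup.2 k)

theorem cop (hx : x ∈ N) (x1 : x ∉ C_(N)) (hy : y ∈ N) (y1 : y ∉ C_(N)) (c : Commute x y) (k : (orderOf x).Coprime (orderOf y)) :
    C_[x] = C_[y] := by
  have h1 := h _ (mul_mem hx hy) fun e => x1 (zpowers_le.2 e (H27.mem_zpowers_mul_of_coprime c k))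
  rw [show C_[x * y] = C_[x] ⊓ C_[y] from H27.cent_mul_of_coprime c k] at h1
  exact ((h1.le_iff.1 inf_le_left).resolve_left (h x hx x1).1).trans ((h1.le_iff.1 inf_le_right).resolve_left (h y hy y1).1).symm

theorem chief (hx : x ∈ N) (x1 : x ∉ C_(N)) (h1 : P ⊓ C_[x] ≤ L) (h2 : L ≤ P) (h3 : C_[x] ≤ N_(L)) : L ≤ C_[x] ∨ L = P :=
  or_iff_not_imp_left.2 fun k => by
    have := dedekind (H := C_[x]) h2 (.inl h3)
    rw [h.sup hx x1 k, inf_top_eq, sup_eq_left.2 h1] at this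
    exact this.symm

theorem normal [P.Normal] (hP : Group.IsNilpotent P) (hx : x ∈ N) (x1 : x ∉ C_(N)) (k : ¬ P ≤ C_[x]) : (P ⊓ C_[x]).Normal := by
  have n1 : C_[x] ≤ N_(P ⊓ C_[x]) := le_norm_inf' le_normalizer_of_normal
  have h1 := nil_lt_norm hP (inf_lt_left.2 k)
  have := (h.chief hx x1 h1.le inf_le_left (norm_inf le_normalizer_of_normal (norm_norm n1))).resolve_left
    fun e => h1.not_ge (le_inf inf_le_left e)
  exact normalizer_eq_top_iff.1 (eq_top_iff.2 ((h.sup hx x1 k).ge.trans (sup_le (inf_eq_left.1 this) n1)))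

theorem phi [P.Normal] (hp : p.Prime) (hP : IsPGroup p P) (hx : x ∈ N) (x1 : x ∉ C_(N)) : frattiniOf P ≤ C_[x] := by
  by_cases k : P ≤ C_[x]
  · exact (phi_le P).trans k
  refine le_sup_right.trans ((h.chief hx x1 (le_sup_left : _ ≤ _ ⊔ frattiniOf P) (sup_le inf_le_left (phi_le P))
    (norm_sup (le_norm_inf' le_normalizer_of_normal) (norm_phi le_normalizer_of_normal))).resolve_right fun e => k ?_)
  exact inf_eq_left.1 (eq_of_le_sup_phi inf_le_left e.ge)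

theorem fit_le (k : fittingOf N ≤ C_(N)) : N ≤ C_(N) := by
  have m (x : N) : (x : N ⧸ center N) = 1 ↔ x.1 ∈ C_(N) := (QuotientGroup.eq_one_iff x).trans
    ⟨fun e g hg => congrArg Subtype.val (mem_center_iff.1 e ⟨g, hg⟩), fun e => mem_center_iff.2 fun g => Subtype.ext (e g g.2)⟩
  by_cases o : Odd (# (N ⧸ center N))
  · haveI := Agent.S0205.result o
    exact (le_inf le_rfl (cent_symm k)).trans ((fit_cent_le (isSolvable_of_normal_of_quotient (center N))).trans k)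
  obtain ⟨t, ht⟩ := exists_prime_orderOf_dvd_card' 2 (even_iff_two_dvd.1 (Nat.not_odd_iff_even.1 o))
  obtain ⟨t, rfl⟩ := QuotientGroup.mk_surjective t
  have t2 := (sq _).symm.trans (ht ▸ pow_orderOf_eq_one (t : N ⧸ center N))
  obtain ⟨r, hr, r2, y, y1, y2, -⟩ := H08.exists_inverted_odd_prime_of_notMem_pCore t2 fun e => by
    haveI := (pCore_isPGroup 2 (N ⧸ center N)).isNilpotent
    have := le_fitting (N := (pCore 2 (N ⧸ center N)).comap (QuotientGroup.mk' _)) (Subgroup.isNilpotent_of_ker_le_center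
      ((QuotientGroup.mk' _).subgroupComap _) fun g hg => mem_center_iff.2 fun a => Subtype.ext
        (mem_center_iff.1 ((QuotientGroup.eq_one_iff _).1 (congrArg Subtype.val hg)) a))
    rw [(m t).2 (k ⟨t, this e, rfl⟩), orderOf_one] at ht
    omega
  obtain ⟨y, rfl⟩ := QuotientGroup.mk_surjective y
  obtain ⟨z, hz⟩ : ∃ z : N, z = y⁻¹ * (t * y * t⁻¹) := ⟨_, rfl⟩
  have z1 : (z : N ⧸ center N) = ((y : N ⧸ center N) ^ 2)⁻¹ := by
    rw [hz, sq, mul_inv_rev]; simp only [QuotientGroup.mk_mul, QuotientGroup.mk_inv, y2]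
  have z2 : t.1 * z * t.1⁻¹ = z.1⁻¹ := by
    have := (m (t * t)).1 t2 y y.2
    rw [hz]
    push_cast at this ⊢
    rw [show t.1 * (y.1⁻¹ * (t * y * t.1⁻¹)) * t.1⁻¹ = t * y.1⁻¹ * t.1⁻¹ * (t * t * y) * (t.1 * t)⁻¹ by group, ← this]; group
  have z3 (k : ℕ) (hk : k = 1 ∨ k = 2) : (z : N ⧸ center N) ^ k ≠ 1 := fun e => by
    rw [z1, inv_pow, inv_eq_one, ← pow_mul, ← orderOf_dvd_iff_pow_eq_one, y1] at e
    refine r2 ((Nat.prime_dvd_prime_iff_eq hr Nat.prime_two).1 (hr.dvd_of_dvd_pow (n := 2) (e.trans ?_)))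
    rcases hk with rfl | rfl <;> norm_num
  have z4 : z.1 ∉ C_(N) := fun e => z3 1 (.inl rfl) ((pow_one _).trans ((m z).2 e))
  have z5 := h.sup (A := N_(zpowers z.1)) z.2 z4 fun e => z3 2 (.inr rfl) (by
    have := mem_cent1.1 (e (mem_norm_of_cj_le (g := t.1) (by rw [cj_zpowers, z2, zpowers_inv])))
    rw [← mul_inv_eq_iff_eq_mul, z2, inv_eq_iff_mul_eq_one] at this
    rw [← QuotientGroup.mk_pow, sq, show z * z = 1 from Subtype.ext this, QuotientGroup.mk_one])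
  rw [sup_eq_left.2 (cent_zpowers z.1 ▸ cent_le_norm _)] at z5
  exact absurd (k (le_fit (nil_of_abelian (abelian_of_cyclic (cyclic_zpowers _))) (zpowers_le.2 z.2) (z5.ge.trans' le_top)
    (mem_zpowers _))) z4

omit h in
theorem mem_fit [A.Normal] (hw : w ∈ N) (hx : x ∈ A) (h1 : w ∈ C_(A)) (h2 : C_[x] ≤ C_[w]) : zpowers w ≤ fittingOf N := by
  have k : normalClosure {w} ≤ C_[w] :=
    (normalClosure_le_normal (Set.singleton_subset_iff.2 h1)).trans ((cent_le_cent1 hx).trans h2)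
  have k' : normalClosure {w} ≤ C_(normalClosure {w}) := normalClosure_le_normal (Set.singleton_subset_iff.2 (le_cent1_iff.1 k))
  exact (zpowers_le.2 (subset_normalClosure (Set.mem_singleton w))).trans (le_fit (nil_of_abelian (BG.abelian_iff.2 k'))
    (normalClosure_le_normal (Set.singleton_subset_iff.2 hw)) le_normalizer_of_normal)

theorem cop' (hp : p.Prime) (hP : IsPGroup p A) (hx : x ∈ A) (x0 : x ∈ N) (x1 : x ∉ C_(N)) (hy : y ∈ N) (y1 : y ∉ C_(N))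
    (c : x ∈ C_[y]) (k : ¬ p ∣ orderOf y) : C_[x] = C_[y] :=
  h.cop x0 x1 hy y1 (mem_cent1.1 c) (by
    simpa only [BG.card_zpowers] using pg_coprime hp (pg_le hP (zpowers_le.2 hx)) (B := zpowers y) (by rwa [BG.card_zpowers]))

variable [P.Normal] (hp : p.Prime) (hP : IsPGroup p P) (PN : P ≤ N)
include hp hP PN

theorem phi' : frattiniOf P ≤ C_(N) := le_cent_of_forall fun x hx => by
  by_cases x1 : x ∈ C_(N)
  · exact (phi_le P).trans (PN.trans (le_cent1_iff.2 x1))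
  · exact h.phi hp hP hx x1

theorem abel (hy : y ∈ N) (y1 : y ∉ C_(N)) (k : ¬ p ∣ orderOf y) : P ≤ C_(P) := by
  obtain ⟨q, hq, hd, u, hu, ⟨j, hj⟩, u1⟩ : ∃ q : ℕ, q.Prime ∧ q ∣ orderOf y ∧ ∃ u ∈ zpowers y, (∃ k, orderOf u = q ^ k) ∧ u ∉ C_(N) := by
    by_contra! e; exact y1 (H03.mem_of_forall_prime_pow e)
  refine fun x hx => le_cent1_iff.1 ?_
  by_cases x1 : x ∈ C_(N)
  · exact PN.trans (le_cent1_iff.2 x1)
  by_contra e
  obtain ⟨S, hS⟩ := sylow_exists hq C_[x]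
  obtain ⟨g, -, hg⟩ := sylow_Jsub hq (hS.trans_idx le_top fun d => pg_not_dvd hq hp hP (fun e => k (e ▸ hd))
    (d.trans (relIndex_top_right C_[x] ▸ idx_dvd (h.sup (PN hx) x1 e)))) (pg_of_card ((BG.card_zpowers u).trans hj)) le_top
  rw [cj_zpowers] at hg
  have v0 := ‹N.Normal›.conj_mem _ (zpowers_le.2 hy hu) g
  have v2 : ¬ p ∣ orderOf (g * u * g⁻¹) := fun d => k ((BG.orderOf_conj g u ▸ d).trans (orderOf_dvd_of_mem_zpowers hu))
  have c := h.cop' hp hP hx (PN hx) x1 v0 (fun e => u1 (by simpa [mul_assoc] using Normal.conj_mem inferInstance _ e g⁻¹))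
    (mem_cent1_comm.1 (hS.le (hg (mem_zpowers _)))) v2
  haveI := h.normal (pg_nil hp hP) (PN hx) x1 e
  exact e ((nil_cent_of_coprime (fit_nil N) (le_fit (pg_nil hp hP) PN le_normalizer_of_normal)
    (mem_fit (A := P ⊓ C_[x]) v0 ⟨hx, mem_cent1_self x⟩ (le_cent1_iff.1 (inf_le_right.trans c.le)) c.le)
    (pg_coprime hp hP (by rwa [BG.card_zpowers]))).trans ((cent_zpowers _).trans c.symm).le)

theorem fpf (hw : w ∈ N) (w1 : w ∉ C_(N)) (k : ¬ p ∣ orderOf w) : P ⊓ C_[w] ≤ C_(N) := fun x hx => by_contra fun x1 => by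
  have c := h.cop' hp hP hx.1 (PN hx.1) x1 hw w1 hx.2 k
  have m := mem_fit hw hx.1 (le_cent1_iff.1 (((h.abel hp hP PN hw w1 k).trans (cent_le_cent1 hx.1)).trans c.le)) c.le
  obtain ⟨n, hn, n1⟩ : ∃ n ∈ N, n ∉ C_[x] := SetLike.not_le_iff_exists.1 fun e => x1 (le_cent1_iff.1 e)
  have n2 : n ∉ C_(N) := fun e => n1 (cent_le_cent1 (PN hx.1) e)
  haveI : (piCoreOf {p}ᶜ (fittingOf N)).Normal :=
    normalizer_eq_top_iff.1 (eq_top_iff.2 (norm_pcore _ (norm_fit le_normalizer_of_normal)))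
  exact (h n hn n2).1 (index_eq_one.1 (Nat.eq_one_of_dvd_coprimes (pg_coprime hp hP (pcore_not_dvd hp (fittingOf N)))
    (idx_dvd (h.sup hn n2 fun e => n1 (mem_cent1_comm.1 (e hx.1)))) (idx_dvd (h.sup hn n2 fun e => n1 (c ▸ mem_cent1_comm.1
      (e (nil_le_pcore (fit_nil N) ((isPi_compl hp).2 (by rwa [BG.card_zpowers])) m (mem_zpowers w))))))))

theorem disj (hw : w ∈ N) (w1 : w ∉ C_(N)) (k : ¬ p ∣ orderOf w) : P ⊓ C_[w] ⊓ ⁅P, zpowers w⁆ = ⊥ :=
  cent_zpowers w ▸ (coprime_abelian_dprod le_normalizer_of_normal (pg_coprime hp hP (by rwa [BG.card_zpowers])).symm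
    (BG.abelian_iff.2 (h.abel hp hP PN hw w1 k))).disj

theorem fpf' (hw : w ∈ N) (w1 : w ∉ C_(N)) (k : ¬ p ∣ orderOf w) (hx : x ∈ P) (c : ⁅x, w⁆ ∈ C_(N)) : x ∈ C_(N) := by
  have m := commutator_mem_commutator hx (mem_zpowers w)
  exact h.fpf hp hP PN hw w1 k ⟨hx, mem_cent1.2 (commutatorElement_eq_one_iff_mul_comm.1 (mem_bot.1 (h.disj hp hP PN hw w1 k ▸
    ⟨⟨comm_le_left le_normalizer_of_normal m, cent_le_cent1 hw c⟩, m⟩)))⟩

theorem pel (PC : ¬ P ≤ C_(N)) (hy : y ∈ N) (y1 : y ∉ C_(N)) (k : ¬ p ∣ orderOf y) (hw : w ∈ N) (c : w ∈ C_[y])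
    (pw : IsPGroup p (zpowers w)) : w ∈ C_(N) := by_contra fun w1 =>
  pg_fix_ne_bot hp pw (pg_le hP (comm_le_left (A := zpowers y) le_normalizer_of_normal)) (norm_comm le_normalizer_of_normal
    (le_norm_of_cent (cent_zpowers y ▸ zpowers_le.2 c))) (fun b => PC ((le_inf le_rfl (cent_zpowers y ▸ comm_eq_bot.1 b)).trans
      (h.fpf hp hP PN hy y1 k))) (eq_bot_mono (h.disj hp hP PN hy y1 k) (le_inf (inf_le_inf (comm_le_left le_normalizer_of_normal)
        ((cent_zpowers w).trans (h.cop' hp pw (mem_zpowers w) hw w1 hy y1 c k)).le) inf_le_left))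

theorem cent_le (hy : y ∈ N) (y1 : y ∉ C_(N)) (k : ¬ p ∣ orderOf y) (hx : x ∈ P) (x1 : x ∉ C_(N)) :
    N ⊓ C_[x] ≤ P ⊔ N ⊓ C_(N) := fun w hw => by
  have PC : ¬ P ≤ C_(N) := fun e => x1 (e hx)
  have e := dedekind (H := C_[y]) PN (.inl le_normalizer_of_normal)
  rw [h.sup hy y1 fun e => PC ((le_inf le_rfl e).trans (h.fpf hp hP PN hy y1 k)), inf_top_eq] at e
  obtain ⟨a, ha, d, hd, rfl⟩ := (mem_sup_norm le_normalizer_of_normal).1 (e.le hw.1)
  have d1 : d ∈ C_[x] := (mul_mem_cancel_left (cent_le_cent1 hx (h.abel hp hP PN hy y1 k ha))).1 hw.2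
  refine mul_mem (mem_sup_left ha) (mem_sup_right ⟨hd.1, piPart_mul_compl {p} d ▸ mul_mem (h.pel hp hP PN PC hy y1 k
    (piPart_mem _ hd.1) (piPart_mem _ hd.2) ((isPi_singleton hp).1 (isPiElt_iff.1 (isPiElt_piPart _ d)))) (by_contra fun e =>
    x1 (h.fpf hp hP PN (piPart_mem _ hd.1) e (BG.card_zpowers (piPart {p}ᶜ d) ▸ (isPi_compl hp).1 (isPiElt_iff.1
      (isPiElt_piPart _ d))) ⟨hx, mem_cent1_comm.1 (piPart_mem _ d1)⟩))⟩)

theorem gen (PC : ¬ P ≤ C_(N)) (hw : w ∈ N) (w1 : w ∉ C_(N)) (k : ¬ p ∣ orderOf w) : N ≤ P ⊔ N ⊓ C_(N) ⊔ zpowers w := by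
  obtain ⟨x, hx, x1⟩ := SetLike.not_le_iff_exists.1 PC
  have f := h.fpf hp hP PN hw w1 k
  have n : ⊤ ≤ N_(P ⊔ N ⊓ C_(N) ⊔ zpowers w) := (h.sup hw w1 fun e => PC ((le_inf le_rfl e).trans f)).ge.trans
    (sup_le (norm_of_le (le_sup_left.trans le_sup_left)) (norm_sup le_normalizer_of_normal (cent_zpowers w ▸ cent_le_norm _)))
  have e := dedekind (H := C_[x]) (sup_le (sup_le PN inf_le_left) (zpowers_le.2 hw)) (.inl (le_top.trans n))
  rw [h.sup (PN hx) x1 fun e => x1 (f ⟨hx, mem_cent1_comm.1 (e (mem_sup_right (mem_zpowers w)))⟩), inf_top_eq] at e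
  exact e.le.trans (sup_le le_rfl ((h.cent_le hp hP PN hw w1 k hx x1).trans le_sup_left))

omit hp hP PN in
theorem main {X : Type u} [Group X] (f : N →* X) (hf : Function.Surjective f) (m : ∀ x : N, f x = 1 ↔ x.1 ∈ C_(N)) :
    (∃ p : ℕ, p.Prime ∧ IsElementaryAbelian p (⊤ : Subgroup X)) ∨ ∃ (K : Subgroup X) (p : ℕ) (w : N), p.Prime ∧ w.1 ∉ C_(N) ∧
      ¬ p ∣ # (zpowers (f w)) ∧ K.IsComplement' (zpowers (f w)) ∧ IsFrobeniusComplement (zpowers (f w)) ∧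
      (# (zpowers (f w))).Prime ∧ K.Normal ∧ (K : Set X) = frobeniusKernel (zpowers (f w)) ∧ IsElementaryAbelian p K := by
  haveI := Finite.of_surjective f hf
  by_cases k : fittingOf N ≤ C_(N)
  · refine .inl ⟨2, Nat.prime_two, (eq_bot_iff.2 fun x _ => ?_ : (⊤ : Subgroup X) = ⊥) ▸ elemAb_bot 2⟩
    obtain ⟨x, rfl⟩ := hf x
    exact (m x).2 (h.fit_le k x.2)
  obtain ⟨p, hp, -, PC⟩ : ∃ p : ℕ, p.Prime ∧ p ∣ # (fittingOf N) ∧ ¬ piCoreOf {p} (fittingOf N) ≤ C_(N) := by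
    by_contra! e; exact k (nil_le_of_pcores (fit_nil N) e)
  obtain ⟨P, hP'⟩ : ∃ P, P = piCoreOf {p} (fittingOf N) := ⟨_, rfl⟩
  have hP : IsPGroup p P := hP' ▸ pcore_pg hp _
  have PN : P ≤ N := hP' ▸ (pcore_le _ _).trans (BG.fit_le N)
  haveI : P.Normal := hP' ▸ normalizer_eq_top_iff.1 (eq_top_iff.2 (norm_pcore _ (norm_fit le_normalizer_of_normal)))
  rw [← hP'] at PC
  obtain ⟨K, hK⟩ : ∃ K, K = (P.subgroupOf N).map f := ⟨_, rfl⟩
  haveI : K.Normal := hK ▸ Normal.map inferInstance f hf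
  have e : IsElementaryAbelian p K := hK ▸ ⟨BG.abelian_iff.2 (le_cent_iff.2 (by
    rintro _ ⟨a, ha, rfl⟩ _ ⟨b, hb, rfl⟩
    exact commutatorElement_eq_one_iff_mul_comm.1 ((map_commutatorElement f a b).symm.trans ((m _).2
      (h.phi' hp hP PN (der_le_phi hp hP (commutator_mem_commutator ha hb))))))), by
    rintro _ ⟨a, ha, rfl⟩
    exact (map_pow f a p).symm.trans ((m _).2 (h.phi' hp hP PN (pow_mem_phi hp hP ha)))⟩
  have g (w : N) (hw : N ≤ P ⊔ N ⊓ C_(N) ⊔ zpowers w.1) : K ⊔ zpowers (f w) = ⊤ := eq_top_iff.2 fun x _ => by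
    obtain ⟨x, rfl⟩ := hf x
    obtain ⟨y, hy, e⟩ := (hw.trans (sup_le (sup_le (fun a ha => ⟨⟨a, PN ha⟩, mem_sup_left (hK ▸ ⟨⟨a, PN ha⟩, ha, rfl⟩), rfl⟩)
      fun a ha => ⟨⟨a, ha.1⟩, mem_comap.2 ((m ⟨a, ha.1⟩).2 ha.2 ▸ one_mem _), rfl⟩) (zpowers_le.2 ⟨w, mem_sup_right
        (mem_zpowers _), rfl⟩)) : N ≤ ((K ⊔ zpowers (f w)).comap f).map N.subtype) x.2
    exact Subtype.ext e ▸ hy
  by_cases a : ∀ w ∈ N, ¬ p ∣ orderOf w → w ∈ C_(N)
  · have n := nil_of hp a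
    have := g 1 ((nil_dprod {p} n).sup.ge.trans (sup_le (le_sup_of_le_left (le_sup_of_le_left (by rw [hP', fit_eq_self n])))
      (le_sup_of_le_left (le_sup_of_le_right fun x hx => ⟨pcore_le _ _ hx, a x (pcore_le _ _ hx) fun d =>
        pcore_not_dvd hp N (d.trans (BG.orderOf_dvd_card hx))⟩))))
    rw [map_one, zpowers_one_eq_bot, sup_bot_eq] at this
    exact .inl ⟨p, hp, this ▸ e⟩
  push Not at a
  obtain ⟨y, hy, y2, y1⟩ := a
  obtain ⟨q, hq, d⟩ := exists_prime_dvd_card (BG.zpowers_ne_bot (mt (m ⟨y, hy⟩).1 y1))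
  obtain ⟨_, ⟨j, rfl⟩, hj⟩ := exists_orderOf_eq_prime hq d
  obtain ⟨w, hw⟩ : ∃ w : N, w = ⟨y, hy⟩ ^ j := ⟨_, rfl⟩
  simp only [← map_zpow, ← hw] at hj
  have w2 (i : ℤ) : ¬ p ∣ orderOf (w ^ i).1 := fun d => y2 (d.trans (orderOf_dvd_of_mem_zpowers ⟨j * i, by simp [hw, zpow_mul]⟩))
  have w1 : f w ≠ 1 := fun e => by rw [e, orderOf_one] at hj; exact hq.one_lt.ne hj
  have w3 : ¬ p ∣ # (zpowers (f w)) := fun d => w2 1 ((BG.card_zpowers (f w) ▸ d).trans (by simpa using orderOf_map_dvd f w))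
  have c := isComplement'_of_disjoint_and_mul_eq_univ (disjoint_iff.2 (pg_inf_eq_bot hp e.pg w3))
    (by rw [← normal_mul, g w (h.gen hp hP PN PC w.2 (mt (m w).2 w1) (by simpa using w2 1)), coe_top])
  have K0 : K ≠ ⊥ := fun b => PC fun a ha => (m ⟨a, PN ha⟩).1 (mem_bot.1 (b ▸ hK ▸ ⟨⟨a, PN ha⟩, ha, rfl⟩))
  have fp : ∀ u ∈ zpowers (f w), u ≠ 1 → K ⊓ centralizer {u} = ⊥ := by
    rintro _ ⟨i, rfl⟩ u1
    refine eq_bot_iff.2 fun a ⟨ha, c⟩ => ?_
    obtain ⟨a, hb, rfl⟩ := hK.le ha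
    simp only [← map_zpow] at u1 c
    exact (m a).2 (h.fpf' hp hP PN (w ^ i).2 (mt (m _).2 u1) (w2 i) hb ((m ⁅a, w ^ i⁆).1 ((map_commutatorElement f _ _).trans
      (commutatorElement_eq_one_iff_mul_comm.2 (mem_cent1.1 c)))))
  exact .inr ⟨K, p, w, hp, mt (m w).2 w1, w3, c, isFrob_of_fpf c K0 (BG.zpowers_ne_bot w1) fp, by rwa [BG.card_zpowers, hj],
    inferInstance, frobKer_eq_of_fpf c K0 (BG.zpowers_ne_bot w1) fp, e⟩

end MX

theorem s3905 [N.Normal] (h : MX N) : (∃ p : ℕ, p.Prime ∧ IsElementaryAbelian p (⊤ : Subgroup (N ⧸ center N))) ∨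
    ∃ (Q K : Subgroup (N ⧸ center N)) (p : ℕ), p.Prime ∧ IsFrobeniusComplement Q ∧ (# Q).Prime ∧
      K.Normal ∧ (K : Set (N ⧸ center N)) = frobeniusKernel Q ∧ IsElementaryAbelian p K :=
  (h.main (QuotientGroup.mk' _) (QuotientGroup.mk'_surjective _) fun x => (QuotientGroup.eq_one_iff x).trans
    ⟨fun e g hg => congrArg Subtype.val (mem_center_iff.1 e ⟨g, hg⟩), fun e => mem_center_iff.2 fun g => Subtype.ext (e g g.2)⟩).imp_right
    fun ⟨K, p, w, hp, _, _, _, a, b, c, d, e⟩ => ⟨_, K, p, hp, a, b, c, d, e⟩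

theorem s3904 (h : ∀ x : G, x ∉ center G → IsCoatom C_[x]) :
    (∃ p : ℕ, p.Prime ∧ IsElementaryAbelian p (⊤ : Subgroup (G ⧸ center G))) ∨
    (¬ IsMulCommutative (G ⧸ center G) ∧ (∀ H : Subgroup (G ⧸ center G), H ≠ ⊤ → IsMulCommutative H) ∧
      ∃ p q a : ℕ, p.Prime ∧ q.Prime ∧ p ≠ q ∧ # (G ⧸ center G) = p ^ a * q ∧
        ∀ P : Subgroup (G ⧸ center G), # P = p ^ a → P.Normal) := by
  have z : C_((⊤ : Subgroup G)) = center G := by rw [coe_top, centralizer_univ]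
  refine (MX.main (N := ⊤) (fun x _ e => h x (z ▸ e)) ((QuotientGroup.mk' (center G)).comp (⊤ : Subgroup G).subtype)
    (fun x => (QuotientGroup.mk_surjective x).elim fun y e => ⟨⟨y, trivial⟩, e⟩) fun x => (QuotientGroup.eq_one_iff x.1).trans (by rw [z])).imp_right ?_
  rintro ⟨K, p, ⟨w, hw⟩, hp, w1, w2, c, a, b, n, d, e⟩
  obtain ⟨Q, hQ⟩ : ∃ Q, Q = zpowers (w : G ⧸ center G) := ⟨_, rfl⟩
  simp only [MonoidHom.comp_apply, coe_subtype, QuotientGroup.mk'_apply, ← hQ] at w2 c a b d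
  have mx (H) (hH : Q ≤ H) : H = Q ∨ H = ⊤ := by
    have k : C_[w] ≤ Q.comap (QuotientGroup.mk' _) := fun g hg => IsFrob.centralizer_le a (hQ ▸ mem_zpowers _)
      (mt (QuotientGroup.eq_one_iff w).1 (z ▸ w1)) (mem_cent1.2 (congrArg QuotientGroup.mk (mem_cent1.1 hg)))
    have i := comap_injective (QuotientGroup.mk'_surjective (center G))
    exact ((h w (z ▸ w1)).le_iff.1 (k.trans (comap_mono hH))).symm.imp (fun t => i (le_antisymm (t.le.trans k) (comap_mono hH))) (i ·)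
  have s : Sdprod K Q ⊤ := ⟨c.sup_eq_top, le_normalizer_of_normal, c.disjoint.eq_bot⟩
  obtain ⟨j, hj⟩ := pg_card hp e.pg
  refine ⟨fun m => a.1 (eq_bot_iff.2 (IsFrob.center_eq_bot a ▸ fun x _ => mem_center_iff.2 fun g => m.is_comm.comm g x)), fun H hH => ?_,
    p, # Q, j, hp, b, fun t => w2 (t ▸ dvd_rfl), by rw [← hj, ← s.card, card_top], fun P hP => ?_⟩
  · by_cases k : H ≤ K
    · exact abelian_of_le e.1 k
    have t : K.relIndex H = # Q := ((Nat.dvd_prime b).1 (s.relIndex_left ▸ relIndex_dvd_of_norm le_top s.normal)).resolve_left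
      (mt relIndex_eq_one.1 k)
    have t2 : K ⊔ H = ⊤ := eq_of_le_of_card_eq le_top (by
      rw [← card_mul_relIndex (le_sup_left : K ≤ K ⊔ H), BG.relIndex_sup le_normalizer_of_normal, t, s.card])
    have n2 : Q ≤ N_(K ⊓ H) := le_top.trans (t2.ge.trans (sup_le (le_norm_of_abelian e.1 inf_le_left)
      (le_norm_inf' le_normalizer_of_normal)))
    rcases mx (K ⊓ H ⊔ Q) le_sup_right with u | u
    · have := card_inf_mul_relIndex K H
      rw [eq_bot_mono s.disj (le_inf inf_le_left (le_sup_left.trans u.le)), card_bot, one_mul, t] at this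
      exact abelian_of_cyclic (cyclic_of_prime (this ▸ b))
    · have := dedekind (V := K) inf_le_left (.inl n2)
      rw [u, s.disj, inf_top_eq, sup_bot_eq] at this
      exact absurd ((sup_eq_right.2 (this.le.trans inf_le_right)).symm.trans t2) hH
  · exact eq_of_le_of_card_eq ((isSylowIn_mk hp le_top e.pg (s.relIndex_left ▸ w2)).le_of_norm_pg' hp (pg_of_card hP) le_top
      le_normalizer_of_normal) (hP.trans hj.symm) ▸ n

end H02.MC
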