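import Mathlib
import Cfsg.Agent.H02.NS1
import Cfsg.Agent.H02.BQ3
import Cfsg.Agent.H02.FrobCompl
import Cfsg.Agent.H08.Simp2
import Cfsg.Agent.S0144

/-!
# Groups with few same-order class sizes
-/

set_option linter.unusedSectionVars false
set_option linter.unusedVariables false
set_option linter.style.haveILetI false

namespace H02.NS

open Cfsg BG MulAction Subgroup H02.BQ
open scoped commutatorElement Pointwise

local notation "#" => Nat.card

variable {G : Type*} [Group G] [Finite G] {p q m n : ℕ}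

theorem ndvd (hp : p.Prime) (hq : q.Prime) (h : p ≠ q) : ¬ p ∣ q := fun c => h ((Nat.prime_dvd_prime_iff_eq hp hq).1 c)

theorem mul_dvd (hp : p.Prime) (h : ¬ p ∣ m) (h1 : p ∣ n) (h2 : m ∣ n) : p * m ∣ n :=
  ((Nat.Prime.coprime_iff_not_dvd hp).2 h).mul_dvd_of_dvd_of_dvd h1 h2

theorem dvd_of_two (hp : p.Prime) (h2 : p ≠ 2) {a : ℕ} (h : p ∣ a + a) : p ∣ a :=
  (hp.dvd_mul.1 (two_mul a ▸ h)).resolve_left (ndvd hp Nat.prime_two h2)

theorem two_lt (hp : p.Prime) (h : p ≠ 2) : 2 < p := lt_of_le_of_ne hp.two_le h.symm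

theorem two_lt_mul (hp : p.Prime) (hq : 2 ≤ q) : 2 < p * q := by nlinarith [hp.two_le]

theorem ord_prime (hp : p.Prime) (h : s G (p * p) = 0) {x : G} {k : ℕ} (hx : orderOf x = p ^ k) (x1 : x ≠ 1) :
    orderOf x = p := by
  rcases k with _ | _ | k
  · simp [x1] at hx
  · simpa using hx
  · exact absurd h (s_ne_of_dvd ⟨p ^ k, by ring⟩ (s_ne.2 ⟨x, hx⟩))

theorem pg_of_primes (hp : p.Prime) (h : ∀ q, q.Prime → q ∣ # G → q = p) : IsPGroup p G :=
  IsPGroup.of_card (Nat.eq_prime_pow_of_unique_prime_dvd Nat.card_pos.ne' fun a b => h _ a b)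

theorem exp_prime (hp : p.Prime) (h : s G (p * p) = 0) {P : Subgroup G} (hP : IsPGroup p P) (h0 : P ≠ ⊥) :
    Monoid.exponent P = p := by
  haveI := Fact.mk hp
  haveI := (nontrivial_iff_ne_bot P).2 h0
  refine (Monoid.exponent_eq_prime_iff hp).2 fun g g1 => ?_
  obtain ⟨k, hk⟩ := IsPGroup.iff_orderOf.1 hP g
  rw [← orderOf_coe] at hk ⊢
  exact ord_prime hp h hk fun c => g1 (Subtype.ext c)

theorem four (h : s G 2 = 1) (h4 : 4 ∣ # G) : 4 ∣ 2 + s G 4 := by
  have := pow_dvd Nat.prime_two (k := 2) h4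
  simpa [Finset.sum_range_succ, s_one, h] using this

theorem two_vals (hn : n ≠ 1) (h : vals G = {1, n}) :
    (∃ p : ℕ, p.Prime ∧ IsPGroup p G ∧ 3 ≤ # G ∧ Monoid.exponent G = p) ∨
      Nonempty (G ≃* QuaternionGroup 2) ∨ (IsCyclic G ∧ # G = 4) ∨
      (∃ (p : ℕ) (P : Type) (_ : Group P) (_ : Finite P), p.Prime ∧ p ≠ 2 ∧ IsPGroup p P ∧ Monoid.exponent P = p ∧
        Nonempty (G ≃* Multiplicative (ZMod 2) × P)) := by
  have v : ∀ m, s G m = 0 ∨ s G m = 1 ∨ s G m = n := fun m => by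
    by_contra! c
    exact (show s G m ∈ ({1, n} : Set ℕ) from h ▸ mem_vals c.1).elim c.2.1 c.2.2
  have v2 : ∀ m, 2 < m → s G m = 0 ∨ s G m = n := fun m hm => by
    have := even_s (G := G) hm
    have := v m
    omega
  obtain ⟨m, hm, n0⟩ := vals_ex (h ▸ Or.inr rfl : n ∈ vals G)
  have A : ∀ p q, p.Prime → q.Prime → s G p = n → s G q = n → p = q := by
    have : ∀ p q, p.Prime → q.Prime → s G p = n → s G q = n → p ≠ q → p = 2 := fun p q hp hq e1 e2 ne => by
      have d1 := (s_prime hp).1 (e1 ▸ n0)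
      have := add_dvd hp (ndvd hp hq ne) (mul_dvd hp (ndvd hp hq ne) d1 ((s_prime hq).1 (e2 ▸ n0)))
      have nd := e1 ▸ not_dvd_s hp d1
      by_contra c
      rcases v2 _ (two_lt_mul hp hq.two_le) with a | a <;> rw [e2, a] at this
      exacts [nd this, nd (dvd_of_two hp c this)]
    intro p q hp hq e1 e2
    by_contra ne
    exact ne ((this p q hp hq e1 e2 ne).trans (this q p hq hp e2 e1 (Ne.symm ne)).symm)
  have B : ∀ p, p.Prime → s G p = n → s G (p * p) = 0 := fun p hp e =>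
    (v2 _ (two_lt_mul hp hp.two_le)).resolve_right fun c =>
      not_dvd_s hp ((s_prime hp).1 (e ▸ n0)) (e ▸ c ▸ sq_dvd hp dvd_rfl)
  have C : ∀ p, p.Prime → p ≠ 2 → p ∣ # G → s G p = n := fun p hp ne d =>
    (v2 p (two_lt hp ne)).resolve_left ((s_prime hp).2 d)
  have m1 : m ≠ 1 := by rintro rfl; exact hn (hm ▸ s_one)
  have md := dvd_of_s (hm ▸ n0 : s G m ≠ 0)
  by_cases c : s G 2 = 1
  swap
  · have D : ∀ p, p.Prime → p ∣ # G → s G p = n := fun p hp d => by
      by_cases ne : p = 2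
      · subst ne
        exact ((v 2).resolve_left ((s_prime hp).2 d)).resolve_left c
      · exact C p hp ne d
    have hp := Nat.minFac_prime m1
    have d := (Nat.minFac_dvd m).trans md
    have hG := pg_of_primes hp fun q hq dq => A _ _ hq hp (D q hq dq) (D _ hp d)
    refine Or.inl ⟨_, hp, hG, ?_, ?_⟩
    · by_contra c3
      have := Nat.le_of_dvd Nat.card_pos d
      have := hp.two_le
      have e : # G = 2 := by omega
      have := sum_card (G := G)
      rw [e, Nat.prime_two.sum_divisors, s_one] at this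
      omega
    · rw [← Monoid.exponent_eq_of_mulEquiv topEquiv]
      exact exp_prime hp (B _ hp (D _ hp d)) (hG.to_subgroup _) (ne_bot_of_dvd hp (by rwa [card_top]))
  obtain ⟨z, hz⟩ := s_ne.1 (c ▸ one_ne_zero : s G 2 ≠ 0)
  have uz : ∀ x : G, orderOf x = 2 → x = z := fun x hx =>
    congrArg Subtype.val ((Nat.card_eq_one_iff_unique.1 c).1.elim ⟨x, hx⟩ ⟨z, hz⟩)
  by_cases c2 : ∃ p, p.Prime ∧ p ≠ 2 ∧ p ∣ # G
  · obtain ⟨p, hp, p2, d⟩ := c2
    haveI := Fact.mk hp
    have e := C p hp p2 d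
    have nd := e ▸ not_dvd_s hp d
    have n4 : ¬ 4 ∣ # G := fun c4 => by
      have e4 : s G 4 = n := (v2 4 (by norm_num)).resolve_left fun a => by have := four c c4; omega
      have p4 : ¬ p ∣ 4 := fun a => ndvd hp Nat.prime_two p2 (hp.dvd_of_dvd_pow (n := 2) a)
      have := add_dvd hp p4 (mul_dvd hp p4 d c4)
      rcases v2 _ (two_lt_mul (q := 4) hp (by norm_num)) with a | a <;> rw [e4, a] at this
      exacts [nd this, nd (dvd_of_two hp p2 this)]
    obtain ⟨P, hP⟩ := sylow_exists hp (⊤ : Subgroup G)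
    have cz : # (zpowers z) = 2 := (card_zpowers z).trans hz
    have dj : zpowers z ⊓ P = ⊥ := BG.inf_eq_bot_of_coprime (pg_coprime_ne Nat.prime_two hp (pg_of_card_eq cz) (hP.pg hp) p2.symm)
    have cm : ∀ g, z * g = g * z := fun g => (mul_inv_eq_iff_eq_mul.1 (uz _ ((orderOf_conj g z).trans hz))).symm
    have cG : # G = 2 * # P := by
      refine Nat.dvd_antisymm ((Nat.dvd_iff_prime_pow_dvd_dvd _ _).2 fun r k hr hk => ?_)
        (mul_dvd Nat.prime_two (pg_not_dvd Nat.prime_two hp (hP.pg hp) p2.symm) (cz ▸ card_dvd_top _) (card_dvd_top _))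
      rcases k with _ | k
      · simp
      by_cases r2 : r = 2
      · subst r2
        rcases k with _ | k
        · simp
        · exact absurd ((Dvd.intro (2 ^ k) (by ring)).trans hk) n4
      · obtain rfl := A r p hr hp (C r hr r2 ((dvd_pow_self r k.succ_ne_zero).trans hk)) e
        exact (hP.pow_dvd hp (by rwa [card_top])).mul_left 2
    haveI := Fact.mk Nat.prime_two
    let e1 : Multiplicative (ZMod 2) ≃* zpowers z := mulEquivOfPrimeCardEq (p := 2) (by simp) cz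
    let e2 : Shrink.{0} P ≃* P := Shrink.mulEquiv
    let φ := MonoidHom.noncommCoprod ((zpowers z).subtype.comp e1.toMonoidHom) (P.subtype.comp e2.toMonoidHom)
      fun a b => (mem_cent1.1 (zpowers_le.2 (mem_cent1.2 (cm _)) (e1 a).2))
    have inj : Function.Injective φ := (injective_iff_map_eq_one φ).2 fun a ha => by
      have ha' : (e1 a.1 : G) * e2 a.2 = 1 := ha
      have k := eq_one_of_mem_of_disj dj (e1 a.1).2 (by rw [eq_inv_of_mul_eq_one_left ha']; exact inv_mem (e2 a.2).2)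
      rw [k, one_mul] at ha'
      exact Prod.ext ((map_eq_one_iff _ e1.injective).1 (Subtype.ext k)) ((map_eq_one_iff _ e2.injective).1 (Subtype.ext ha'))
    haveI : Finite (Shrink.{0} P) := Finite.of_equiv _ e2.symm.toEquiv
    refine Or.inr (Or.inr (Or.inr ⟨p, Shrink.{0} P, inferInstance, inferInstance, hp, p2, (hP.pg hp).of_equiv e2.symm, ?_,
      ⟨(MulEquiv.ofBijective φ ((Nat.bijective_iff_injective_and_card φ).2 ⟨inj, ?_⟩)).symm⟩⟩))
    · rw [Monoid.exponent_eq_of_mulEquiv e2]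
      exact exp_prime hp (B p hp e) (hP.pg hp) (hP.ne_bot' hp (by rwa [card_top]))
    · rw [Nat.card_prod, cG, Nat.card_congr e2.toEquiv]; simp
  haveI := Fact.mk Nat.prime_two
  have hG := pg_of_primes (G := G) Nat.prime_two fun q hq d => by_contra fun a => c2 ⟨q, hq, a, d⟩
  obtain ⟨x, hx⟩ := s_ne.1 (hm ▸ n0 : s G m ≠ 0)
  obtain ⟨k, hk⟩ := IsPGroup.iff_orderOf.1 hG x
  have s4 : s G 4 ≠ 0 := fun a => hn (by
    rw [← hm, ← hx, ord_prime Nat.prime_two a hk (fun b => m1 (by rw [← hx, b, orderOf_one])), c])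
  have c4 := dvd_of_s s4
  have s8 : ∀ g : G, ¬ 8 ∣ orderOf g := fun g a => by
    have := four c c4
    have : 4 ∣ s G 8 := tot_dvd (G := G) 8
    have := s_ne_of_dvd a (s_ne.2 ⟨g, rfl⟩)
    have := v2 4 (by norm_num)
    have := v2 8 (by norm_num)
    omega
  have cy : IsCyclic G → # G = 4 := fun a => by
    obtain ⟨g, hg⟩ := a.exists_ofOrder_eq_natCard
    obtain ⟨j, hj⟩ := IsPGroup.iff_card.1 hG
    have := s8 g
    rw [hg, hj] at this
    rw [hj] at c4 ⊢
    have a1 : 2 ≤ j := (Nat.pow_dvd_pow_iff_le_right (by norm_num : 1 < 2)).1 c4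
    have a2 : ¬ 3 ≤ j := fun b => this (pow_dvd_pow 2 b)
    obtain rfl : j = 2 := by omega
    rfl
  have := Cfsg.Agent.S0016.result 2 hG fun H K hH hK => by
    obtain ⟨a, ha, oa⟩ := exists_orderOf_eq_prime (H := H) Nat.prime_two hH.symm.dvd
    obtain ⟨b, hb, ob⟩ := exists_orderOf_eq_prime (H := K) Nat.prime_two hK.symm.dvd
    rw [← zpowers_eq_of_prime (hH ▸ Nat.prime_two) ha (fun c => by simp [c] at oa),
      ← zpowers_eq_of_prime (hK ▸ Nat.prime_two) hb (fun c => by simp [c] at ob), uz a oa, uz b ob]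
  rcases this with a | ⟨-, _ | _ | j, ⟨e⟩⟩
  · exact Or.inr (Or.inr (Or.inl ⟨a, cy a⟩))
  · haveI := quat_one
    have a := isCyclic_of_injective e.toMonoidHom e.injective
    exact Or.inr (Or.inr (Or.inl ⟨a, cy a⟩))
  · exact Or.inr (Or.inl ⟨e⟩)
  · refine absurd ?_ (s8 (e.symm (QuaternionGroup.a 1)))
    rw [MulEquiv.orderOf_eq, QuaternionGroup.orderOf_a_one]
    exact ⟨2 ^ j, by ring⟩

theorem sol_of_primes (h : ∀ p q, p.Prime → q.Prime → p ≠ 2 → q ≠ 2 → p ∣ # G → q ∣ # G → p = q) : Group.IsSolvable G := by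
  obtain ⟨a, m, hm, e⟩ := Nat.exists_eq_pow_mul_and_not_dvd (Nat.card_pos (α := G)).ne' 2 (by norm_num)
  by_cases m1 : m = 1
  · exact Cfsg.Agent.S0144.result 2 2 a 0 Nat.prime_two Nat.prime_two (by simp [e, m1])
  have hp := Nat.minFac_prime m1
  have k : ∀ r, r ∣ m → r ∣ # G ∧ r ≠ 2 := fun r d => ⟨e ▸ d.mul_left _, fun c => hm (c ▸ d)⟩
  have := Nat.eq_prime_pow_of_unique_prime_dvd (p := m.minFac) (by rintro rfl; simp at hm) fun {r} hr d =>
    h _ _ hr hp (k r d).2 (k _ (Nat.minFac_dvd m)).2 (k r d).1 (k _ (Nat.minFac_dvd m)).1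
  exact Cfsg.Agent.S0144.result 2 _ a _ Nat.prime_two hp (by rw [e, ← this])

theorem sol_of_four (h : ¬ 4 ∣ # G) : Group.IsSolvable G := by
  haveI := Fact.mk Nat.prime_two
  obtain ⟨P⟩ : Nonempty (Sylow 2 G) := inferInstance
  obtain ⟨k, hk⟩ := IsPGroup.iff_card.1 P.isPGroup'
  have : k ≤ 1 := by_contra fun c => h ((pow_dvd_pow 2 (by omega : 2 ≤ k)).trans (hk ▸ card_dvd_top _))
  haveI : IsCyclic P := isCyclic_of_card_dvd_prime (p := 2) (hk ▸ pow_dvd_pow 2 this)
  exact H08.sol_of_npc (H08.hasNPC_of_isCyclic P)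

theorem three_sol (h : (vals G).ncard = 3) : Group.IsSolvable G := by
  by_cases h4 : 4 ∣ # G
  swap
  · exact sol_of_four h4
  have h2 : 2 ∣ # G := Dvd.dvd.trans (by norm_num) h4
  have o2 := not_dvd_s Nat.prime_two h2
  refine sol_of_primes fun p q hp hq p2 q2 dp dq => by_contra fun ne => ?_
  have np := not_dvd_s hp dp
  have nq := not_dvd_s hq dq
  have sp := (s_prime hp).2 dp
  have sq := (s_prime hq).2 dq
  have pq := add_dvd hp (ndvd hp hq ne) (mul_dvd hp (ndvd hp hq ne) dp dq)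
  by_cases c : s G 2 = 1
  swap
  · obtain ⟨b, -, -, -, v⟩ := three h (mem_vals ((s_prime Nat.prime_two).2 h2)) c
    have v2 : ∀ m, 2 < m → s G m = 0 ∨ s G m = b := fun m hm => by
      have := even_s (G := G) hm
      have := v m
      omega
    rw [(v2 p (two_lt hp p2)).resolve_left sp] at np
    rw [(v2 q (two_lt hq q2)).resolve_left sq] at pq
    rcases v2 _ (two_lt_mul hp hq.two_le) with a | a <;> rw [a] at pq
    exacts [np pq, np (dvd_of_two hp p2 pq)]
  have f4 := four c h4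
  obtain ⟨b, -, -, -, v⟩ := three h (mem_vals (m := 4) (by omega)) (by omega)
  have v2 : ∀ m, 2 < m → s G m = 0 ∨ s G m = s G 4 ∨ s G m = b := fun m hm => by
    have := even_s (G := G) hm
    have := v m
    omega
  have n4 : ∀ p, p.Prime → p ≠ 2 → ¬ p ∣ 4 := fun p hp p2 a => ndvd hp Nat.prime_two p2 (hp.dvd_of_dvd_pow (n := 2) a)
  have A : ∀ p, p.Prime → p ≠ 2 → p ∣ # G → ¬ p ∣ s G 4 → s G (p * 4) = b ∧ p ∣ s G 4 + b := fun p hp p2 dp nd => by
    have := add_dvd hp (n4 p hp p2) (mul_dvd hp (n4 p hp p2) dp h4)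
    rcases v2 _ (two_lt_mul (q := 4) hp (by norm_num)) with a | a | a <;> rw [a] at this
    exacts [absurd this nd, absurd (dvd_of_two hp p2 this) nd, ⟨a, this⟩]
  have B : ∀ p q, p.Prime → q.Prime → p ≠ 2 → q ≠ 2 → p ≠ q → p ∣ # G → q ∣ # G → s G p = s G 4 → s G q ≠ b :=
    fun p q hp hq p2 q2 ne dp dq e1 e2 => by
      have np := e1 ▸ not_dvd_s hp dp
      have nb : ¬ p ∣ b := fun a => np ((Nat.dvd_add_left a).1 (A p hp p2 dp np).2)
      have pq := add_dvd hp (ndvd hp hq ne) (mul_dvd hp (ndvd hp hq ne) dp dq)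
      have := two_mul_le hp (ndvd hp hq ne) (two_lt hq q2) (e2 ▸ nb)
      rcases v2 _ (two_lt_mul hp hq.two_le) with a | a | a <;> rw [e2, a] at pq
      · exact nb pq
      · omega
      · exact nb (dvd_of_two hp p2 pq)
  have qp := add_dvd hq (ndvd hq hp (Ne.symm ne)) (mul_dvd hq (ndvd hq hp (Ne.symm ne)) dq dp)
  rw [mul_comm] at qp
  have C : ¬ p ∣ s G 4 ∧ ¬ q ∣ b := by
    rcases (v2 p (two_lt hp p2)).resolve_left sp with a | a <;> rcases (v2 q (two_lt hq q2)).resolve_left sq with d | d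
    · refine ⟨a ▸ np, fun e => ?_⟩
      rw [d] at nq
      rcases v2 _ (two_lt_mul hp hq.two_le) with f | f | f <;> rw [a, f] at qp
      exacts [nq qp, nq (dvd_of_two hq q2 qp), nq ((Nat.dvd_add_left e).1 qp)]
    · exact absurd d (B p q hp hq p2 q2 ne dp dq a)
    · exact absurd a (B q p hq hp q2 p2 (Ne.symm ne) dq dp d)
    · refine ⟨fun e => ?_, d ▸ nq⟩
      rw [a] at np
      rcases v2 _ (two_lt_mul hp hq.two_le) with f | f | f <;> rw [d, f] at pq
      exacts [np pq, np ((Nat.dvd_add_left e).1 pq), np (dvd_of_two hp p2 pq)]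
  have q4 : ¬ q ∣ p * 4 := fun a => (hq.dvd_mul.1 a).elim (ndvd hq hp (Ne.symm ne)) (n4 q hq q2)
  have := add_dvd hq q4 (mul_dvd hq q4 dq (mul_dvd hp (n4 p hp p2) dp h4))
  rw [(A p hp p2 dp C.1).1] at this
  have t := (Nat.totient_dvd_of_dvd (dvd_mul_left (p * 4) q)).trans (tot_dvd (G := G) _)
  rw [Nat.totient_mul ((Nat.Prime.coprime_iff_not_dvd hp).2 (n4 p hp p2)), Nat.totient_prime hp,
    show Nat.totient 4 = 2 by decide] at t
  obtain ⟨k, hk⟩ := hp.even_sub_one p2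
  have t4 : 4 ∣ s G (q * (p * 4)) := Dvd.dvd.trans ⟨k, by omega⟩ t
  rcases v2 _ (two_lt_mul (q := p * 4) hq (by have := hp.pos; omega)) with a | a | a <;> rw [a] at this t4
  · exact C.2 this
  · omega
  · exact C.2 (dvd_of_two hq q2 this)

theorem pow_coset {K : Subgroup G} {k x : G} (hx : x ∈ N_(K)) (hk : k ∈ K) (n : ℕ) : (k * x) ^ n * (x ^ n)⁻¹ ∈ K := by
  induction n with
  | zero => simp
  | succ n ih =>
    have := mul_mem ih (conj_mem_of_norm (pow_mem hx n) hk)
    rwa [show (k * x) ^ n * (x ^ n)⁻¹ * (x ^ n * k * (x ^ n)⁻¹) = (k * x) ^ (n + 1) * (x ^ (n + 1))⁻¹ by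
      rw [pow_succ, pow_succ]; group] at this

theorem mem_of_pow {K : Subgroup G} {x : G} (h : n.Coprime (orderOf x)) (hx : x ^ n ∈ K) : x ∈ K := by
  obtain ⟨k, hk⟩ := exists_pow_eq_self_of_coprime h
  exact hk ▸ pow_mem hx k

theorem frob_of (hp : p.Prime) (hq : q.Prime) (ne : p ≠ q) (q2 : q ≠ 2) (dq : q ∣ # G)
    (h : ∀ g : G, g ^ p = 1 ∨ g ^ q = 1) {V : Subgroup G} [V.Normal] (h0 : V ≠ ⊥) (hV : IsElementaryAbelian p V) :
    ∃ C : Subgroup G, IsFrobeniusComplement C ∧ (# C).Prime := by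
  haveI := Fact.mk hq
  haveI := Fact.mk hp
  haveI := hV.abelian
  have nc : ∀ x y : G, orderOf x = p → orderOf y = q → x * y ≠ y * x := fun x y a b c => by
    have o := ord_mul c (by rw [a, b]; exact (Nat.coprime_primes hp hq).2 ne)
    rw [a, b] at o
    rcases h (x * y) with e | e
    · exact ndvd hq hp ne.symm ((dvd_mul_left q p).trans (o ▸ orderOf_dvd_of_pow_eq_one e))
    · exact ndvd hp hq ne ((dvd_mul_right p q).trans (o ▸ orderOf_dvd_of_pow_eq_one e))
  obtain ⟨Q, hQ⟩ := sylow_exists hq (⊤ : Subgroup G)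
  have hQ' := hQ.pg hq
  have oq : ∀ y ∈ Q, y ≠ 1 → orderOf y = q := fun y hy y1 => (h y).elim
    (fun a => absurd (orderOf_eq_prime a y1 ▸ orderOf_dvd_card hy) (pg_not_dvd hp hq hQ' ne)) fun a => orderOf_eq_prime a y1
  have fp : ∀ y ∈ Q, y ≠ 1 → V ⊓ C_[y] = ⊥ := fun y hy y1 => eq_bot_iff.2 fun x hx => by_contra fun x1 =>
    nc x y (hV.orderOf hp hx.1 x1) (oq y hy y1) (mem_cent1.1 hx.2)
  obtain ⟨y, rfl⟩ := cyclic_iff.1 (isCyclic_of_fpf_odd_pGroup q2 hQ' h0 (top_le_norm _) fp)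
  have Q0 := hQ.ne_bot' hq (by rwa [card_top])
  have y1 : y ≠ 1 := fun c => Q0 (by simp [c])
  have oy := oq y (mem_zpowers y) y1
  have cQ : (# (zpowers y)).Prime := by rwa [card_zpowers, oy]
  have co := pg_coprime_ne hq hp hQ' hV.pg ne.symm
  have hN : N_(zpowers y) ≤ zpowers y := fun x hx => by
    rcases h x with e | e
    swap
    · exact hQ.le_of_norm_pg' hq (pg_of_pow fun z hz => by
        obtain ⟨k, rfl⟩ := hz
        simp only [← zpow_natCast, ← zpow_mul, mul_comm k]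
        rw [zpow_mul, zpow_natCast, e, one_zpow]) le_top (zpowers_le.2 hx) (mem_zpowers x)
    by_contra c
    have ox := orderOf_eq_prime e fun a => c (a ▸ one_mem _)
    refine h0 (eq_bot_mono (fp y (mem_zpowers y) y1) (le_inf le_rfl (le_cent1_iff.2
      (le_cent_of_coset hp (top_le_norm _) (top_le_norm ⊤ (mem_top x)) hx co (fun u hu v hv => ?_) (mem_zpowers y)))))
    refine (h _).resolve_right fun a => ?_
    have m := pow_coset (K := V ⊔ zpowers y) (zpowers_le.1 (norm_sup (top_le_norm _) (zpowers_le.2 hx)))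
      (mul_mem (mem_sup_left hv) (mem_sup_right (conj_mem_of_norm hx hu))) q
    rw [show v * (x * u * x⁻¹) * x = v * (x * u) by group, a, one_mul, inv_mem_iff] at m
    have m2 := mem_of_pow (by rw [ox]; exact (Nat.coprime_primes hq hp).2 ne.symm) m
    have m3 : zpowers x ≤ V := IsSylowIn.le_of_norm_pg' (hall_sup_left ((isPi_singleton hp).2 hV.pg)
      ((isPi_compl hp).2 (pg_not_dvd hp hq hQ' ne)) (top_le_norm _)) hp (pg_of_card_eq ((card_zpowers x).trans ox))
      (zpowers_le.2 m2) (top_le_norm _)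
    have := le_cent_of_disj (A := V ⊓ N_(zpowers y)) inf_le_right (norm_inf (top_le_norm _) (norm_of_le (le_norm _)))
      (eq_bot_mono (BG.inf_eq_bot_of_coprime co.symm) (inf_le_inf_right _ inf_le_left))
    exact nc x y ox oy (mem_cent.1 (this ⟨m3 (mem_zpowers x), hx⟩) y (mem_zpowers y)).symm
  refine ⟨_, isFrob_iff.2 ⟨Q0, fun c => ?_, fun g a ha a1 hg => hN (mem_norm_of_cj_le ?_)⟩, cQ⟩
  · exact pg_not_dvd hp hq hQ' ne ((pg_dvd hp hV.pg h0).trans (card_dvd (c ▸ le_top)))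
  · nth_rw 1 [← zpowers_eq_of_prime cQ ha a1]
    rw [cj_zpowers]; exact zpowers_le.2 hg

theorem three_odd (ho : Odd (# G)) (h : (vals G).ncard = 3) : (# G).primeFactors.card ≤ 2 ∧
    ((# G).primeFactors.card = 2 → (∀ (p : ℕ) [Fact p.Prime] (P : Sylow p G), p ∣ # G → Monoid.exponent (P : Subgroup G) = p) ∧
      ∃ C : Subgroup G, IsFrobeniusComplement C ∧ (# C).Prime) := by
  have o2 : ∀ p, p ∣ # G → p ≠ 2 := fun p d => ne_two_of_odd ho d
  have V : ∀ p, p.Prime → p ∣ # G → ∃ b, ∀ m, 2 < m → s G m = 0 ∨ s G m = s G p ∨ s G m = b := fun p hp d => by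
    have := even_s (G := G) (two_lt hp (o2 p d))
    obtain ⟨b, -, -, -, v⟩ := three h (mem_vals ((s_prime hp).2 d)) (by omega)
    exact ⟨b, fun m hm => by have := even_s (G := G) hm; have := v m; omega⟩
  have ad : ∀ p q, p.Prime → q.Prime → p ≠ q → p ∣ # G → q ∣ # G → p ∣ s G q + s G (p * q) := fun p q hp hq ne dp dq =>
    add_dvd hp (ndvd hp hq ne) (mul_dvd hp (ndvd hp hq ne) dp dq)
  have A : ∀ p q, p.Prime → q.Prime → p ∣ # G → q ∣ # G → s G q = s G p → p = q := fun p q hp hq dp dq e => by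
    by_contra ne
    obtain ⟨b, v⟩ := V p hp dp
    have k : ∀ r t, r.Prime → t.Prime → r ≠ t → r ∣ # G → t ∣ # G → s G r = s G p → s G t = s G p →
        s G (r * t) = b ∧ ¬ r ∣ b := fun r t hr ht ne dr dt e1 e2 => by
      have nr := e1 ▸ not_dvd_s hr dr
      have := ad r t hr ht ne dr dt
      rcases v _ (two_lt_mul hr ht.two_le) with a | a | a <;> rw [e2, a] at this
      exacts [absurd this nr, absurd (dvd_of_two hr (o2 r dr) this) nr, ⟨a, fun c => nr ((Nat.dvd_add_left c).1 this)⟩]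
    have all : ∀ r, r.Prime → r ∣ # G → s G r = s G p := fun r hr dr => by
      by_contra c
      have er := (((v r (two_lt hr (o2 r dr))).resolve_left ((s_prime hr).2 dr))).resolve_left c
      have rp : r ≠ p := fun a => c (a ▸ rfl)
      have rq : r ≠ q := fun a => c (a ▸ e)
      have nq := (k q p hq hp (Ne.symm ne) dq dp e rfl).2
      have nr := er ▸ not_dvd_s hr dr
      have a1 := ad q r hq hr rq.symm dq dr
      have a2 := ad r q hr hq rq dr dq
      have a3 : s G (q * r) = s G p := by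
        rcases v _ (two_lt_mul hq hr.two_le) with a | a | a <;> rw [er, a] at a1
        exacts [absurd a1 nq, a, absurd (dvd_of_two hq (o2 q dq) a1) nq]
      rw [mul_comm, a3, e] at a2
      have a4 := dvd_of_two hr (o2 r dr) a2
      have n1 : ¬ r ∣ p * q := fun a => (hr.dvd_mul.1 a).elim (ndvd hr hp rp) (ndvd hr hq rq)
      have a5 := add_dvd hr n1 (mul_dvd hr n1 dr (mul_dvd hp (ndvd hp hq ne) dp dq))
      rw [(k p q hp hq ne dp dq rfl e).1] at a5
      rcases v _ (two_lt_mul hr (two_lt_mul hp hq.two_le).le) with a | a | a <;> rw [a] at a5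
      exacts [nr a5, nr ((Nat.dvd_add_left a4).1 a5), nr (dvd_of_two hr (o2 r dr) a5)]
    have d : # G ∣ 1 + s G p := (Nat.dvd_iff_prime_pow_dvd_dvd _ _).2 fun r j hr hj => by
      rcases j with _ | j
      · simp
      have dr := (dvd_pow_self r j.succ_ne_zero).trans hj
      refine all r hr dr ▸ pow_dvd_one_add hr hj ?_
      have t := sq_dvd (G := G) hr dvd_rfl
      rcases v _ (two_lt_mul hr hr.two_le) with a | a | a <;> rw [a] at t
      · exact a
      · exact absurd t (all r hr dr ▸ not_dvd_s hr dr)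
      · by_cases rp : r = p
        · exact absurd t (k r q hr hq (rp ▸ ne) dr dq (all r hr dr) e).2
        · exact absurd t (k r p hr hp rp dr dp (all r hr dr) rfl).2
    have l := Finset.sum_le_sum_of_subset (f := s G) (show ({1, p, q} : Finset ℕ) ⊆ (# G).divisors by
      simp [Finset.insert_subset_iff, dp, dq, Nat.card_pos.ne'])
    rw [sum_card, Finset.sum_insert (by simp [hp.one_lt.ne, hq.one_lt.ne]), Finset.sum_pair ne, s_one] at l
    have := Nat.le_of_dvd (by omega) d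
    have := (s_prime hq).2 dq
    omega
  have val : ∀ p q, p.Prime → q.Prime → p ≠ q → p ∣ # G → q ∣ # G → ∀ m, 2 < m → s G m = 0 ∨ s G m = s G p ∨ s G m = s G q :=
    fun p q hp hq ne dp dq => by
      obtain ⟨b, v⟩ := V p hp dp
      rwa [← ((v q (two_lt hq (o2 q dq))).resolve_left ((s_prime hq).2 dq)).resolve_left
        fun c => ne (A p q hp hq dp dq c)] at v
  refine ⟨by_contra fun c => ?_, fun c => ?_⟩
  · obtain ⟨p, q, r, hp, hq, hr, n1, n2, n3⟩ := Finset.two_lt_card_iff.1 (not_le.1 c)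
    rw [Nat.mem_primeFactors] at hp hq hr
    rcases val p q hp.1 hq.1 n1 hp.2.1 hq.2.1 r (two_lt hr.1 (o2 r hr.2.1)) with a | a | a
    exacts [(s_prime hr.1).2 hr.2.1 a, n2 (A p r hp.1 hr.1 hp.2.1 hr.2.1 a), n3 (A q r hq.1 hr.1 hq.2.1 hr.2.1 a)]
  have B : ∀ p q, p.Prime → q.Prime → p ≠ q → p ∣ # G → q ∣ # G → s G (p * q) ≠ s G p := fun p q hp hq ne dp dq e => by
    have a := ad p q hp hq ne dp dq
    have := two_mul_le hp (ndvd hp hq ne) (two_lt hq (o2 q dq)) fun c =>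
      not_dvd_s hp dp (e ▸ (Nat.dvd_add_right c).1 a)
    have := (s_prime hp).2 dp
    omega
  have C : ∀ p q, p.Prime → q.Prime → p ≠ q → p ∣ # G → q ∣ # G → s G (p * q) = 0 ∧ s G (p * p) = 0 :=
    fun p q hp hq ne dp dq => by
      have e : s G (p * q) = 0 := by
        rcases val p q hp hq ne dp dq _ (two_lt_mul hp hq.two_le) with a | a | a
        exacts [a, absurd a (B p q hp hq ne dp dq), absurd (mul_comm p q ▸ a) (B q p hq hp ne.symm dq dp)]
      refine ⟨e, ?_⟩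
      rcases val p q hp hq ne dp dq _ (two_lt_mul hp hp.two_le) with a | a | a
      · exact a
      · exact absurd (a ▸ sq_dvd hp dvd_rfl) (not_dvd_s hp dp)
      · exact absurd e (s_ne_of_dvd ⟨p, by ring⟩ (s_mul_ne (m := p * p) hq dq
          (fun c => (hq.dvd_mul.1 c).elim (ndvd hq hp ne.symm) (ndvd hq hp ne.symm)) (a ▸ not_dvd_s hq dq)))
  have other : ∀ p, p.Prime → p ∣ # G → ∃ q, q.Prime ∧ p ≠ q ∧ q ∣ # G ∧ ∀ r, r.Prime → r ∣ # G → r = p ∨ r = q :=
    fun p hp dp => by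
      obtain ⟨x, y, ne, e⟩ := Finset.card_eq_two.1 c
      have k : ∀ r, r.Prime ∧ r ∣ # G ↔ r = x ∨ r = y := fun r => by
        simpa [Nat.card_pos.ne'] using Finset.ext_iff.1 e r
      rcases (k p).1 ⟨hp, dp⟩ with rfl | rfl
      · exact ⟨y, ((k y).2 (Or.inr rfl)).1, ne, ((k y).2 (Or.inr rfl)).2, fun r a b => (k r).1 ⟨a, b⟩⟩
      · exact ⟨x, ((k x).2 (Or.inl rfl)).1, ne.symm, ((k x).2 (Or.inl rfl)).2, fun r a b => ((k r).1 ⟨a, b⟩).symm⟩
  refine ⟨fun p hp P dp => ?_, ?_⟩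
  · obtain ⟨q, hq, ne, dq, -⟩ := other p hp.out dp
    exact exp_prime hp.out (C p q hp.out hq ne dp dq).2 P.isPGroup' ((isSylowIn_top hp.out P).ne_bot' hp.out (by rwa [card_top]))
  haveI := Cfsg.Agent.S0205.result ho
  obtain ⟨W, hW, W0, -, -, hab, p, hp, hx⟩ := exists_normal_elementary_le (⊤ : Subgroup G) fun a => by
    rw [← card_top, a] at c; simp at c
  have hE : IsElementaryAbelian p W := ⟨hab, hx⟩
  have dp := (pg_dvd hp hE.pg W0).trans (card_dvd_top W)
  obtain ⟨q, hq, ne, dq, all⟩ := other p hp dp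
  refine frob_of hp hq ne (o2 q dq) dq (fun g => ?_) W0 hE
  have k : ∀ p q, p.Prime → q.Prime → p ≠ q → p ∣ # G → q ∣ # G → (∀ r, r.Prime → r ∣ # G → r = p ∨ r = q) →
      ¬ q ∣ orderOf g → g ^ p = 1 := fun p q hp hq ne dp dq all c => by
    by_cases g1 : g = 1
    · simp [g1]
    rw [← ord_prime hp (C p q hp hq ne dp dq).2 (Nat.eq_prime_pow_of_unique_prime_dvd (orderOf_pos g).ne' fun {r} a b =>
      (all r a (b.trans (orderOf_dvd_natCard g))).resolve_right fun e => c (e ▸ b)) g1, pow_orderOf_eq_one]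
  by_cases c : q ∣ orderOf g
  · refine Or.inr (k q p hq hp ne.symm dq dp (fun r a b => (all r a b).symm) fun d => ?_)
    exact s_ne_of_dvd (mul_dvd hp (ndvd hp hq ne) d c) (s_ne.2 ⟨g, rfl⟩) (C p q hp hq ne dp dq).1
  · exact Or.inl (k p q hp hq ne dp dq all c)

end H02.NS
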