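import Mathlib
import Cfsg.Agent.H02.NS2
import Cfsg.Agent.H02.FPFSolv
import Cfsg.Agent.H16.Bertrand3

/-!
# Groups with the order and spectrum of an alternating group
-/

set_option linter.unusedSectionVars false
set_option linter.unusedVariables false
set_option linter.style.haveILetI false

namespace H02.NS

open Cfsg BG MulAction Subgroup H02.BQ
open scoped commutatorElement Pointwise

local notation "#" => Nat.card

variable {G : Type*} [Group G] [Finite G] {p q m n : ℕ}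

theorem perm_add_le (hp : p.Prime) (hq : q.Prime) (ne : p ≠ q) (σ : Equiv.Perm (Fin n)) (h : p * q ∣ orderOf σ) :
    p + q ≤ n := by
  have k : ∀ r : ℕ, r.Prime → r ∣ orderOf σ → ∃ a ∈ σ.cycleType, r ∣ a := fun r hr d =>
    hr.prime.exists_mem_multiset_dvd (d.trans (σ.lcm_cycleType ▸ Multiset.lcm_dvd.2 fun _ => Multiset.dvd_prod))
  obtain ⟨a, ha, d1⟩ := k p hp ((dvd_mul_right p q).trans h)
  obtain ⟨b, hb, d2⟩ := k q hq ((dvd_mul_left q p).trans h)
  have l := σ.sum_cycleType_le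
  rw [Fintype.card_fin] at l
  have a0 := Equiv.Perm.two_le_of_mem_cycleType ha
  have b0 := Equiv.Perm.two_le_of_mem_cycleType hb
  by_cases e : a = b
  · subst e
    have := Nat.le_of_dvd (by omega) (mul_dvd hp (ndvd hp hq ne) d1 d2)
    have := Multiset.le_sum_of_mem ha
    nlinarith [hp.two_le, hq.two_le]
  · obtain ⟨t, ht⟩ := Multiset.exists_cons_of_mem ha
    rw [ht, Multiset.mem_cons] at hb
    rw [ht, Multiset.sum_cons] at l
    have := Multiset.le_sum_of_mem (hb.resolve_left (Ne.symm e))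
    have := Nat.le_of_dvd (by omega) d1
    have := Nat.le_of_dvd (by omega) d2
    omega

theorem sq_not_dvd_fac (hp : p.Prime) (h : n < 2 * p) : ¬ p ^ 2 ∣ n.factorial := by
  rw [hp.pow_dvd_factorial_iff (b := 2) (Nat.log_lt_of_lt_pow' (by norm_num) (by nlinarith [hp.two_le]))]
  simpa using (Nat.div_lt_iff_lt_mul hp.pos).2 h

theorem semi_dvd (hp : p.Prime) (hq : q.Prime) (ne : p ≠ q) (h : s G (p * q) = 0) {V X : Subgroup G} (hV : IsPGroup p V)
    (hX : # X = q) (hn : X ≤ N_(V)) : q ∣ # V - 1 := by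
  refine hX ▸ Semiregular.card_dvd (semiregular_prime (hX ▸ hq) (pg_eq_bot hp (pg_le hV inf_le_left) fun c => ?_)) hn
  obtain ⟨x, hx, o⟩ := exists_orderOf_eq_prime hp c
  obtain ⟨y, hy, o'⟩ := exists_orderOf_eq_prime hq hX.symm.dvd
  exact s_eq_zero.1 h (x * y) (by
    rw [ord_mul (mem_cent.1 hx.2 y hy).symm (by rw [o, o']; exact (Nat.coprime_primes hp hq).2 ne), o, o'])

theorem sol_two [Group.IsSolvable G] (hp : p.Prime) (hq : q.Prime) (ne : p ≠ q) (dp : p ∣ # G) (dq : q ∣ # G)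
    (h : s G (p * q) = 0) : ∃ i, 0 < i ∧ ((p ^ i ∣ # G ∧ q ∣ p ^ i - 1) ∨ (q ^ i ∣ # G ∧ p ∣ q ^ i - 1)) := by
  obtain ⟨X, hX⟩ := hall_exists {p, q} (inferInstance : Group.IsSolvable (⊤ : Subgroup G))
  have d1 := hX.dvd_card hp (by simp) (by rwa [card_top])
  have d2 := hX.dvd_card hq (by simp) (by rwa [card_top])
  obtain ⟨V, h1, h0, hn, hmin⟩ := exists_minnormal (ne_bot_of_dvd hp d1) (le_norm X)
  obtain ⟨r, hr, hV⟩ := minnormal_elem h0 hn inferInstance hmin
  obtain ⟨i, hi⟩ := pg_card hr hV.pg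
  have i0 : 0 < i := Nat.pos_of_ne_zero fun c => h0 (BG.card_eq_one.1 (by simp [hi, c]))
  rcases hX.isPi r hr ((pg_dvd hr hV.pg h0).trans (card_dvd h1)) with rfl | rfl
  · obtain ⟨Y, hY, c⟩ := exists_card_eq_prime hq d2
    exact ⟨i, i0, Or.inl ⟨hi ▸ card_dvd_top V, hi ▸ semi_dvd hp hq ne h hV.pg c (hY.trans hn)⟩⟩
  · obtain ⟨Y, hY, c⟩ := exists_card_eq_prime hp d1
    exact ⟨i, i0, Or.inr ⟨hi ▸ card_dvd_top V, hi ▸ semi_dvd hq hp ne.symm (mul_comm p r ▸ h) hV.pg c (hY.trans hn)⟩⟩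

theorem not_dvd_pred (hp : p.Prime) (hq : q.Prime) (h2 : 2 < p) (h : q < 2 * p) : ¬ p ∣ q - 1 := fun c => by
  obtain ⟨k, hk⟩ := c
  have := hq.two_le
  rcases k with _ | _ | k
  · omega
  · have := hp.eq_two_or_odd
    have := hq.eq_two_or_odd
    omega
  · have : p * (k + 1 + 1) = p * k + 2 * p := by ring
    omega

structure AltLike (G : Type*) [Group G] (n : ℕ) : Prop where
  card : 2 * # G = n.factorial
  spec : ∀ p q : ℕ, p.Prime → q.Prime → p ≠ q → n < p + q → s G (p * q) = 0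

theorem altLike (hn : 2 ≤ n) (hc : # G = # (alternatingGroup (Fin n)))
    (h : Set.range (orderOf : G → ℕ) = Set.range (orderOf : alternatingGroup (Fin n) → ℕ)) : AltLike G n := by
  haveI : Nontrivial (Fin n) := Fin.nontrivial_iff_two_le.2 hn
  refine ⟨by rw [hc, two_mul_nat_card_alternatingGroup, Nat.card_perm, Nat.card_eq_fintype_card, Fintype.card_fin],
    fun p q hp hq ne l => s_eq_zero.2 fun g e => ?_⟩
  obtain ⟨σ, hσ⟩ : orderOf g ∈ Set.range (orderOf : alternatingGroup (Fin n) → ℕ) := h ▸ ⟨g, rfl⟩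
  exact absurd (perm_add_le hp hq ne σ.1 (by rw [orderOf_coe, hσ, e])) (by omega)

theorem AltLike.dvd (h : AltLike G n) (hp : p.Prime) (h2 : p ≠ 2) (l : p ≤ n) : p ∣ # G :=
  (hp.dvd_mul.1 (h.card ▸ hp.dvd_factorial.2 l)).resolve_left (ndvd hp Nat.prime_two h2)

theorem AltLike.sq (h : AltLike G n) (hp : p.Prime) (l : n < 2 * p) : ¬ p ^ 2 ∣ # G := fun c =>
  sq_not_dvd_fac hp l (h.card ▸ c.mul_left 2)

theorem two_primes (hn : 7 ≤ n) (h10 : n ≠ 10) : ∃ p q : ℕ, p.Prime ∧ q.Prime ∧ n < 2 * p ∧ p < q ∧ q ≤ n := by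
  by_cases c : 17 ≤ n
  · obtain ⟨p, q, a, b, c, d, e⟩ := H16.exists_two_primes c
    exact ⟨p, q, a, b, c, by omega, e⟩
  by_cases c : 13 ≤ n
  · exact ⟨11, 13, by norm_num, by norm_num, by omega, by omega, c⟩
  by_cases c : 11 ≤ n
  · exact ⟨7, 11, by norm_num, by norm_num, by omega, by omega, c⟩
  · exact ⟨5, 7, by norm_num, by norm_num, by omega, by omega, hn⟩

theorem AltLike.not_sol (h : AltLike G n) (hn : 5 ≤ n) : ¬ Group.IsSolvable G := fun hs => by
  have key : ∀ p q a : ℕ, p.Prime → q.Prime → 2 < p → p < q → q ≤ n → n < p + q → ¬ p ^ (a + 1) ∣ # G →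
      (∀ i, 0 < i → i ≤ a → ¬ q ∣ p ^ i - 1) → ¬ p ∣ q - 1 → False := fun p q a hp hq p2 l1 l2 l3 h1 h2 h3 => by
    obtain ⟨i, i0, ⟨c1, c2⟩ | ⟨c1, c2⟩⟩ := sol_two hp hq l1.ne (h.dvd hp (by omega) (by omega)) (h.dvd hq (by omega) l2)
      (h.spec p q hp hq l1.ne l3)
    · exact h2 i i0 (by_contra fun c => h1 ((pow_dvd_pow p (by omega)).trans c1)) c2
    · obtain rfl : i = 1 := by_contra fun c => h.sq hq (by omega) ((pow_dvd_pow q (by omega)).trans c1)
      exact h3 (pow_one q ▸ c2)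
  have hc := h.card
  by_cases c : n < 7
  · refine key 3 5 2 (by norm_num) (by norm_num) (by norm_num) (by norm_num) hn (by omega) (fun d => ?_)
      (fun i a b => by interval_cases i <;> norm_num) (by norm_num)
    have := d.mul_left 2
    rw [hc] at this
    interval_cases n <;> simp [Nat.factorial] at this
  by_cases c2 : n = 10
  · subst c2
    refine key 5 7 2 (by norm_num) (by norm_num) (by norm_num) (by norm_num) (by norm_num) (by omega) (fun d => ?_)
      (fun i a b => by interval_cases i <;> norm_num) (by norm_num)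
    have := d.mul_left 2
    rw [hc] at this
    simp [Nat.factorial] at this
  obtain ⟨p, q, hp, hq, l1, l2, l3⟩ := two_primes (not_lt.1 c) c2
  refine key p q 1 hp hq (by omega) l2 l3 (by omega) (h.sq hp l1) (fun i a b => ?_) (not_dvd_pred hp hq (by omega) (by omega))
  obtain rfl : i = 1 := by omega
  rw [pow_one]
  exact fun d => absurd (Nat.le_of_dvd (by omega) d) (by omega)

theorem simple_of_min (hp : p.Prime) {M : Subgroup G} [M.Normal] (d : p ∣ # M) (h2 : ¬ p ^ 2 ∣ # M)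
    (hmin : ∀ L : Subgroup G, L.Normal → L ≤ M → L = ⊥ ∨ L = M) : IsSimpleGroup M := by
  haveI := (nontrivial_iff_ne_bot M).2 (ne_bot_of_dvd hp d)
  haveI := Fact.mk hp
  refine ⟨fun L hL => or_iff_not_imp_left.2 fun L0 => ?_⟩
  have hn : M ≤ N_(L.map M.subtype) := le_normalizer_map_subtype L
  have hle : L.map M.subtype ≤ M := map_subtype_le L
  have dL : p ∣ # (L.map M.subtype) := by
    by_contra c
    haveI : (piCoreOf {p}ᶜ M).Normal := normalizer_eq_top_iff.mp (eq_top_iff.2 (norm_pcore _ (top_le_norm ⊤)))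
    rcases hmin _ this (pcore_le _ _) with a | a
    · exact L0 ((Subgroup.map_eq_bot_iff_of_injective _ M.subtype_injective).1 (eq_bot_mono a (le_pcore_p' hp c hle hn)))
    · exact pcore_not_dvd hp M (by rwa [a])
  obtain ⟨X, hX, cX⟩ := exists_card_eq_prime hp dL
  have sX : IsSylowIn p X M := isSylowIn_mk hp (hX.trans hle) (pg_of_card_eq cX) fun c => h2 (by
    rw [← card_mul_relIndex (hX.trans hle), cX, pow_two]; exact Nat.mul_dvd_mul_left p c)
  have X0 := ne_bot_of_dvd hp cX.symm.dvd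
  have : normalClosure (X : Set G) ≤ L.map M.subtype := by
    refine closure_le _ |>.2 fun y hy => ?_
    obtain ⟨x, hx, c⟩ := Group.mem_conjugatesOfSet_iff.1 hy
    obtain ⟨g, rfl⟩ := isConj_iff.1 c
    obtain ⟨a, ha, e⟩ := sylow_trans hp sX (sX.cj_of_norm (top_le_norm ⊤ (mem_top g)))
    exact cj_le_of_mem_norm hX (hn ha) (e ▸ conj_mem_cj g hx)
  rw [(hmin _ inferInstance (this.trans hle)).resolve_left (ne_bot_mono X0 le_normalClosure)] at this
  exact eq_top_iff.2 fun x _ => by simpa using this x.2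

theorem AltLike.section (h : AltLike G n) (hn : 11 ≤ n) : ∃ (N H : Subgroup G) (_ : N.Normal), H.Normal ∧ N < H ∧
    IsSimpleGroup (H ⧸ N.subgroupOf H) ∧ ¬ IsMulCommutative (H ⧸ N.subgroupOf H) ∧
    ∀ p : ℕ, p.Prime → n < 2 * p → p ≤ n → p ∣ # (H ⧸ N.subgroupOf H) := by
  have key : ∀ (p q : ℕ) (K : Subgroup G), K.Normal → p.Prime → q.Prime → n < 2 * p → p ≤ n → n < 2 * q → q ≤ n →
      p ∣ # K → q ∣ # K := fun p q K _ hp hq a b c d e => by
    by_contra f
    have ne : p ≠ q := fun g => f (g ▸ e)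
    obtain ⟨P, hP⟩ := sylow_exists hp K
    have d1 := card_sup_dvd (K := K) (H := ⊤ ⊓ N_(P)) (top_le_norm _)
    rw [sylow_frattini hp hP le_top (top_le_norm _), card_top] at d1
    obtain ⟨X, hX, cX⟩ := exists_card_eq_prime hq ((hq.dvd_mul.1 ((h.dvd hq (by omega) d).trans d1)).resolve_left f)
    have := semi_dvd hp hq ne (h.spec p q hp hq ne (by omega)) (hP.pg hp) cX (hX.trans inf_le_right)
    obtain ⟨k, hk⟩ := pg_card hp (hP.pg hp)
    rcases k with _ | _ | k
    · exact hp.one_lt.ne' (Nat.dvd_one.1 (by simpa [hk] using hP.dvd_card' hp e))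
    · exact not_dvd_pred hq hp (by omega) (by omega) (by simpa [hk] using this)
    · exact h.sq hp a ((pow_dvd_pow p (by omega)).trans (hk ▸ card_dvd_top P))
  obtain ⟨p, q, hp, hq, l1, l2, l3⟩ := two_primes (n := n) (by omega) (by omega)
  have nN := not_dvd_card_pPrimeCore (G := G) hp
  have lt : pPrimeCore p G < ⊤ := lt_top_iff_ne_top.2 fun c => nN (by rw [c, card_top]; exact h.dvd hp (by omega) (by omega))
  obtain ⟨H, hH, l, -, hmin⟩ := exists_chief_factor lt
  have dH : p ∣ # H := by_contra fun c => l.not_ge (le_pPrimeCore ((Nat.Prime.coprime_iff_not_dvd hp).2 c).symm)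
  have all : ∀ r : ℕ, r.Prime → n < 2 * r → r ≤ n → r ∣ # (H ⧸ (pPrimeCore p G).subgroupOf H) := fun r hr a b =>
    (hr.dvd_mul.1 (card_mul_relIndex l.le ▸ key p r H hH hp hr l1 (by omega) a b dH)).resolve_left
      fun c => nN (key r p _ inferInstance hr hp a b l1 (by omega) c)
  have e := quotSubgroupOfEquiv (pPrimeCore p G) H
  haveI : (H.map (QuotientGroup.mk' (pPrimeCore p G))).Normal := hH.map _ (QuotientGroup.mk'_surjective _)
  haveI := simple_of_min hp (Nat.card_congr e.toEquiv ▸ all p hp l1 (by omega))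
    (fun c => h.sq hp l1 ((c.trans (card_map_dvd _ _)).trans (card_dvd_top H))) (minimal_normal_map_of_chief_factor l.le hmin)
  haveI hs := e.isSimpleGroup
  refine ⟨_, H, inferInstance, hH, l, hs, fun c => ?_, all⟩
  have pr := open scoped IsMulCommutative in IsSimpleGroup.prime_card (α := H ⧸ (pPrimeCore p G).subgroupOf H)
  exact l2.ne (((Nat.prime_dvd_prime_iff_eq hp pr).1 (all p hp l1 (by omega))).trans
    ((Nat.prime_dvd_prime_iff_eq hq pr).1 (all q hq (by omega) l3)).symm)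

end H02.NS
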