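import Mathlib

/-!
# Self-centralising elements of order six, 0: the groups `C₃`, `S₃`, `A₅`
-/

namespace H02.O6

open scoped commutatorElement

local notation "#" => Nat.card

/-- properties of the groups `C₃`, `S₃`, `A₅` -/
structure TT (k r : ℕ) (T : Type*) [Group T] : Prop where
  card : # T = k * r
  tri : ∀ a : T, a * a = 1 ∨ a ^ 3 = 1 ∨ a ^ 5 = 1
  p2 : ∀ a : T, a ^ 3 ≠ 1 → ∃ g : T, (a * (g * a * g⁻¹)) ^ 3 = 1 ∧ a * (g * a * g⁻¹) ≠ 1
  c5 : ∀ f : T, f ^ 5 = 1 → f ≠ 1 → ∀ a : T, a * a = 1 → f * a = a * f → a = 1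
  five : ∀ f : T, f ^ 5 = 1 → f ≠ 1 → ∃ a : T, a ^ 3 = 1 ∧ (a⁻¹ * f) ^ 3 = 1 ∧ ⁅a, a⁻¹ * f⁆ ^ 3 = 1 ∧ ⁅a, a⁻¹ * f⁆ ≠ 1

theorem tt_s3 : TT 2 3 (Equiv.Perm (Fin 3)) :=
  ⟨by simp [Fintype.card_perm, Nat.factorial], by decide +kernel, by decide +kernel, by decide +kernel, by decide +kernel⟩

theorem tt_a5 : TT 4 15 (alternatingGroup (Fin 5)) :=
  ⟨by rw [nat_card_alternatingGroup]; simp [Nat.factorial], by decide +kernel, by decide +kernel, by decide +kernel,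
    by decide +kernel⟩

theorem tt_3 {T : Type*} [Group T] (h : # T = 3) : TT 1 3 T := by
  have e : ∀ a : T, a ^ 3 = 1 := fun a => h ▸ pow_card_eq_one'
  have e5 : ∀ f : T, f ^ 5 = 1 → f = 1 := fun f hf => by
    have : f ^ 6 = 1 := by rw [show 6 = 3 * 2 by rfl, pow_mul, e, one_pow]
    rwa [pow_succ, hf, one_mul] at this
  exact ⟨h, fun a => .inr (.inl (e a)), fun a h => absurd (e a) h, fun f a b => absurd (e5 f a) b,
    fun f a b => absurd (e5 f a) b⟩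

end H02.O6
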