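import Mathlib
import Cfsg.Agent.BG.Api1

/-!
# The power graph of a finite group determines its prime graph
-/

set_option linter.unusedSectionVars false
set_option linter.unusedVariables false

namespace H02.PG

open Subgroup Nat

theorem nt1 {n m p q : ℕ} (h0 : n ≠ 0) (hm : m ∣ n) (h : ∀ d, d ∣ n → d ∣ m ∨ m ∣ d) (hp : p.Prime) (hq : q.Prime) (pq : p ≠ q)
    (h1 : p ∣ n) (h2 : q ∣ n) : m = 1 ∨ m = n := or_iff_not_imp_right.2 fun e => by
  obtain ⟨t, k, ht, a, b⟩ : ∃ t k, t.Prime ∧ t ^ k ∣ n ∧ ¬ t ^ k ∣ m := by_contra fun c =>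
    e (Nat.dvd_antisymm hm ((Nat.dvd_iff_prime_pow_dvd_dvd _ _).2 fun t k ht a => by_contra fun b => c ⟨t, k, ht, a, b⟩))
  obtain ⟨j, -, rfl⟩ := (Nat.dvd_prime_pow ht).1 ((h _ a).resolve_left b)
  obtain ⟨u, hu, u1, u2⟩ : ∃ u, u.Prime ∧ u ∣ n ∧ u ≠ t := (eq_or_ne p t).elim (fun e => ⟨q, hq, h2, e ▸ pq.symm⟩) fun e => ⟨p, hp, h1, e⟩
  have c := ((Nat.coprime_primes hu ht).2 u2).pow_right j
  exact (h u u1).elim (fun k => absurd k ((Nat.Prime.coprime_iff_not_dvd hu).1 c)) fun k => c.symm.eq_one_of_dvd k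

theorem nt2 {n m m' p q : ℕ} (h0 : n ≠ 0) (hm : m ∣ m') (hm' : m' ∣ n) (h : ∀ d, d ∣ n → (d ∣ m ∨ m ∣ d ↔ d ∣ m' ∨ m' ∣ d))
    (hp : p.Prime) (hq : q.Prime) (pq : p ≠ q) (h1 : p ∣ n) (h2 : q ∣ n) (m1 : m ≠ 1) : m = m' := by
  have k {u : ℕ} (hu : u.Prime) (a : u ∣ n) (b : ¬ u ∣ m') : m = m' := by
    have c := ((Nat.Prime.coprime_iff_not_dvd hu).2 b).symm
    rcases (h (m * u) ((c.coprime_dvd_left hm).mul_dvd_of_dvd_of_dvd (hm.trans hm') a)).1 (.inr (dvd_mul_right _ _)) with e | e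
    · exact absurd ((dvd_mul_left _ _).trans e) b
    · exact Nat.dvd_antisymm hm (c.dvd_of_dvd_mul_right e)
  by_cases a : p ∣ m'
  · by_cases b : q ∣ m'
    · exact (nt1 (ne_zero_of_dvd_ne_zero h0 hm') hm (fun d e => (h d (e.trans hm')).2 (.inl e)) hp hq pq a b).resolve_left m1
    · exact k hq h2 b
  · exact k hp h1 a

theorem nt3 {a b : ℕ} (h0 : b ≠ 0) (h : a ∣ b) (e : a ≠ b) (k : φ a = φ b) : 2 * a = b ∧ Odd a := by
  obtain rfl := (Nat.eq_or_eq_of_totient_eq_totient h k).resolve_left e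
  refine ⟨rfl, Nat.not_even_iff_odd.1 fun c => ?_⟩
  have := Nat.totient_pos.2 (by omega : 0 < a)
  rw [Nat.totient_two_mul_of_even c] at k
  omega

variable {G H : Type*} [Group G] [Finite G] [Group H] [Finite H]

def Adj (x y : G) : Prop := x ∈ zpowers y ∨ y ∈ zpowers x

theorem mem_iff {g x y : G} (hx : x ∈ zpowers g) (hy : y ∈ zpowers g) : x ∈ zpowers y ↔ orderOf x ∣ orderOf y := by
  refine ⟨orderOf_dvd_of_mem_zpowers, fun h => ?_⟩
  exact zpowers_le.1 (BG.le_of_card_dvd_of_cyclic (BG.cyclic_zpowers g) (zpowers_le.2 hx) (zpowers_le.2 hy)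
    (by rwa [Nat.card_zpowers, Nat.card_zpowers]))

theorem adj_iff {g x y : G} (hx : x ∈ zpowers g) (hy : y ∈ zpowers g) :
    Adj x y ↔ orderOf x ∣ orderOf y ∨ orderOf y ∣ orderOf x := or_congr (mem_iff hx hy) (mem_iff hy hx)

theorem exists_ord (g : G) {d : ℕ} (h : d ∣ orderOf g) : ∃ x ∈ zpowers g, orderOf x = d :=
  ⟨_, pow_mem (mem_zpowers g) _, orderOf_pow_orderOf_div (orderOf_pos g).ne' h⟩

theorem ncard_gen (x : G) : {y | y ∈ zpowers x ∧ orderOf y = orderOf x}.ncard = φ (orderOf x) := by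
  classical
  haveI := Fintype.ofFinite (zpowers x)
  rw [← IsCyclic.card_orderOf_eq_totient (α := zpowers x) (by rw [← Nat.card_eq_fintype_card, Nat.card_zpowers]),
    ← Set.ncard_coe_finset, ← Set.ncard_image_of_injective _ Subtype.val_injective]
  refine congrArg _ (Set.ext fun y => ⟨fun h => ⟨⟨y, h.1⟩, by simpa using h.2, rfl⟩, ?_⟩)
  rintro ⟨y, h, rfl⟩
  exact ⟨y.2, by simpa using h⟩

theorem gen_eq {x y : G} (h : y ∈ zpowers x) (e : orderOf x ≤ orderOf y) : zpowers y = zpowers x :=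
  eq_of_le_of_card_ge (zpowers_le.2 h) (by rwa [Nat.card_zpowers, Nat.card_zpowers])

theorem adj_congr {x y : G} (e : zpowers y = zpowers x) (z : G) : Adj z y ↔ Adj z x :=
  or_congr (by rw [e]) (by rw [← zpowers_le, ← zpowers_le, e])

theorem le {x y : G} (h : x ∈ zpowers y) : φ (orderOf x) ≤ φ (orderOf y) :=
  Nat.le_of_dvd (Nat.totient_pos.2 (orderOf_pos y)) (Nat.totient_dvd_of_dvd (orderOf_dvd_of_mem_zpowers h))

theorem all_adj {g s : G} {p q : ℕ} (hp : p.Prime) (hq : q.Prime) (pq : p ≠ q) (h1 : p ∣ orderOf g) (h2 : q ∣ orderOf g)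
    (hs : s ∈ zpowers g) (h : ∀ x ∈ zpowers g, Adj x s) : s = 1 ∨ orderOf s = orderOf g :=
  (nt1 (orderOf_pos g).ne' (orderOf_dvd_of_mem_zpowers hs) (fun d hd => by
    obtain ⟨x, hx, rfl⟩ := exists_ord g hd
    exact (adj_iff hx hs).1 (h x hx)) hp hq pq h1 h2).imp_left orderOf_eq_one_iff.1

theorem key (e : G ≃ H) (he : ∀ x y, Adj x y ↔ Adj (e x) (e y)) {g : G} (hg : ∀ y, g ∈ zpowers y → y ∈ zpowers g) {p q : ℕ}
    (hp : p.Prime) (hq : q.Prime) (pq : p ≠ q) (h1 : p ∣ orderOf g) (h2 : q ∣ orderOf g) : ∃ a : H, orderOf a = orderOf g := by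
  have n0 := (orderOf_pos g).ne'
  have ng {z : G} : Adj z g ↔ z ∈ zpowers g := ⟨fun h => h.elim id (hg z), .inl⟩
  let A := {s | ∀ x ∈ zpowers g, Adj x s}
  have Ag {s : G} (h : s ∈ A) : s ∈ zpowers g := ng.1 (h g (mem_zpowers g)).symm
  have hA : A = insert 1 {y | y ∈ zpowers g ∧ orderOf y = orderOf g} := Set.ext fun s =>
    ⟨fun h => (all_adj hp hq pq h1 h2 (Ag h) h).imp_right fun k => ⟨Ag h, k⟩, by
      rintro (rfl | ⟨a, b⟩) x hx
      exacts [.inr (one_mem _), .inl ((gen_eq a b.ge).ge hx)]⟩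
  have pqn := ((Nat.coprime_primes hp hq).2 pq).mul_dvd_of_dvd_of_dvd h1 h2
  have t1 := Nat.le_of_dvd (Nat.totient_pos.2 (orderOf_pos g)) (Nat.totient_dvd_of_dvd pqn)
  rw [Nat.totient_mul ((Nat.coprime_primes hp hq).2 pq), Nat.totient_prime hp, Nat.totient_prime hq] at t1
  have n1 {u v : ℕ} (hu : u.Prime) (hv : v.Prime) (h : u * v ∣ orderOf g) : u ≠ orderOf g := fun e =>
    (Nat.le_of_dvd (orderOf_pos g) h).not_gt (e ▸ lt_mul_of_one_lt_right hu.pos hv.one_lt)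
  have g1 : orderOf g ≠ 1 := fun e => hp.ne_one (Nat.eq_one_of_dvd_one (e ▸ h1))
  have cA : A.ncard = φ (orderOf g) + 1 := by
    rw [hA, Set.ncard_insert_of_notMem (fun k => g1 (k.2.symm.trans orderOf_one)), ncard_gen]
  have gA : g ∈ A := fun x hx => .inl hx
  obtain ⟨s, hs, hm⟩ := Set.exists_max_image A (fun s => orderOf (e s)) (Set.toFinite _) ⟨g, gA⟩
  have As {x : G} (h : x ∈ A) : e x ∈ zpowers (e s) :=
    ((he _ _).1 (hs x (Ag h))).elim id fun k => (gen_eq k (hm x h)).ge (mem_zpowers _)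
  have s1 : e s ≠ 1 := fun k => by
    have a := As gA
    have b := As (hA.ge (.inl rfl))
    rw [k, zpowers_one_eq_bot, mem_bot] at a b
    exact g1 (by rw [e.injective (a.trans b.symm), orderOf_one])
  have ns {z : G} : Adj (e z) (e s) ↔ z ∈ zpowers g := by
    refine (he _ _).symm.trans ⟨fun h => ?_, hs z⟩
    rcases hA.le hs with rfl | ⟨a, b⟩
    · have k (x : G) : Adj x (e.symm 1) := (he _ _).2 (.inr (by simp))
      rcases hA.le (fun x _ => k x : e.symm 1 ∈ A) with c | ⟨a, b⟩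
      · exact absurd (e.symm_apply_eq.1 c).symm s1
      · exact ng.1 ((adj_congr (gen_eq a b.ge) z).1 (k z))
    · exact ng.1 ((adj_congr (gen_eq a b.ge) z).1 h)
  refine ⟨e s, by_contra fun c => ?_⟩
  have U {x : G} (hx : x ∈ zpowers g) (h : e x ∉ zpowers (e s)) : e s ∈ zpowers (e x) ∧ orderOf x ≠ orderOf g ∧
      φ (orderOf (e x)) ≤ φ (orderOf x) := by
    have xA : x ∉ A := fun k => h (As k)
    refine ⟨(ns.2 hx).resolve_left h, fun k => xA (hA.ge (.inr ⟨hx, k⟩)), ?_⟩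
    rw [← ncard_gen, ← ncard_gen, ← Set.ncard_image_of_injective _ e.symm.injective]
    refine Set.ncard_le_ncard ?_
    rintro _ ⟨y, ⟨a, b⟩, rfl⟩
    obtain ⟨y, rfl⟩ := e.surjective y
    rw [e.symm_apply_apply]
    have k (z : G) : Adj z y ↔ Adj z x := by rw [he, he, adj_congr (gen_eq a b.ge)]
    have hy := ng.1 ((k g).2 (.inr hx)).symm
    have k2 (d : ℕ) (hd : d ∣ orderOf g) : d ∣ orderOf y ∨ orderOf y ∣ d ↔ d ∣ orderOf x ∨ orderOf x ∣ d := by
      obtain ⟨z, hz, rfl⟩ := exists_ord g hd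
      rw [← adj_iff hz hy, ← adj_iff hz hx, k]
    have : orderOf y = orderOf x := by
      rcases (adj_iff hy hx).1 ((k y).1 (.inl (mem_zpowers y))) with f | f
      · refine nt2 n0 f (orderOf_dvd_of_mem_zpowers hx) k2 hp hq pq h1 h2 fun c => xA fun z _ => (k z).1 (.inr ?_)
        exact orderOf_eq_one_iff.1 c ▸ one_mem _
      · refine (nt2 n0 f (orderOf_dvd_of_mem_zpowers hy) (fun d a => (k2 d a).symm) hp hq pq h1 h2 fun c => xA (hA.ge (.inl ?_))).symm
        exact orderOf_eq_one_iff.1 c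
    exact ⟨(mem_iff hy hx).2 this.dvd, this⟩
  obtain ⟨l, hl, l1⟩ := Nat.exists_prime_and_dvd (mt orderOf_eq_one_iff.1 s1)
  by_cases k : ∃ l', l'.Prime ∧ l' ∣ orderOf (e s) ∧ l' ≠ l
  · obtain ⟨l', hl', l2, l3⟩ := k
    have c1 : φ (orderOf g) ≤ φ (orderOf (e s)) := by
      have := Set.ncard_le_ncard (s := e '' A) (t := insert 1 {y | y ∈ zpowers (e s) ∧ orderOf y = orderOf (e s)}) (by
        rintro _ ⟨x, hx, rfl⟩
        refine (all_adj hl' hl l3 l2 l1 (As hx) fun y hy => ?_).imp_right fun k => ⟨As hx, k⟩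
        obtain ⟨y, rfl⟩ := e.surjective y
        exact (he _ _).1 (hx y (ns.1 (.inl hy))))
      rw [Set.ncard_image_of_injective _ e.injective, cA] at this
      have := this.trans (Set.ncard_insert_le _ _)
      rwa [ncard_gen, Nat.add_le_add_iff_right] at this
    have U2 {x : G} (hx : x ∈ zpowers g) (h : e x ∉ zpowers (e s)) : 2 * orderOf x = orderOf g ∧ Odd (orderOf x) := by
      obtain ⟨a, b, c⟩ := U hx h
      exact nt3 n0 (orderOf_dvd_of_mem_zpowers hx) b (le_antisymm (PG.le hx) (c1.trans ((PG.le a).trans c)))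
    obtain ⟨x, hx, h⟩ : ∃ x ∈ zpowers g, e x ∉ zpowers (e s) := by_contra fun k => c (by
      rw [← Nat.card_zpowers, ← Nat.card_zpowers]
      exact (Nat.card_congr (e.subtypeEquiv fun x => ⟨fun a => by_contra fun b => k ⟨x, a, b⟩, fun a => ns.1 (.inl a)⟩)).symm)
    obtain ⟨a, b⟩ := U2 hx h
    obtain ⟨j, j1, j2⟩ := exists_ord g (Dvd.intro _ a)
    by_cases f : e j ∈ zpowers (e s)
    · rcases (adj_iff j1 hx).1 ((he _ _).2 (.inl (zpowers_le.2 (U hx h).1 f))) with f | f <;> rw [j2] at f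
      · exact (Nat.not_even_iff_odd.2 b) (even_iff_two_dvd.2 f)
      · rw [(Nat.coprime_two_right.2 b).eq_one_of_dvd f] at a
        exact pq (((Nat.prime_dvd_prime_iff_eq hp Nat.prime_two).1 (h1.trans a.symm.dvd)).trans
          ((Nat.prime_dvd_prime_iff_eq hq Nat.prime_two).1 (h2.trans a.symm.dvd)).symm)
    · have := (U2 j1 f).2
      rw [j2] at this
      exact absurd this (by decide)
  have hk := Nat.eq_prime_pow_of_unique_prime_dvd (orderOf_pos (e s)).ne' fun a b => by_contra fun c => k ⟨_, a, b, c⟩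
  generalize (orderOf (e s)).primeFactorsList.length = r at hk
  have sA {x : G} (h : e x ∈ zpowers (e s)) : x ∈ A := fun y hy => (he _ _).2 (by
    rcases ns.2 hy with a | a
    · obtain ⟨i, -, hi⟩ := (Nat.dvd_prime_pow hl).1 (hk ▸ orderOf_dvd_of_mem_zpowers a)
      obtain ⟨j, -, hj⟩ := (Nat.dvd_prime_pow hl).1 (hk ▸ orderOf_dvd_of_mem_zpowers h)
      rw [adj_iff a h, hi, hj]
      exact (le_total i j).imp (pow_dvd_pow l) (pow_dvd_pow l)
    · exact .inr (zpowers_le.2 a h))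
  have c1 : orderOf (e s) = φ (orderOf g) + 1 := by
    rw [← cA, ← Nat.card_zpowers, ← Nat.card_coe_set_eq]
    exact (Nat.card_congr (e.subtypeEquiv fun x => ⟨As, sA⟩)).symm
  have c2 {u v : ℕ} (hu : u.Prime) (hv : v.Prime) (h : u * v ∣ orderOf g) : φ (orderOf (e s)) ≤ u - 1 := by
    obtain ⟨x, hx, rfl⟩ := exists_ord g (Dvd.dvd.trans (dvd_mul_right _ _) h)
    obtain ⟨a, -, b⟩ := U hx fun k => (hA.le (sA k)).elim (fun c => hu.ne_one (c ▸ orderOf_one)) fun c => n1 hu hv h c.2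
    exact Nat.totient_prime hu ▸ (PG.le a).trans b
  have c3 := (Nat.mul_le_mul (c2 hp hq pqn) (c2 hq hp (mul_comm p q ▸ pqn))).trans t1
  have c4 : orderOf (e s) ≤ 2 * φ (orderOf (e s)) := by
    rcases r with _ | r
    · exact absurd (orderOf_eq_one_iff.1 hk) s1
    · rw [hk, Nat.totient_prime_pow_succ hl, pow_succ, mul_left_comm]
      exact Nat.mul_le_mul_left _ (by have := hl.two_le; omega)
  have c5 : 2 ≤ (p - 1) * (q - 1) := by
    have := hp.two_le
    have := hq.two_le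
    rcases lt_or_gt_of_ne pq with f | f
    · exact (one_mul 2).ge.trans (Nat.mul_le_mul (by omega) (by omega))
    · exact (mul_one 2).ge.trans (Nat.mul_le_mul (by omega) (by omega))
  nlinarith

theorem main (e : G ≃ H) (he : ∀ x y, Adj x y ↔ Adj (e x) (e y)) {p q : ℕ} (hp : p.Prime) (hq : q.Prime) (pq : p ≠ q)
    (h : ∃ g : G, orderOf g = p * q) : ∃ h : H, orderOf h = p * q := by
  obtain ⟨g, hg⟩ := Set.exists_max_image {g : G | p * q ∣ orderOf g} orderOf (Set.toFinite _) (h.imp fun _ k => k.symm.dvd)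
  obtain ⟨a, ha⟩ := key e he (g := g) (fun y hy => (gen_eq hy (hg.2 y (hg.1.trans (orderOf_dvd_of_mem_zpowers hy)))).ge
    (mem_zpowers y)) hp hq pq ((dvd_mul_right _ _).trans hg.1) ((dvd_mul_left _ _).trans hg.1)
  exact (exists_ord a (ha ▸ hg.1)).imp fun _ => And.right

end H02.PG
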