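import Mathlib
import Cfsg.Agent.H02.Pr1
import Cfsg.Agent.H08.SecChar
import Cfsg.Agent.H26.Syl

/-! Local control by `3³ : S₄`. -/

set_option autoImplicit false
set_option linter.style.haveILetI false

open Cfsg H05 Subgroup H18.Col H18.Col.S27 H26 H21

namespace H02.Pr

variable {G : Type*} [Group G] [Finite G]

def jv (v : V) : K := ⟨v, 1⟩

theorem cjV (g : K) (v : V) : g * jv v * g⁻¹ = jv (act g.right v) := by
  refine SemidirectProduct.ext ?_ (by simp [jv])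
  simp only [jv, SemidirectProduct.mul_left, SemidirectProduct.mul_right, mul_one, SemidirectProduct.inv_left]
  rw [← MulAut.mul_apply, ← map_mul, mul_inv_cancel, map_one, MulAut.one_apply, mul_inv_cancel_comm]
  rfl

theorem eq_jv {x : K} (h : x.right = 1) : x = jv x.left := SemidirectProduct.ext rfl h

theorem jv3 (v : V) : jv v ^ 3 = 1 := by revert v; decide +kernel

theorem jv_one : jv 1 = 1 := rfl

structure Loc (f : K →* G) : Prop where
  inj : Function.Injective f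
  cen : ∀ v : V, v ≠ 1 → ∀ g, g * f (jv v) = f (jv v) * g → g ∈ f.range
  sc : ∀ (v : V) g, g * f (jv v) * g⁻¹ ∈ f.range → ∃ w : V, g * f (jv v) * g⁻¹ = f (jv w)

namespace Loc
variable {f : K →* G} (h : Loc f)
include h

omit [Finite G] in
theorem card_cent {x : K} (hx : ∀ g, g * f x = f x * g → g ∈ f.range) :
    Nat.card (centralizer ({f x} : Set G)) = (Finset.univ.filter fun y => y * x = x * y).card := by
  rw [← Fintype.card_subtype, ← Nat.card_eq_fintype_card]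
  symm
  refine Nat.card_eq_of_bijective (fun y => ⟨f y.1, mem_centralizer_singleton_iff.2 (by
    rw [← map_mul, ← map_mul, y.2])⟩) ⟨fun a b e => Subtype.ext (h.inj (congrArg Subtype.val e)), ?_⟩
  rintro ⟨g, hg⟩
  have hg' := mem_centralizer_singleton_iff.1 hg
  obtain ⟨k, rfl⟩ := hx g hg'
  exact ⟨⟨k, h.inj (by simpa using hg')⟩, rfl⟩

omit [Finite G] in
theorem ne {v : V} (hv : v ≠ 1) : f (jv v) ≠ 1 :=
  (map_ne_one_iff f h.inj).2 fun e => hv (congrArg SemidirectProduct.left e)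

omit [Finite G] in
theorem ti {v : V} (hv : v ≠ 1) {g : G} (hg : g * f (jv v) * g⁻¹ ∈ f.range) : g ∈ f.range := by
  obtain ⟨w, hw⟩ := h.sc v g hg
  have hw1 : w ≠ 1 := by
    rintro rfl
    rw [jv_one, map_one] at hw
    exact h.ne hv (by simpa using hw)
  have e := card_cj g (centralizer ({f (jv v)} : Set G))
  rw [cj_centralizer_singleton, hw, h.card_cent (h.cen v hv), h.card_cent (h.cen w hw1)] at e
  obtain ⟨d, hd⟩ := conj_V v w ((cen_V v).symm.trans (e.symm.trans (cen_V w)))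
  have e2 := congrArg f (cjV ⟨1, d⟩ v)
  rw [map_mul, map_mul, map_inv, hd, ← hw] at e2
  have := h.cen v hv ((f ⟨1, d⟩)⁻¹ * g) (by
    rw [← mul_inv_eq_iff_eq_mul, mul_assoc _ g, mul_inv_rev, inv_inv, ← mul_assoc, mul_assoc _ _ g⁻¹, ← e2]; group)
  simpa using mul_mem (⟨_, rfl⟩ : f ⟨1, d⟩ ∈ f.range) this

omit [Finite G] in
theorem mem (i : Fin 9) {g : G} (hg : g * f (rq i) * g⁻¹ ∈ f.range) : g ∈ f.range := by
  refine h.ti (v := (rq i ^ ex i).left) (fun e => (sp_rq i).2 ((eq_jv (sp_rq i).1).trans (by rw [e]; rfl))) ?_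
  rw [← eq_jv (sp_rq i).1, map_pow, ← conj_pow]
  exact pow_mem hg _

omit [Finite G] in
theorem cenq (i : Fin 9) : Nat.card (centralizer ({f (rq i)} : Set G)) = gm i := by
  rw [h.card_cent fun g hg => h.mem i (by rw [hg, mul_inv_cancel_right]; exact ⟨_, rfl⟩), cen_rq]

omit [Finite G] in
theorem not_conj (i : Fin 9) {y : K} (hy : cl y ≠ i.castLE (by norm_num)) : ¬ IsConj (f (rq i)) (f y) := fun hc => by
  obtain ⟨g, hg⟩ := isConj_iff.1 hc
  obtain ⟨k, rfl⟩ := h.mem i (g := g) ⟨y, hg.symm⟩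
  exact hy (by rw [← nc_rq i k]; congr 1; exact h.inj (by simpa using hg.symm))

omit [Finite G] in
theorem cardH : Nat.card f.range = 648 := by
  rw [← Nat.card_congr (MonoidHom.ofInjective h.inj).toEquiv, Nat.card_eq_fintype_card, cardK]

theorem syl : ∃ T : Subgroup G, IsSyl 3 T ⊤ ∧ T ≤ f.range ∧ (∀ v, f (jv v) ∈ T) ∧ Nat.card T = 81 := by
  haveI : Fact (Nat.Prime 3) := ⟨by norm_num⟩
  obtain ⟨T, hT, h1⟩ := exists_isSyl_ge (p := 3) (Q := (f.comp SemidirectProduct.inl).range) (H := f.range)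
    (isPGroup_iff_mem.2 (by
      rintro _ ⟨v, rfl⟩
      exact ⟨1, by rw [pow_one]; exact (map_pow f (jv v) 3).symm.trans (by rw [jv3, map_one])⟩))
    (by rintro _ ⟨v, rfl⟩; exact ⟨_, rfl⟩)
  have h2 : ∀ v, f (jv v) ∈ T := fun v => h1 ⟨v, rfl⟩
  refine ⟨T, isSyl_of_normalizer (hT.mono (le_inf le_top le_normalizer) fun g hg =>
    h.ti (v := (rp 0).left) (by decide) (hT.le ((mem_normalizer_iff.1 hg.2 _).1 (h2 _)))), hT.le, h2, ?_⟩
  obtain ⟨k, hk⟩ := hT.pg.exists_card_eq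
  have h3 := hT.not_dvd
  have h4 : Nat.card T * T.relIndex f.range = 648 := by
    rw [← h.cardH, ← H26.card_subgroupOf hT.le]; exact card_mul_index _
  rw [hk] at h4 ⊢
  have h5 : k ≤ 4 := by
    by_contra h5
    have : 3 ^ 5 ∣ 648 := h4 ▸ (pow_dvd_pow 3 (by omega)).mul_right _
    norm_num at this
  interval_cases k <;> omega

theorem cj3 {P : Subgroup G} (hP : IsPGroup 3 P) : ∃ g, cj(g, P) ≤ f.range := by
  haveI : Fact (Nat.Prime 3) := ⟨by norm_num⟩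
  obtain ⟨T, h1, h2, -⟩ := h.syl
  obtain ⟨g, -, hg⟩ := h1.exists_cj_le hP le_top
  exact ⟨g, hg.trans h2⟩

end Loc

omit [Finite G] in
theorem tri {a b u : G} (c : Commute a b) (hb : u * a * u⁻¹ = b) (e3 : u * b * u⁻¹ = (a * b)⁻¹) (k : ℕ) :
    (a ^ 2 * b) ^ k * u = (a ^ 3) ^ k * u * (a ^ 2 * b) ^ k := by
  have e4 : a ^ 2 * b * u = a ^ 3 * u * (a ^ 2 * b) := by
    have : u * (a ^ 2 * b) = (u * a * u⁻¹) ^ 2 * (u * b * u⁻¹) * u := by rw [conj_pow]; group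
    rw [mul_assoc (a ^ 3), this, e3, hb, c.eq, mul_inv_rev, ← mul_assoc, ← mul_assoc, ← mul_assoc,
      ← (c.symm.pow_pow 2 3).eq, mul_assoc (b ^ 2), pow_succ a 2, mul_inv_cancel_right, (c.symm.pow_pow 2 2).eq,
      pow_two b, ← mul_assoc, mul_inv_cancel_right]
  have c2 : Commute (a ^ 2 * b) (a ^ 3) := (Commute.pow_pow_self a 2 3).mul_left (c.symm.pow_right 3)
  induction k with
  | zero => simp
  | succ k ih =>
    rw [pow_succ', mul_assoc, ih, ← mul_assoc, ← mul_assoc, (c2.pow_right k).eq, mul_assoc _ _ u, e4,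
      pow_succ (a ^ 3)]
    simp only [mul_assoc]

/-- conjugate into `J` -/
def InJ (f : K →* G) (x : G) : Prop := ∃ g v, g * x * g⁻¹ = f (jv v)

omit [Finite G] in
theorem InJ.conj {f : K →* G} {x y : G} (h : InJ f x) (hc : IsConj x y) : InJ f y := by
  obtain ⟨g, v, e⟩ := h
  obtain ⟨c, rfl⟩ := isConj_iff.1 hc
  exact ⟨g * c⁻¹, v, by rw [← e]; group⟩

omit [Finite G] in
theorem InJ.three {f : K →* G} {x : G} (h : InJ f x) : x ^ 3 = 1 := by
  obtain ⟨g, v, e⟩ := h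
  have := congrArg (· ^ 3) e
  simp only [conj_pow, ← map_pow, jv3, map_one] at this
  simpa using this

omit [Finite G] in
theorem Loc.inJ {f : K →* G} (h : Loc f) {x : G} (hx : InJ f x) (h1 : x ∈ f.range) : ∃ w, x = f (jv w) := by
  obtain ⟨g, v, e⟩ := hx
  have : x = g⁻¹ * f (jv v) * g⁻¹⁻¹ := by rw [← e]; group
  rw [this] at h1 ⊢
  exact h.sc v _ h1

theorem Loc.l333 {f : K →* G} (h : Loc f) {u v : G} (hu' : InJ f u) (hv' : InJ f v) {w : V} (hw : w ≠ 1)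
    (hz' : u * v = f (jv w)) (hc : ¬ IsConj u v) : u ∈ f.range ∧ v ∈ f.range := by
  haveI : Fact (Nat.Prime 3) := ⟨by norm_num⟩
  have hu := hu'.three
  have hv := hv'.three
  have hz : (u * v) ^ 3 = 1 := by rw [hz', ← map_pow, jv3, map_one]
  have e : ∀ x : G, x ^ 3 = 1 → x * x = x⁻¹ := fun x hx => by
    rw [eq_inv_iff_mul_eq_one, ← hx, pow_succ, pow_two]
  obtain ⟨a, ha⟩ : ∃ a, a = v * u⁻¹ := ⟨_, rfl⟩
  obtain ⟨b, hb⟩ : ∃ b, b = u * a * u⁻¹ := ⟨_, rfl⟩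
  have e0 : u⁻¹ * u⁻¹ = u := by rw [← mul_inv_rev, e u hu, inv_inv]
  have e1 : a * b = v⁻¹ * u := by
    rw [← e v hv, hb, ha]; conv_rhs => rw [← e0]
    group
  have e2 : b * a = v⁻¹ * u := by
    have : b * a = u * v * (u⁻¹ * u⁻¹) * v * u⁻¹ := by rw [hb, ha]; group
    rw [this, e0, show u * v * u * v * u⁻¹ = u * v * (u * v) * u⁻¹ by group, e _ hz]
    conv_rhs => rw [← e0]
    group
  have c : Commute a b := e1.trans e2.symm
  have e3 : u * b * u⁻¹ = (a * b)⁻¹ := by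
    rw [e1, hb, ha, show u * (u * (v * u⁻¹) * u⁻¹) * u⁻¹ = u * u * v * (u⁻¹ * u⁻¹ * u⁻¹) by group, e u hu, e0]
    group
  have pw : ∀ n : ℕ, Commute (a ^ n) (b ^ n) ∧ u * a ^ n * u⁻¹ = b ^ n ∧ u * b ^ n * u⁻¹ = (a ^ n * b ^ n)⁻¹ :=
    fun n => ⟨c.pow_pow n n, by rw [← conj_pow, hb], by rw [← conj_pow, e3, inv_pow, c.mul_pow]⟩
  obtain ⟨i, hi⟩ : ∃ i : ℕ, a ^ i = pPart 3 a := mem_powers_iff_mem_zpowers.2 (pPart_mem_zpowers 3 a)
  obtain ⟨j, hj⟩ : ∃ j : ℕ, a ^ j = pReg 3 a := mem_powers_iff_mem_zpowers.2 (pReg_mem_zpowers 3 a)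
  obtain ⟨k, hk⟩ := exists_pow_eq_self_of_coprime (x := a ^ j)
    ((Nat.Prime.coprime_iff_not_dvd Nat.prime_three).2 (hj ▸ not_dvd_orderOf_pReg 3 a))
  have e5 := tri (pw j).1 (pw j).2.1 (pw j).2.2 k
  rw [hk] at e5
  have c3 : Commute (((a ^ j) ^ 2 * b ^ j) ^ k) (a ^ i) :=
    ((((Commute.pow_pow_self a j i).pow_left 2).mul_left (c.symm.pow_pow j i))).pow_left k
  have e6 : IsConj (a ^ i * u) v := isConj_iff.2 ⟨((a ^ j) ^ 2 * b ^ j) ^ k, by
    rw [← mul_assoc, c3.eq, mul_assoc (a ^ i), e5, ← mul_assoc, mul_inv_cancel_right, ← mul_assoc, hi, hj,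
      pPart_mul_pReg, ha, inv_mul_cancel_right]⟩
  obtain ⟨m, hm⟩ := orderOf_pPart 3 a
  have p1 : (a ^ i) ^ 3 ^ m = 1 := by rw [hi, ← hm, pow_orderOf_eq_one]
  have p2 : (b ^ i) ^ 3 ^ m = 1 := by rw [← (pw i).2.1, conj_pow, p1]; simp
  have hA : IsPGroup 3 (zpowers (a ^ i) ⊔ zpowers (b ^ i) : Subgroup G) :=
    isPGroup_sup (H26.isPGroup_zpowers ⟨m, p1⟩) (H26.isPGroup_zpowers ⟨m, p2⟩) (zpowers_le.2
      (mem_normalizer_of_cj_le (by rw [cj_zpowers, (pw i).1.eq, mul_inv_cancel_right])))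
  have m1 : a ^ i ∈ zpowers (a ^ i) ⊔ zpowers (b ^ i) := mem_sup_left (mem_zpowers _)
  have m2 : b ^ i ∈ zpowers (a ^ i) ⊔ zpowers (b ^ i) := mem_sup_right (mem_zpowers _)
  have hP := isPGroup_sup (H26.isPGroup_zpowers (x := u) ⟨1, by rwa [pow_one]⟩) hA (zpowers_le.2
    (mem_normalizer_of_cj_le (by
      rw [cj_sup, cj_zpowers, cj_zpowers, (pw i).2.1, (pw i).2.2]
      exact sup_le (zpowers_le.2 m2) (zpowers_le.2 (inv_mem (mul_mem m1 m2))))))
  obtain ⟨g, hg⟩ := h.cj3 hP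
  have g1 : g * u * g⁻¹ ∈ f.range := hg (conj_mem_cj (mem_sup_left (mem_zpowers u)))
  have g2 : g * (a ^ i * u) * g⁻¹ ∈ f.range :=
    hg (conj_mem_cj (mul_mem (mem_sup_right m1) (mem_sup_left (mem_zpowers u))))
  obtain ⟨x, hx⟩ := h.inJ (hu'.conj (isConj_iff.2 ⟨g, rfl⟩)) g1
  obtain ⟨y, hy⟩ := h.inJ ((hv'.conj e6.symm).conj (isConj_iff.2 ⟨g, rfl⟩)) g2
  have g3 : g * a ^ i * g⁻¹ = f (jv (y * x⁻¹)) := by
    rw [show jv (y * x⁻¹) = jv y * (jv x)⁻¹ from (map_mul (SemidirectProduct.inl (φ := α)) y x⁻¹).trans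
      (by rw [map_inv]; rfl), map_mul, map_inv, ← hx, ← hy]
    group
  have g4 : g * a * g⁻¹ ∈ f.range := h.cen (y * x⁻¹) (fun e => hc (by
      rw [e, jv_one, map_one, conj_eq_one_iff] at g3
      rwa [g3, one_mul] at e6)) _ (by rw [← g3, conj_mul, conj_mul, (Commute.self_pow a i).eq])
  have g5 : g * v * g⁻¹ ∈ f.range := by
    convert mul_mem g4 g1 using 1
    rw [ha]; group
  have hgN := h.ti hw (g := g) (by rw [← hz']; convert mul_mem g1 g5 using 1; group)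
  constructor
  · convert mul_mem (mul_mem (inv_mem hgN) g1) hgN using 1; group
  · convert mul_mem (mul_mem (inv_mem hgN) g5) hgN using 1; group

end H02.Pr
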