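import Mathlib
import Cfsg.Agent.H02.Pr2

/-! Columns of the character table of a group controlled by `3³ : S₄`. -/

set_option autoImplicit false
set_option linter.style.haveILetI false

open Cfsg H05 Subgroup H18.Col H18.Col.S27 H26 H21
open scoped ComplexConjugate

namespace H02.Pr

variable {G : Type*} [Group G] [Finite G] {f : K →* G}

open Classical in
noncomputable def be (f : K →* G) (g : G) : ℂ := if InJ f (pPart 3 g) then 0 else 3

omit [Finite G] in
theorem jv_zpow (v : V) (k : ℤ) : jv (v ^ k) = jv v ^ k := map_zpow (SemidirectProduct.inl (φ := α)) v k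

theorem Loc.be_gen (h : Loc f) : IsGeneralizedCharacter G (be f) := by
  haveI : Fact (Nat.Prime 3) := ⟨by norm_num⟩
  obtain ⟨T, h1, h2, h3, h4⟩ := h.syl
  obtain ⟨T, rfl⟩ := h1.exists_sylow_top
  refine H08.isGeneralizedCharacter_of_pPart T (fun g c => ?_) (fun g => by unfold be; rw [pPart_pPart]) ?_
  · unfold be
    rw [pPart_conj]
    congr 1
    exact propext ⟨fun e => e.conj (isConj_iff.2 ⟨c, rfl⟩).symm, fun e => e.conj (isConj_iff.2 ⟨c, rfl⟩)⟩
  let J := (f.comp SemidirectProduct.inl).range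
  have hJ : J ≤ T := by rintro _ ⟨v, rfl⟩; exact h3 v
  haveI : (J.subgroupOf T).Normal := ⟨by
    rintro n ⟨v, hv⟩ g
    obtain ⟨k, hk⟩ := h2 g.2
    refine ⟨act k.right v, ?_⟩
    show f (jv _) = g * n * g⁻¹
    rw [← cjV, map_mul, map_mul, map_inv, hk]
    exact congrArg (fun t => (g : G) * t * (g : G)⁻¹) hv⟩
  have c1 : Nat.card J = 27 := by
    rw [← Nat.card_congr (MonoidHom.ofInjective (f := f.comp SemidirectProduct.inl)
      (h.inj.comp SemidirectProduct.inl_injective)).toEquiv]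
    simp
  have c2 : Nat.card (T ⧸ J.subgroupOf T) = 3 := by
    have := card_eq_card_quotient_mul_card_subgroup (J.subgroupOf T)
    rw [H26.card_subgroupOf hJ, c1] at this
    change Nat.card (T : Subgroup G) = _ at this
    change Nat.card ((T : Subgroup G) ⧸ _) = 3
    omega
  have := (isGeneralizedCharacter_one.natCast_smul 3).sub
    ((isCharacter_regChar.comp (QuotientGroup.mk' (J.subgroupOf T))).isGeneralizedCharacter)
  convert this using 1
  ext s
  obtain ⟨k, hk⟩ := (IsPGroup.iff_orderOf.1 T.2) s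
  have e : pPart 3 (s : G) = s := pPart_of_pow ⟨k, by rw [← hk, orderOf_coe]⟩
  unfold be
  rw [e]
  simp only [Pi.sub_apply, Pi.smul_apply, Pi.one_apply, smul_eq_mul, mul_one, QuotientGroup.mk'_apply]
  split_ifs with h5
  · obtain ⟨w, hw⟩ := h.inJ h5 (h2 s.2)
    rw [(QuotientGroup.eq_one_iff (N := J.subgroupOf T) s).2 ⟨w, hw.symm⟩, regChar_one]
    erw [c2]
    simp
  · rw [regChar_of_ne fun e => h5 ?_]
    · simp
    · obtain ⟨w, hw⟩ := (QuotientGroup.eq_one_iff s).1 e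
      exact ⟨1, w, by rw [one_mul, inv_one, mul_one]; exact hw.symm⟩

def bt (i : Fin 9) : ℤ := if i.val < 7 then 0 else 3

theorem Loc.be_rq (h : Loc f) (i : Fin 9) : be f (f (rq i)) = bt i := by
  haveI : Fact (Nat.Prime 3) := ⟨by norm_num⟩
  unfold be bt
  have h1 := sp_rq i
  by_cases hi : i.val < 7
  · have e : ex i = 4 := by revert i; decide
    obtain ⟨k, hk⟩ := pPart_mem_zpowers_zpow (p := 3) (f (rq i)) (k := 4) (by norm_num)
    rw [if_pos hi, if_pos ⟨1, (rq i ^ ex i).left ^ k, by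
      rw [jv_zpow, ← eq_jv h1.1, e, ← hk, map_zpow, map_pow]; simp [zpow_ofNat]⟩]
    simp
  · have e : ex i = 3 := by revert i; decide
    rw [e] at h1
    have e2 : f (rq i) ^ 3 ^ 2 = 1 := by
      rw [pow_two, pow_mul, ← map_pow, eq_jv h1.1, ← map_pow, jv3, map_one]
    obtain ⟨k, -, hk⟩ := (Nat.dvd_prime_pow Nat.prime_three).1 (orderOf_dvd_of_pow_eq_one e2)
    rw [if_neg hi, pPart_of_pow ⟨k, hk⟩, if_neg fun e => h1.2 (h.inj (by rw [map_pow, e.three, map_one]))]
    simp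

theorem Loc.phi (h : Loc f) : ∃ Φ : IrrCharacter G → ℤ, (∀ i, ∑ χ, (Φ χ : ℂ) * χ.1 (f (rq i)) = bt i) ∧
    ∑ χ, Φ χ * dg χ = 0 ∧ ∑ χ, Φ χ * Φ χ = 3 * Φ (triv G) := by
  haveI := Fintype.ofFinite G
  obtain ⟨Φ, h1, -⟩ := h.be_gen.exists_int_coeff
  have h2 := fun g => h.be_gen.isClassFunction.apply_eq_sum g
  simp only [h1] at h2
  refine ⟨Φ, fun i => by rw [← h2, h.be_rq], ?_, ?_⟩
  · have := h2 1
    simp only [← dg_cast] at this
    rw [be, pPart_one, if_pos ⟨1, 1, by simp [jv_one]⟩] at this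
    exact_mod_cast this.symm
  · have h3 := h.be_gen.classInner_eq_sum_int h.be_gen h1 h1
    have h4 : classInner (be f) (be f) = 3 * classInner (be f) (triv G).1 := by
      simp only [classInner, triv, Pi.one_apply, map_one, mul_one, mul_left_comm (3 : ℂ), Finset.mul_sum]
      refine Finset.sum_congr rfl fun g _ => ?_
      unfold be
      split_ifs
      · simp
      · rw [show conj (3 : ℂ) = 3 from map_ofNat _ 3]
    rw [h4, h1] at h3
    exact_mod_cast h3.symm

theorem Loc.rt (h : Loc f) {j : Fin 13} (h5 : j ≠ 5) (h6 : j ≠ 6) : Rt (f (rp j)) := Rt.of_int fun χ =>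
  χ.2.isCharacter.isGeneralizedCharacter.exists_int_of_rational_class _ fun k hk => by
    obtain ⟨h1, h2⟩ := rat_rp j h5 h6
    have h0 : 0 < od j := (by decide : ∀ j, 0 < od j) j
    have e : orderOf (f (rp j)) = od j := by
      rw [orderOf_injective f h.inj, orderOf_eq_iff h0]
      exact ⟨h1, (h2 0 h0).1⟩
    rw [e] at hk
    rw [← pow_mod_orderOf, e, ← map_pow]
    exact f.map_isConj (isConj_iff.2 ((h2 _ (Nat.mod_lt _ h0)).2 (by
      rw [Nat.Coprime, ← Nat.gcd_rec, Nat.gcd_comm]; exact hk)))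

theorem Loc.re2_eq (h : Loc f) (χ : IrrCharacter G) (j : Fin 13) : re2 χ (f (rp j)) = 2 * χ.1 (f (rp j)) := by
  have k : ∀ x : K, (∃ g, g * x * g⁻¹ = x⁻¹) → re2 χ (f x) = 2 * χ.1 (f x) := fun x ⟨g, hg⟩ => by
    rw [re2, ← map_inv, ← hg, map_mul, map_mul, map_inv, χ.2.isCharacter.isClassFunction, two_mul]
  by_cases h5 : j = 5
  · rw [h5]; exact k _ real_rp.1
  by_cases h6 : j = 6
  · rw [h6]; exact k _ real_rp.2
  rw [(h.rt h5 h6).re2, h.rt h5 h6]; simp

theorem Loc.mult1 (h : Loc f) {U : K → Bool} {e : K → ZMod 6} {t : K} {W : Fin 13 → ℤ} {c : ℕ}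
    (H : MOk rp cl U e t W c) (χ : IrrCharacter G) : ∃ n : ℕ, ∑ j, W j * χ.1 (f (rp j)) = 2 * c * n := by
  obtain ⟨h1, h2, h3, h4, h5, rfl⟩ := H
  obtain ⟨n, hn⟩ := mult f (U ·) e t h1 (fun x y hx hy => h2 x hx y hy) h3 χ
  rw [regroup f rp cl _ (fun x hx => h4 x (by by_contra h; simp [h] at hx)) W h5] at hn
  simp only [h.re2_eq, mul_left_comm _ (2 : ℂ), ← Finset.mul_sum] at hn
  exact ⟨n, by linear_combination hn / 2⟩

noncomputable def Rr (f : K →* G) (χ : IrrCharacter G) : ℤ := ⌊(χ.1 (f (rp 5)) + χ.1 (f (rp 6))).re⌋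

noncomputable def val (f : K →* G) (χ : IrrCharacter G) (j : Fin 13) : ℤ :=
  if j = 5 then Rr f χ else if j = 6 then 0 else iv χ (f (rp j))

theorem Loc.hR (h : Loc f) (χ : IrrCharacter G) : χ.1 (f (rp 5)) + χ.1 (f (rp 6)) = Rr f χ := by
  obtain ⟨n, hn⟩ := h.mult1 m7 χ
  simp only [Fin.sum_univ_succ, Fin.sum_univ_zero, Matrix.cons_val_zero, Matrix.cons_val_succ] at hn
  have e : χ.1 (f (rp 5)) + χ.1 (f (rp 6)) = (iv χ (f (rp 9)) + iv χ (f (rp 10)) + 2 * iv χ (f (rp 11))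
      - iv χ (f (rp 0)) - iv χ (f (rp 3)) - 12 * n : ℤ) := by
    push_cast at hn ⊢
    rw [← h.rt (j := 9) (by decide) (by decide), ← h.rt (j := 10) (by decide) (by decide),
      ← h.rt (j := 11) (by decide) (by decide), ← h.rt (j := 0) (by decide) (by decide),
      ← h.rt (j := 3) (by decide) (by decide)]
    linear_combination -hn / 2
  rw [Rr, e, Complex.intCast_re, Int.floor_intCast]

theorem Loc.mult2 (h : Loc f) {U : K → Bool} {e : K → ZMod 6} {t : K} {W : Fin 13 → ℤ} {c : ℕ}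
    (H : MOk rp cl U e t W c) (hW : W 5 = W 6) (χ : IrrCharacter G) : ∃ n : ℕ, ∑ j, W j * val f χ j = 2 * c * n := by
  obtain ⟨n, hn⟩ := h.mult1 H χ
  have e : ∑ j, (W j * χ.1 (f (rp j)) - W j * val f χ j) = 0 := by
    rw [Finset.sum_eq_add_of_mem 5 6 (Finset.mem_univ _) (Finset.mem_univ _) (by decide) fun j _ hj => by
      rw [val, if_neg hj.1, if_neg hj.2, h.rt hj.1 hj.2, sub_self]]
    rw [val, val, if_pos rfl, if_neg (by decide), if_pos rfl, hW, ← h.hR]
    push_cast; ring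
  rw [Finset.sum_sub_distrib, hn, sub_eq_zero] at e
  exact ⟨n, by exact_mod_cast e.symm⟩

noncomputable def uu (f : K →* G) (Φ : IrrCharacter G → ℤ) (χ : IrrCharacter G) : Fin 10 → ℂ :=
  Fin.cons (Φ χ) fun i => χ.1 (f (rq i))

def Γ (m : ℤ) : Fin 10 → Fin 10 → ℤ :=
  Fin.cons (Fin.cons (3 * m) bt) fun i => Fin.cons (bt i) fun j => if i = j then gm i else 0

theorem Loc.gram (h : Loc f) {Φ : IrrCharacter G → ℤ} (h1 : ∀ i, ∑ χ, (Φ χ : ℂ) * χ.1 (f (rq i)) = bt i)
    (h2 : ∑ χ, Φ χ * Φ χ = 3 * Φ (triv G)) (k l : Fin 10) :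
    ∑ χ, uu f Φ χ k * conj (uu f Φ χ l) = Γ (Φ (triv G)) k l := by
  refine Fin.cases ?_ (fun a => ?_) k <;> refine Fin.cases ?_ (fun b => ?_) l <;>
    simp only [uu, Γ, Fin.cons_zero, Fin.cons_succ, map_intCast]
  · exact_mod_cast h2
  · have := congrArg conj (h1 b)
    simpa only [map_sum, map_mul, map_intCast] using this
  · simpa only [mul_comm] using h1 a
  · split_ifs with e
    · rw [← e, sum_irr_mul_conj_of_isConj (IsConj.refl _), h.cenq]; simp
    · rw [sum_irr_mul_conj_of_not_isConj (h.not_conj a fun e' => e ?_)]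
      · simp
      · have := nc_rq b 1
        rw [one_mul, inv_one, mul_one, e'] at this
        exact Fin.castLE_injective _ this

theorem bil {ι : Type*} [Fintype ι] {n : ℕ} {u : ι → Fin n → ℂ} {Γ : Fin n → Fin n → ℤ}
    (h : ∀ k l, ∑ χ, u χ k * conj (u χ l) = Γ k l) {p q : ι → ℤ} {A B : Fin n → ℤ}
    (hp : ∀ χ, (p χ : ℂ) = ∑ k, A k * u χ k) (hq : ∀ χ, (q χ : ℂ) = ∑ k, B k * u χ k) :
    ∑ χ, p χ * q χ = ∑ k, ∑ l, A k * B l * Γ k l := by
  have : ∑ χ, (p χ : ℂ) * conj (q χ : ℂ) = ∑ k, ∑ l, (A k * B l * Γ k l : ℂ) := by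
    simp only [hp, hq, map_sum, map_mul, map_intCast, Finset.sum_mul_sum, ← h]
    simp only [Finset.mul_sum]
    rw [Finset.sum_comm]
    refine Finset.sum_congr rfl fun k _ => ?_
    rw [Finset.sum_comm]
    exact Finset.sum_congr rfl fun l _ => Finset.sum_congr rfl fun χ _ => by ring
  simp only [map_intCast] at this
  exact_mod_cast this

end H02.Pr
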