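import Mathlib
import Cfsg.Agent.H02.Pr3

/-! The order of a group controlled by `3³ : S₄`. -/

set_option autoImplicit false
set_option linter.style.haveILetI false

open Cfsg H05 Subgroup H18.Col H18.Col.S27 H26 H21
open scoped ComplexConjugate

namespace H02.Pr

def qv {k : ℕ} (Q : List (Fin k × Fin k × ℤ)) (v : Fin k → ℤ) : ℤ := (Q.map fun t => t.2.2 * (v t.1 * v t.2.1)).sum
def qR {k : ℕ} (Q : List (Fin k × Fin k × ℤ)) (R : Fin k → Fin k → ℤ) : ℤ := (Q.map fun t => t.2.2 * R t.1 t.2.1).sum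

theorem stage {ι : Type*} [Fintype ι] {k : ℕ} {v : ι → Fin k → ℤ} {R : Fin k → Fin k → ℤ}
    (h : ∀ a b, ∑ i, v i a * v i b = R a b) (Q : List (Fin k × Fin k × ℤ)) {o : ι}
    (hp : ∀ i, i ≠ o → 0 ≤ qv Q (v i)) {i : ι} (hi : i ≠ o) : qv Q (v i) ≤ qR Q R - qv Q (v o) := by
  classical
  have e : ∑ i, qv Q (v i) = qR Q R := by
    clear hp
    induction Q with
    | nil => simp [qv, qR]
    | cons t Q ih =>
      simp only [qv, qR, List.map_cons, List.sum_cons, Finset.sum_add_distrib, ← Finset.mul_sum, h] at ih ⊢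
      rw [ih]
  rw [← e, ← Finset.add_sum_erase _ _ (Finset.mem_univ o), add_sub_cancel_left]
  exact Finset.single_le_sum (f := fun i => qv Q (v i)) (fun j hj => hp j (Finset.ne_of_mem_erase hj))
    (Finset.mem_erase.2 ⟨hi, Finset.mem_univ _⟩)

def Q1 : List (Fin 9 × Fin 9 × ℤ) := [(0, 0, 71), (0, 1, -296), (0, 2, -8), (0, 3, 198), (0, 4, -576), (0, 7, -6120), (0, 8, 4608), (1, 1, 128), (1, 2, 328), (1, 3, -72), (1, 4, 2880), (1, 5, 972), (1, 7, -1512), (1, 8, 4896), (2, 2, -16), (2, 3, -72), (2, 4, 936), (2, 6, -4320), (2, 7, 7488), (3, 3, -81), (3, 6, 24408), (3, 8, -12960), (4, 4, 7776), (4, 5, 2916), (4, 6, 30456), (5, 5, 81), (5, 6, 13608), (6, 6, 9648), (6, 7, 22608)]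
def Q2 : List (Fin 9 × Fin 9 × ℤ) := [(0, 0, 23), (0, 1, -32), (0, 2, 16), (0, 3, 54), (0, 4, 288), (0, 6, 4824), (0, 7, 2160), (0, 8, -672), (1, 1, 44), (1, 2, -80), (1, 3, 216), (1, 4, -360), (1, 5, -216), (1, 7, -4824), (1, 8, -7440), (2, 2, -16), (2, 4, -144), (2, 8, 6096), (3, 3, -81), (3, 4, 648), (3, 6, 648), (4, 4, -324), (4, 5, -648), (4, 7, 648), (5, 5, 81), (7, 8, 1008)]
def Q3 : List (Fin 9 × Fin 9 × ℤ) := [(0, 1, 8), (0, 2, 8), (0, 6, 12), (0, 7, 21), (0, 8, 21), (1, 1, 2), (1, 2, -8), (2, 2, 8), (2, 6, 36), (3, 6, -54), (4, 4, -162), (5, 6, -54)]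

def red (v : Fin 9 → ℤ) : Fin 3 → ℤ := ![v 6 - v 7, v 6 - v 8, v 0 * v 1 * (v 0 - 2 * v 1 + v 2)]
def ww : Fin 4 → Fin 3 → ℤ := ![![0, 0, 0], ![-3, -3, -72], ![3, 0, -72], ![0, 3, -72]]
def good (v : Fin 9 → ℤ) : Prop := ∃ j, (red v = ww j ∧ (j ≠ 0 → 6 * v 0 + 12 * v 1 + 8 * v 2 = 8)) ∨
  (red v = -ww j ∧ (j ≠ 0 → 6 * v 0 + 12 * v 1 + 8 * v 2 = -8))
def Conc (v : Fin 9 → ℤ) : Prop := 0 ≤ qv Q1 v ∧ (qv Q1 v ≤ 22032 → 0 ≤ qv Q2 v ∧ (qv Q2 v ≤ 1296 → 0 ≤ qv Q3 v ∧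
  (qv Q3 v ≤ 0 → good v)))
instance (v : Fin 9 → ℤ) : Decidable (Conc v) := by unfold Conc good; infer_instance

set_option synthInstance.maxSize 4000 in
theorem types : ∀ a ∈ Finset.Icc (-10 : ℤ) 10, ∀ b ∈ Finset.Icc (-7 : ℤ) 7, ∀ c ∈ Finset.Icc (-9 : ℤ) 9,
    (b - c) % 3 = 0 → (a - 2 * b + c) % 9 = 0 → ∀ P ∈ Finset.Icc (-3 : ℤ) 3, (a + P) % 2 = 0 →
    ∀ T ∈ Finset.Icc (-2 : ℤ) 2, (b + T) % 2 = 0 → ∀ R ∈ Finset.Icc (-4 : ℤ) 4, (a + P + R) % 4 = 0 →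
    6 * a * a + 12 * b * b + 8 * c * c + 54 * P * P + 108 * T * T + 27 * R * R ≤ 648 →
    ∀ X ∈ Finset.Icc (-3 : ℤ) 3, (X - c) % 3 = 0 → ∀ Y ∈ Finset.Icc (-3 : ℤ) 3, (Y - c) % 3 = 0 →
    ∀ S ∈ Finset.Icc (-3 : ℤ) 3, (X + Y + S) % 3 = 0 →
    (6 * a * a + 12 * b * b + 8 * c * c + 54 * P * P + 108 * T * T + 27 * R * R + 72 * X * X + 72 * Y * Y + 72 * S * S) ^ 2 +
      (6 * a + 12 * b + 8 * c + 54 * P + 108 * T + 54 * R + 72 * X + 72 * Y + 72 * S) ^ 2 ≤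
      648 * (6 * a * a + 12 * b * b + 8 * c * c + 54 * P * P + 108 * T * T + 27 * R * R + 72 * X * X + 72 * Y * Y + 72 * S * S) →
    Conc ![a, b, c, P, T, R, X, Y, S] := by
  decide +kernel

def g9 : Fin 9 → ℤ := ![108, 54, 81, 12, 6, 24, 9, 9, 9]
def tr : Fin 9 → ℤ := ![1, 1, 1, 1, 1, 2, 1, 1, 1]
def AA : Fin 9 → Fin 10 → ℤ := ![![0, 1, 0, 0, 0, 0, 0, 0, 0, 0], ![0, 0, 1, 0, 0, 0, 0, 0, 0, 0],
  ![0, 0, 0, 1, 0, 0, 0, 0, 0, 0], ![0, 0, 0, 0, 1, 0, 0, 0, 0, 0], ![0, 0, 0, 0, 0, 1, 0, 0, 0, 0],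
  ![0, 0, 0, 0, 0, 0, 1, 1, 0, 0], ![0, 0, 0, 0, 0, 0, 0, 0, 1, 0], ![0, 0, 0, 0, 0, 0, 0, 0, 0, 1],
  ![3, 0, 0, 0, 0, 0, 0, 0, -1, -1]]
theorem AA_Γ : ∀ a b, ∑ k, ∑ l, AA a k * AA b l * Γ 1 k l = if a = b then g9 a else 0 := by decide +kernel
theorem tg : qR Q1 (fun a b => if a = b then g9 a else 0) - qv Q1 tr = 22032 ∧
    qR Q2 (fun a b => if a = b then g9 a else 0) - qv Q2 tr = 1296 ∧
    qR Q3 (fun a b => if a = b then g9 a else 0) - qv Q3 tr = 0 := by decide +kernel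

variable {G : Type*} [Group G] [Finite G] {f : K →* G}

noncomputable def vv (f : K →* G) (Φ : IrrCharacter G → ℤ) (χ : IrrCharacter G) : Fin 9 → ℤ :=
  ![val f χ 0, val f χ 1, val f χ 2, val f χ 3, val f χ 4, val f χ 5, val f χ 7, val f χ 8,
    3 * Φ χ - val f χ 7 - val f χ 8]

theorem Loc.val_eq (h : Loc f) (χ : IrrCharacter G) {j : Fin 13} (h5 : j ≠ 5) (h6 : j ≠ 6) :
    (val f χ j : ℂ) = χ.1 (f (rp j)) := by rw [val, if_neg h5, if_neg h6, h.rt h5 h6]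

theorem Loc.hv (h : Loc f) (Φ : IrrCharacter G → ℤ) (a : Fin 9) (χ : IrrCharacter G) :
    (vv f Φ χ a : ℂ) = ∑ k, AA a k * uu f Φ χ k := by
  have e : uu f Φ χ = ![(Φ χ : ℂ), val f χ 0, val f χ 1, val f χ 2, val f χ 3, val f χ 4, χ.1 (f (rp 5)),
      χ.1 (f (rp 6)), val f χ 7, val f χ 8] := by
    rw [h.val_eq χ (j := 0) (by decide) (by decide), h.val_eq χ (j := 1) (by decide) (by decide),
      h.val_eq χ (j := 2) (by decide) (by decide), h.val_eq χ (j := 3) (by decide) (by decide),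
      h.val_eq χ (j := 4) (by decide) (by decide), h.val_eq χ (j := 7) (by decide) (by decide),
      h.val_eq χ (j := 8) (by decide) (by decide)]
    ext i; fin_cases i <;> rfl
  have e2 : (val f χ 5 : ℂ) = χ.1 (f (rp 5)) + χ.1 (f (rp 6)) := by rw [h.hR, val, if_pos rfl]
  rw [e]
  fin_cases a <;> simp [vv, AA, Fin.sum_univ_succ, e2]
  ring

theorem val_triv (j : Fin 13) : val f (triv G) j = if j = 5 then 2 else if j = 6 then 0 else 1 := by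
  simp only [val, iv_triv]
  simp only [Rr, triv, Pi.one_apply]
  norm_num

theorem Γ_eq (m : ℤ) (A : Fin 10 → ℤ) : ∑ k, ∑ l, A k * A l * Γ m k l = ∑ k, ∑ l, A k * A l * Γ 0 k l + 3 * m * (A 0 * A 0) := by
  simp only [Fin.sum_univ_succ (n := 9), Γ, Fin.cons_zero, Fin.cons_succ]
  ring

theorem Loc.orth (h : Loc f) {Φ : IrrCharacter G → ℤ} (h1 : ∀ i, ∑ χ, (Φ χ : ℂ) * χ.1 (f (rq i)) = bt i)
    (h2 : ∑ χ, Φ χ * Φ χ = 3 * Φ (triv G)) :
    vv f Φ (triv G) = tr ∧ ∀ a b, ∑ χ, vv f Φ χ a * vv f Φ χ b = if a = b then g9 a else 0 := by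
  have hg := h.gram h1 h2
  have a1 := bil hg (h.hv Φ 8) (h.hv Φ 8)
  have hz : ∀ χ, ((4 * Φ χ + 2 * vv f Φ χ 4 + vv f Φ χ 3 + vv f Φ χ 5 : ℤ) : ℂ) =
      ∑ k, (![4, 0, 0, 0, 1, 2, 1, 1, 0, 0] k : ℤ) * uu f Φ χ k := fun χ => by
    push_cast
    simp only [h.hv]
    simp [AA, Fin.sum_univ_succ, uu]
    ring
  have a2 := bil hg hz hz
  have b1 : 0 ≤ ∑ χ, vv f Φ χ 8 * vv f Φ χ 8 := Finset.sum_nonneg fun _ _ => mul_self_nonneg _
  have b2 := Finset.single_le_sum (f := fun χ => (4 * Φ χ + 2 * vv f Φ χ 4 + vv f Φ χ 3 + vv f Φ χ 5) *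
    (4 * Φ χ + 2 * vv f Φ χ 4 + vv f Φ χ 3 + vv f Φ χ 5)) (fun _ _ => mul_self_nonneg _) (Finset.mem_univ (triv G))
  rw [a1, Γ_eq, show ∑ k, ∑ l, AA 8 k * AA 8 l * Γ 0 k l = -18 by decide +kernel] at b1
  rw [a2, Γ_eq, show ∑ k, ∑ l, (![4, 0, 0, 0, 1, 2, 1, 1, 0, 0] k : ℤ) * ![4, 0, 0, 0, 1, 2, 1, 1, 0, 0] l * Γ 0 k l = 60
    by decide +kernel] at b2
  simp [AA, vv, val_triv] at b1 b2
  have hm : Φ (triv G) = 1 := by
    have : 1 ≤ Φ (triv G) := by omega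
    nlinarith
  rw [hm] at hg
  refine ⟨?_, fun a b => (bil hg (h.hv Φ a) (h.hv Φ b)).trans (AA_Γ a b)⟩
  simp [vv, val_triv, hm, tr]

theorem Loc.conc (h : Loc f) {Φ : IrrCharacter G → ℤ} (h0 : vv f Φ (triv G) = tr)
    (ho : ∀ a b, ∑ χ, vv f Φ χ a * vv f Φ χ b = if a = b then g9 a else 0) (χ : IrrCharacter G) (hχ : χ ≠ triv G) :
    Conc (vv f Φ χ) ∧ (dg χ + 6 * val f χ 0 + 12 * val f χ 1 + 8 * val f χ 2) % 27 = 0 := by
  obtain ⟨n1, h1⟩ := h.mult2 m1 rfl χ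
  obtain ⟨n2, h2⟩ := h.mult2 m2 rfl χ
  obtain ⟨n3, h3⟩ := h.mult2 m3 rfl χ
  obtain ⟨n4, h4⟩ := h.mult2 m4 rfl χ
  obtain ⟨n5, h5⟩ := h.mult2 m5 rfl χ
  obtain ⟨n6, h6⟩ := h.mult2 m6 rfl χ
  obtain ⟨n7, h7⟩ := h.mult2 m7 rfl χ
  obtain ⟨n8, h8⟩ := h.mult2 m8 rfl χ
  obtain ⟨n9, h9⟩ := h.mult2 m9 rfl χ
  obtain ⟨n10, h10⟩ := h.mult2 m10 rfl χ
  obtain ⟨n11, h11⟩ := h.mult2 m11 rfl χ
  obtain ⟨n12, h12⟩ := h.mult2 m12 rfl χ
  have e9 : val f χ 9 = dg χ := by rw [val, if_neg (by decide), if_neg (by decide), show rp 9 = 1 from rfl, map_one, dg]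
  have hb := bessel (vv f Φ) ![6, 12, 8, 54, 108, 27, 72, 72, 72] 648
    (fun a b => by
      rw [ho]; split_ifs with e
      · fin_cases a <;> rfl
      · exact mul_zero _) hχ
  have bx := fun a n hn h2 => mem_box (fun a => by fin_cases a <;> decide) hb (by norm_num) a (n := n) hn h2
  have b0 := bx 0 10 (by norm_num) (by decide)
  have b1 := bx 1 7 (by norm_num) (by decide)
  have b2 := bx 2 9 (by norm_num) (by decide)
  have b3 := bx 3 3 (by norm_num) (by decide)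
  have b4 := bx 4 2 (by norm_num) (by decide)
  have b5 := bx 5 4 (by norm_num) (by decide)
  have b6 := bx 6 3 (by norm_num) (by decide)
  have b7 := bx 7 3 (by norm_num) (by decide)
  have b8 := bx 8 3 (by norm_num) (by decide)
  rw [h0] at hb
  clear bx ho h0
  rw [← e9]
  unfold vv at *
  simp only [Fin.sum_univ_succ, Fin.sum_univ_zero, Matrix.cons_val_zero, Matrix.cons_val_succ, tr] at hb
  simp [Fin.sum_univ_succ, show val f χ 6 = 0 from rfl] at h1 h2 h3 h4 h5 h6 h7 h8 h9 h10 h11 h12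
  simp only [Matrix.cons_val] at b0 b1 b2 b3 b4 b5 b6 b7 b8
  generalize val f χ 0 = a, val f χ 1 = b, val f χ 2 = c, val f χ 3 = P, val f χ 4 = T, val f χ 5 = R,
    val f χ 7 = X, val f χ 8 = Y, val f χ 9 = d, val f χ 10 = i, val f χ 11 = j, val f χ 12 = t, Φ χ = φ at *
  have s1 : (a - 2 * b + c) % 9 = 0 := by clear * - h3 h4; omega
  have s2 : (b - c) % 3 = 0 := by clear * - h2 h3 s1; omega
  have s3 : (d - c) % 9 = 0 := by clear * - h4 s1 s2; omega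
  have s4 : (a + P + R) % 4 = 0 := by clear * - h5 h7; omega
  have s5 : (a + P) % 2 = 0 := by clear * - h6 h8 s4; omega
  have s6 : (b + T) % 2 = 0 := by clear * - h9 h10; omega
  have s7 : (X - c) % 3 = 0 := by clear * - h11 s3; omega
  have s8 : (Y - c) % 3 = 0 := by clear * - h12 s3; omega
  generalize hS : 3 * φ - X - Y = S at *
  refine ⟨types _ b0 _ b1 _ b2 s2 s1 _ b3 s5 _ b4 s6 _ b5 s4 ?_ _ b6 s7 _ b7 s8 _ b8 (by clear * - hS; omega)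
    (by clear * - hb; linarith), by clear * - h1; omega⟩
  clear * - hb
  by_contra hc
  nlinarith [sq_nonneg (6 * a + 12 * b + 8 * c + 54 * P + 108 * T + 54 * R + 72 * X + 72 * Y + 72 * S),
    mul_self_nonneg X, mul_self_nonneg Y, mul_self_nonneg S]

theorem Loc.cnt_eq (h : Loc f) (i : Fin 3) : cnt (f (rp 0)) (f (rp 1)) (f (rp (i.castLE (by norm_num)))) =
    729 * ![32, 16, 24] i := by
  obtain ⟨z, hz⟩ : ∃ z, z = rp (i.castLE (by norm_num)) := ⟨_, rfl⟩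
  have z1 : z.right = 1 ∧ z.left ≠ 1 := by rw [hz]; clear hz; revert i; decide +kernel
  have e : (Finset.univ.filter fun p : K × K => p.1 * rp 0 * p.1⁻¹ * (p.2 * rp 1 * p.2⁻¹) = z).card =
      729 * ![32, 16, 24] i := by
    rw [← cnt_D, ← hz]
    have e1 : ∀ g k : K, g * rp 0 * g⁻¹ * (k * rp 1 * k⁻¹) = z ↔
        act g.right (rp 0).left * act k.right (rp 1).left = z.left := fun g k => by
      rw [eq_jv (x := rp 0) rfl, eq_jv (x := rp 1) rfl, cjV, cjV, eq_jv z1.1]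
      exact ⟨fun e => by simpa [jv] using congrArg SemidirectProduct.left e,
        fun e => SemidirectProduct.ext (by simpa [jv] using e) (by simp [jv])⟩
    have e2 : ∀ F : D → ℕ, ∑ g : K, F g.right = 27 * ∑ d, F d := fun F => by
      rw [← Equiv.sum_comp SemidirectProduct.equivProd.symm, Fintype.sum_prod_type]
      simp
    simp only [Finset.card_filter, Fintype.sum_prod_type, e1]
    simp only [fun g : K => e2 fun e => if act g.right (rp 0).left * act e (rp 1).left = z.left then 1 else 0]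
    rw [e2 fun d => 27 * ∑ e, if act d (rp 0).left * act e (rp 1).left = z.left then 1 else 0, ← Finset.mul_sum,
      ← mul_assoc]
    rfl
  rw [← e, ← hz, ← Fintype.card_subtype, ← Nat.card_eq_fintype_card, cnt]
  symm
  refine Nat.card_eq_of_bijective (fun p => ⟨(f p.1.1, f p.1.2), by
    have := congrArg f p.2
    simpa using this⟩) ⟨fun a b e => Subtype.ext (Prod.ext (h.inj (congrArg (·.1.1) e))
      (h.inj (congrArg (·.1.2) e))), ?_⟩
  rintro ⟨⟨g, k⟩, hg⟩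
  obtain ⟨h1, h2⟩ := h.l333 (u := g * f (rp 0) * g⁻¹) (v := k * f (rp 1) * k⁻¹)
    ⟨g⁻¹, (rp 0).left, by rw [← eq_jv (x := rp 0) rfl]; group⟩
    ⟨k⁻¹, (rp 1).left, by rw [← eq_jv (x := rp 1) rfl]; group⟩ z1.2 (by rw [← eq_jv z1.1]; exact hg)
    fun hc => h.not_conj 0 (y := rp 1) (by decide +kernel)
      ((isConj_iff.2 ⟨g, rfl⟩).trans (hc.trans (isConj_iff.2 ⟨k, rfl⟩).symm))
  obtain ⟨g, rfl⟩ := h.mem 0 h1
  obtain ⟨k, rfl⟩ := h.mem 1 h2
  exact ⟨⟨(g, k), h.inj (by simpa using hg)⟩, rfl⟩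

theorem Loc.top (h : Loc f) : f.range = ⊤ := by
  obtain ⟨Φ, p1, p2, p3⟩ := h.phi
  obtain ⟨h0, ho⟩ := h.orth p1 p3
  have hc := h.conc h0 ho
  have s1 := fun χ hχ => (hc χ hχ).1.2 ((stage ho Q1 (fun χ hχ => (hc χ hχ).1.1) hχ).trans (by rw [h0, tg.1]))
  have s2 := fun χ hχ => (s1 χ hχ).2 ((stage ho Q2 (fun χ hχ => (s1 χ hχ).1) hχ).trans (by rw [h0, tg.2.1]))
  have s3 := fun χ hχ => (s2 χ hχ).2 ((stage ho Q3 (fun χ hχ => (s2 χ hχ).1) hχ).trans (by rw [h0, tg.2.2]))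
  obtain ⟨M, a1, a2, a3, a4⟩ := extract (fun χ => red (vv f Φ χ)) ww (fun j x => j ≠ 0 → (x + 8) % 27 = 0)
    fun χ hχ => (s3 χ hχ).imp fun j hj => hj.imp (fun e => ⟨e.1, fun h1 => by
      have := e.2 h1; have := (hc χ hχ).2; simp [vv] at *; omega⟩) fun e => ⟨e.1, fun h1 => by
      have := e.2 h1; have := (hc χ hχ).2; simp [vv] at *; omega⟩
  have r0 : red (vv f Φ (triv G)) = 0 := by rw [h0]; decide
  have o : ∀ a b c d, ∑ χ, (vv f Φ χ a - vv f Φ χ b) * (vv f Φ χ c - vv f Φ χ d) =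
      (if a = c then g9 a else 0) - (if a = d then g9 a else 0) - ((if b = c then g9 b else 0) -
        (if b = d then g9 b else 0)) := fun a b c d => by
    simp only [sub_mul, mul_sub, Finset.sum_sub_distrib, ho]; ring
  have c1 := (o 6 7 6 7).symm.trans (a2 0 0)
  have c2 := (o 6 8 6 8).symm.trans (a2 1 1)
  have c3 := (o 6 7 6 8).symm.trans (a2 0 1)
  simp [r0, ww, g9, Fin.sum_univ_succ] at c1 c2 c3
  obtain ⟨x, e1⟩ := Multiset.card_eq_one.1 (show (M 1).card = 1 by omega)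
  obtain ⟨y, e2⟩ := Multiset.card_eq_one.1 (show (M 2).card = 1 by omega)
  obtain ⟨z, e3⟩ := Multiset.card_eq_one.1 (show (M 3).card = 1 by omega)
  have od : ∀ j : Fin 13, j ≠ 5 → j ≠ 6 → rp j ≠ 1 → ∑ χ, val f χ j * dg χ = 0 := fun j h5 h6 h1 => by
    simp only [val, if_neg h5, if_neg h6]
    exact orth_dg (h.rt h5 h6) ((map_ne_one_iff f h.inj).2 h1)
  have o7 := od 7 (by decide) (by decide) (by decide +kernel)
  have o8 := od 8 (by decide) (by decide) (by decide +kernel)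
  have d1 := a3 0
  have d2 := a3 1
  simp only [red, vv, Matrix.cons_val, sub_mul, Finset.sum_sub_distrib, mul_assoc, ← Finset.mul_sum, o7, o8, p2] at d1 d2
  have q := a4 2 2 2
  have k0 := cub (h.rt (j := 0) (by decide) (by decide)) (h.rt (j := 1) (by decide) (by decide))
    (h.rt (j := 0) (by decide) (by decide))
  have k1 := cub (h.rt (j := 0) (by decide) (by decide)) (h.rt (j := 1) (by decide) (by decide))
    (h.rt (j := 1) (by decide) (by decide))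
  have k2 := cub (h.rt (j := 0) (by decide) (by decide)) (h.rt (j := 1) (by decide) (by decide))
    (h.rt (j := 2) (by decide) (by decide))
  erw [h.cnt_eq 0] at k0
  erw [h.cnt_eq 1] at k1
  erw [h.cnt_eq 2] at k2
  have q1 : ∀ χ, red (vv f Φ χ) 2 * red (vv f Φ χ) 2 * red (vv f Φ χ) 2 = 5184 * red (vv f Φ χ) 2 := fun χ => by
    by_cases hχ : χ = triv G
    · rw [hχ, r0]; rfl
    obtain ⟨j, e | e⟩ := s3 χ hχ <;> rw [e.1] <;> clear e <;> revert j <;> decide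
  have g0 : (Nat.card G : ℚ) ≠ 0 := by exact_mod_cast Nat.card_pos.ne'
  have q2 : ∑ χ, (red (vv f Φ χ) 2 * red (vv f Φ χ) 2 * red (vv f Φ χ) 2 : ℚ) / dg χ = 5184 * (17496 / Nat.card G) := by
    have : ∀ χ, (red (vv f Φ χ) 2 * red (vv f Φ χ) 2 * red (vv f Φ χ) 2 : ℚ) / dg χ =
        5184 * ((iv χ (f (rp 0)) * iv χ (f (rp 1)) * iv χ (f (rp 0)) : ℚ) / dg χ -
          2 * ((iv χ (f (rp 0)) * iv χ (f (rp 1)) * iv χ (f (rp 1)) : ℚ) / dg χ) +
          (iv χ (f (rp 0)) * iv χ (f (rp 1)) * iv χ (f (rp 2)) : ℚ) / dg χ) := fun χ => by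
      rw [← Int.cast_mul, ← Int.cast_mul, q1]
      simp [red, vv, val]
      ring
    simp only [this, ← Finset.mul_sum, Finset.sum_add_distrib, Finset.sum_sub_distrib, k0, k1, k2]
    simp
    ring
  rw [q2] at q
  simp [r0, ww, Fin.sum_univ_succ, e1, e2, e3, val_triv, show Φ (triv G) = 1 by
    have := congrFun h0 8; simp [vv, val_triv, tr] at this; omega] at q d1 d2
  obtain rfl : x = y := by omega
  obtain rfl : x = z := by omega
  obtain ⟨u1, u2, u3⟩ := a1 1 x (by simp [e1])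
  have x0 : (x : ℚ) ≠ 0 := by
    rintro e
    rw [Int.cast_eq_zero.1 e, zero_dvd_iff] at u2
    exact g0 (by exact_mod_cast u2)
  have q3 : (Nat.card G : ℤ) = -81 * x := by
    field_simp at q
    have : (Nat.card G : ℚ) = -81 * x := by linarith
    exact_mod_cast this
  have q4 := f.range.card_mul_index
  rw [h.cardH] at q4
  have := u1 (by decide)
  have q5 : -81 < x := by nlinarith
  rw [← index_eq_one]
  omega

end H02.Pr
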