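import Cfsg.Agent.H06.PT0
set_option autoImplicit false
open Cfsg BG Subgroup Cfsg.Agent.H06.PT
open scoped commutatorElement
universe u
namespace Cfsg.Agent.H02.PtD

theorem p3 : Nat.Prime 3 := Nat.prime_three
theorem p2 : Nat.Prime 2 := Nat.prime_two

section basic
variable {Γ Γ' : Type u} [Group Γ] [Group Γ']

theorem od_mono {H H' : Subgroup Γ} (h : H ≤ H') (ho : Od H') : Od H :=
  fun U D hU hD => ho U D (hU.trans h) (hD.trans h)

theorem comap_norm (f : Γ →* Γ') (U : Subgroup Γ') : (N_(U)).comap f ≤ N_(U.comap f) := by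
  rw [le_norm_iff]
  intro a ha k hk
  rw [mem_comap] at *
  simpa using conj_mem_of_norm ha hk

theorem map_norm (f : Γ →* Γ') {U D : Subgroup Γ} (h : D ≤ N_(U)) : D.map f ≤ N_(U.map f) := by
  rw [le_norm_iff]
  rintro _ ⟨a, ha, rfl⟩ _ ⟨k, hk, rfl⟩
  exact ⟨a * k * a⁻¹, conj_mem_of_norm (h ha) hk, by simp⟩

theorem map_cent (f : Γ →* Γ') {U D : Subgroup Γ} (h : D ≤ C_(U)) : D.map f ≤ C_(U.map f) := by
  rw [le_cent_iff] at *
  rintro _ ⟨a, ha, rfl⟩ _ ⟨k, hk, rfl⟩
  rw [← map_mul, ← map_mul, h a ha k hk]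

theorem comm_le_ker (f : Γ →* Γ') {U D : Subgroup Γ} (h : D.map f ≤ C_(U.map f)) : ⁅U, D⁆ ≤ f.ker := by
  rw [← Subgroup.map_eq_bot_iff, Subgroup.map_commutator, comm_eq_bot]
  exact cent_symm h

theorem map_inf_comap (f : Γ →* Γ') {H : Subgroup Γ} {U : Subgroup Γ'} (h : U ≤ H.map f) :
    (H ⊓ U.comap f).map f = U := by
  apply le_antisymm
  · rintro _ ⟨a, ha, rfl⟩; exact ha.2
  · intro x hx
    obtain ⟨a, ha, rfl⟩ := h hx
    exact ⟨a, ⟨ha, hx⟩, rfl⟩

theorem od_map [Finite Γ] [Finite Γ'] (f : Γ →* Γ') {H : Subgroup Γ} (ho : Od H) : Od (H.map f) := by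
  intro U D hU hD pU pD hn
  set X := H ⊓ (U ⊔ D).comap f with hX
  set W := H ⊓ U.comap f with hW
  have hWX : W ≤ X := inf_le_inf_left _ (comap_mono le_sup_left)
  have hXn : X ≤ N_(W) := norm_inf (norm_of_le inf_le_left)
    (inf_le_right.trans ((comap_mono (sup_le_norm_left hn)).trans (comap_norm f U)))
  obtain ⟨U0, hU0⟩ := sylow_exists p3 W
  have hfr := sylow_frattini p3 hU0 hWX hXn
  obtain ⟨D0, hD0⟩ := sylow_exists p2 (X ⊓ N_(U0))
  have hc : D0 ≤ C_(U0) := ho U0 D0 (hU0.le.trans inf_le_left) (hD0.le.trans (inf_le_left.trans inf_le_left))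
    (hU0.pg p3) (hD0.pg p2) (hD0.le.trans inf_le_right)
  have e1 : W.map f = U := map_inf_comap f hU
  have e2 : X.map f = U ⊔ D := map_inf_comap f (sup_le hU hD)
  have e3 : U0.map f = U := by
    have := hU0.map f
    rw [e1] at this
    exact this.eq_self (isPi_of_pg p3 pU rfl)
  have hc' := map_cent f hc
  rw [e3] at hc'
  set Y := (X ⊓ N_(U0)).map f with hY
  have e4 : U ⊔ Y = U ⊔ D := by rw [← e2, ← hfr, Subgroup.map_sup, e1]
  have hYn : Y ≤ N_(U) := (le_sup_right.trans e4.le).trans (sup_le_norm_left hn)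
  have hS : IsSylowIn 2 (D0.map f) (U ⊔ D) := by
    refine IsSylowIn.trans_idx (hD0.map f) (le_sup_right.trans e4.le) ?_
    rw [← e4, relIndex_sup' hYn]
    intro h2
    exact pg_not_dvd p2 p3 pU (by norm_num) (h2.trans (BG.relIndex_dvd_card _ _))
  obtain ⟨g, hg, hle⟩ := sylow_subJ p2 hS pD le_sup_right
  refine hle.trans ((cj_mono g hc').trans ?_)
  rw [cj_cent, cj_of_mem_norm (sup_le_norm_left hn hg)]

theorem od_of_map (f : Γ →* Γ') (hf : Function.Injective f) {H : Subgroup Γ} (ho : Od (H.map f)) : Od H := by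
  intro U D hU hD pU pD hn
  have := comm_le_ker f (ho (U.map f) (D.map f) (map_mono hU) (map_mono hD) (pU.map f) (pD.map f) (map_norm f hn))
  rw [(MonoidHom.ker_eq_bot_iff f).2 hf, le_bot_iff, comm_eq_bot] at this
  exact cent_symm this

theorem od_cj [Finite Γ] (g : Γ) {H : Subgroup Γ} (ho : Od (cj g H)) : Od H :=
  od_of_map _ (MulAut.conj g).injective ho

theorem char_equiv {A B : Type u} [Group A] [Group B] (e : A ≃* B) (K : Subgroup B) (h : K.Characteristic) :
    (K.comap e.toMonoidHom).Characteristic := by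
  rw [Subgroup.characteristic_iff_comap_eq] at *
  intro φ
  have := h (e.symm.trans (φ.trans e))
  ext x
  have h2 := SetLike.ext_iff.1 this (e x)
  simpa using h2

theorem char_iff (f : Γ →* Γ') {K P : Subgroup Γ} (hK : K ≤ P) (hf : P ⊓ f.ker = ⊥) :
    CharIn K P ↔ CharIn (K.map f) (P.map f) := by
  have hinj : ∀ x ∈ P, ∀ y ∈ P, f x = f y → x = y := by
    intro x hx y hy h
    have : x * y⁻¹ ∈ P ⊓ f.ker := ⟨P.mul_mem hx (P.inv_mem hy), by simp [MonoidHom.mem_ker, h]⟩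
    rw [hf, mem_bot] at this
    exact mul_inv_eq_one.1 this
  have hb : Function.Bijective (f.subgroupMap P) := by
    refine ⟨fun x y h => Subtype.ext (hinj _ x.2 _ y.2 (congrArg Subtype.val h)), f.subgroupMap_surjective P⟩
  let e : P ≃* P.map f := MulEquiv.ofBijective _ hb
  have he : ∀ x : P, x ∈ K.subgroupOf P ↔ e x ∈ (K.map f).subgroupOf (P.map f) := by
    intro x
    simp only [mem_subgroupOf]
    constructor
    · intro hx; exact ⟨x, hx, rfl⟩
    · rintro ⟨y, hy, h⟩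
      have : y = x := hinj _ (hK hy) _ x.2 h
      exact this ▸ hy
  constructor
  · rintro ⟨-, h⟩
    refine ⟨map_mono hK, ?_⟩
    have := char_equiv e.symm _ h
    convert this using 1
    ext y
    obtain ⟨x, rfl⟩ := e.surjective y
    rw [← he]; simp
  · rintro ⟨-, h⟩
    refine ⟨hK, ?_⟩
    have := char_equiv e _ h
    convert this using 1
    ext x
    rw [he]; simp

end basic

/-- the statement for a whole group -/
def T (G : Type u) [Group G] : Prop := ∀ P : Subgroup G, IsSylowIn 3 P ⊤ →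
  (∀ K : Subgroup G, CharIn K P → K ≠ ⊥ → Od N_(K)) → Od (⊤ : Subgroup G)

theorem amb {Γ : Type u} [Group Γ] [Finite Γ] (G P : Subgroup Γ) (hP : IsSylowIn 3 P G)
    (h : ∀ K : Subgroup Γ, CharIn K P → K ≠ ⊥ → Od (G ⊓ N_(K))) (hT : T G) : Od G := by
  obtain ⟨P0, rfl⟩ := hP.exists_sylow p3
  have := hT P0 (isSylowIn_top p3 P0) (fun K hK hK0 => ?_)
  · have h2 := od_map G.subtype this
    rwa [← MonoidHom.range_eq_map, Subgroup.range_subtype] at h2
  · have h1 := (char_iff G.subtype hK.le (by simp)).1 hK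
    have h2 := h _ h1 (fun h0 => hK0 ((Subgroup.map_eq_bot_iff_of_injective _ G.subtype_injective).1 h0))
    exact od_of_map G.subtype G.subtype_injective
      (od_mono (le_inf (map_subtype_le _) (map_norm _ le_rfl)) h2)

theorem step (hB : OddB.{u}) (G : Type u) [Group G] [Finite G]
    (ih : ∀ (H : Type u) [Group H] [Finite H], Nat.card H < Nat.card G → T H) : T G := by
  intro P hP hyp
  by_contra hG
  have ihs : ∀ H P0 : Subgroup G, H ≠ ⊤ → IsSylowIn 3 P0 H →
      (∀ K : Subgroup G, CharIn K P0 → K ≠ ⊥ → Od (H ⊓ N_(K))) → Od H := by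
    intro H P0 hH h0 h1
    refine amb H P0 h0 h1 (ih _ ?_)
    have := card_lt (lt_top_iff_ne_top.2 hH)
    rwa [Subgroup.card_top] at this
  have ihq : ∀ (N : Subgroup G) [N.Normal], N ≠ ⊥ → T (G ⧸ N) := by
    intro N _ hN
    refine ih _ ?_
    have h1 := Subgroup.card_eq_card_quotient_mul_card_subgroup N
    have h2 := one_lt_card hN
    have h3 : 0 < Nat.card (G ⧸ N) := Nat.card_pos
    nlinarith
  have prop : ∀ H : Subgroup G, P ≤ H → H ≠ ⊤ → Od H := fun H h1 h2 =>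
    ihs H P h2 (hP.sub h1 le_top) (fun K hK hK0 => od_mono inf_le_right (hyp K hK hK0))
  have hG' := hG
  unfold Od at hG'
  push Not at hG'
  obtain ⟨U, D, -, -, pU, pD, hn, hnc⟩ := hG'
  set Q := piCoreOf {3} (⊤ : Subgroup G) with hQ
  have pQ : IsPGroup 3 Q := pcore_pg p3 _
  have nQ : ⊤ ≤ N_(Q) := le_norm_pcore _ _
  have QP : Q ≤ P := hP.pcore_le
  have leQ : ∀ K : Subgroup G, IsPGroup 3 K → ⊤ ≤ N_(K) → K ≤ Q := fun K h1 h2 => le_pcore_pg p3 h1 le_top h2
  haveI : Q.Normal := Subgroup.normalizer_eq_top_iff.1 (top_le_iff.1 nQ)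
  -- (b)
  have Q0 : Q ≠ ⊥ := by
    let S : Set (Subgroup G × Subgroup G) :=
      {x | IsPGroup 3 x.1 ∧ x.1 ≠ ⊥ ∧ ¬ Od N_(x.1) ∧ IsSylowIn 3 x.2 N_(x.1)}
    have hne : S.Nonempty := by
      obtain ⟨P0, h0⟩ := sylow_exists p3 N_(U)
      refine ⟨(U, P0), pU, ?_, fun h => hnc (h U D (le_norm U) hn pU pD hn), h0⟩
      rintro (rfl : U = ⊥)
      exact hnc le_cent_bot
    obtain ⟨⟨V0, P1⟩, ⟨a1, a2, a3, a4⟩, hmax⟩ := Set.exists_max_image S (fun x => Nat.card x.2) (Set.toFinite _) hne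
    obtain ⟨g, -, hg⟩ := sylow_Jsub p3 hP (a4.pg p3) le_top
    set V := cj g V0
    set P0 := cj g P1
    have b1 : IsPGroup 3 V := isPGroup_cj.2 a1
    have b2 : V ≠ ⊥ := fun h => a2 (cj_eq_bot_iff.1 h)
    have b3 : ¬ Od N_(V) := fun h => a3 (od_cj g (by rwa [cj_norm]))
    have b4 : IsSylowIn 3 P0 N_(V) := by have := a4.cj g; rwa [cj_norm] at this
    have b5 : ∀ x ∈ S, Nat.card x.2 ≤ Nat.card P0 := fun x hx => by rw [card_cj]; exact hmax x hx
    have hV : N_(V) = ⊤ := by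
      by_contra hV
      refine b3 (ihs _ P0 hV b4 (fun K hK hK0 => od_mono inf_le_right ?_))
      rcases eq_or_lt_of_le hg with h | h
      · exact hyp K (h ▸ hK) hK0
      · by_contra hKo
        have h1 := nil_lt_norm (pg_nil p3 (hP.pg p3)) h
        obtain ⟨P2, h2, h3⟩ := sylow_superset p3 (pg_le (hP.pg p3) (inf_le_left : P ⊓ N_(P0) ≤ P))
          (inf_le_right.trans hK.norm_le)
        have h4 := b5 (K, P2) ⟨pg_le (b4.pg p3) hK.le, hK0, hKo, h2⟩
        have h5 := card_lt (lt_of_lt_of_le h1 h3)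
        exact absurd h4 (not_le.2 h5)
    exact ne_bot_mono b2 (leQ V b1 hV.ge)
  have mtop : ∀ (N : Subgroup G) [N.Normal], (⊤ : Subgroup G).map (QuotientGroup.mk' N) = ⊤ := fun N _ =>
    Subgroup.map_top_of_surjective _ (QuotientGroup.mk'_surjective N)
  have msyl : ∀ (N : Subgroup G) [N.Normal], IsSylowIn 3 (P.map (QuotientGroup.mk' N)) ⊤ := fun N _ => by
    have := hP.map (QuotientGroup.mk' N); rwa [mtop] at this
  have mcom : ∀ (N : Subgroup G) [N.Normal] (K : Subgroup (G ⧸ N)),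
      (K.comap (QuotientGroup.mk' N)).map (QuotientGroup.mk' N) = K := fun N _ K =>
    Subgroup.map_comap_eq_self_of_surjective (QuotientGroup.mk'_surjective N) K
  -- (c)
  have hq : Od (⊤ : Subgroup (G ⧸ Q)) := by
    refine ihq Q Q0 _ (msyl Q) (fun K hK hK0 => ?_)
    rw [← mcom Q N_(K)]
    refine od_map _ (prop _ ?_ ?_)
    · rw [← Subgroup.map_le_iff_le_comap]
      exact hK.norm (le_norm _)
    · intro h
      have h1 : K.comap (QuotientGroup.mk' Q) ≤ P := by
        refine (comap_mono hK.le).trans ?_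
        rw [Subgroup.comap_map_eq, QuotientGroup.ker_mk', sup_eq_left.2 QP]
      have h2 := leQ _ (pg_le (hP.pg p3) h1) (h.ge.trans (comap_norm _ K))
      apply hK0
      rw [← mcom Q K, Subgroup.map_eq_bot_iff, QuotientGroup.ker_mk']
      exact h2
  -- (d)
  have hDQ : ¬ D ≤ C_(Q) := by
    intro h
    have h1 := comm_le_ker (QuotientGroup.mk' Q)
      (hq _ _ le_top le_top (pU.map _) (pD.map _) (map_norm _ hn))
    rw [QuotientGroup.ker_mk'] at h1
    exact hnc (coprime_cent_of_comm hn (pg_coprime_ne p2 p3 pD pU (by norm_num)) (Or.inl (pg_sol p2 pD))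
      (h1.trans (cent_symm h)))
  have syl2 : ∀ H : Subgroup G, P ≤ H → H ≠ ⊤ → ∀ D0, IsSylowIn 2 D0 H → D0 ≤ C_(Q) := fun H h1 h2 D0 h0 =>
    prop H h1 h2 Q D0 (QP.trans h1) h0.le pQ (h0.pg p2) (le_top.trans nQ)
  -- (e)
  set L := C_(Q) with hL
  have nL : ⊤ ≤ N_(L) := norm_cent nQ
  have hZ : IsSylowIn 3 (P ⊓ L) L := hP.inf_normal le_top nL
  have nZ : ⊤ ≤ N_(P ⊓ L) := by
    by_contra hne
    have hne' : N_(P ⊓ L) ≠ ⊤ := fun h => hne h.ge
    have hPn : P ≤ N_(P ⊓ L) := le_norm_inf (le_top.trans nL)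
    have hfr := sylow_frattini p3 hZ le_top nL
    rw [top_inf_eq] at hfr
    obtain ⟨D0, h0⟩ := sylow_exists p2 N_(P ⊓ L)
    have h1 := syl2 _ hPn hne' D0 h0
    have h2 : ¬ 2 ∣ L.relIndex ⊤ := by
      rw [← hfr, relIndex_sup (le_top.trans nL)]
      exact fun h => h0.not_dvd' p2 (h.trans (relIndex_dvd_left _ h1))
    obtain ⟨S, hS⟩ := sylow_exists p2 L
    obtain ⟨g, -, hg⟩ := sylow_subJ p2 (hS.trans_idx le_top h2) pD le_top
    exact hDQ (hg.trans (cj_le_of_mem_norm hS.le (nL (mem_top g))))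
  have ZQ : P ⊓ L ≤ Q := leQ _ (hZ.pg p3) nZ
  obtain ⟨M, hM⟩ := hZ.exists_compl (le_top.trans nZ)
  have hMd : Dprod (P ⊓ L) M L := hM.dprod (hM.le_right.trans (cent_anti ZQ))
  have hMh := hM.hall_compl hZ
  have nM : ⊤ ≤ N_(M) := nL.trans (hMh.norm_le hMd.normal_right)
  have M3 : ¬ 3 ∣ Nat.card M := (isPi_compl p3).1 hMh.isPi
  haveI : M.Normal := Subgroup.normalizer_eq_top_iff.1 (top_le_iff.1 nM)
  -- (f)
  have M0 : M = ⊥ := by
    by_contra M0
    have hq2 : Od (⊤ : Subgroup (G ⧸ M)) := by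
      refine ihq M M0 _ (msyl M) (fun K hK hK0 => ?_)
      set f := QuotientGroup.mk' M with hf
      have hker : f.ker = M := QuotientGroup.ker_mk' M
      set K1 := P ⊓ K.comap f with hK1
      have e1 : K1.map f = K := map_inf_comap f hK.le
      have c1 : CharIn K1 P := by
        rw [char_iff f inf_le_left (by rw [hker]; exact pg_inf_eq_bot p3 (hP.pg p3) M3), e1]
        exact hK
      have c2 : K1 ≠ ⊥ := fun h => hK0 (by rw [← e1, h, Subgroup.map_bot])
      have e2 : K.comap f = M ⊔ K1 := by rw [← e1, Subgroup.comap_map_eq, hker, sup_comm]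
      have s1 : IsSylowIn 3 K1 (K.comap f) := by
        rw [e2]
        exact hall_sup_right hMh.isPi (isPi_of_pg p3 (pg_le (hP.pg p3) inf_le_left) rfl) (le_top.trans nM)
      have hfr := sylow_frattini p3 s1 (comap_mono (le_norm K)) (comap_norm f K)
      refine od_mono ?_ (od_map f (hyp K1 c1 c2))
      rw [← mcom M N_(K), ← hf, ← hfr, Subgroup.map_sup, mcom]
      refine sup_le ?_ (map_mono inf_le_right)
      rw [← e1]
      exact map_mono (le_norm K1)
    have h1 := comm_le_ker (QuotientGroup.mk' M)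
      (hq2 _ _ le_top le_top (pQ.map _) (pD.map _) (map_norm _ (le_top.trans nQ)))
    rw [QuotientGroup.ker_mk'] at h1
    have h2 : ⁅Q, D⁆ ≤ Q ⊓ M := le_inf (comm_le_left (le_top.trans nQ)) h1
    rw [pg_inf_eq_bot p3 pQ M3, le_bot_iff, comm_eq_bot] at h2
    exact hDQ (cent_symm h2)
  have LQ : L ≤ Q := (hM.eq_left M0).ge.trans ZQ
  -- (g)
  obtain ⟨P0, rfl⟩ := hP.exists_sylow_top p3
  have eQ : pCore 3 G = Q := by
    apply le_antisymm
    · refine sSup_le ?_
      rintro N ⟨h1, h2⟩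
      exact leQ N h2 (Subgroup.normalizer_eq_top_iff.2 h1).ge
    · exact le_sSup ⟨inferInstance, pQ⟩
  refine hB G P0 (by rw [eQ]; exact LQ) ?_ ?_ ?_
  · have : D ≠ ⊥ := by rintro rfl; exact hnc bot_le
    exact even_iff_two_dvd.2 ((pg_dvd p2 pD this).trans (card_dvd_top D))
  · intro H h1 h2
    obtain ⟨D0, h0⟩ := sylow_exists p2 H
    have h3 := (syl2 H h1 h2 D0 h0).trans LQ
    have h4 : D0 = ⊥ := pg_eq_bot p2 (h0.pg p2) (pg_not_dvd p2 p3 (pg_le pQ h3) (by norm_num))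
    exact Nat.odd_iff.2 (Nat.two_dvd_ne_zero.1 (h0.not_dvd_of_bot p2 h4))
  · intro K hK hK0 hn'
    have c1 : CharIn (K.map (P0 : Subgroup G).subtype) P0 := by
      refine ⟨map_subtype_le _, ?_⟩
      have : (K.map (P0 : Subgroup G).subtype).subgroupOf P0 = K :=
        Subgroup.comap_map_eq_self_of_injective (P0 : Subgroup G).subtype_injective K
      rwa [this]
    have := hyp _ c1 (fun h0 => hK0 ((Subgroup.map_eq_bot_iff_of_injective _ (P0 : Subgroup G).subtype_injective).1 h0))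
    rw [Subgroup.normalizer_eq_top_iff.2 hn'] at this
    exact hG this

theorem allT (hB : OddB.{u}) (n : ℕ) : ∀ (G : Type u) [Group G] [Finite G], Nat.card G = n → T G := by
  induction n using Nat.strong_induction_on with
  | _ n ih => intro G _ _ h; exact step hB G (fun H _ _ hH => ih _ (h ▸ hH) H rfl)

theorem oddA (h : OddB.{u}) : OddS.{u} := by
  intro Γ _ _ G P hP hyp
  exact amb G P hP (fun K hK hK0 => hyp K hK.le hK0 hK.norm_le) (allT h _ G rfl)

end Cfsg.Agent.H02.PtD
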