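import Mathlib
import Cfsg.Agent.L.Js0
import Cfsg.Agent.S3035

/-! Part `X` of the 7-local cluster: reduction to the four groups with a self-centralising `D₈`. -/

set_option autoImplicit false
open Cfsg BG Subgroup

namespace Cfsg.Agent.H02.S7X
universe u

theorem mc {G : Type u} [Group G] (a b : G) : a ∈ C_[b] ↔ b * a = a * b := by simp [mem_centralizer_iff]

theorem d8 {X : Type u} [Group X] [Finite X] {P : Subgroup X} (c : Nat.card P = 8) {a b : X} (aP : a ∈ P) (bP : b ∈ P)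
    (a2 : a * a = 1) (b2 : b * b = 1) (n : a * b ≠ b * a) : Nonempty (P ≃* DihedralGroup 4) := by
  classical
  have : Fact (Nat.Prime 2) := ⟨by norm_num⟩
  have ai : a⁻¹ = a := inv_eq_of_mul_eq_one_right a2
  have bi : b⁻¹ = b := inv_eq_of_mul_eq_one_right b2
  have na : ¬ Commute a (a * b) := fun h => n (mul_left_cancel (a := a) (by rw [h.eq, mul_assoc]))
  have o : orderOf (a * b) = 4 := by
    have h1 : orderOf (a * b) ∣ 2 ^ 3 := by
      have := orderOf_dvd_natCard (⟨a * b, mul_mem aP bP⟩ : P)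
      rwa [← orderOf_coe, c] at this
    obtain ⟨k, k3, hk⟩ := (Nat.dvd_prime_pow Nat.prime_two).1 h1
    have h2 : ¬ orderOf (a * b) ∣ 2 := fun h => n (by
      have := orderOf_dvd_iff_pow_eq_one.1 h
      rw [sq] at this
      rw [← inv_eq_of_mul_eq_one_right this, mul_inv_rev, ai, bi])
    have h3 : orderOf (a * b) ≠ 8 := fun h => na (by
      have e : zpowers (a * b) = P := Subgroup.eq_of_le_of_card_ge (zpowers_le.2 (mul_mem aP bP))
        (by rw [c, Nat.card_zpowers, h])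
      obtain ⟨k, hk⟩ := (e ▸ aP : a ∈ zpowers (a * b))
      have := (Commute.refl (a * b)).zpow_left k
      simp only at hk
      rwa [hk] at this)
    rw [hk] at h2 h3 ⊢
    interval_cases k <;> simp_all
  let R : ZMod 4 → X := fun i => (a * b) ^ i.val
  have Ra : ∀ i j, R (i + j) = R i * R j := fun i j => by
    show (a * b) ^ (i + j).val = _
    rw [ZMod.val_add, ← pow_eq_pow_mod _ (o ▸ pow_orderOf_eq_one (a * b) : (a * b) ^ 4 = 1), pow_add]
  have R0 : R 0 = 1 := pow_zero _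
  have Rs : ∀ i j, R (j - i) = (R i)⁻¹ * R j := fun i j => by
    rw [eq_inv_mul_iff_mul_eq, ← Ra, add_sub_cancel]
  have aR : ∀ i, R i * a = a * (R i)⁻¹ := fun i => by
    have h1 : a * (a * b)⁻¹ * a⁻¹ = a * b := by rw [mul_inv_rev, ai, bi, mul_assoc, mul_assoc, a2, mul_one]
    show (a * b) ^ i.val * a = a * ((a * b) ^ i.val)⁻¹
    rw [← inv_pow, ← mul_inv_eq_iff_eq_mul.1 (conj_pow.symm.trans (congrArg (· ^ i.val) h1)) ]
  let φ : DihedralGroup 4 →* X := MonoidHom.mk' (fun x => match x with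
    | .r i => R i
    | .sr i => a * R i) (by
      rintro (i | i) (j | j)
      · exact Ra i j
      · show a * R (j - i) = R i * (a * R j)
        rw [Rs, ← mul_assoc, ← mul_assoc, aR]
      · show a * R (i + j) = a * R i * R j
        rw [Ra, mul_assoc]
      · show R (j - i) = a * R i * (a * R j)
        rw [Rs, mul_assoc, ← mul_assoc (R i), aR, ← mul_assoc, ← mul_assoc, a2, one_mul])
  have inj : Function.Injective φ := (injective_iff_map_eq_one φ).2 (by
    rintro (i | i) h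
    · have h1 : (a * b) ^ i.val = 1 := h
      have h2 := orderOf_dvd_iff_pow_eq_one.2 h1
      rw [o] at h2
      rw [(ZMod.val_eq_zero i).1 (Nat.eq_zero_of_dvd_of_lt h2 (ZMod.val_lt i))]
      rfl
    · have h1 : a * (a * b) ^ i.val = 1 := h
      refine absurd ?_ na
      have := ((Commute.refl (a * b)).pow_left i.val).inv_left
      rwa [← eq_inv_of_mul_eq_one_left h1] at this)
  have e : φ.range = P := Subgroup.eq_of_le_of_card_ge (by
      rintro _ ⟨i | i, rfl⟩
      · exact pow_mem (mul_mem aP bP) _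
      · exact mul_mem aP (pow_mem (mul_mem aP bP) _))
    (by rw [c, ← Nat.card_congr (φ.ofInjective inj).toEquiv, DihedralGroup.nat_card])
  exact ⟨((φ.ofInjective inj).trans (MulEquiv.subgroupCongr e)).symm⟩

theorem red {X : Type u} [Group X] [Finite X] (U : Subgroup X) (z : X)
    (h : ∀ w : X, orderOf w = 2 → Nat.card C_[w] ∣ 8 ∨ (3 ∣ Nat.card C_[w] ∧ Nat.card C_[w] ∣ 12))
    (cU : Nat.card U = 4) (hU : ∀ w ∈ U, w ≠ 1 → orderOf w = 2 ∧ Nat.card C_[w] ∣ 8) (o2 : orderOf z = 2)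
    (h3 : 3 ∣ Nat.card C_[z]) :
    Nonempty (X ≃* Equiv.Perm (Fin 4)) ∨ Nonempty (X ≃* Equiv.Perm (Fin 5)) ∨
      Nonempty (X ≃* Matrix.SpecialLinearGroup (Fin 3) (ZMod 2)) ∨ Nonempty (X ≃* ↥(alternatingGroup (Fin 6))) := by
  classical
  have : Fact (Nat.Prime 2) := ⟨by norm_num⟩
  obtain ⟨P, UP⟩ := (IsPGroup.of_card (p := 2) (n := 2) cU).exists_le_sylow
  obtain ⟨S, zS⟩ := (IsPGroup.of_card (p := 2) (n := 1) (G := zpowers z) (by rw [Nat.card_zpowers, o2, pow_one])).exists_le_sylow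
  obtain ⟨g, e⟩ := MulAction.exists_smul_eq X S P
  have bP : g * z * g⁻¹ ∈ (P : Subgroup X) := by
    rw [← e, Sylow.coe_subgroup_smul]
    exact Subgroup.smul_mem_pointwise_smul _ (MulAut.conj g) _ (zS (mem_zpowers z))
  have ob : orderOf (g * z * g⁻¹) = 2 := o2 ▸ (MulAut.conj g).orderOf_eq z
  have b3 : 3 ∣ Nat.card C_[g * z * g⁻¹] := h3.trans (by
    rw [← card_map_of_injective (f := (MulAut.conj g).toMonoidHom) (MulAut.conj g).injective]
    refine card_dvd_of_le ?_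
    rintro _ ⟨x, hx, rfl⟩
    have : z * x = x * z := (mc _ _).1 hx
    rw [mc]
    show g * z * g⁻¹ * (g * x * g⁻¹) = g * x * g⁻¹ * (g * z * g⁻¹)
    calc g * z * g⁻¹ * (g * x * g⁻¹) = g * (z * x) * g⁻¹ := by group
      _ = g * (x * z) * g⁻¹ := by rw [this]
      _ = _ := by group)
  generalize g * z * g⁻¹ = b at bP ob b3
  have b1 : b ≠ 1 := fun e => by rw [e, orderOf_one] at ob; omega
  have b2 : b * b = 1 := by rw [← sq, ← ob]; exact pow_orderOf_eq_one b
  have n38 : ∀ n : ℕ, 3 ∣ n → ¬ n ∣ 8 := fun n h1 h2 => absurd (h1.trans h2) (by norm_num)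
  have bU : b ∉ U := fun m => n38 _ b3 (hU b m b1).2
  have b12 : Nat.card C_[b] ∣ 12 := ((h b ob).resolve_left (n38 _ b3)).2
  have big : ∀ K : Subgroup X, IsPGroup 2 K → U ≤ K → b ∈ K → 8 ∣ Nat.card K := fun K pK l m => by
    obtain ⟨k, hk⟩ := IsPGroup.iff_card.1 pK
    have h1 : Nat.card U < Nat.card K := lt_of_not_ge fun h => bU (Subgroup.eq_of_le_of_card_ge l h ▸ m)
    rw [cU, hk] at h1
    rw [hk]
    refine pow_dvd_pow 2 (show 3 ≤ k from ?_)
    by_contra hh
    have : k ≤ 2 := by omega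
    interval_cases k <;> omega
  have p8 := big P P.isPGroup' UP bP
  have : Nontrivial (P : Subgroup X) := ⟨⟨⟨b, bP⟩, 1, fun e => b1 (congrArg Subtype.val e)⟩⟩
  have hc := P.isPGroup'.center_nontrivial
  obtain ⟨t, ot⟩ := exists_prime_orderOf_dvd_card' (G := center (P : Subgroup X)) 2 (by
    obtain ⟨k, hk⟩ := IsPGroup.iff_card.1 (P.isPGroup'.to_subgroup (center (P : Subgroup X)))
    have := Finite.one_lt_card (α := center (P : Subgroup X))
    rw [hk] at this ⊢
    exact dvd_pow_self 2 (by rintro rfl; simp at this))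
  have ot' : orderOf ((t : (P : Subgroup X)) : X) = 2 := by rw [orderOf_coe, orderOf_coe, ot]
  have Pt : (P : Subgroup X) ≤ C_[((t : (P : Subgroup X)) : X)] := fun x hx =>
    (mc _ _).2 (congrArg Subtype.val (mem_center_iff.1 t.2 ⟨x, hx⟩)).symm
  generalize ((t : (P : Subgroup X)) : X) = s at ot' Pt
  have s8 : Nat.card C_[s] ∣ 8 := (h s ot').resolve_right fun hh =>
    absurd ((p8.trans (card_dvd_of_le Pt)).trans hh.2) (by norm_num)
  have cs : Nat.card C_[s] = 8 := Nat.dvd_antisymm s8 (p8.trans (card_dvd_of_le Pt))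
  obtain ⟨a, aU, na⟩ : ∃ a ∈ U, a * b ≠ b * a := by
    by_contra! hh
    have := big (P ⊓ C_[b]) (P.isPGroup'.to_inf_left) (fun x hx => ⟨UP hx, (mc _ _).2 (hh x hx).symm⟩) ⟨bP, (mc _ _).2 rfl⟩
    exact absurd ((this.trans (card_dvd_of_le inf_le_right)).trans b12) (by norm_num)
  have u2 : ∀ w ∈ U, w * w = 1 := fun w m => by
    by_cases e : w = 1
    · rw [e, one_mul]
    · rw [← sq, ← (hU w m e).1]; exact pow_orderOf_eq_one w
  refine (Cfsg.Agent.S3035.result s ot' (d8 cs (Pt (UP aU)) (Pt bP) (u2 a aU) b2 na)).resolve_left fun top => ?_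
  have nO : (oddCore X).Normal := inferInstance
  have oO : Odd (Nat.card (oddCore X)) := H08.odd_card_oddCore X
  have fp : ∀ w ∈ U, w ≠ 1 → ∀ x ∈ oddCore X, w * x = x * w → x = 1 := fun w m w1 x hx e => by
    have h1 : orderOf x ∣ 2 ^ 3 := (Subgroup.orderOf_dvd_natCard _ ((mc _ _).2 e)).trans (hU w m w1).2
    have h2 : orderOf x ∣ Nat.card (oddCore X) := Subgroup.orderOf_dvd_natCard _ hx
    exact orderOf_eq_one_iff.1 (Nat.eq_one_of_dvd_coprimes
      (Nat.Coprime.pow_left 3 (Nat.coprime_two_left.2 oO)) h1 h2)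
  have iv : ∀ w ∈ U, w ≠ 1 → ∀ x ∈ oddCore X, w * x * w⁻¹ = x⁻¹ := fun w m w1 x hx => by
    let φ : oddCore X →* oddCore X := (MulAut.conjNormal w).toMonoidHom
    have f : MonoidHom.FixedPointFree φ := fun y hy =>
      Subtype.ext (fp w m w1 y y.2 (mul_inv_eq_iff_eq_mul.1 (congrArg Subtype.val hy)))
    have i : Function.Involutive φ := fun y => Subtype.ext (by
      show w * (w * y * w⁻¹) * w⁻¹ = y
      calc w * (w * y * w⁻¹) * w⁻¹ = w * w * y * (w * w)⁻¹ := by group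
        _ = y := by rw [u2 w m]; simp)
    exact congrArg Subtype.val (congrFun (f.coe_eq_inv_of_involutive i) ⟨x, hx⟩)
  have := Fintype.ofFinite U
  obtain ⟨y1, y2, y3, n12, n13, n23⟩ := Fintype.two_lt_card_iff.1 (show 2 < Fintype.card U by
    rw [← Nat.card_eq_fintype_card, cU]; norm_num)
  have bot : oddCore X = ⊥ := (eq_bot_iff_forall _).2 fun x hx => by
    have m1 : ((y1⁻¹ * y2 : U) : X) ≠ 1 := fun e => n12 (inv_mul_eq_one.1 (Subtype.ext e))
    have m2 : ((y2⁻¹ * y3 : U) : X) ≠ 1 := fun e => n23 (inv_mul_eq_one.1 (Subtype.ext e))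
    have m3 : ((y1⁻¹ * y3 : U) : X) ≠ 1 := fun e => n13 (inv_mul_eq_one.1 (Subtype.ext e))
    refine fp _ (y1⁻¹ * y3).2 m3 x hx (mul_inv_eq_iff_eq_mul.1 ?_)
    have e1 := iv _ (y1⁻¹ * y2).2 m1 x⁻¹ (inv_mem hx)
    have e2 := iv _ (y2⁻¹ * y3).2 m2 x hx
    rw [inv_inv, ← e2] at e1
    push_cast at e1 ⊢
    refine Eq.trans ?_ e1
    group
  rw [bot, sup_bot_eq] at top
  refine n38 _ h3 ?_
  rw [← cs, top, card_top]
  exact card_subgroup_dvd_card _

end Cfsg.Agent.H02.S7X
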