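import Mathlib
import Cfsg.Agent.BG.Api4
import Cfsg.Agent.BG.Quo2
import Cfsg.Agent.H03.Frobenius

/-!
# Solvable groups whose non-abelian subgroups are self-normalizing
-/

set_option linter.unusedSectionVars false
set_option linter.unusedVariables false
set_option linter.style.haveILetI false

namespace H02.SN

open Cfsg BG MulAction Subgroup
open scoped commutatorElement Pointwise IsMulCommutative

local notation "#" => Nat.card

universe u

variable {G : Type u} [Group G] [Finite G] {p : ℕ} {A B H : Subgroup G} {x y : G}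

theorem gen_of (hp : p.Prime) {k : ℕ} (hx : orderOf x = p ^ k) (hy : y ∈ zpowers x) (h : y ∉ zpowers (x ^ p)) : x ∈ zpowers y := by
  obtain ⟨i, rfl⟩ := mem_powers_iff_mem_zpowers.2 hy
  refine mem_zpowers_pow_iff.2 (hx ▸ ((Nat.Prime.coprime_iff_not_dvd hp).2 ?_).symm.pow_right _)
  rintro ⟨j, rfl⟩
  exact h ((pow_mul x p j).symm ▸ pow_mem (mem_zpowers (x ^ p)) j :)

theorem fwd [Group.IsSolvable G] (hn : ¬ Group.IsNilpotent G) (h : ∀ H : Subgroup G, ¬ IsMulCommutative H → N_(H) = H) :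
    ∃ (x : G) (A : Subgroup G) (p : ℕ), p.Prime ∧ A.Normal ∧ IsMulCommutative A ∧ (∃ k : ℕ, orderOf x = p ^ k) ∧
      ¬ p ∣ # A ∧ (zpowers x).IsComplement' A ∧ x ^ p ∈ center G ∧ ∀ a : G, a ∈ A → a ≠ 1 → x * a * x⁻¹ ≠ a := by
  obtain ⟨D, hD⟩ : ∃ D, D = ⁅(⊤ : Subgroup G), (⊤ : Subgroup G)⁆ := ⟨_, rfl⟩
  have nm {H : Subgroup G} (h1 : D ≤ H) (K : Subgroup G) : K ≤ N_(H) := le_top.trans (le_norm_of_der_le (hD ▸ h1) le_top)
  have k {H : Subgroup G} (h1 : D ≤ H) (h2 : H ≠ ⊤) : IsMulCommutative H := by_contra fun e => h2 (eq_top_iff.2 (h H e ▸ nm h1 _))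
  have nt (h : Group.IsNilpotent (⊤ : Subgroup G)) : False := hn (Group.nilpotent_of_mulEquiv topEquiv)
  haveI : Nontrivial G := not_subsingleton_iff_nontrivial.1 fun _ => hn inferInstance
  have D1 : D ≠ ⊤ := hD ▸ (Group.IsSolvable.commutator_lt_top_of_nontrivial G).ne
  obtain ⟨M, hM, DM⟩ := (eq_top_or_exists_le_coatom D).resolve_left D1
  obtain ⟨p, x, hp, ⟨j, hj⟩, hx⟩ : ∃ (p : ℕ) (x : G), p.Prime ∧ (∃ k, orderOf x = p ^ k) ∧ x ∉ M := by_contra fun e =>
    hM.1 (eq_top_iff.2 fun g _ => H03.mem_of_forall_prime_pow fun q hq _ u _ hu => by_contra fun c => e ⟨q, u, hq, hu, c⟩)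
  have top : D ⊔ zpowers x = ⊤ := by_contra fun e => nt (by
    rw [← hM.2 (M ⊔ (D ⊔ zpowers x)) (left_lt_sup.2 fun c => hx (c (mem_sup_right (mem_zpowers x))))]
    exact nil_sup (nil_of_abelian (k DM hM.1)) (nil_of_abelian (k le_sup_left e)) (nm le_sup_left _) (nm DM _))
  have hX : IsPGroup p (zpowers x) := pg_of_card ((BG.card_zpowers x).trans hj)
  have ab := k le_rfl D1
  have cz := abelian_iff_der.1 (abelian_of_cyclic (cyclic_zpowers x))
  have e : D ≤ ⁅D, zpowers x⁆ := by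
    have := der_sup_le (left_le_norm_comm _ _) (right_le_norm_comm _ _) ((abelian_iff_der.1 ab).le.trans bot_le) le_rfl
      (cz.le.trans bot_le)
    rwa [top, ← hD] at this
  have d := nil_dprod {p} (nil_of_abelian ab)
  have n1 {π : Set ℕ} (K : Subgroup G) : K ≤ N_(piCoreOf π D) := (nm le_rfl K).trans (norm_le_norm_pcore π D)
  have hd : ¬ p ∣ # D := fun c => by
    refine (nil_comm_lt (n1 (zpowers x)) (pg_nil hp (pg_sup (pcore_pg hp D) hX (n1 _)))
      (nil_pcore_ne_bot (nil_of_abelian ab) hp rfl c)).not_ge ?_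
    have c1 := comm_le_left (n1 (π := {p}) (zpowers x))
    have : D ≤ ⁅piCoreOf {p} D, zpowers x⁆ ⊔ piCoreOf {p}ᶜ D := by
      refine e.trans ?_
      nth_rw 1 [← d.sup]
      have := le_norm_of_abelian ab (sup_le (c1.trans d.le_left) d.le_right)
      exact comm_sup_le (d.le_left.trans this) (d.le_right.trans this) le_sup_left ((comm_le_left (n1 _)).trans le_sup_right)
    refine (le_inf le_rfl (d.le_left.trans this)).trans ?_
    rw [dedekind c1 (.inr (n1 _)), d.disj, sup_bot_eq]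
  have cop := pg_coprime hp hX hd
  refine ⟨x, D, p, hp, hD ▸ inferInstance, ab, ⟨j, hj⟩, hd, isComplement'_of_coprime ?_ cop, ?_, fun a ha a1 c => a1 ?_⟩
  · rw [← card_top (G := G), ← top, card_sup_of_disj (nm le_rfl _) (BG.inf_eq_bot_of_coprime cop.symm), mul_comm]
  · have := k (H := D ⊔ zpowers (x ^ p)) le_sup_left fun c => by
      obtain ⟨a, ha, b, hb, e⟩ := (mem_sup_norm (nm le_rfl _)).1 (c.ge (mem_top x))
      refine hx (zpowers_le.2 (DM ha) (gen_of hp hj ?_ fun c => ?_))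
      · rw [eq_mul_inv_of_mul_eq e]
        exact mul_mem (mem_zpowers x) (inv_mem (zpowers_le.2 (pow_mem (mem_zpowers x) p) hb))
      · have := mul_mem c hb
        rw [e, mem_zpowers_pow_iff, hj] at this
        obtain rfl : j = 0 := by_contra fun j0 => (Nat.Prime.coprime_iff_not_dvd hp).1 this (dvd_pow_self p j0)
        exact hx (orderOf_eq_one_iff.1 hj ▸ one_mem _)
    rw [← centralizer_univ, ← coe_top, ← top]
    exact zpowers_le.1 (le_cent_sup (le_cent_of_abelian this le_sup_right le_sup_left)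
      (le_cent_of_abelian (abelian_of_cyclic (cyclic_zpowers x)) (zpowers_le.2 (pow_mem (mem_zpowers x) p)) le_rfl))
  · exact eq_one_of_mem_of_disj (coprime_abelian_dprod (nm le_rfl _) cop ab).disj
      ⟨ha, cent_zpowers x ▸ mem_cent1.2 (mul_inv_eq_iff_eq_mul.1 c).symm⟩ (e ha)

theorem bwd (hp : p.Prime) [A.Normal] (ab : IsMulCommutative A) {k : ℕ} (hk : orderOf x = p ^ k) (hA : ¬ p ∣ # A)
    (hc : (zpowers x).IsComplement' A) (hz : x ^ p ∈ center G) (hf : ∀ a : G, a ∈ A → a ≠ 1 → x * a * x⁻¹ ≠ a)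
    (hH : ¬ IsMulCommutative H) : N_(H) = H := by
  haveI := Fact.mk hp
  have hX : IsPGroup p (zpowers x) := pg_of_card ((BG.card_zpowers x).trans hk)
  have nA (K : Subgroup G) : K ≤ N_(A) := le_normalizer_of_normal
  have zc : zpowers (x ^ p) ≤ center G := zpowers_le.2 hz
  haveI : (zpowers (x ^ p)).Normal := ⟨fun n hn g => by rwa [mem_center_iff.1 (zc hn) g, mul_inv_cancel_right]⟩
  have ab2 := abelian_sup ab (abelian_of_cyclic (cyclic_zpowers (x ^ p))) (cent_symm (zc.trans (center_le_centralizer _)))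
  obtain ⟨h, h1, h2⟩ := SetLike.not_le_iff_exists.1 fun c : H ≤ A ⊔ zpowers (x ^ p) => hH (abelian_of_le ab2 c)
  have hs : IsSylowIn p (zpowers x) ⊤ := isSylowIn_mk hp le_top hX (by rw [relIndex_top_right, hc.symm.index_eq_card]; exact hA)
  have hh : IsPiHallOf {p}ᶜ A ⊤ := isPiHallOf_mk le_top ((isPi_compl hp).2 hA) fun q hq d => by
    rw [relIndex_top_right, hc.index_eq_card] at d
    simpa using pg_prime_eq hp hX hq d
  have h3 : piPart {p} h ∉ A ⊔ zpowers (x ^ p) := fun c => h2 (piPart_mul_compl {p} h ▸ mul_mem c (mem_sup_left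
    (hh.elt_mem (nA _) (mem_top _) (isPiElt_piPart _ h))))
  obtain ⟨g, -, hg⟩ := sylow_Jsub hp hs ((isPi_singleton hp).1 (isPiElt_iff.1 (isPiElt_piPart {p} h))) le_top
  rw [cj_zpowers, zpowers_le] at hg
  have hx : x ∈ cj g H := zpowers_le.2 (conj_mem_cj g (piPart_mem _ h1)) (gen_of hp hk hg fun c =>
    h3 (mem_sup_right (Normal.mem_comm_iff inferInstance |>.1 c |> fun e => by simpa using e)))
  rw [← cj_inj (g := g), cj_norm]
  refine le_antisymm (fun n hn => ?_) (le_norm _)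
  obtain ⟨⟨⟨y, hy⟩, ⟨a, ha⟩⟩, rfl⟩ := hc.2 n
  have y1 := zpowers_le.2 hx hy
  have a1 := (mul_mem_cancel_left (le_norm _ y1)).1 hn
  have := mem_sup_cent_of_coprime (A := zpowers x) (N := A ⊓ cj g H) (norm_inf (nA _) (norm_of_le (zpowers_le.2 hx))) inf_le_left
    (coprime_mono (pg_coprime hp hX hA) le_rfl inf_le_left) (.inl (pg_sol hp hX)) ha fun b hb =>
      mem_inf.2 ⟨comm_le_left (nA _) (commutator_mem_commutator ha hb), mul_mem (conj_mem_of_norm a1 (zpowers_le.2 hx hb))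
        (inv_mem (zpowers_le.2 hx hb))⟩
  rw [show A ⊓ C_(zpowers x) = ⊥ from eq_bot_iff.2 fun b hb => by_contra fun c =>
    hf b hb.1 c (mul_inv_eq_iff_eq_mul.2 (hb.2 x (mem_zpowers x))), sup_bot_eq] at this
  exact mul_mem y1 this.2

end H02.SN
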