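import Mathlib
import Cfsg.Agent.BG.Api4
import Cfsg.Agent.H05.Burnside
import Cfsg.Agent.H02.Frobenius
import Cfsg.Agent.H22.SigBasic
import Cfsg.Agent.H08.RankOne
import Cfsg.Agent.S2924
import Cfsg.Agent.S3779

/-! Finite groups all of whose elements have order at most four. -/

namespace H02.Sp4
open Cfsg BG Subgroup
open scoped commutatorElement Pointwise IsMulCommutative
local notation "#" => Nat.card

variable {G : Type*} [Group G]

theorem elem_ab {N : Subgroup G} [Finite N] [hN : N.Normal] {x t : G} (x3 : x ^ 3 = 1) (t2 : t * t = 1)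
    (tx : t * x * t⁻¹ = x⁻¹) (fp : N ⊓ centralizer {x} = ⊥)
    (c2 : ∀ a ∈ N, ∀ b ∈ N, ∀ c ∈ N, ⁅a, b⁆ * c = c * ⁅a, b⁆) (h4 : ∀ n ∈ N, (n * t) ^ 4 = 1) :
    IsElementaryAbelian 2 N := by
  have ti : t⁻¹ = t := inv_eq_of_mul_eq_one_right t2
  have p3 : ∀ a : G, a ^ 3 = a * a * a := fun a => by rw [pow_succ, sq]
  have xi : x⁻¹ = x * x := inv_eq_of_mul_eq_one_right (by rw [← x3, p3, mul_assoc])
  have fp' : N ⊓ centralizer {x⁻¹} = ⊥ := by
    rw [← fp]; congr 1; ext y; simp only [mem_centralizer_singleton_iff]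
    exact ⟨fun h => (Commute.inv_right_iff.1 h : _), fun h => (Commute.inv_right h : _)⟩
  have nn : ∀ g : G, g ∈ normalizer (N : Set G) := fun g => by rw [normalizer_eq_top]; trivial
  let A : G → G := fun n => n * (t * n * t⁻¹)
  have Am : ∀ n ∈ N, A n ∈ N := fun n hn => mul_mem hn (hN.conj_mem _ hn _)
  have A2 : ∀ n ∈ N, A n * A n = 1 := fun n hn => by
    rw [← h4 n hn, pow_succ, p3]; simp only [A, ti, mul_assoc]
  have dec : ∀ y : G, y * x⁻¹ * y⁻¹ * x = (t * y * t⁻¹)⁻¹ *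
      (A (t * y * t⁻¹) * (x * A (x⁻¹ * (t * y * t⁻¹) * x) * x⁻¹)⁻¹) * (t * y * t⁻¹) := fun y => by
    have e1 : t * (t * y * t⁻¹) * t⁻¹ = y := by
      calc _ = (t * t) * y * (t * t)⁻¹ := by group
        _ = y := by simp [t2]
    have e2 : x * t * x⁻¹ = x⁻¹ * t := by
      calc _ = x * (t * x * t⁻¹)⁻¹ * t := by group
        _ = _ := by rw [tx, inv_inv, xi]
    simp only [A, e1]
    calc _ = y * (x⁻¹ * t * (t * y * t⁻¹) * (x⁻¹ * t)⁻¹)⁻¹ := by
          rw [mul_assoc x⁻¹ t, mul_inv_rev x⁻¹, ← mul_assoc, mul_assoc x⁻¹, e1]; group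
      _ = _ := by rw [← e2]; group
  have zz : ∀ z ∈ N, (∀ c ∈ N, z * c = c * z) → z * z = 1 := fun z hz hc => by
    haveI : Finite (N ⊓ centralizer (N : Set G) : Subgroup G) :=
      Finite.of_injective _ (inclusion_injective inf_le_left)
    have hZ : (N ⊓ centralizer (N : Set G)).Normal := inferInstance
    obtain ⟨y, hy, e⟩ := fpf_exists_conj_eq (K := N ⊓ centralizer (N : Set G)) (a := x⁻¹)
      (by rw [normalizer_eq_top]; trivial) (le_bot_iff.1 (fp' ▸ inf_le_inf_right _ inf_le_left))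
      (k := z) ⟨hz, fun c h => (hc c h).symm⟩
    have e' : z = y * x⁻¹ * y⁻¹ * x := by rw [e]; group
    have m := hZ.conj_mem _ hy t
    have m' : x⁻¹ * (t * y * t⁻¹) * x ∈ N := hN.conj_mem' _ m.1 x
    have a : A (t * y * t⁻¹) ∈ centralizer (N : Set G) := mul_mem m.2 (hZ.conj_mem _ m t).2
    have b := hN.conj_mem _ (Am _ m') x
    have b2 : x * A (x⁻¹ * (t * y * t⁻¹) * x) * x⁻¹ * (x * A (x⁻¹ * (t * y * t⁻¹) * x) * x⁻¹) = 1 := by
      rw [conj_mul, A2 _ m']; group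
    rw [e', dec]
    generalize x * A (x⁻¹ * (t * y * t⁻¹) * x) * x⁻¹ = B at b b2
    calc _ = (t * y * t⁻¹)⁻¹ * (A (t * y * t⁻¹) * (B⁻¹ * A (t * y * t⁻¹)) * B⁻¹) * (t * y * t⁻¹) := by group
      _ = (t * y * t⁻¹)⁻¹ * (A (t * y * t⁻¹) * A (t * y * t⁻¹) * (B * B)⁻¹) * (t * y * t⁻¹) := by
        rw [a _ (inv_mem b)]; group
      _ = 1 := by rw [A2 _ m.1, b2]; group
  have cm : ∀ a ∈ N, ∀ b ∈ N, ⁅a, b⁆ ∈ N := fun a ha b hb =>
    mul_mem (hN.conj_mem _ hb a) (inv_mem hb)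
  have hl : ∀ a ∈ N, ∀ b ∈ N, ∀ c ∈ N, ⁅a * b, c⁆ = ⁅b, c⁆ * ⁅a, c⁆ := fun a ha b hb c hc => by
    rw [commutatorElement_mul_left_eq_conj_mul, ← c2 b hb c hc a ha]; group
  have hr : ∀ a ∈ N, ∀ b ∈ N, ∀ c ∈ N, ⁅c, a * b⁆ = ⁅c, a⁆ * ⁅c, b⁆ := fun a ha b hb c hc => by
    rw [← commutatorElement_inv, hl a ha b hb c hc]; simp
  have AA : ∀ n ∈ N, ∀ m ∈ N, A n * A m = A m * A n := fun n hn m hm => by
    have n' := hN.conj_mem _ hn t
    have k := c2 _ (inv_mem hm) _ (inv_mem n')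
    have k2 := zz _ (cm _ (inv_mem hm) _ (inv_mem n')) k
    have e : A n * A m = A (n * m) * ⁅m⁻¹, (t * n * t⁻¹)⁻¹⁆⁻¹⁻¹ := by
      rw [inv_inv]
      calc _ = n * m * (t * n * t⁻¹) * ⁅(t * n * t⁻¹)⁻¹, m⁻¹⁆ * (t * m * t⁻¹) := by
            simp only [A, commutatorElement_def]; group
        _ = n * m * (t * n * t⁻¹) * (⁅m⁻¹, (t * n * t⁻¹)⁻¹⁆ * (t * m * t⁻¹)) := by
            rw [← commutatorElement_inv, inv_eq_of_mul_eq_one_right k2, mul_assoc]
        _ = _ := by rw [k _ (hN.conj_mem _ hm t)]; simp only [A]; group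
    have : A n * A m * (A n * A m) = 1 := by
      rw [e, inv_inv, mul_assoc (A _), ← mul_assoc ⁅_, _⁆, k _ (Am _ (mul_mem hn hm)), mul_assoc (A _), k2,
        mul_one, A2 _ (mul_mem hn hm)]
    rw [← inv_eq_of_mul_eq_one_right this, mul_inv_rev, inv_eq_of_mul_eq_one_right (A2 n hn),
      inv_eq_of_mul_eq_one_right (A2 m hm)]
  have cx : ∀ u ∈ N, ⁅u, x * u * x⁻¹⁆ = 1 := fun u hu => by
    obtain ⟨y, -, e⟩ := fpf_exists_conj_eq (nn x) fp hu
    obtain ⟨y', -, e'⟩ := fpf_exists_conj_eq (nn x⁻¹) fp' hu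
    have h1 : (u * x) ^ 3 = 1 := by rw [← e, conj_pow, x3]; group
    have h2 : (u * x⁻¹) ^ 3 = 1 := by rw [← e', conj_pow, inv_pow, x3]; group
    have g1 : u * (x * u * x⁻¹) * (x⁻¹ * u * x) = 1 := by
      calc _ = u * x * u * (x * x)⁻¹ * u * x := by group
        _ = 1 := by rw [← xi, inv_inv, ← h1, p3]; group
    have g2 : x * u * x⁻¹ * u * (x⁻¹ * u * x) = 1 := by
      calc _ = x * (u * x⁻¹) ^ 3 * (x * x) := by rw [p3]; group
        _ = 1 := by rw [h2, ← xi]; group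
    exact commutatorElement_eq_one_iff_mul_comm.2 (mul_right_cancel (g1.trans g2.symm))
  have sw : ∀ u ∈ N, ∀ v ∈ N, ⁅u, x * v * x⁻¹⁆ = ⁅x * u * x⁻¹, v⁆ := fun u hu v hv => by
    have u1 := hN.conj_mem _ hu x
    have v1 := hN.conj_mem _ hv x
    have := cx _ (mul_mem hu hv)
    rw [← conj_mul, hl _ hu _ hv _ (mul_mem u1 v1), hr _ u1 _ v1 _ hv, hr _ u1 _ v1 _ hu, cx u hu,
      cx v hv, mul_one, one_mul] at this
    rw [← commutatorElement_inv v, inv_eq_of_mul_eq_one_right this]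
  have cl : ∀ u ∈ N, ∀ v ∈ N, u * v = v * u → x * (x * u * x⁻¹) * x⁻¹ * v = v * (x * (x * u * x⁻¹) * x⁻¹) :=
    fun u hu v hv h => by
      rw [← commutatorElement_eq_one_iff_mul_comm, ← sw _ (hN.conj_mem _ hu x) v hv,
        ← conjugate_commutatorElement, commutatorElement_eq_one_iff_mul_comm.2 h]; group
  have cl' : ∀ u ∈ N, ∀ v ∈ N, u * v = v * u → x * u * x⁻¹ * v = v * (x * u * x⁻¹) := fun u hu v hv h => by
    have := cl _ (hN.conj_mem _ (hN.conj_mem _ hu x) x) v hv (cl u hu v hv h)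
    have e : x * (x * (x * (x * u * x⁻¹) * x⁻¹) * x⁻¹) * x⁻¹ = x * u * x⁻¹ := by
      calc _ = x ^ 3 * (x * u * x⁻¹) * (x ^ 3)⁻¹ := by rw [p3]; group
        _ = _ := by simp [x3]
    rwa [e] at this
  have gen : ∀ v ∈ N, (∀ n ∈ N, A n * v = v * A n) → ∀ u ∈ N, u * v = v * u := fun v hv h u hu => by
    obtain ⟨y, hy, e⟩ := fpf_exists_conj_eq (nn x⁻¹) fp' hu
    have e' : u = y * x⁻¹ * y⁻¹ * x := by rw [e]; group
    have m := hN.conj_mem _ hy t
    have m' : x⁻¹ * (t * y * t⁻¹) * x ∈ N := hN.conj_mem' _ m x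
    have b := hN.conj_mem _ (Am _ m') x
    have k : Commute (A (t * y * t⁻¹) * (x * A (x⁻¹ * (t * y * t⁻¹) * x) * x⁻¹)⁻¹) v :=
      Commute.mul_left (h _ m) (Commute.inv_left (cl' _ (Am _ m') v hv (h _ m')))
    have b' := mul_mem (Am _ m) (inv_mem b)
    rw [e', dec]
    generalize A (t * y * t⁻¹) * (x * A (x⁻¹ * (t * y * t⁻¹) * x) * x⁻¹)⁻¹ = w at k b'
    have : (t * y * t⁻¹)⁻¹ * w * (t * y * t⁻¹) = ⁅(t * y * t⁻¹)⁻¹, w⁆ * w := by
      simp only [commutatorElement_def]; group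
    rw [this]
    exact Commute.mul_left (c2 _ (inv_mem m) _ b' v hv) k
  have ab : ∀ v ∈ N, ∀ u ∈ N, u * v = v * u := fun v hv =>
    gen v hv fun n hn => (gen _ (Am n hn) (fun m hm => AA m hm n hn) v hv).symm
  exact ⟨abelian_iff.2 (le_cent_iff.2 fun a ha b hb => ab b hb a ha),
    fun a ha => by rw [sq]; exact zz a ha fun c hc => ab c hc a ha⟩

variable [Finite G]

theorem primes (ho : ∀ g : G, orderOf g ≤ 4) {r : ℕ} (hr : r.Prime) (hd : r ∣ # G) : r = 2 ∨ r = 3 := by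
  haveI := Fact.mk hr
  obtain ⟨g, hg⟩ := exists_prime_orderOf_dvd_card' r hd
  have := hr.one_lt
  have := hg ▸ ho g
  interval_cases r <;> simp_all (config := {decide := true})

theorem nc (ho : ∀ g : G, orderOf g ≤ 4) {x y : G} (hx : 2 ∣ orderOf x) (hy : orderOf y = 3) :
    x * y ≠ y * x := fun e => by
  have h1 := ho x
  have h2 := orderOf_pos x
  have := (show Commute x y from e).orderOf_mul_eq_mul_orderOf_of_coprime (by
    rw [hy]; interval_cases orderOf x <;> simp_all (config := {decide := true}))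
  have h3 := ho (x * y)
  rw [this, hy] at h3
  omega

theorem quot (ho : ∀ g : G, orderOf g ≤ 4) (N : Subgroup G) [N.Normal] (q : G ⧸ N) : orderOf q ≤ 4 := by
  induction q using QuotientGroup.induction_on with
  | H g => exact (Nat.le_of_dvd (orderOf_pos g) (orderOf_map_dvd (QuotientGroup.mk' N) g)).trans (ho g)

theorem cent_le (ho : ∀ g : G, orderOf g ≤ 4) {p q : ℕ} (hp : p.Prime)
    (hr : ∀ r : ℕ, r = 2 ∨ r = 3 → r = p ∨ r = q) (h0 : piCoreOf {q} (⊤ : Subgroup G) = ⊥) :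
    C_(piCoreOf {p} (⊤ : Subgroup G)) ≤ piCoreOf {p} ⊤ := by
  haveI := H05.isSolvable_of_prime_dvd G Nat.prime_two Nat.prime_three fun r => primes ho
  have hF : C_(fittingOf (⊤ : Subgroup G)) ≤ fittingOf ⊤ := by
    simpa using fit_cent_le (X := (⊤ : Subgroup G)) inferInstance
  have : fittingOf (⊤ : Subgroup G) = piCoreOf {p} ⊤ :=
    le_antisymm (nil_le_of_pcores (fit_nil _) fun r hr' hd => by
      rw [pcore_fit hr']
      rcases hr r (primes ho hr' (hd.trans (card_dvd_top _))) with rfl | rfl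
      · exact le_rfl
      · rw [h0]; exact bot_le) (pcore_le_fit hp _)
  rwa [this] at hF

theorem ord3 (ho : ∀ g : G, orderOf g ≤ 4) {X : Subgroup G} (hX : IsPGroup 3 X) {x : G} (hx : x ∈ X)
    (h1 : x ≠ 1) : orderOf x = 3 := by
  have h := ho x
  have h2 := orderOf_pos x
  have h3 := mt orderOf_eq_one_iff.1 h1
  have := mt (fun e : 2 ∣ orderOf x => e.trans (BG.orderOf_dvd_card hx))
    (pg_not_dvd Nat.prime_two Nat.prime_three hX (by norm_num))
  omega

theorem ord2 {X : Subgroup G} (hX : IsPGroup 2 X) {x : G} (hx : x ∈ X) (h1 : x ≠ 1) : 2 ∣ orderOf x := by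
  obtain ⟨k, hk⟩ := (IsPGroup.iff_orderOf.1 hX) ⟨x, hx⟩
  rw [← Subgroup.orderOf_coe] at hk
  rcases k with _ | k
  · exact absurd (orderOf_eq_one_iff.1 hk) h1
  · exact hk ▸ dvd_pow_self 2 k.succ_ne_zero

theorem case3 (ho : ∀ g : G, orderOf g ≤ 4) {g : G} (hg : orderOf g = 4)
    (h2 : piCoreOf {2} (⊤ : Subgroup G) = ⊥) :
    ∃ (N : Subgroup G) (_ : N.Normal), IsElementaryAbelian 3 N ∧
      ((IsCyclic (G ⧸ N) ∧ N.index = 4) ∨ Nonempty (G ⧸ N ≃* QuaternionGroup 2)) := by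
  have hC := cent_le ho Nat.prime_three (q := 2) (fun _ h => h.symm) h2
  set N := piCoreOf {3} (⊤ : Subgroup G) with hN
  have hNp : IsPGroup 3 N := pcore_pg Nat.prime_three _
  have n2 := pg_not_dvd Nat.prime_two Nat.prime_three hNp (by norm_num)
  have hinv : ∀ x : G, orderOf x = 2 → ∀ k ∈ N, x * k * x⁻¹ = k⁻¹ := fun x hx k hk =>
    H02.fpf_involution_inverts (le_norm_pcore _ _ (Subgroup.mem_top x))
      (by have := pow_orderOf_eq_one x; rwa [hx, pow_two] at this) (by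
        by_contra h0
        obtain ⟨y, hy, hy1⟩ := exists_mem_ne_one h0
        exact nc ho hx.symm.dvd (ord3 ho hNp hy.1 hy1) (mem_cent1.1 hy.2).symm) hk
  have hprod : ∀ x y : G, orderOf x = 2 → orderOf y = 2 → x * y ∈ N := fun x y hx hy =>
    hC (mem_cent.2 fun k hk => by
      have a1 := hinv x hx _ (inv_mem hk)
      rw [inv_inv, ← hinv y hy k hk] at a1
      calc k * (x * y) = x * (y * k * y⁻¹) * x⁻¹ * (x * y) := by rw [a1]
        _ = _ := by group)
  have ht : orderOf (g ^ 2) = 2 := by rw [orderOf_pow, hg]; rfl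
  have lift : ∀ a : G, orderOf (a : G ⧸ N) = 2 → orderOf a = 2 := fun a ha => by
    have h1 : 2 ∣ orderOf a := ha ▸ orderOf_map_dvd (QuotientGroup.mk' N) a
    have h2 : a ^ 2 ∈ N := by
      rw [← QuotientGroup.eq_one_iff, QuotientGroup.mk_pow, ← ha, pow_orderOf_eq_one]
    have h3 := mt (fun e : 2 ∣ orderOf (a ^ 2) => e.trans (BG.orderOf_dvd_card h2)) n2
    have := ho a
    have := orderOf_pos a
    rw [orderOf_pow] at h3
    interval_cases orderOf a <;> simp_all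
  have hu : ∀ a b : G ⧸ N, orderOf a = 2 → orderOf b = 2 → a = b := fun a b ha hb => by
    induction a using QuotientGroup.induction_on
    induction b using QuotientGroup.induction_on
    exact QuotientGroup.eq.2 (hprod _ _ (by rw [orderOf_inv, lift _ ha]) (lift _ hb))
  have g4 : orderOf (g : G ⧸ N) = 4 := by
    refine orderOf_eq_prime_pow (p := 2) (n := 1) (fun e => n2 ?_) ?_
    · exact ht ▸ BG.orderOf_dvd_card ((QuotientGroup.eq_one_iff _).1 e)
    · rw [← QuotientGroup.mk_pow, show 2 ^ (1 + 1) = orderOf g from hg.symm, pow_orderOf_eq_one]; rfl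
  have t2 : orderOf ((g : G ⧸ N) ^ 2) = 2 := by rw [orderOf_pow, g4]; rfl
  have hQ : IsPGroup 2 (G ⧸ N) := IsPGroup.iff_orderOf.2 fun q => by
    have h1 := quot ho N q
    have h2 := orderOf_pos q
    have h3 : orderOf q ≠ 3 := fun e => nc (quot ho N) t2.symm.dvd e
      (mul_inv_eq_iff_eq_mul.1 (hu _ _ (by rw [BG.orderOf_conj, t2]) t2)).symm
    interval_cases orderOf q
    exacts [⟨0, rfl⟩, ⟨1, rfl⟩, absurd rfl h3, ⟨2, rfl⟩]
  refine ⟨N, inferInstance, ⟨abelian_iff.2 (Agent.S2924.cent_of_inv (Nat.odd_iff.2 (Nat.two_dvd_ne_zero.1 n2))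
    (le_norm _) (hinv _ ht) (hinv _ ht)), fun a ha => ?_⟩, ?_⟩
  · by_cases e : a = 1
    · simp [e]
    · rw [← ord3 ho hNp ha e, pow_orderOf_eq_one]
  rcases H08.cyclic_or_quaternion hQ hu with hc | ⟨n, ⟨e⟩⟩
  · refine .inl ⟨hc, ?_⟩
    obtain ⟨q, hq⟩ := hc.exists_ofOrder_eq_natCard
    exact le_antisymm (hq ▸ quot ho N q :) (g4 ▸ _root_.orderOf_le_card)
  · have := quot ho N (e.symm (QuaternionGroup.a 1))
    rw [MulEquiv.orderOf_eq, QuaternionGroup.orderOf_a_one] at this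
    obtain rfl : n = 0 := by
      by_contra h
      have := Nat.pow_le_pow_right two_pos (show 2 ≤ n + 1 by omega)
      omega
    exact .inr ⟨e⟩

theorem case2 (ho : ∀ g : G, orderOf g ≤ 4) {g s : G} (hg : orderOf g = 4) (hs : orderOf s = 3)
    (h2 : piCoreOf {2} (⊤ : Subgroup G) ≠ ⊥) :
    ∃ (N : Subgroup G) (_ : N.Normal),
      (IsPGroup 2 N ∧ Monoid.exponent N = 4 ∧ Group.nilpotencyClass N ≤ 2 ∧ N.index = 3) ∨
      (IsElementaryAbelian 2 N ∧ Nonempty (G ⧸ N ≃* Equiv.Perm (Fin 3))) := by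
  set N := piCoreOf {2} (⊤ : Subgroup G) with hN
  have hNp : IsPGroup 2 N := pcore_pg Nat.prime_two _
  have n3 := pg_not_dvd Nat.prime_three Nat.prime_two hNp (by norm_num)
  have fp : ∀ x : G, orderOf x = 3 → N ⊓ centralizer {x} = ⊥ := fun x hx => by
    by_contra h0
    obtain ⟨y, hy, hy1⟩ := exists_mem_ne_one h0
    exact nc ho (ord2 hNp hy.1 hy1) hx (mem_cent1.1 hy.2)
  have n9 : ¬ 9 ∣ # G := by
    obtain ⟨T⟩ : Nonempty (Sylow 3 G) := inferInstance
    have hcyc : IsCyclic T := by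
      by_contra hc
      obtain ⟨E, hE⟩ := exists_elem2_of_not_cyclic Nat.prime_three (by norm_num) T.2 hc
      refine h2 (le_bot_iff.1 (H22.gen_elts Nat.prime_three hE.elemAb hE.card.ge
        (le_top.trans (le_norm_pcore _ _)) n3 fun a ha h1 =>
        (fp a (hE.elemAb.orderOf Nat.prime_three ha h1)).le))
    obtain ⟨q, hq⟩ := hcyc.exists_ofOrder_eq_natCard
    intro h
    have := Nat.le_of_dvd Nat.card_pos (T.pow_dvd_card_of_pow_dvd_card (n := 2) h)
    have := ho q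
    rw [Subgroup.orderOf_coe] at this
    omega
  have lc : (⊤ : Subgroup N).lowerCentralSeries 2 = ⊥ := by
    have f : ∀ n : N, MulAut.conjNormal s n = n → n = 1 := fun n hn => Subtype.ext (by
      have : n.1 ∈ N ⊓ centralizer {s} :=
        ⟨n.2, mem_cent1.2 (mul_inv_eq_iff_eq_mul.1 (congrArg Subtype.val hn)).symm⟩
      rwa [fp s hs] at this)
    refine (Agent.S3779.result Nat.prime_three (MulAut.conjNormal s) (orderOf_eq_prime
      (by rw [← map_pow, ← hs, pow_orderOf_eq_one, map_one]) fun e => ?_) f).2.1 rfl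
    obtain ⟨y, hy, hy1⟩ := exists_mem_ne_one h2
    exact hy1 (congrArg Subtype.val (f ⟨y, hy⟩ (by rw [e]; rfl)))
  have hq := quot ho N
  have q2 : piCoreOf {2} (⊤ : Subgroup (G ⧸ N)) = ⊥ := by
    have := le_pcore_pg Nat.prime_two ((pcore_pg Nat.prime_two (⊤ : Subgroup (G ⧸ N))).comap_of_ker_isPGroup
      (QuotientGroup.mk' N) (by rwa [QuotientGroup.ker_mk'])) le_top (by
      rw [normalizer_eq_top])
    rw [eq_bot_iff]; intro q hq
    induction q using QuotientGroup.induction_on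
    exact (QuotientGroup.eq_one_iff _).2 (this hq)
  have hC := cent_le hq Nat.prime_three (q := 2) (fun _ h => h.symm) q2
  set M := piCoreOf {3} (⊤ : Subgroup (G ⧸ N)) with hM
  have hMp : IsPGroup 3 M := pcore_pg Nat.prime_three _
  have sN : s ∉ N := fun e => n3 (hs ▸ BG.orderOf_dvd_card e)
  have M3 : # M = 3 := by
    obtain ⟨k, hk⟩ := pg_card Nat.prime_three hMp
    rcases k with _ | _ | k
    · rw [pow_zero, BG.card_eq_one] at hk
      rw [hk] at hC
      exact absurd ((QuotientGroup.eq_one_iff s).1 (hC (le_cent_bot (mem_top _)))) sN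
    · exact hk
    · exact absurd (((pow_dvd_pow 3 (by omega : 2 ≤ k + 1 + 1)).trans (hk ▸ card_subgroup_dvd_card M)).trans
        (card_quotient_dvd_card N)) n9
  haveI : IsCyclic M := isCyclic_of_prime_card M3
  have ker : (MulAut.conjNormal : G ⧸ N →* MulAut M).ker = M := by
    refine le_antisymm (fun x hx => hC (mem_cent.2 fun y hy => ?_)) fun x hx => ?_
    · exact (mul_inv_eq_iff_eq_mul.1 (congrArg Subtype.val (MulEquiv.congr_fun hx ⟨y, hy⟩))).symm
    · ext y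
      exact mul_inv_eq_iff_eq_mul.2 (congrArg Subtype.val (mul_comm' (⟨x, hx⟩ : M) y))
  have ix : M.index ∣ 2 := by
    have := card_subgroup_dvd_card (MulAut.conjNormal : G ⧸ N →* MulAut M).range
    rwa [← index_ker, ker, IsCyclic.card_mulAut, M3] at this
  have cQ : M.index * 3 = N.index := M3 ▸ M.index_mul_card
  refine ⟨N, inferInstance, ?_⟩
  rcases (Nat.dvd_prime Nat.prime_two).1 ix with e | e
  · haveI := hNp.isNilpotent
    refine .inl ⟨hNp, ?_, Subgroup.lowerCentralSeries_eq_bot_iff_nilpotencyClass_le.1 lc, by omega⟩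
    have gN : g ∈ N := by
      rw [← QuotientGroup.eq_one_iff, ← orderOf_eq_one_iff]
      refine Nat.eq_one_of_dvd_coprimes (by norm_num : Nat.Coprime 4 3)
        (hg ▸ orderOf_map_dvd (QuotientGroup.mk' N) g) ?_
      exact (_root_.orderOf_dvd_natCard _).trans (show N.index ∣ 3 by rw [← cQ, e])
    refine Nat.dvd_antisymm (Monoid.exponent_dvd.2 fun n => ?_) ?_
    · have h1 := ho n
      have h3 := mt (fun e : 3 ∣ orderOf n => e.trans (_root_.orderOf_dvd_natCard n)) n3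
      have h2 := orderOf_pos n
      rw [Subgroup.orderOf_coe] at h1
      interval_cases orderOf n <;> simp_all
    · rw [← hg, ← Subgroup.orderOf_mk g gN]; exact Monoid.order_dvd_exponent _
  have c6 : # (G ⧸ N) = 6 := by change N.index = 6; omega
  obtain ⟨y, hy⟩ := exists_prime_orderOf_dvd_card' (G := G ⧸ N) 2 (by rw [c6]; norm_num)
  have s3 : orderOf (s : G ⧸ N) = 3 := orderOf_eq_prime
    (by rw [← QuotientGroup.mk_pow, ← hs, pow_orderOf_eq_one]; rfl) (mt (QuotientGroup.eq_one_iff s).1 sN)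
  have ncm := nc hq hy.symm.dvd s3
  refine .inr ⟨?_, ?_⟩
  · classical
    have si : (s : G ⧸ N)⁻¹ = s ^ 2 := inv_eq_of_mul_eq_one_right (by
      rw [← pow_succ', ← pow_orderOf_eq_one (s : G ⧸ N), s3])
    have sM : zpowers (s : G ⧸ N) = M := by
      refine eq_of_le_of_card_ge (zpowers_le.2 ?_) (by rw [M3, Nat.card_zpowers, s3])
      have := pow_index_mem (H := M) (s : G ⧸ N)⁻¹
      rwa [e, inv_pow, ← si, inv_inv] at this
    have yi : y * s * y⁻¹ = (s : G ⧸ N)⁻¹ := by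
      have : y * s * y⁻¹ ∈ zpowers (s : G ⧸ N) := sM ▸ (inferInstance : M.Normal).conj_mem _
        (sM ▸ mem_zpowers _) y
      rw [mem_zpowers_iff_mem_range_orderOf, s3] at this
      obtain ⟨i, hi, e⟩ := Finset.mem_image.1 this
      rw [Finset.mem_range] at hi
      interval_cases i
      · have := s3
        rw [← BG.orderOf_conj y, ← e] at this; simp at this
      · exact absurd (mul_inv_eq_iff_eq_mul.1 (by simpa using e.symm)) ncm
      · rw [← e, si]
    induction y using QuotientGroup.induction_on with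
    | H y =>
    obtain ⟨m, hm, e⟩ := fpf_exists_conj_eq' (K := N) (a := s⁻¹) (le_norm_pcore _ _ (mem_top _))
      (fp _ (by rw [orderOf_inv, hs])) (QuotientGroup.eq.1 yi.symm)
    have tx : m⁻¹ * y * s * (m⁻¹ * y)⁻¹ = s⁻¹ := by
      calc _ = m⁻¹ * (s⁻¹ * (s⁻¹⁻¹ * (y * s * y⁻¹))) * m := by group
        _ = _ := by rw [← e]; group
    have o2 : ∀ n ∈ N, orderOf ((n * y : G) : G ⧸ N) = 2 := fun n hn => by
      rw [QuotientGroup.mk_mul, (QuotientGroup.eq_one_iff n).2 hn, one_mul, hy]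
    refine elem_ab (t := m⁻¹ * y) (by rw [← hs, pow_orderOf_eq_one]) ?_ tx (fp s hs) ?_ fun n hn => ?_
    · have : m⁻¹ * y * (m⁻¹ * y) ∈ N ⊓ centralizer {s} := by
        refine ⟨?_, mem_cent1.2 ?_⟩
        · refine (QuotientGroup.eq_one_iff _).1 ?_
          rw [← sq, QuotientGroup.mk_pow, ← orderOf_dvd_iff_pow_eq_one, o2 _ (inv_mem hm)]
        · generalize m⁻¹ * y = t at tx
          calc _ = t * (t * s * t⁻¹) * t := by group
            _ = (t * s * t⁻¹)⁻¹ * t * t := by nth_rw 1 [tx]; group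
            _ = _ := by rw [tx]; group
      rwa [fp s hs] at this
    · intro a ha b hb c hc
      have : ⁅⁅(⟨a, ha⟩ : N), (⟨b, hb⟩ : N)⁆, (⟨c, hc⟩ : N)⁆ ∈ (⊤ : Subgroup N).lowerCentralSeries 2 :=
        commutator_mem_commutator (commutator_mem_commutator (mem_top _) (mem_top _)) (mem_top _)
      rw [lc] at this
      exact congrArg Subtype.val (commutatorElement_eq_one_iff_mul_comm.1 this)
    · have h1 : 2 ∣ orderOf (n * m⁻¹ * y) :=
        o2 _ (mul_mem hn (inv_mem hm)) ▸ orderOf_map_dvd (QuotientGroup.mk' N) _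
      have := ho (n * m⁻¹ * y)
      have := orderOf_pos (n * m⁻¹ * y)
      rw [← mul_assoc, ← orderOf_dvd_iff_pow_eq_one]
      interval_cases orderOf (n * m⁻¹ * y) <;> simp_all
  · have cy : # (zpowers y) = 2 := by rw [Nat.card_zpowers, hy]
    have i3 : # ((G ⧸ N) ⧸ zpowers y) = 3 := by
      have := (zpowers y).index_mul_card
      rw [cy, c6] at this
      change (zpowers y).index = 3; omega
    have inj : Function.Injective (MulAction.toPermHom (G ⧸ N) ((G ⧸ N) ⧸ zpowers y)) := by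
      rw [← MonoidHom.ker_eq_bot_iff, ← normalCore_eq_ker]
      by_contra h
      have h1 : (zpowers y).normalCore = zpowers y := by
        refine eq_of_le_of_card_ge (normalCore_le _) ?_
        rw [cy]; exact (one_lt_card_iff_ne_bot _).2 h
      have : s * y * (s : G ⧸ N)⁻¹ ∈ zpowers y := h1 ▸ (normalCore_normal _).conj_mem _
        (h1.symm ▸ mem_zpowers y) _
      classical
      rw [mem_zpowers_iff_mem_range_orderOf, hy] at this
      obtain ⟨i, hi, e⟩ := Finset.mem_image.1 this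
      rw [Finset.mem_range] at hi
      interval_cases i
      · rw [← BG.orderOf_conj (s : G ⧸ N), ← e] at hy; simp at hy
      · exact ncm (mul_inv_eq_iff_eq_mul.1 (by simpa using e.symm)).symm
    exact ⟨(MulEquiv.ofBijective _ ((Nat.bijective_iff_injective_and_card _).2
      ⟨inj, by rw [Nat.card_perm, i3, c6]; rfl⟩)).trans (Nat.equivFinOfCardPos (by omega)
        |>.trans (finCongr i3)).permCongrHom⟩

theorem main (h : Set.range (orderOf : G → ℕ) = {k : ℕ | 1 ≤ k ∧ k ≤ 4}) :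
    ∃ (N : Subgroup G) (_ : N.Normal),
      (IsPGroup 2 ↥N ∧ Monoid.exponent ↥N = 4 ∧ Group.nilpotencyClass ↥N ≤ 2 ∧ N.index = 3) ∨
      (Cfsg.IsElementaryAbelian 2 N ∧ Nonempty (G ⧸ N ≃* Equiv.Perm (Fin 3))) ∨
      (Cfsg.IsElementaryAbelian 3 N ∧ ((IsCyclic (G ⧸ N) ∧ N.index = 4) ∨
        Nonempty (G ⧸ N ≃* QuaternionGroup 2))) := by
  have ho : ∀ g : G, orderOf g ≤ 4 := fun g =>
    (h ▸ Set.mem_range_self g : orderOf g ∈ {k : ℕ | 1 ≤ k ∧ k ≤ 4}).2
  obtain ⟨g, hg⟩ : ∃ t : G, orderOf t = 4 :=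
    (h.symm ▸ ⟨by norm_num, by norm_num⟩ : 4 ∈ Set.range (orderOf : G → ℕ))
  obtain ⟨s, hs⟩ : ∃ t : G, orderOf t = 3 :=
    (h.symm ▸ ⟨by norm_num, by norm_num⟩ : 3 ∈ Set.range (orderOf : G → ℕ))
  by_cases h2 : piCoreOf {2} (⊤ : Subgroup G) = ⊥
  · obtain ⟨N, hN, a⟩ := case3 ho hg h2
    exact ⟨N, hN, .inr (.inr a)⟩
  · obtain ⟨N, hN, a⟩ := case2 ho hg hs h2
    exact ⟨N, hN, a.imp_right .inl⟩

end H02.Sp4
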