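import Mathlib
import Cfsg.Agent.H16.Subnormal

/-! Flavell's extension of Wielandt's zipper lemma: a subgroup with normal closure `G` that is
subnormal in all but at most one of the maximal subgroups over it lies in a unique one. -/

namespace H02.Zip
open Subgroup
open scoped Pointwise

variable {G : Type*} [Group G]

/-- The normalizer of a subgroup. -/
abbrev Nm (A : Subgroup G) : Subgroup G := Subgroup.normalizer (A : Set G)

local notation "cj(" g ", " A ")" => (MulAut.conj g • A : Subgroup _)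
local notation "N_(" A ")" => Nm A

/-- `A` is subnormal in `K`. -/
def SN (A K : Subgroup G) : Prop := (A.subgroupOf K).IsSubnormal

theorem mem_cj {g x : G} {A : Subgroup G} : x ∈ cj(g, A) ↔ g⁻¹ * x * g ∈ A := by
  rw [mem_pointwise_smul_iff_inv_smul_mem]; simp

theorem cj_le {g : G} {A B : Subgroup G} (h : A ≤ B) : cj(g, A) ≤ cj(g, B) :=
  fun _ hx => mem_cj.2 (h (mem_cj.1 hx))

theorem cj_cj (g : G) (A : Subgroup G) : cj(g, cj(g⁻¹, A)) = A := by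
  ext x; simp [mem_cj, mul_assoc]

theorem cj_cj' (g : G) (A : Subgroup G) : cj(g⁻¹, cj(g, A)) = A := by
  ext x; simp [mem_cj, mul_assoc]

theorem cj_eq_iff {g : G} {A : Subgroup G} : cj(g, A) = A ↔ g ∈ N_(A) := by
  rw [← inv_mem_iff, mem_normalizer_iff]
  constructor
  · intro h x
    rw [inv_inv, ← mem_cj, h]
  · intro h; ext x
    rw [mem_cj, h x, inv_inv]

theorem cj_self {g : G} {A : Subgroup G} (h : g ∈ A) : cj(g, A) = A := cj_eq_iff.2 (le_normalizer h)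

theorem cj_le_of {g : G} {A K : Subgroup G} (h : A ≤ K) (hg : g ∈ K) : cj(g, A) ≤ K :=
  (cj_le h).trans (cj_self hg).le

theorem cj_inj {g : G} {A B : Subgroup G} (h : cj(g, A) = cj(g, B)) : A = B := by
  rw [← cj_cj' g A, h, cj_cj']

theorem cj_norm {g : G} {A B : Subgroup G} (h : A ≤ N_(B)) : cj(g, A) ≤ N_(cj(g, B)) := by
  intro x hx
  have := mem_normalizer_iff.1 (h (mem_cj.1 hx))
  rw [mem_normalizer_iff]
  intro y
  rw [mem_cj, mem_cj, this]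
  congr! 1
  group

theorem coatom_cj {g : G} {K : Subgroup G} (h : IsCoatom K) : IsCoatom cj(g, K) :=
  (OrderIso.isCoatom_iff (MulAut.conj g).mapSubgroup K).2 h

theorem card_cj (g : G) (A : Subgroup G) : Nat.card cj(g, A) = Nat.card A :=
  (Nat.card_congr (equivSMul (MulAut.conj g) A).toEquiv).symm

theorem SN.cj {A K : Subgroup G} (g : G) (h : SN A K) : SN cj(g, A) cj(g, K) := by
  have := IsSubnormal.comap (equivSMul (MulAut.conj g) K).symm.toMonoidHom h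
  unfold SN
  convert this using 1
  ext x
  simp only [mem_subgroupOf, mem_comap, mem_cj]
  rfl

theorem SN.of_norm {A K : Subgroup G} (h1 : A ≤ K) (h : K ≤ N_(A)) : SN A K :=
  ((normal_subgroupOf_iff_le_normalizer h1).2 h).isSubnormal

theorem ncl_cj {A : Subgroup G} (g : G) (h : normalClosure (A : Set G) = ⊤) :
    normalClosure (cj(g, A) : Set G) = ⊤ := by
  rw [eq_top_iff, ← h]
  refine normalClosure_le_normal fun x hx => ?_
  have : g * x * g⁻¹ ∈ normalClosure (cj(g, A) : Set G) :=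
    subset_normalClosure (mem_cj.2 (by simpa [mul_assoc] using hx))
  simpa [mul_assoc] using (normalClosure_normal.conj_mem _ this g⁻¹)

theorem ncl_mono {A B : Subgroup G} (h : normalClosure (A : Set G) = ⊤) (hAB : A ≤ B) :
    normalClosure (B : Set G) = ⊤ := eq_top_iff.2 (h ▸ normalClosure_mono hAB)

theorem norm_ne {A B : Subgroup G} (h : normalClosure (A : Set G) = ⊤) (hAB : A ≤ B) (hB : B ≠ ⊤) :
    N_(B) ≠ ⊤ := by
  intro e
  haveI := normalizer_eq_top_iff.1 e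
  exact hB (eq_top_iff.2 (h ▸ normalClosure_le_normal hAB))

theorem norm_coatom {A M : Subgroup G} (h : normalClosure (A : Set G) = ⊤) (hAM : A ≤ M)
    (hM : IsCoatom M) : N_(M) = M := by
  by_contra e
  exact norm_ne h hAM hM.1 (hM.2 _ (lt_of_le_of_ne le_normalizer (Ne.symm e)))

/-- Subnormal in all maximal overgroups except possibly `L`. -/
def Wk (B L : Subgroup G) : Prop := ∀ K, IsCoatom K → B ≤ K → K ≠ L → SN B K

theorem Wk.cj {B L : Subgroup G} (g : G) (h : Wk B L) : Wk cj(g, B) cj(g, L) := by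
  intro K hK h1 h2
  have := (h cj(g⁻¹, K) (coatom_cj hK) (by simpa [cj_cj'] using cj_le (g := g⁻¹) h1)
    (fun e => h2 (by rw [← e, cj_cj]))).cj g
  rwa [cj_cj] at this

/-- Uniqueness of the maximal overgroup. -/
def Uq (B : Subgroup G) : Prop :=
  ∀ K₁ K₂, IsCoatom K₁ → IsCoatom K₂ → B ≤ K₁ → B ≤ K₂ → K₁ = K₂

structure Ex (n : ℕ) (B L : Subgroup G) : Prop where
  card : Nat.card B = n
  ncl : normalClosure (B : Set G) = ⊤
  co : IsCoatom L
  le : B ≤ L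
  ns : ¬ SN B L
  wk : Wk B L

theorem Ex.cj {n} {B L : Subgroup G} (g : G) (h : Ex n B L) : Ex n cj(g, B) cj(g, L) :=
  ⟨(card_cj g B).trans h.card, ncl_cj g h.ncl, coatom_cj h.co, cj_le h.le,
    fun e => h.ns (by simpa [cj_cj'] using e.cj g⁻¹), h.wk.cj g⟩

theorem Ex.uniq {n} {B L L' : Subgroup G} (h : Ex n B L) (h' : Ex n B L') : L = L' := by
  by_contra e
  exact h.ns (h'.wk L h.co h.le e)

theorem Ex.norm {n} {B L : Subgroup G} (h : Ex n B L) : N_(B) ≤ L := by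
  intro g hg
  have := h.cj g
  rw [cj_eq_iff.2 hg] at this
  rw [← norm_coatom h.ncl h.le h.co, ← cj_eq_iff]
  exact this.uniq h

variable [Finite G]

theorem fact1 {n : ℕ}
    (ih : ∀ J L : Subgroup G, n < Nat.card J → normalClosure (J : Set G) = ⊤ → Wk J L → Uq J)
    {B C L L' K₁ K₂ : Subgroup G} (cB : Nat.card B = n) (cC : Nat.card C = n)
    (nB : normalClosure (B : Set G) = ⊤) (wB : Wk B L) (wC : Wk C L') (hne : B ≠ C)
    (h₁ : IsCoatom K₁) (h₂ : IsCoatom K₂) (hK : K₁ ≠ K₂) (lB : B ≤ K₁ ⊓ K₂) (lC : C ≤ K₁ ⊓ K₂) :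
    L ≠ L' ∧ C ≤ L := by
  have key : ¬ Wk (B ⊔ C) L' := fun w => by
    refine hK (ih _ _ ?_ (ncl_mono nB le_sup_left) w _ _ h₁ h₂
      ((sup_le lB lC).trans inf_le_left) ((sup_le lB lC).trans inf_le_right))
    rw [← cC]
    refine card_lt_of_lt (lt_of_le_of_ne le_sup_right fun e => hne ?_)
    exact eq_of_le_of_card_ge (le_sup_left.trans e.ge) (by rw [cB, cC])
  by_contra hc
  refine key fun K hK' hl hn => ?_
  have a := le_sup_left.trans hl
  have b := le_sup_right.trans hl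
  refine H16.isSubnormal_sup_subgroupOf a b (wB K hK' a fun e => hc ⟨?_, e ▸ b⟩) (wC K hK' b hn)
  rw [← e]; exact hn

theorem exists_cj {A K : Subgroup G} (h1 : A ≤ K) (h2 : SN A K) (h3 : ¬ K ≤ N_(A)) :
    ∃ k ∈ K, cj(k, A) ≠ A ∧ cj(k, A) ≤ N_(A) := by
  obtain ⟨X, ⟨k, hk, rfl⟩, a, b⟩ := H16.exists_le_normalizer_sSup_in K {X | ∃ k ∈ K, cj(k, A) = X} {A}
    (by rintro _ ⟨k, hk, rfl⟩; exact cj_le_of h1 hk)
    (by rintro _ ⟨k, hk, rfl⟩; have := h2.cj k; rwa [cj_self hk] at this)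
    (by rintro _ ⟨k, hk, rfl⟩ g hg; exact ⟨g * k, mul_mem hg hk, by rw [map_mul, mul_smul]⟩)
    (by
      refine ⟨by rintro _ rfl; exact ⟨1, one_mem _, by simp⟩, fun e => h3 fun k hk => ?_⟩
      exact cj_eq_iff.1 (e ⟨k, hk, rfl⟩))
  exact ⟨k, hk, a, by simpa using b⟩

theorem clique {n : ℕ}
    (ih : ∀ J L : Subgroup G, n < Nat.card J → normalClosure (J : Set G) = ⊤ → Wk J L → Uq J)
    {A X M MX K₁ K₂ : Subgroup G} (eA : Ex n A M) (eX : Ex n X MX) (hne : A ≠ X)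
    (h₁ : IsCoatom K₁) (h₂ : IsCoatom K₂) (hK : K₁ ≠ K₂) (lA : A ≤ K₁ ⊓ K₂) (lX : X ≤ K₁ ⊓ K₂) :
    False := by
  have F : ∀ {B C L L' K₁ K₂ : Subgroup G}, Ex n B L → Ex n C L' → B ≠ C → IsCoatom K₁ → IsCoatom K₂ →
      K₁ ≠ K₂ → B ≤ K₁ ⊓ K₂ → C ≤ K₁ ⊓ K₂ → L ≠ L' ∧ C ≤ L :=
    fun b c h => fact1 ih b.card c.card b.ncl b.wk c.wk h
  let w : Subgroup G → Subgroup G := fun I => sSup {B | (∃ L, Ex n B L) ∧ B ≤ I}
  obtain ⟨W, hW0, ⟨K₃, K₄, h₃, h₄, h34, rfl⟩, hmax⟩ := exists_maximal_ge_of_wellFoundedGT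
    (fun W => ∃ K₁ K₂, IsCoatom K₁ ∧ IsCoatom K₂ ∧ K₁ ≠ K₂ ∧ w (K₁ ⊓ K₂) = W) (w (K₁ ⊓ K₂))
    ⟨K₁, K₂, h₁, h₂, hK, rfl⟩
  set W := w (K₃ ⊓ K₄) with hW
  have WI : W ≤ K₃ ⊓ K₄ := sSup_le fun B hB => hB.2
  have AW : A ≤ W := (le_sSup (by exact ⟨⟨_, eA⟩, lA⟩)).trans hW0
  have XW : X ≤ W := (le_sSup (by exact ⟨⟨_, eX⟩, lX⟩)).trans hW0
  have gen : ∀ {U}, (∀ B L, Ex n B L → B ≤ W → B ≤ U) → W ≤ U := fun h =>
    sSup_le fun B ⟨⟨L, e⟩, hB⟩ => h B L e (le_sSup (by exact ⟨⟨L, e⟩, hB⟩))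
  have star : ∀ {K K' B L}, IsCoatom K → IsCoatom K' → K ≠ K' → W ≤ K ⊓ K' → Ex n B L →
      B ≤ K ⊓ K' → B ≤ W := fun {K K' B L} a b c d e f =>
    (le_sSup (by exact ⟨⟨L, e⟩, f⟩)).trans (hmax (y := w (K ⊓ K')) ⟨K, K', a, b, c, rfl⟩
      (gen fun B L e f => le_sSup (by exact ⟨⟨L, e⟩, f.trans d⟩)))
  have F' : ∀ {B C L L'}, Ex n B L → Ex n C L' → B ≠ C → B ≤ W → C ≤ W → L ≠ L' ∧ C ≤ L :=
    fun b c h x y => F b c h h₃ h₄ h34 (x.trans WI) (y.trans WI)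
  have WL : ∀ {B L}, Ex n B L → B ≤ W → W ≤ L := fun {B L} e h => gen fun C L' e' h' => by
    by_cases k : B = C
    · exact k ▸ e.le
    · exact (F' e e' k h h').2
  have rigid : ∀ {C L L' : Subgroup G} {y : G}, Ex n C L → IsCoatom L' → L ≠ L' → C ≤ L' → y ∈ L → cj(y, C) ≤ L' →
      y ∈ N_(C) := fun {C L L' y} e c h a b d => by
    by_contra k
    have e' := e.cj y
    rw [cj_self b] at e'
    exact (F e' e (fun q => k (cj_eq_iff.1 q)) e.co c h (le_inf e'.le d) (le_inf e.le a)).1 rfl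
  have WN : ∀ {B L : Subgroup G}, Ex n B L → B ≤ W → W ≤ N_(B) := fun {B L} e h y hy => by
    obtain ⟨C, L', e', h', k⟩ : ∃ C L' : Subgroup G, Ex n C L' ∧ C ≤ W ∧ B ≠ C := by
      by_cases k : B = A
      · exact ⟨X, MX, eX, XW, k ▸ hne⟩
      · exact ⟨A, M, eA, AW, k⟩
    exact rigid e e'.co (F' e e' k h h').1 (h.trans (WL e' h')) (WL e h hy)
      ((cj_le_of h hy).trans (WL e' h'))
  obtain ⟨K', cK', nK'⟩ := (eq_top_or_exists_le_coatom N_(W)).resolve_left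
    (norm_ne eA.ncl AW fun e => h₃.1 (eq_top_iff.2 (e ▸ WI.trans inf_le_left)))
  suffices fin : ∀ {C B L L' : Subgroup G}, Ex n C L → Ex n B L' → C ≠ B → C ≤ W → B ≤ W → L = K' from
    (F' eA eX hne AW XW).1 ((fin eA eX hne AW XW).trans (fin eX eA hne.symm XW AW).symm)
  intro C B L L' eC eB hCB CW BW
  by_contra hL
  let S₀ : Set (Subgroup G) := {D | (∃ P, Ex n D P) ∧ D ≤ W ∧ D ≠ C}
  let S : Set (Subgroup G) := {D | ∃ P, Ex n D P ∧ D ≤ L ∧ P ≠ L}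
  have W0 : sSup S₀ ≤ W := sSup_le fun D hD => hD.2.1
  have WW : W = C ⊔ sSup S₀ := le_antisymm (gen fun D P e h => by
    by_cases k : D = C
    · exact k ▸ le_sup_left
    · exact (le_sSup (by exact ⟨⟨P, e⟩, h, k⟩)).trans le_sup_right) (sup_le CW W0)
  have cl : L ⊓ N_(sSup S₀) ≤ N_(C) := fun y hy => by
    have b : cj(y⁻¹, B) ≤ W := by
      refine le_trans ?_ W0
      refine (cj_le (le_sSup (by exact ⟨⟨_, eB⟩, BW, hCB.symm⟩))).trans (cj_eq_iff.2 (inv_mem hy.2)).le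
    have := cj_norm (g := y) (CW.trans (WN (eB.cj y⁻¹) b))
    rw [cj_cj] at this
    exact rigid eC eB.co (F' eC eB hCB CW BW).1 (CW.trans (WL eB BW)) hy.1 (this.trans eB.norm)
  have sub : S₀ ⊆ S := fun D ⟨⟨P, e⟩, h, k⟩ => ⟨P, e, h.trans (WL eC CW), (F' e eC k h CW).1⟩
  have inv : ∀ U ∈ S, ∀ g ∈ L, cj(g, U) ∈ S := fun U ⟨P, e, h, k⟩ g hg =>
    ⟨_, e.cj g, cj_le_of h hg, fun q => k (cj_inj (q.trans (cj_self hg).symm))⟩
  by_cases hS : S₀ = S
  · refine eC.ns (SN.of_norm eC.le (le_trans (le_inf le_rfl fun g hg => ?_) cl))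
    have : ∀ g ∈ L, cj(g, sSup S₀) ≤ sSup S₀ := fun g hg => by
      rw [← cj_cj g (sSup S₀)]
      nth_rw 1 [cj_cj]
      exact cj_le (sSup_le fun D hD => by
        rw [← cj_cj' g D]; exact cj_le (le_sSup (hS ▸ inv D (hS ▸ hD) g hg)))
    refine cj_eq_iff.1 (le_antisymm (this g hg) ?_)
    simpa [cj_cj] using cj_le (g := g) (this g⁻¹ (inv_mem hg))
  · obtain ⟨Y, ⟨P, e, h, k⟩, a, b⟩ := H16.exists_le_normalizer_sSup_in L S S₀ (fun U ⟨_, _, h, _⟩ => h)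
      (fun U ⟨P, e, h, k⟩ => e.wk L eC.co h k.symm) inv (ssubset_of_subset_of_ne sub hS)
    have YN : Y ≤ N_(W) := WW ▸ H16.le_normalizer_sup ((le_inf h b).trans cl) b
    refine a ⟨⟨P, e⟩, star eC.co cK' hL (le_inf (WL eC CW) (le_normalizer.trans nK')) e
      (le_inf h (YN.trans nK')), fun q => k ?_⟩
    subst q; exact e.uniq eC

/-- Flavell's theorem. -/
theorem flavell (A M : Subgroup G) (hA : normalClosure (A : Set G) = ⊤) (h : Wk A M) : Uq A := by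
  induction hn : Nat.card G - Nat.card A using Nat.strong_induction_on generalizing A M with
  | _ d ih0 =>
  have ih : ∀ J L : Subgroup G, Nat.card A < Nat.card J → normalClosure (J : Set G) = ⊤ → Wk J L →
      Uq J := fun J L a b c => ih0 _ (by have := card_le_card_group J; omega) J L b c rfl
  intro K₁ K₂ h₁ h₂ a₁ a₂
  by_contra hK
  have step : ∀ {P}, IsCoatom P → N_(A) ≤ P → (∀ K, IsCoatom K → A ≤ K → K ≠ P → SN A K) →
      ∃ K k, IsCoatom K ∧ K ≠ P ∧ A ≠ cj(k, A) ∧ A ≤ K ⊓ P ∧ cj(k, A) ≤ K ⊓ P := fun {P} c nP w => by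
    obtain ⟨K, cK, aK, hKP⟩ : ∃ K, IsCoatom K ∧ A ≤ K ∧ K ≠ P := by
      by_cases e : K₁ = P
      · exact ⟨K₂, h₂, a₂, fun q => hK (e.trans q.symm)⟩
      · exact ⟨K₁, h₁, a₁, e⟩
    obtain ⟨k, hk, x, y⟩ := exists_cj aK (w K cK aK hKP) fun q =>
      hKP ((cK.le_iff_eq c.1).1 (q.trans nP)).symm
    exact ⟨K, k, cK, hKP, x.symm, le_inf aK (le_normalizer.trans nP),
      le_inf (cj_le_of aK hk) (y.trans nP)⟩
  by_cases hM : IsCoatom M ∧ A ≤ M ∧ ¬ SN A M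
  · have e : Ex (Nat.card A) A M := ⟨rfl, hA, hM.1, hM.2.1, hM.2.2, h⟩
    obtain ⟨K, k, c, x, y, z, t⟩ := step hM.1 e.norm h
    exact clique ih e (e.cj k) y c hM.1 x z t
  · have w : ∀ K, IsCoatom K → A ≤ K → SN A K := fun K c a => by
      by_cases e : K = M
      · subst e; by_contra q; exact hM ⟨c, a, q⟩
      · exact h K c a e
    obtain ⟨P, cP, nP⟩ := (eq_top_or_exists_le_coatom N_(A)).resolve_left
      (norm_ne hA le_rfl fun e => h₁.1 (eq_top_iff.2 (e ▸ a₁)))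
    obtain ⟨K, k, c, x, y, z, t⟩ := step cP nP fun K c a _ => w K c a
    have w0 : Wk A ⊥ := fun K c a _ => w K c a
    exact (fact1 ih rfl (card_cj k A) hA w0 (w0.cj k) y c cP x z t).1 (by simp)

end H02.Zip
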