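import Mathlib
import Cfsg.Agent.H02.Zip1

/-! Consequences of Flavell's zipper theorem (Guralnick and Tracey): Engel-type subgroups. -/

namespace H02.Zip
open Subgroup
open scoped Pointwise commutatorElement

universe u
variable {G : Type*} [Group G]

theorem gt_join [Finite G] (A : Subgroup G) (hA : normalClosure (A : Set G) = ⊤) (hAG : A ≠ ⊤) :
    sSup {H : Subgroup G | A ≤ H ∧ H ≠ ⊤ ∧
      normalClosure ((A.subgroupOf H : Subgroup ↥H) : Set ↥H) = ⊤} = ⊤ ∨
      ∃! M : Subgroup G, IsCoatom M ∧ A ≤ M := by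
  refine (eq_top_or_exists_le_coatom _).imp_right fun ⟨M, cM, hM⟩ => ?_
  have key : ∀ B : Subgroup G, A ≤ B → B ≠ ⊤ →
      normalClosure ((A.subgroupOf B : Subgroup ↥B) : Set ↥B) = ⊤ →
      ∀ K, IsCoatom K → B ≤ K → K = M := by
    intro B
    induction B using WellFoundedGT.induction with
    | ind B ih =>
    intro a b c K cK hK
    refine flavell B M (ncl_mono hA a) (fun L cL hL hne => ?_) K M cK cM hK
      ((le_sSup (by exact ⟨a, b, c⟩)).trans hM)
    obtain ⟨S, ⟨s1, s2, s3⟩, hmin⟩ := exists_minimal_of_wellFoundedLT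
      (fun S : Subgroup G => B ≤ S ∧ S ≤ L ∧ SN S L) ⟨L, hL, le_rfl, SN.of_norm le_rfl le_normalizer⟩
    by_cases e : B = S
    · exact e ▸ s3
    refine absurd (ih S (lt_of_le_of_ne s1 e) (a.trans s1) (fun q => cL.1 (eq_top_iff.2 (q ▸ s2))) ?_
      L cL s2) hne
    set N := normalClosure ((A.subgroupOf S : Subgroup ↥S) : Set ↥S)
    have BN : B ≤ N.map S.subtype := fun x hx => by
      have : (⟨x, hx⟩ : B) ∈ N.comap (inclusion s1) := by
        refine normalClosure_le_normal (N := N.comap (inclusion s1)) (s := A.subgroupOf B)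
          (fun y hy => ?_) (c ▸ mem_top _)
        exact subset_normalClosure hy
      exact ⟨_, this, rfl⟩
    have NS : N.map S.subtype ≤ S := map_subtype_le _
    have := hmin (y := N.map S.subtype) ⟨BN, NS.trans s2, ?_⟩ NS
    · rw [eq_top_iff]; intro x _
      obtain ⟨y, hy, e⟩ := this x.2
      exact (Subtype.ext e : y = x) ▸ hy
    · refine IsSubnormal.trans (K := S.subgroupOf L) (comap_mono NS) (Normal.isSubnormal ?_) s3
      refine (normal_subgroupOf_iff (comap_mono NS)).2 ?_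
      rintro x y ⟨z, hz, e⟩ hy
      exact ⟨⟨y, hy⟩ * z * ⟨y, hy⟩⁻¹, normalClosure_normal.conj_mem _ hz _, by
        simp only [coe_subtype] at e ⊢; simp [e]⟩
  have t : normalClosure ((A.subgroupOf A : Subgroup ↥A) : Set ↥A) = ⊤ := by
    rw [subgroupOf_self, normalClosure_eq_self]
  exact ⟨M, ⟨cM, (le_sSup (by exact ⟨le_rfl, hAG, t⟩)).trans hM⟩,
    fun K hK => key A le_rfl hAG t K hK.1 hK.2⟩

theorem engel_aux (k n : ℕ) : ∀ (Γ : Type u) [Group Γ] [Finite Γ] (a : Γ), Nat.card Γ = n →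
    normalClosure ((zpowers a : Subgroup Γ) : Set Γ) = ⊤ →
    closure (Set.range (fun c => ⁅c, a⁆)^[k]) ⊔ zpowers a = ⊤ := by
  induction n using Nat.strong_induction_on with
  | _ n ih =>
  intro Γ _ _ a hn hA
  by_cases h : zpowers a = ⊤
  · simp [h]
  rcases gt_join _ hA h with e | ⟨M, ⟨cM, aM⟩, uM⟩
  · rw [eq_top_iff, ← e]
    refine sSup_le fun H ⟨h1, h2, h3⟩ x hx => ?_
    have ha : a ∈ H := h1 (mem_zpowers a)
    have z : (zpowers a).subgroupOf H = zpowers (⟨a, ha⟩ : H) := by
      ext y; simp [mem_subgroupOf, mem_zpowers_iff, Subtype.ext_iff]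
    have := ih _ (hn ▸ by simpa using card_lt_of_lt (lt_top_iff_ne_top.2 h2)) H ⟨a, ha⟩ rfl (z ▸ h3)
    have m : (⟨x, hx⟩ : H) ∈ (closure (Set.range (fun c => ⁅c, a⁆)^[k]) ⊔ zpowers a).comap H.subtype := by
      refine (sup_le ((closure_le _).2 ?_) ?_ : _ ≤ _) (this ▸ mem_top _)
      · rintro _ ⟨c, rfl⟩
        refine mem_sup_left (subset_closure ⟨c, ?_⟩)
        exact (Function.Semiconj.iterate_right (f := H.subtype) (fun _ => rfl) k c).symm
      · exact z ▸ comap_mono le_sup_right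
    exact m
  · by_contra e
    obtain ⟨K, cK, hK⟩ := (eq_top_or_exists_le_coatom _).resolve_left e
    obtain rfl := uM K ⟨cK, le_sup_right.trans hK⟩
    have st : ∀ c, ⁅c, a⁆ ∈ K → c ∈ K := fun c hc => by
      have : a ∈ MulAut.conj c⁻¹ • K := mem_cj.2 (by
        simpa [commutatorElement_def] using mul_mem hc (aM (mem_zpowers a)))
      rw [← norm_coatom hA aM cM, ← inv_mem_iff]
      exact cj_eq_iff.1 (uM _ ⟨coatom_cj cM, zpowers_le.2 this⟩)
    have : ∀ j c, (fun c => ⁅c, a⁆)^[j] c ∈ K → c ∈ K := fun j => by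
      induction j with
      | zero => exact fun _ h => h
      | succ j ih => exact fun c h => st c (ih _ h)
    exact cK.1 (eq_top_iff.2 fun c _ => this k c (hK (mem_sup_left (subset_closure ⟨c, rfl⟩))))

theorem engel [Finite G] (α : MulAut G) (hG : closure (Set.range (fun c : G => c * (α c)⁻¹)) = ⊤)
    (k : ℕ) : closure (Set.range ((fun c : G => c * (α c)⁻¹)^[k])) = ⊤ := by
  rcases k with _ | k
  · simp
  let Γ := G ⋊[(zpowers α).subtype] (zpowers α)
  haveI : Finite Γ := Finite.of_equiv _ SemidirectProduct.equivProd.symm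
  let a : Γ := SemidirectProduct.inr ⟨α, mem_zpowers α⟩
  have f1 : ∀ γ : Γ, ⁅γ, a⁆ = SemidirectProduct.inl (γ.left * (α γ.left)⁻¹) := fun γ => by
    have c : γ.right * ⟨α, mem_zpowers α⟩ = ⟨α, mem_zpowers α⟩ * γ.right := mul_comm' _ _
    have : ⁅(SemidirectProduct.inr γ.right : Γ), a⁆ = 1 := by
      rw [commutatorElement_eq_one_iff_mul_comm, ← map_mul, ← map_mul, c]
    have e : ⁅γ, a⁆ = ⁅(SemidirectProduct.inl γ.left : Γ), a⁆ := by
      nth_rw 1 [← SemidirectProduct.inl_left_mul_inr_right γ]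
      rw [commutatorElement_mul_left_eq_conj_mul, this]; simp
    rw [e, commutatorElement_def, map_mul, map_inv, mul_assoc, mul_assoc, ← mul_assoc a]
    congr 1
    rw [← map_inv, ← map_inv, ← map_inv, ← map_inv α]
    exact (SemidirectProduct.inl_aut (φ := (zpowers α).subtype) ⟨α, mem_zpowers α⟩ _).symm
  have hA : normalClosure ((zpowers a : Subgroup Γ) : Set Γ) = ⊤ := by
    set N := normalClosure ((zpowers a : Subgroup Γ) : Set Γ)
    have aN : a ∈ N := subset_normalClosure (mem_zpowers a)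
    have : ⊤ ≤ N.comap SemidirectProduct.inl := hG ▸ (closure_le _).2 (by
      rintro _ ⟨c, rfl⟩
      have := mul_mem (normalClosure_normal.conj_mem _ aN (SemidirectProduct.inl c)) (inv_mem aN)
      rw [← commutatorElement_def, f1] at this
      exact this)
    rw [eq_top_iff]; intro γ _
    rw [← SemidirectProduct.inl_left_mul_inr_right γ]
    refine mul_mem (this (mem_top _)) ?_
    obtain ⟨i, hi⟩ := γ.right.2
    have : γ.right = ⟨α, mem_zpowers α⟩ ^ i := Subtype.ext hi.symm
    rw [this, map_zpow]; exact zpow_mem aN i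
  have main := engel_aux (k + 1) _ Γ a rfl hA
  set E := closure (Set.range ((fun c : G => c * (α c)⁻¹)^[k + 1]))
  have inv : ∀ β : zpowers α, ∀ x ∈ E, β.1 x ∈ E := fun β => by
    have c : ∀ y, β.1 (α y) = α (β.1 y) := fun y =>
      congrArg (fun t : zpowers α => t.1 y) (mul_comm' β ⟨α, mem_zpowers α⟩)
    refine (closure_le (E.comap β.1.toMonoidHom)).2 ?_
    rintro _ ⟨y, rfl⟩
    refine subset_closure ⟨β.1 y, ?_⟩
    exact (Function.Semiconj.iterate_right (f := β.1) (fun y => by simp [c]) (k + 1) y).symm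
  let T : Subgroup Γ :=
    { carrier := {γ | γ.left ∈ E}
      one_mem' := E.one_mem
      mul_mem' := fun {x y} hx hy => E.mul_mem hx (inv _ _ hy)
      inv_mem' := fun {x} hx => inv x.right⁻¹ _ (E.inv_mem hx) }
  have : ⊤ ≤ T := main ▸ sup_le ((closure_le _).2 (by
    rintro _ ⟨γ, rfl⟩
    refine subset_closure ⟨γ.left, ?_⟩
    exact (Function.Semiconj.iterate_right (f := fun γ : Γ => γ.left) (fun y => by simp [f1])
      (k + 1) γ).symm)) (zpowers_le.2 E.one_mem)
  exact eq_top_iff.2 fun x _ => this (mem_top (SemidirectProduct.inl x))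

end H02.Zip
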