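import Mathlib
import Cfsg.Agent.H02.Zip2

/-! A finite group `G = [G, α]` with `α` an involutory automorphism has order bounded in terms of
the number of elements of odd order inverted by `α`. -/

namespace H02.Zip
open Subgroup
open scoped Pointwise commutatorElement Nat IsMulCommutative

variable {Q : Type*} [Group Q] [Finite Q]

theorem many_small (β : Q →* Q) (hβ : ∀ x, β (β x) = x) {c : ℕ}
    (hc : Nat.card (β.eqLocus (MonoidHom.id Q)) ≤ c) :
    Nat.card Q ≤ 2 * c ^ 2 * {x : Q | (centralizer {x}).index ≤ 2 * c ^ 2}.ncard := by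
  classical
  have := Fintype.ofFinite Q
  set B := 2 * c ^ 2 with hB
  let I : Finset Q := Finset.univ.filter fun x => β x = x⁻¹
  let X : Finset Q := Finset.univ.filter fun x => (centralizer {x}).index ≤ B
  have eX : {x : Q | (centralizer {x}).index ≤ B}.ncard = X.card := by
    rw [← Set.ncard_coe_finset]; congr 1; ext; simp [X]
  have h1 : Nat.card Q ≤ c * I.card := by
    rw [Nat.card_eq_fintype_card, ← Finset.card_univ]
    refine Finset.card_le_mul_card_image_of_maps_to (f := fun g => g * (β g)⁻¹)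
      (fun g _ => by simp [I, hβ]) c fun y _ => ?_
    rcases Finset.eq_empty_or_nonempty {a ∈ (Finset.univ : Finset Q) | a * (β a)⁻¹ = y} with e | ⟨a, ha⟩
    · simp [e]
    refine le_trans ?_ hc
    rw [← Nat.card_eq_finsetCard]
    refine Nat.card_le_card_of_injective (fun b => ⟨a⁻¹ * b.1, ?_⟩) fun b b' h => ?_
    · have h1 := (Finset.mem_filter.1 ha).2
      have h2 := (Finset.mem_filter.1 b.2).2
      change β (a⁻¹ * b.1) = a⁻¹ * b.1
      have e1 : β a = y⁻¹ * a := by rw [← h1]; group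
      have e2 : β b.1 = y⁻¹ * b.1 := by
        rw [eq_inv_mul_iff_mul_eq]; exact (mul_inv_eq_iff_eq_mul.1 h2).symm
      rw [map_mul, map_inv, e1, e2]; group
    · exact Subtype.ext (mul_left_cancel (congrArg Subtype.val h))
  have h2 : B * (I ×ˢ I).card ≤ Nat.card Q * (B * X.card) + Nat.card Q * Nat.card Q := by
    rw [Finset.card_eq_sum_card_fiberwise (f := fun p : Q × Q => p.1⁻¹ * p.2) (t := Finset.univ)
      (fun _ _ => by simp), Finset.mul_sum]
    refine (Finset.sum_le_sum (g := fun x => (if (centralizer {x}).index ≤ B then Nat.card Q * B else 0)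
      + Nat.card Q) fun x _ => ?_).trans ?_
    · have : {p ∈ I ×ˢ I | p.1⁻¹ * p.2 = x}.card ≤ Nat.card (centralizer {x}) := by
        rcases Finset.eq_empty_or_nonempty {p ∈ I ×ˢ I | p.1⁻¹ * p.2 = x} with e | ⟨a, ha⟩
        · simp [e]
        have key : ∀ p ∈ {p ∈ I ×ˢ I | p.1⁻¹ * p.2 = x}, β x = p.1 * x⁻¹ * p.1⁻¹ := fun p hp => by
          simp only [I, Finset.mem_filter, Finset.mem_product, Finset.mem_univ, true_and] at hp
          rw [← hp.2, map_mul, map_inv, hp.1.1, hp.1.2]; group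
        rw [← Nat.card_eq_finsetCard]
        refine Nat.card_le_card_of_injective (fun b => ⟨a.1⁻¹ * b.1.1, ?_⟩) fun b b' h => ?_
        · have := (key a ha).symm.trans (key b.1 b.2)
          rw [mem_centralizer_singleton_iff]
          calc a.1⁻¹ * b.1.1 * x = a.1⁻¹ * (b.1.1 * x⁻¹ * b.1.1⁻¹)⁻¹ * b.1.1 := by group
            _ = _ := by rw [← this]; group
        · have e := mul_left_cancel (congrArg Subtype.val h)
          have e' := (Finset.mem_filter.1 b.2).2.trans (Finset.mem_filter.1 b'.2).2.symm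
          rw [e] at e'
          exact Subtype.ext (Prod.ext e (mul_left_cancel e'))
      have e := (centralizer ({x} : Set Q)).index_mul_card
      have l := card_le_card_group (centralizer ({x} : Set Q))
      split_ifs with h <;> nlinarith
    · rw [Finset.sum_add_distrib, ← Finset.sum_filter]
      simp [X, mul_comm, mul_assoc, mul_left_comm]
  rw [eX]
  rw [Finset.card_product] at h2
  have : 0 < Nat.card Q := Nat.card_pos
  have h3 := Nat.mul_le_mul h1 h1
  refine Nat.le_of_mul_le_mul_left ?_ this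
  nlinarith

theorem small_subgroup {B k : ℕ} (hB : 1 ≤ B)
    (h : Nat.card Q ≤ k * {x : Q | (centralizer {x}).index ≤ B}.ncard) :
    ∃ H : Subgroup Q, H.index ≤ k ∧ ∀ x ∈ H, (centralizer {x}).index ≤ B ^ 2 ^ (3 * k + 1) := by
  let M : ℕ → Set Q := fun i => {x | (centralizer {x}).index ≤ B ^ 2 ^ i}
  have mono : ∀ {i j}, i ≤ j → M i ⊆ M j := fun h x hx => le_trans hx
    (Nat.pow_le_pow_right hB (Nat.pow_le_pow_right two_pos h))
  have inv : ∀ {i x}, x ∈ M i → x⁻¹ ∈ M i := fun {i x} hx => by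
    have : centralizer {x⁻¹} = centralizer ({x} : Set Q) := by
      ext y; simp only [mem_centralizer_singleton_iff]
      exact ⟨fun h => (Commute.inv_right_iff.1 h : _), fun h => (Commute.inv_right h : _)⟩
    simpa [M, this] using hx
  have mul : ∀ {i x y}, x ∈ M i → y ∈ M i → x * y ∈ M (i + 1) := fun {i x y} hx hy => by
    refine (index_antitone (H := centralizer {x} ⊓ centralizer {y}) fun z hz => ?_).trans
      (index_inf_le.trans ((Nat.mul_le_mul hx hy).trans_eq (by rw [pow_succ, pow_mul, sq])))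
    simp only [mem_inf, mem_centralizer_singleton_iff] at hz ⊢
    exact Commute.mul_right hz.1 hz.2
  have one : ∀ i, (1 : Q) ∈ M i := fun i => by
    have : centralizer {(1 : Q)} = ⊤ := by ext; simp [mem_centralizer_singleton_iff]
    simpa [M, this] using Nat.one_le_pow _ _ hB
  have e0 : {x : Q | (centralizer {x}).index ≤ B} = M 0 := by simp [M]
  rw [e0] at h
  have p0 : 0 < (M 0).ncard := (Set.ncard_pos (Set.toFinite _)).2 ⟨1, one 0⟩
  have : ∀ i, (∃ j ≤ 3 * i + 1, M (j + 1) ⊆ M j) ∨ (i + 1) * (M 0).ncard ≤ (M (3 * i)).ncard := by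
    intro i
    induction i with
    | zero => simp
    | succ i ih =>
      rcases ih with ⟨j, a, b⟩ | ih
      · exact .inl ⟨j, by omega, b⟩
      by_cases e : M (3 * i + 1 + 1) ⊆ M (3 * i + 1)
      · exact .inl ⟨_, by omega, e⟩
      obtain ⟨y, a, b⟩ := Set.not_subset.1 e
      right
      have d : Disjoint (M (3 * i)) ((y * ·) '' M 0) := Set.disjoint_left.2 (by
        rintro _ hz ⟨x, hx, rfl⟩
        exact b (by simpa using mul hz (inv (mono (Nat.zero_le _) hx))))
      have := Set.ncard_le_ncard (s := M (3 * i) ∪ (y * ·) '' M 0) (t := M (3 * (i + 1)))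
        (Set.union_subset (mono (by omega)) (by
          rintro _ ⟨x, hx, rfl⟩; exact mul a (mono (Nat.zero_le _) hx)))
      rw [Set.ncard_union_eq d, Set.ncard_image_of_injective _ (mul_right_injective y)] at this
      linarith
  rcases this k with ⟨j, a, b⟩ | b
  · let H : Subgroup Q := ⟨⟨⟨M j, fun x y => b (mul x y)⟩, one j⟩, inv⟩
    refine ⟨H, ?_, fun x hx => mono a hx⟩
    have e := H.index_mul_card
    have : (M 0).ncard ≤ Nat.card H := Set.ncard_le_ncard (mono (Nat.zero_le j))
    exact Nat.le_of_mul_le_mul_right (((Nat.mul_le_mul_left _ this).trans e.le).trans h) p0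
  · have := Set.ncard_le_card (M (3 * k))
    nlinarith

theorem rank_bd (H : Subgroup Q) {k m : ℕ} (hk : H.index ≤ k) (hm : Group.rank Q ≤ m) :
    Group.rank H ≤ k * m := (rank_le_index_mul_rank H).trans (Nat.mul_le_mul hk hm)

theorem ab_subgroup {H : Subgroup Q} {B k m : ℕ} (hB : 1 ≤ B) (hk : H.index ≤ k)
    (hm : Group.rank Q ≤ m) (h : ∀ x ∈ H, (centralizer {x}).index ≤ B) :
    ∃ U : Subgroup Q, U.index ≤ k * B ^ (k * m) ∧ ∀ x ∈ U, ∀ y ∈ U, x * y = y * x := by
  obtain ⟨S, h1, h2⟩ := Group.rank_spec H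
  refine ⟨H ⊓ ⨅ s : S, centralizer {(s.1 : Q)}, index_inf_le.trans (Nat.mul_le_mul hk
    ((index_iInf_le _).trans ((Finset.prod_le_pow_card _ _ B fun s _ => h _ s.1.2).trans ?_))), ?_⟩
  · exact Nat.pow_le_pow_right hB (by simpa [h1] using rank_bd H hk hm)
  · intro x hx y hy
    have : closure (S : Set H) ≤ (centralizer {x}).comap H.subtype := (closure_le _).2 fun s hs =>
      mem_centralizer_singleton_iff.2 (mem_centralizer_singleton_iff.1 (mem_iInf.1 hx.2 ⟨s, hs⟩)).symm
    exact (mem_centralizer_singleton_iff.1 (this (h2 ▸ mem_top (⟨y, hy.1⟩ : H)))).symm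

theorem card_bd {V : Subgroup Q} {N m e E : ℕ} (hN : V.index ≤ N) (hm : Group.rank Q ≤ m)
    (hV : ∀ x ∈ V, ∀ y ∈ V, x * y = y * x) (he : ∀ x ∈ V, x ^ e = 1) (e0 : 0 < e) (eE : e ≤ E) :
    Nat.card Q ≤ N * E ^ (N * m) := by
  letI : CommGroup V := { (inferInstance : Group V) with
    mul_comm := fun a b => Subtype.ext (hV _ a.2 _ b.2) }
  have := Nat.le_of_dvd (pow_pos e0 _)
    (card_dvd_exponent_pow_rank' V fun g => Subtype.ext (he _ g.2))
  rw [← V.index_mul_card]
  refine Nat.mul_le_mul hN (this.trans ((Nat.pow_le_pow_left eE _).trans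
    (Nat.pow_le_pow_right (by omega) (rank_bd V hN hm))))

theorem central_pow (β : Q →* Q) (hβ : ∀ x, β (β x) = x) {c m : ℕ}
    (hc : Nat.card (β.eqLocus (MonoidHom.id Q)) ≤ c) (hm : Group.rank Q ≤ m)
    (hJ : closure {x : Q | Odd (orderOf x) ∧ β x = x⁻¹} = ⊤) :
    ∃ V : Subgroup Q, V.index ≤ ((2 * c ^ 2 * ((2 * c ^ 2) ^ 2 ^ (3 * (2 * c ^ 2) + 1)) ^
      (2 * c ^ 2 * m))!) ^ 2 ∧ (∀ x ∈ V, ∀ y ∈ V, x * y = y * x) ∧ ∀ x ∈ V, x ^ c ! ∈ center Q := by
  have c0 : 1 ≤ 2 * c ^ 2 := by
    have := Nat.card_pos.trans_le hc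
    nlinarith
  obtain ⟨H, h1, h2⟩ := small_subgroup c0 (many_small β hβ hc)
  obtain ⟨U, u1, u2⟩ := ab_subgroup (Nat.one_le_pow _ _ c0) h1 hm h2
  have n1 : U.normalCore.index ∣ U.index ! := by
    rw [normalCore_eq_ker, index_ker, index_eq_card, ← Nat.card_perm]
    exact card_subgroup_dvd_card _
  have n2 := (Nat.le_of_dvd (Nat.factorial_pos _) n1).trans (Nat.factorial_le u1)
  have le : U.normalCore ⊓ U.normalCore.comap β ≤ U := inf_le_left.trans (normalCore_le U)
  refine ⟨U.normalCore ⊓ U.normalCore.comap β, index_inf_le.trans ?_,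
    fun x hx y hy => u2 x (le hx) y (le hy), fun v hv => ?_⟩
  · rw [index_comap_of_surjective _ fun x => ⟨β x, hβ x⟩, sq]
    exact Nat.mul_le_mul n2 n2
  have key : ∀ v ∈ U.normalCore ⊓ U.normalCore.comap β, β (v ^ c !) = (v ^ c !)⁻¹ := fun v hv => by
    have cm : Commute v (β v) := u2 _ (le hv) _ (normalCore_le U hv.2)
    have : v * β v ∈ β.eqLocus (MonoidHom.id Q) := by
      change β (v * β v) = v * β v
      rw [map_mul, hβ, cm.eq]
    have := orderOf_dvd_iff_pow_eq_one.1 ((orderOf_dvd_natCard _ this).trans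
      (Nat.dvd_factorial Nat.card_pos hc))
    rw [cm.mul_pow] at this
    rw [map_pow, eq_inv_of_mul_eq_one_right this]
  have : ⊤ ≤ centralizer {v ^ c !} := hJ ▸ (closure_le _).2 fun j ⟨j1, j2⟩ => by
    have a := key _ ((inferInstance : (U.normalCore ⊓ U.normalCore.comap β).Normal).conj_mem _ hv j)
    rw [conj_pow, map_mul, map_mul, map_inv, key v hv, j2] at a
    have b : j ^ 2 ∈ centralizer {v ^ c !} := mem_centralizer_singleton_iff.2 (by
      generalize v ^ c ! = w at a
      calc j ^ 2 * w = j * (j * w * j⁻¹)⁻¹⁻¹ * j := by rw [sq]; group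
        _ = _ := by rw [← a, sq]; group)
    obtain ⟨t, ht⟩ := j1
    have := pow_mem b (t + 1)
    rwa [← pow_mul, show 2 * (t + 1) = orderOf j + 1 by omega, pow_succ, pow_orderOf_eq_one,
      one_mul] at this
  exact mem_center_iff.2 fun g => mem_centralizer_singleton_iff.1 (this (mem_top g))

theorem invol_bound : ∃ f : ℕ → ℕ, ∀ (G : Type) [Group G] [Finite G] (α : MulAut G), orderOf α = 2 →
    closure (Set.range (fun c : G => c * (α c)⁻¹)) = ⊤ →
      Nat.card G ≤ f (Nat.card {g : G // Odd (orderOf g) ∧ α g = g⁻¹}) := by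
  let f1 : ℕ → ℕ → ℕ := fun c m => ((2 * c ^ 2 * ((2 * c ^ 2) ^ 2 ^ (3 * (2 * c ^ 2) + 1)) ^
      (2 * c ^ 2 * m))!) ^ 2
  let f2 : ℕ → ℕ := fun m => f1 (m ^ m) m * ((m ^ m)! * m !) ^ (f1 (m ^ m) m * m)
  refine ⟨fun m => f2 m * (f2 m * m !) ^ (f2 m * m), fun G _ _ α h2 hG => ?_⟩
  set m := Nat.card {g : G // Odd (orderOf g) ∧ α g = g⁻¹} with hm
  have aa : ∀ x, α (α x) = x := fun x => by
    have := pow_orderOf_eq_one α
    rw [h2, sq] at this
    exact congrArg (fun t : MulAut G => t x) this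
  have hJ : closure {g : G | Odd (orderOf g) ∧ α g = g⁻¹} = ⊤ := by
    rw [eq_top_iff, ← engel α hG (Nat.card G + 1)]
    refine closure_mono ?_
    rintro _ ⟨c, rfl⟩
    have : ∀ k (x : G), α x = x⁻¹ → (fun c : G => c * (α c)⁻¹)^[k] x = x ^ 2 ^ k := fun k => by
      induction k with
      | zero => simp
      | succ k ih =>
        intro x hx
        rw [Function.iterate_succ_apply, ih _ (by simp [hx]), hx, inv_inv, ← sq, ← pow_mul, pow_succ']
    have e : α (c * (α c)⁻¹) = (c * (α c)⁻¹)⁻¹ := by simp [aa]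
    rw [Function.iterate_succ_apply, this _ _ e]
    refine ⟨?_, by rw [map_pow, e, inv_pow]⟩
    generalize c * (α c)⁻¹ = x
    obtain ⟨k, o, ho, e⟩ := Nat.exists_eq_two_pow_mul_odd (orderOf_pos x).ne'
    refine ho.of_dvd_nat (orderOf_dvd_of_pow_eq_one ?_)
    rw [← pow_mul, ← orderOf_dvd_iff_pow_eq_one, e]
    refine Nat.mul_dvd_mul_right (pow_dvd_pow _ ?_) _
    have := _root_.orderOf_le_card (x := x)
    have := Nat.le_mul_of_pos_right (2 ^ k) ho.pos
    have := k.lt_two_pow_self
    omega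
  have top : ∀ {K : Subgroup G}, (∀ j, Odd (orderOf j) → α j = j⁻¹ → j ∈ K) → ∀ g, g ∈ K :=
    fun {K} h g => (hJ ▸ (closure_le K).2 fun j hj => h j hj.1 hj.2 : ⊤ ≤ K) (mem_top g)
  have pw : ∀ j, Odd (orderOf j) → α j = j⁻¹ → j ^ m ! = 1 := fun j j1 j2 => by
    refine orderOf_dvd_iff_pow_eq_one.1 (Nat.dvd_factorial (orderOf_pos j) ?_)
    rw [← Nat.card_zpowers]
    refine Nat.card_le_card_of_injective (fun x => ⟨x.1, j1.of_dvd_nat (orderOf_dvd_of_mem_zpowers x.2), ?_⟩)
      fun x y h => Subtype.ext (by simpa using h)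
    obtain ⟨_, i, rfl⟩ := x
    simp [j2]
  have rk : Group.rank G ≤ m := by
    have := Group.rank_le (S := (Set.toFinite {g : G | Odd (orderOf g) ∧ α g = g⁻¹}).toFinset)
      (by simpa using hJ)
    rwa [← Set.ncard_eq_toFinset_card] at this
  let β : G ⧸ center G →* G ⧸ center G := QuotientGroup.map _ _ α.toMonoidHom fun z hz =>
    mem_center_iff.2 fun g => by
      have := congrArg α (mem_center_iff.1 hz (α g))
      simpa [aa] using this
  have hβ : ∀ x, β (β x) = x := fun x => QuotientGroup.induction_on x fun g =>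
    congrArg QuotientGroup.mk (aa g)
  have hc : Nat.card (β.eqLocus (MonoidHom.id _)) ≤ m ^ m := by
    rw [hm, ← Nat.card_fun]
    refine Nat.card_le_card_of_injective (fun q j => ⟨q.1.out * j.1 * q.1.out⁻¹, ?_, ?_⟩) fun q r h => ?_
    · simpa [← MulAut.conj_apply] using j.2.1
    · have : β (q.1.out : G ⧸ center G) = q.1.out := by rw [QuotientGroup.out_eq']; exact q.2
      have z := mem_center_iff.1 (QuotientGroup.eq.1 this) (j.1⁻¹)
      rw [map_mul, map_mul, map_inv, j.2.2]
      change j.1⁻¹ * ((α q.1.out)⁻¹ * q.1.out) = (α q.1.out)⁻¹ * q.1.out * j.1⁻¹ at z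
      calc _ = α q.1.out * (j.1⁻¹ * ((α q.1.out)⁻¹ * q.1.out)) * q.1.out⁻¹ := by group
        _ = _ := by rw [z]; group
    · refine Subtype.ext ?_
      rw [← QuotientGroup.out_eq' q.1, ← QuotientGroup.out_eq' r.1, QuotientGroup.eq, mem_center_iff]
      intro g
      refine mem_centralizer_singleton_iff.1 (top (fun j j1 j2 => mem_centralizer_singleton_iff.2 ?_) g)
      have : q.1.out * j * q.1.out⁻¹ = r.1.out * j * r.1.out⁻¹ :=
        congrArg Subtype.val (congrFun h ⟨j, j1, j2⟩)
      calc _ = q.1.out⁻¹ * (q.1.out * j * q.1.out⁻¹) * r.1.out := by group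
        _ = _ := by rw [this]; group
  have rk' := (Group.rank_le_of_surjective _ (QuotientGroup.mk'_surjective (center G))).trans rk
  obtain ⟨V, v1, v2, v3⟩ := central_pow β hβ hc rk' (eq_top_iff.2 fun x _ =>
    QuotientGroup.induction_on x fun g => top (K := comap (QuotientGroup.mk' _)
      (closure {x | Odd (orderOf x) ∧ β x = x⁻¹})) (fun j j1 j2 =>
      Subgroup.subset_closure ⟨j1.of_dvd_nat (orderOf_map_dvd _ j), congrArg QuotientGroup.mk j2⟩) g)
  have b1 : Nat.card (G ⧸ center G) ≤ f2 m := by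
    refine card_bd v1 rk' v2 (fun x hx => ?_) (by positivity) le_rfl
    rw [pow_mul]
    have := v3 x hx
    generalize x ^ (m ^ m)! = y at this
    induction y using QuotientGroup.induction_on with
    | H u =>
    rw [← QuotientGroup.mk_pow, QuotientGroup.eq_one_iff, mem_center_iff]
    intro g
    refine mem_centralizer_singleton_iff.1 (top (fun j j1 j2 => mem_centralizer_singleton_iff.2 ?_) g)
    have z := mem_center_iff.1 (QuotientGroup.eq.1 (mem_center_iff.1 this (j : G ⧸ center G)))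
    set t := (j * u)⁻¹ * (u * j)
    have e : u * j = j * u * t := by simp only [t]; group
    have e1 : ∀ n : ℕ, u * j ^ n = j ^ n * u * t ^ n := fun n => by
      induction n with
      | zero => simp
      | succ n ih =>
        rw [pow_succ, ← mul_assoc, ih, mul_assoc, ((Commute.pow_right (z j) n).eq).symm, ← mul_assoc,
          mul_assoc _ u, e, pow_succ' t]; group
    have e2 : ∀ n : ℕ, u ^ n * j = j * u ^ n * t ^ n := fun n => by
      induction n with
      | zero => simp
      | succ n ih =>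
        rw [pow_succ', mul_assoc, ih, ← mul_assoc, ← mul_assoc, e, mul_assoc _ t,
          ((Commute.pow_left (z u) n).eq).symm, pow_succ' t]; group
    have := e1 m !
    rw [pw j j1 j2] at this
    rw [e2, show t ^ m ! = 1 by simpa using this, mul_one]
  refine card_bd (V := center G) (e := (center G).index * m !) b1 rk
    (fun x hx y _ => (mem_center_iff.1 hx y).symm) (fun x _ => ?_)
    (Nat.mul_pos (Nat.pos_of_ne_zero index_ne_zero_of_finite) m.factorial_pos)
    (Nat.mul_le_mul_right _ b1)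
  have := top (K := ((powMonoidHom m ! : center G →* center G).comp
    (MonoidHom.transferCenterPow G)).ker) (fun j j1 j2 => by
    simp only [MonoidHom.mem_ker, MonoidHom.comp_apply, powMonoidHom_apply]
    rw [← map_pow, pw j j1 j2, map_one]) x
  rw [pow_mul]
  exact congrArg Subtype.val this

end H02.Zip
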